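import Mathlib
import Cfsg.Agent.Lib.PLocal.Offender
import Cfsg.Agent.Lib.PLocal.ThompsonS4
import Cfsg.Agent.Lib.Fusion.QuadraticControl
import Cfsg.Agent.Lib.Transfer.Frobenius

/-!
If `J` of a Sylow subgroup is not normal then some element outside the core centralizes the
`p`-th powers of the central elements of the core.
-/

set_option autoImplicit false

open scoped commutatorElement

namespace Cfsg.Lib.PLocal

open Cfsg

universe u

variable {L : Type u} [Group L]

/-- The join of two commuting abelian subgroups is abelian. -/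
theorem ab_join {B X : Subgroup L} (hB : Ab B) (hX : Ab X)
    (h : B ≤ Subgroup.centralizer (X : Set L)) : Ab (B ⊔ X) := by
  have hc : B ⊔ X ≤ Subgroup.centralizer ((B ⊔ X : Subgroup L) : Set L) := by
    refine sup_le ?_ ?_ <;> rw [Subgroup.le_centralizer_iff]
    · exact sup_le (fun b hb => Subgroup.mem_centralizer_iff.2 fun c hc => hB c hc b hb)
        (Subgroup.le_centralizer_iff.1 h)
    · exact sup_le h fun b hb => Subgroup.mem_centralizer_iff.2 fun c hc => hX c hc b hb
  exact fun x hx y hy => (Subgroup.mem_centralizer_iff.1 (hc hx) y hy).symm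

theorem exists_fix_pow_center [Finite L] {p : ℕ} [Fact p.Prime] (P : Sylow p L)
    (hJ : ¬ (jA (P : Subgroup L)).Normal) :
    ∃ b ∈ (P : Subgroup L), b ∉ pCore p L ∧
      ∀ v ∈ pCore p L, (∀ t ∈ pCore p L, t * v = v * t) → b * v ^ p = v ^ p * b := by
  classical
  set O := pCore p L with hO
  set V := O ⊓ Subgroup.centralizer (O : Set L) with hV
  have hOP : O ≤ (P : Subgroup L) := Cfsg.Lib.Solv.pCore_le_sylow p P
  have hVP : V ≤ (P : Subgroup L) := inf_le_left.trans hOP
  have hVab : Ab V := fun x hx y hy => (Subgroup.mem_centralizer_iff.1 hx.2 y hy.1).symm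
  haveI : O.Normal := Cfsg.Lib.Transfer.pCore_normal p
  haveI : V.Normal := by
    rw [hV]
    exact Subgroup.normal_inf_normal _ _
  obtain ⟨A, hA, hAO⟩ : ∃ A ∈ maxF Ab (P : Subgroup L), ¬ A ≤ O := by
    by_contra hc
    push Not at hc
    refine hJ (Subgroup.normalizer_eq_top_iff.1 (eq_top_iff.2 ?_))
    have h : maxF Ab O = maxF Ab (P : Subgroup L) := by
      obtain ⟨A0, hA0⟩ := maxF_nonempty (P := Ab) ab_bot (P : Subgroup L)
      ext A
      exact ⟨fun ⟨h1, h2, h3⟩ => ⟨h1.trans hOP, h2, fun B hB hPB =>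
          (hA0.2.2 B hB hPB).trans (h3 A0 (hc A0 hA0) hA0.2.1)⟩,
        fun hA => ⟨hc A hA, hA.2.1, fun B hB hPB => hA.2.2 B (hB.trans hOP) hPB⟩⟩
    rw [show jA (P : Subgroup L) = jA O by rw [jA, jA, h]]
    exact le_trans (by rw [Subgroup.normalizer_eq_top]) (normalizer_le_jA O)
  by_cases hAV : A ≤ Subgroup.centralizer (V : Set L)
  · obtain ⟨a, haA, haO⟩ := SetLike.not_le_iff_exists.1 hAO
    refine ⟨a, hA.1 haA, haO, fun v hv hvc => ?_⟩
    have hvV : v ∈ V := ⟨hv, Subgroup.mem_centralizer_iff.2 hvc⟩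
    exact ((show Commute v a from Subgroup.mem_centralizer_iff.1 (hAV haA) v hvV).pow_left p).symm.eq
  have hN : A ≤ Subgroup.normalizer (V : Set L) := by rw [Subgroup.normalizer_eq_top]; exact le_top
  have hab : ⁅A, A⁆ ≤ Subgroup.centralizer (V : Set L) := by
    rw [(Subgroup.commutator_eq_bot_iff_le_centralizer).2 (fun a ha =>
      Subgroup.mem_centralizer_iff.2 fun b hb => hA.2.1 b hb a ha)]
    exact bot_le
  have hmax : ∀ B : Subgroup L, B ≤ A →
      Nat.card B * Nat.card ↥(V ⊓ Subgroup.centralizer (B : Set L)) ≤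
        Nat.card A * Nat.card ↥(V ⊓ Subgroup.centralizer (A : Set L)) := by
    intro B hB
    set X := V ⊓ Subgroup.centralizer (B : Set L)
    have hBX : B ≤ Subgroup.centralizer (X : Set L) := Subgroup.le_centralizer_iff.1 inf_le_right
    have he : Ab (B ⊔ X) := ab_join (fun x hx y hy => hA.2.1 x (hB hx) y (hB hy))
      (fun x hx y hy => hVab x hx.1 y hy.1) hBX
    have h2 : B ⊓ X ≤ V ⊓ Subgroup.centralizer (A : Set L) := fun x hx =>
      ⟨hx.2.1, Subgroup.mem_centralizer_iff.2 fun a ha => hA.2.1 a ha x (hB hx.1)⟩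
    rw [← card_sup_mul_card_inf hBX]
    exact Nat.mul_le_mul (hA.2.2 _ (sup_le (hB.trans hA.1) (inf_le_left.trans hVP)) he)
      (Subgroup.card_le_of_le h2)
  obtain ⟨h1, -⟩ := rep (isMulCommutative_of_ab hVab) hN hab hmax (le_refl V)
  set W := ⁅V, A⁆ with hW
  set B := A ⊓ Subgroup.centralizer (W : Set L) with hB
  obtain ⟨a, haB, haV⟩ : ∃ a ∈ B, a ∉ Subgroup.centralizer (V : Set L) := by
    by_contra hc
    push Not at hc
    refine hAV ?_
    have hBV : B ≤ Subgroup.centralizer (V : Set L) := hc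
    rw [inf_eq_left.2 (Subgroup.le_centralizer_iff.1 hBV)] at h1
    have hWV : W ≤ V := commutator_le_of_le_normalizer hN le_rfl
    have hW2 : W ≤ ⁅W, A⁆ := by
      conv_lhs => rw [hW, h1]
      rw [commutator_sup_left hN (isMulCommutative_of_ab hVab) hWV inf_le_left,
        (Subgroup.commutator_eq_bot_iff_le_centralizer).2
          (inf_le_right : V ⊓ Subgroup.centralizer (A : Set L) ≤ _), sup_bot_eq]
    have := Cfsg.Lib.Transfer.eq_bot_of_le_commutator P.isPGroup' (hWV.trans hVP)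
      (hW2.trans (Subgroup.commutator_mono le_rfl hA.1))
    rw [hW, Subgroup.commutator_eq_bot_iff_le_centralizer] at this
    exact Subgroup.le_centralizer_iff.1 this
  have haO : a ∉ O := fun h => haV (Subgroup.mem_centralizer_iff.2 fun v hv =>
    (Subgroup.mem_centralizer_iff.1 hv.2 a h).symm)
  have haP : a ∈ (P : Subgroup L) := hA.1 haB.1
  obtain ⟨m, hm⟩ : ∃ m : ℕ, a ^ p ^ m = 1 := by
    obtain ⟨m, hm⟩ := P.isPGroup' ⟨a, haP⟩
    exact ⟨m, congrArg Subtype.val hm⟩
  obtain ⟨k, hb, hbp⟩ := Cfsg.Lib.Fusion.exists_pow_mem_core (p := p) hm haO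
  refine ⟨a ^ p ^ k, pow_mem haP _, hb, fun v hv hvc => ?_⟩
  set b := a ^ p ^ k
  have hvV : v ∈ V := ⟨hv, Subgroup.mem_centralizer_iff.2 hvc⟩
  have hbB : b ∈ B := pow_mem haB _
  have hcW : ⁅v, b⁆ ∈ W := Subgroup.commutator_mem_commutator hvV hbB.1
  have h2 : ⁅⁅v, b⁆, b⁆ = 1 :=
    commutatorElement_eq_one_iff_mul_comm.2 (Subgroup.mem_centralizer_iff.1 hbB.2 _ hcW)
  have h3 := Cfsg.Lib.Fusion.conj_pow_eq_of_quadratic (n := p) h2
    (hVab _ (comm_mem_of_le_normalizer hN hvV hbB.1) v hvV) (by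
      rw [hvc _ hbp, mul_inv_cancel_right])
  exact mul_inv_eq_iff_eq_mul.1 h3

end Cfsg.Lib.PLocal
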