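import Mathlib
import Cfsg.Prelude.Def_PLocal
import Cfsg.Agent.Lib.PStable.Stable
import Cfsg.Agent.Lib.Transfer.Basic
import Cfsg.Agent.Lib.Transfer.PGroupFrattini

/-!
Groups without a section `Qd(p)` are stable in the action sense.
-/

set_option autoImplicit false

namespace Cfsg.Lib.PLocal

open Cfsg

theorem stableOn_of_free {G : Type*} [Group G] [Finite G] {p : ℕ} [Fact p.Prime] (hp : p ≠ 2)
    (hfree : ¬ Cfsg.Involves ↥(Cfsg.qd p) G) (V : Subgroup G) [V.Normal] (hV : IsPGroup p V) :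
    IsPStableOn p V := by
  intro a hq
  obtain ⟨D, -, haD, hDn, hD⟩ := Cfsg.Lib.PStable.stable_aux hp _ G hfree V hV rfl ⊤ le_top
    (by rw [Subgroup.normalizer_eq_top]) a (Subgroup.mem_top a) hq
  haveI : D.Normal := Subgroup.normalizer_eq_top_iff.1 (top_le_iff.1 hDn)
  refine Cfsg.Lib.Solv.le_pCore (Subgroup.Normal.map inferInstance
    (QuotientGroup.mk' _) (QuotientGroup.mk'_surjective _)) ?_ ⟨a, haD, rfl⟩
  rintro ⟨_, d, hd, rfl⟩
  obtain ⟨k, hk⟩ := hD d hd
  refine ⟨k, Subtype.ext ?_⟩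
  show QuotientGroup.mk' (Subgroup.centralizer (V : Set G)) d ^ p ^ k = 1
  rw [← map_pow]
  exact (QuotientGroup.eq_one_iff _).2 hk

theorem isActionPStable_of_free {G : Type*} [Group G] [Finite G] {p : ℕ} [Fact p.Prime] (hp : p ≠ 2)
    (hfree : ¬ Cfsg.Involves ↥(Cfsg.qd p) G) : IsActionPStable p G := by
  refine ⟨fun V _ hV => stableOn_of_free hp hfree V (IsPGroup.iff_orderOf.2 fun v => ?_), ?_, fun S V _ hle => ?_⟩
  · have h := hV.2 v v.2
    obtain ⟨i, -, hi⟩ := (Nat.dvd_prime_pow (Fact.out : p.Prime)).1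
      (orderOf_dvd_of_pow_eq_one (show v ^ p ^ 1 = 1 from Subtype.ext (by rw [pow_one]; exact h)))
    exact ⟨i, hi⟩
  · set K := pCore p G
    haveI : K.Normal := Cfsg.Lib.Transfer.pCore_normal p
    set N := (frattini ↥K).map K.subtype
    haveI : N.Normal := ConjAct.normal_of_characteristic_of_normal
    intro a hq
    set q := QuotientGroup.mk' N
    haveI : (K.map q).Normal := Subgroup.Normal.map inferInstance q (QuotientGroup.mk'_surjective N)
    have hst := stableOn_of_free hp (fun h => hfree (Cfsg.Lib.PStable.involves_of_quotient q (QuotientGroup.mk'_surjective N) h))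
      (K.map q) ((Cfsg.Lib.Transfer.pCore_isPGroup p).map q) (q a) (by
        rw [← MonoidHom.map_zpowers, ← Subgroup.map_commutator, ← Subgroup.map_commutator, Subgroup.map_eq_bot_iff,
          QuotientGroup.ker_mk']
        exact hq)
    set C := Subgroup.centralizer ((K.map q : Subgroup (G ⧸ N)) : Set (G ⧸ N))
    set r := QuotientGroup.mk' C
    haveI : (pCore p ((G ⧸ N) ⧸ C)).Normal := Cfsg.Lib.Transfer.pCore_normal p
    refine ⟨((pCore p ((G ⧸ N) ⧸ C)).comap r).comap q, Subgroup.Normal.comap (Subgroup.Normal.comap inferInstance r) q,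
      Subgroup.comap_mono fun x hx => ?_, ?_, hst⟩
    · show r x ∈ pCore p ((G ⧸ N) ⧸ C)
      rw [show r x = 1 from (QuotientGroup.eq_one_iff x).2 hx]
      exact one_mem _
    · obtain ⟨k, hk⟩ := IsPGroup.iff_card.1 (Cfsg.Lib.Transfer.pCore_isPGroup (G := (G ⧸ N) ⧸ C) p)
      refine ⟨k, ?_⟩
      show (C.comap q).relIndex _ = _
      rw [show C.comap q = (r.comp q).ker by rw [← MonoidHom.comap_ker, QuotientGroup.ker_mk'],
        Subgroup.relIndex_ker, Subgroup.comap_comap, Subgroup.map_comap_eq_self_of_surjective, hk]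
      exact (QuotientGroup.mk'_surjective C).comp (QuotientGroup.mk'_surjective N)
  · refine stableOn_of_free hp (fun h => hfree (Cfsg.Lib.PStable.involves_of_subgroup _ h)) V ?_
    refine IsPGroup.of_equiv (IsPGroup.to_le S.isPGroup' ?_) (V.equivMapOfInjective _ (Subgroup.subtype_injective _)).symm
    exact hle.trans (Subgroup.map_subtype_le _)

end Cfsg.Lib.PLocal
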