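import Mathlib
import Cfsg.Agent.Lib.Solv.Frobenius

/-!
A weakly closed element centralizing every `p'`-subgroup it normalizes is central.
-/

set_option autoImplicit false
set_option linter.style.haveILetI false

namespace Cfsg.Lib.CentralClosed

open Subgroup
open scoped Pointwise

universe u

theorem central_aux {p : ℕ} [hp : Fact p.Prime] : ∀ (n : ℕ) (G : Type u) [Group G] [Finite G],
    Nat.card G ≤ n → ∀ (S : Sylow p G) (x : G), x ∈ S →
    (∀ g : G, g⁻¹ * x * g ∈ S → g⁻¹ * x * g = x) →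
    (∀ H : Subgroup G, (Nat.card H).Coprime p → (∀ h ∈ H, x * h * x⁻¹ ∈ H) → ∀ h ∈ H, x * h = h * x) →
    x ∈ center G := by
  intro n
  induction n with
  | zero =>
    intro G _ _ hn
    exact absurd Nat.card_pos (not_lt.2 hn)
  | succ n ih =>
  intro G _ _ hn S x hx hU hb
  have hxp : IsPGroup p ↥(zpowers x) := S.isPGroup'.to_le (zpowers_le.2 hx)
  -- an element of a Sylow subgroup `T` containing `x` conjugate to `x` is `x`
  have hsyl : ∀ (T : Subgroup G), IsPGroup p ↥T → x ∈ T → ∀ g : G, g⁻¹ * x * g ∈ T → g⁻¹ * x * g = x := by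
    intro T hT hxT g hg
    obtain ⟨T', hT'⟩ := hT.exists_le_sylow
    obtain ⟨h, hh⟩ := MulAction.exists_smul_eq G S T'
    have hmem : ∀ a ∈ T, h⁻¹ * a * h ∈ S := by
      intro a ha
      have h1 : a ∈ ((h • S : Sylow p G) : Subgroup G) := hh ▸ hT' ha
      rw [Sylow.coe_subgroup_smul] at h1
      obtain ⟨b, hb, e⟩ := h1
      rw [← e]
      show h⁻¹ * (h * b * h⁻¹) * h ∈ S
      rwa [show h⁻¹ * (h * b * h⁻¹) * h = b by group]
    have h1 := hU h (hmem x hxT)
    have h2 := hU (g * h) (by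
      rw [show (g * h)⁻¹ * x * (g * h) = h⁻¹ * (g⁻¹ * x * g) * h by group]
      exact hmem _ hg)
    calc g⁻¹ * x * g = h * ((g * h)⁻¹ * x * (g * h)) * h⁻¹ := by group
      _ = h * (h⁻¹ * x * h) * h⁻¹ := by rw [h2, h1]
      _ = x := by group
  have hsub : ∀ H : Subgroup G, H ≠ ⊤ → x ∈ H → ∀ h ∈ H, x * h = h * x := by
    intro H hH hxH h hhH
    set xH : ↥H := ⟨x, hxH⟩
    obtain ⟨T, hT⟩ := (hxp.comap_subtype (K := H)).exists_le_sylow
    have hlt : Nat.card ↥H < Nat.card G := lt_of_le_of_ne (card_le_card_group H)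
      fun e => hH (eq_top_of_card_eq H e)
    have := ih ↥H (by omega) T xH (hT (show x ∈ zpowers x from mem_zpowers x))
      (fun g hg => Subtype.ext (hsyl ((T : Subgroup ↥H).map H.subtype) (T.isPGroup'.map _)
        ⟨xH, hT (show x ∈ zpowers x from mem_zpowers x), rfl⟩ g ⟨_, hg, rfl⟩))
      (fun L hL hLn l hl => Subtype.ext (hb (L.map H.subtype)
        (by rwa [card_map_of_injective H.subtype_injective])
        (by rintro _ ⟨l', hl', rfl⟩; exact ⟨_, hLn l' hl', rfl⟩) l ⟨l, hl, rfl⟩))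
    exact (congrArg Subtype.val (mem_center_iff.1 this ⟨h, hhH⟩)).symm
  by_contra hnc
  set M := centralizer ({x} : Set G) with hM
  have hMtop : M ≠ ⊤ := fun e => hnc (mem_center_iff.2 fun g =>
    mem_centralizer_singleton_iff.1 (show g ∈ M by rw [e]; exact mem_top g))
  have hSM : (S : Subgroup G) ≤ M := fun s hs => by
    refine mem_centralizer_singleton_iff.2 ?_
    have h1 := hU s ((S : Subgroup G).mul_mem ((S : Subgroup G).mul_mem ((S : Subgroup G).inv_mem hs) hx) hs)
    calc s * x = s * (s⁻¹ * x * s) := by rw [h1]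
      _ = x * s := by group
  have hcomm : ∀ g : G, x * (g * x * g⁻¹) = g * x * g⁻¹ * x → g ∈ M := by
    intro g hg
    set T := closure ({x, g * x * g⁻¹} : Set G) with hTdef
    have hTp : IsPGroup p ↥T := by
      have hle : zpowers (g * x * g⁻¹) ≤ normalizer (zpowers x : Set G) :=
        zpowers_le.2 (centralizer_le_normalizer _ (mem_centralizer_iff.2 fun y hy => by
          obtain ⟨k, rfl⟩ := mem_zpowers_iff.1 hy
          exact ((show Commute x (g * x * g⁻¹) from hg).zpow_left k).eq))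
      have h2 : IsPGroup p ↥(zpowers (g * x * g⁻¹)) := by
        have := hxp.map (MulAut.conj g).toMonoidHom
        rwa [MonoidHom.map_zpowers] at this
      refine (hxp.to_sup_of_normal_left' h2 hle).to_le ((closure_le _).2 ?_)
      rintro y (rfl | rfl)
      · exact mem_sup_left (mem_zpowers _)
      · exact mem_sup_right (mem_zpowers _)
    have h1 := hsyl T hTp (subset_closure (Or.inl rfl)) g⁻¹
      (by rw [inv_inv]; exact subset_closure (Or.inr rfl))
    rw [inv_inv] at h1
    refine mem_centralizer_singleton_iff.2 ?_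
    calc g * x = g * x * g⁻¹ * g := by group
      _ = x * g := by rw [h1]
  have hTI : ∀ g : G, g ∉ M → ∀ y ∈ M, g⁻¹ * y * g ∈ M → y ∈ center G := by
    intro g hg y hy hy'
    by_contra hyc
    refine hg (hcomm g ?_)
    refine hsub (centralizer ({y} : Set G)) (fun e => hyc (mem_center_iff.2 fun z =>
      mem_centralizer_singleton_iff.1 (e ▸ mem_top z))) ?_ _ ?_
    · exact mem_centralizer_singleton_iff.2 (mem_centralizer_singleton_iff.1 hy).symm
    · refine mem_centralizer_singleton_iff.2 ?_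
      have h1 := mem_centralizer_singleton_iff.1 hy'
      calc g * x * g⁻¹ * y = g * (x * (g⁻¹ * y * g)) * g⁻¹ := by group
        _ = g * ((g⁻¹ * y * g) * x) * g⁻¹ := by rw [h1]
        _ = y * (g * x * g⁻¹) := by group
  set Z := center G
  have hZM : Z ≤ M := center_le_centralizer _
  set f := QuotientGroup.mk' Z with hf
  have hfs : Function.Surjective f := QuotientGroup.mk'_surjective Z
  have hcm : (M.map f).comap f = M := by
    rw [comap_map_eq, QuotientGroup.ker_mk', sup_eq_left.2 hZM]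
  have hfrob : Cfsg.IsFrobeniusComplement (M.map f) := by
    refine ⟨fun e => hnc ?_, fun e => hMtop ?_, fun γ hγ => ?_⟩
    · rw [Subgroup.map_eq_bot_iff, QuotientGroup.ker_mk'] at e
      exact e (hSM hx)
    · rw [← hcm, e, comap_top]
    · obtain ⟨g, rfl⟩ := hfs γ
      have hg : g ∉ M := fun h => hγ (mem_map_of_mem f h)
      rw [eq_bot_iff]
      rintro δ ⟨hδ1, hδ2⟩
      obtain ⟨y, hy, rfl⟩ := hδ1
      obtain ⟨ε, hε, e⟩ := hδ2
      obtain ⟨m, hm, rfl⟩ := hε
      have h1 : f (g⁻¹ * y * g) = f m := by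
        rw [map_mul, map_mul, map_inv, ← e]
        show (f g)⁻¹ * (f g * f m * (f g)⁻¹) * f g = f m
        group
      have h2 : g⁻¹ * y * g ∈ M := by
        rw [← hcm, mem_comap, h1]
        exact mem_map_of_mem f hm
      exact mem_bot.2 ((QuotientGroup.eq_one_iff y).2 (hTI g hg y hy h2))
  obtain ⟨Kb, hKn, -, hcompl⟩ := Solv.exists_frobeniusKernel hfrob
  set K := Kb.comap f with hK
  have hKp : ¬ p ∣ Nat.card Kb := by
    rw [← hcompl.index_eq_card, ← index_comap_of_surjective (M.map f) hfs, hcm]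
    exact fun h => S.not_dvd_index (h.trans (index_dvd_of_le hSM))
  -- a Sylow subgroup of `K` is central
  obtain ⟨P⟩ : Nonempty (Sylow p ↥K) := inferInstance
  have hPZ : (P : Subgroup ↥K).map K.subtype ≤ Z := by
    intro y hy
    have h1 : IsPGroup p ↥(((P : Subgroup ↥K).map K.subtype).map f) := (P.isPGroup'.map _).map f
    have h2 : ((P : Subgroup ↥K).map K.subtype).map f ≤ Kb := by
      rintro _ ⟨_, ⟨a, -, rfl⟩, rfl⟩; exact a.2
    have h3 : ((P : Subgroup ↥K).map K.subtype).map f = ⊥ := by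
      by_contra h
      obtain ⟨k, hk⟩ := IsPGroup.iff_card.1 h1
      cases k with
      | zero => exact h (Subgroup.card_eq_one.1 (by rw [hk, pow_zero]))
      | succ k => exact hKp ((dvd_trans (dvd_pow_self p (Nat.succ_ne_zero k)) hk.symm.dvd).trans (card_dvd_of_le h2))
    rw [Subgroup.map_eq_bot_iff, QuotientGroup.ker_mk'] at h3
    exact h3 hy
  have hPc : normalizer ((P : Subgroup ↥K) : Set ↥K) ≤ centralizer ((P : Subgroup ↥K) : Set ↥K) := by
    intro k _
    rw [mem_centralizer_iff]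
    intro a ha
    exact Subtype.ext (mem_center_iff.1 (hPZ ⟨a, ha, rfl⟩) k).symm
  set N := (MonoidHom.transferSylow P hPc).ker with hN
  have hNp : (Nat.card N).Coprime p :=
    (hp.out.coprime_iff_not_dvd.2 (MonoidHom.not_dvd_card_ker_transferSylow P hPc)).symm
  have hNinv : ∀ h ∈ N.map K.subtype, x * h * x⁻¹ ∈ N.map K.subtype := by
    rintro _ ⟨a, ha, rfl⟩
    have hb : x * (a : G) * x⁻¹ ∈ K := (hKn.comap f).conj_mem _ a.2 x
    refine ⟨⟨_, hb⟩, ?_, rfl⟩
    have ho : (orderOf (⟨_, hb⟩ : ↥K)).Coprime p := by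
      rw [Subgroup.orderOf_mk, show orderOf (x * (a : G) * x⁻¹) = orderOf (a : G) from
        MulEquiv.orderOf_eq (MulAut.conj x) _, Subgroup.orderOf_coe]
      exact hNp.coprime_dvd_left (Subgroup.orderOf_dvd_natCard N ha)
    rw [SetLike.mem_coe, hN, MonoidHom.mem_ker, ← orderOf_eq_one_iff]
    obtain ⟨k, hk⟩ := IsPGroup.iff_orderOf.1 P.isPGroup' (MonoidHom.transferSylow P hPc ⟨_, hb⟩)
    have hd := orderOf_map_dvd (MonoidHom.transferSylow P hPc) (⟨_, hb⟩ : ↥K)
    rw [hk] at hd ⊢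
    exact Nat.dvd_one.1 (((ho.pow_right k).coprime_dvd_left hd).eq_one_of_dvd dvd_rfl).dvd
  have hKM : K ≤ M := by
    intro k hk
    have hsup : (⟨k, hk⟩ : ↥K) ∈ N ⊔ (P : Subgroup ↥K) :=
      (MonoidHom.ker_transferSylow_isComplement' P hPc).sup_eq_top.symm ▸ mem_top _
    have hle : N ⊔ (P : Subgroup ↥K) ≤ M.comap K.subtype := by
      refine sup_le (fun a ha => ?_) fun a ha => hZM (hPZ ⟨a, ha, rfl⟩)
      exact mem_centralizer_singleton_iff.2 (hb (N.map K.subtype)
        (by rwa [card_map_of_injective K.subtype_injective]) hNinv a ⟨a, ha, rfl⟩).symm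
    exact hle hsup
  have h1 : Kb ≤ M.map f := by
    intro δ hδ
    obtain ⟨k, rfl⟩ := hfs δ
    exact mem_map_of_mem f (hKM hδ)
  refine hfrob.2.1 ?_
  rw [← hcompl.sup_eq_top, sup_eq_right.2 h1]

/-- S3064. -/
theorem mem_center_of_closed {G : Type u} [Group G] [Finite G] {p : ℕ} [Fact p.Prime]
    (S : Sylow p G) (x : G) (hx : x ∈ S)
    (hU : ∀ g : G, g⁻¹ * x * g ∈ S → g⁻¹ * x * g = x)
    (hb : ∀ H : Subgroup G, (Nat.card H).Coprime p → (∀ h ∈ H, x * h * x⁻¹ ∈ H) → ∀ h ∈ H, x * h = h * x) :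
    x ∈ center G :=
  central_aux _ G le_rfl S x hx hU hb

end Cfsg.Lib.CentralClosed
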