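import Mathlib
import Cfsg.Prelude.Def_ConjugacyFunctors
import Cfsg.Agent.Lib.PLocal.ClimbApply

/-!
Local-to-global arguments that only look at subgroups above the centre of a Sylow subgroup.
-/

set_option autoImplicit false
set_option linter.unusedSectionVars false

namespace Cfsg.Lib.PLocal.Climb

open Cfsg
open scoped commutatorElement Pointwise

variable {G : Type*} [Group G] {p : ℕ}

local notation "conjR" => Cfsg.Lib.Transfer.conjR

/-- `Z(S)`. -/
abbrev zS (S : Subgroup G) : Subgroup G := S ⊓ Subgroup.centralizer (S : Set G)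

theorem centralizer_cj (m : G) (V : Subgroup G) :
    Subgroup.centralizer ((cj m V : Subgroup G) : Set G) = cj m (Subgroup.centralizer (V : Set G)) := by
  ext x
  rw [Subgroup.mem_centralizer_iff, Transfer.coe_map_conj_inv, ← SetLike.mem_coe (p := Subgroup.map _ _),
    Transfer.coe_map_conj_inv, Transfer.mem_conjR, SetLike.mem_coe, Subgroup.mem_centralizer_iff]
  constructor
  · intro h v hv
    have h1 := h (m⁻¹ * v * m) ⟨v, hv, rfl⟩
    calc v * (m * x * m⁻¹) = m * (m⁻¹ * v * m * x) * m⁻¹ := by group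
      _ = m * (x * (m⁻¹ * v * m)) * m⁻¹ := by rw [h1]
      _ = _ := by group
  · rintro h _ ⟨v, hv, rfl⟩
    calc m⁻¹ * v * m * x = m⁻¹ * (v * (m * x * m⁻¹)) * m := by group
      _ = m⁻¹ * (m * x * m⁻¹ * v) * m := by rw [h v hv]
      _ = _ := by group

theorem cj_inf (m : G) (A B : Subgroup G) : cj m (A ⊓ B) = cj m A ⊓ cj m B :=
  Subgroup.map_inf _ _ _ (MulAut.conj m⁻¹).injective

variable [Finite G] [Fact p.Prime] (S : Sylow p G) {R : Set G → G → Prop}

theorem le_centre_sN {T : Subgroup G} (hTS : T ≤ (S : Subgroup G)) :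
    zS (S : Subgroup G) ≤ zS (sN (S : Subgroup G) T) := by
  intro z hz
  obtain ⟨hzS, hzC⟩ := Subgroup.mem_inf.1 hz
  refine ⟨⟨hzS, ?_⟩, ?_⟩
  · refine Subgroup.mem_normalizer_iff.2 fun t => ⟨fun ht => ?_, fun ht => ?_⟩
    · rwa [← Subgroup.mem_centralizer_iff.1 hzC t (hTS ht), mul_inv_cancel_right]
    · have h1 := Subgroup.mem_centralizer_iff.1 hzC _ (hTS ht)
      simp only [mul_assoc, inv_mul_cancel_left, inv_mul_cancel, mul_one] at h1
      have h2 : t = z * t * z⁻¹ := by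
        have := mul_left_cancel h1
        rw [mul_assoc]; exact this
      rwa [h2]
  · exact Subgroup.mem_centralizer_iff.2 fun s hs => Subgroup.mem_centralizer_iff.1 hzC s hs.1

theorem zS_ne_bot (hS : (S : Subgroup G) ≠ ⊥) : zS (S : Subgroup G) ≠ ⊥ := by
  haveI : Nontrivial (S : Subgroup G) := (Subgroup.nontrivial_iff_ne_bot _).2 hS
  have h := S.isPGroup'.center_nontrivial
  obtain ⟨z, hz⟩ := exists_ne (1 : Subgroup.center (S : Subgroup G))
  intro hbot
  have h1 : ((z : (S : Subgroup G)) : G) ∈ zS (S : Subgroup G) :=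
    ⟨(z : (S : Subgroup G)).2, Subgroup.mem_centralizer_iff.2 fun s hs =>
      congrArg Subtype.val (Subgroup.mem_center_iff.1 z.2 ⟨s, hs⟩)⟩
  rw [hbot, Subgroup.mem_bot] at h1
  exact hz (Subtype.ext (Subtype.ext h1))

/-- When `T` misses part of `Z(S)`, conjugation on `T` by its normalizer extends to a larger set. -/
theorem extend_step {T : Subgroup G} (hTS : T ≤ (S : Subgroup G)) (hT : Fully p (S : Subgroup G) T)
    (hz : ¬ zS (S : Subgroup G) ≤ T) {n : ℕ} (hbig : Big (S : Set G) R n) (hn : n ≤ Nat.card T)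
    (hR : IsReal (S : Set G) R)
    (hcongr : ∀ {B : Set G} {g g' : G}, R B g → (∀ b ∈ B, g'⁻¹ * b * g' = g⁻¹ * b * g) → R B g')
    {y : G} (hy : y ∈ Subgroup.normalizer (T : Set G)) : R (T : Set G) y := by
  set C := Subgroup.centralizer (T : Set G) with hC
  set X := (S : Subgroup G) ⊓ C with hX
  have hCN : C ≤ Subgroup.normalizer (T : Set G) := Subgroup.centralizer_le_normalizer _
  have hconjC : ∀ z ∈ Subgroup.normalizer (T : Set G), ∀ c ∈ C, z⁻¹ * c * z ∈ C := by
    intro z hz c hc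
    refine Subgroup.mem_centralizer_iff.2 fun t ht => ?_
    have h1 := Subgroup.mem_centralizer_iff.1 hc (z * t * z⁻¹) ((Subgroup.mem_normalizer_iff.1 hz t).1 ht)
    calc t * (z⁻¹ * c * z) = z⁻¹ * (z * t * z⁻¹ * c) * z := by group
      _ = z⁻¹ * (c * (z * t * z⁻¹)) * z := by rw [h1]
      _ = _ := by group
  have hidx : ¬ p ∣ X.relIndex C := by
    obtain ⟨T0⟩ := (inferInstance : Nonempty (Sylow p C))
    obtain ⟨k, hk, hksub⟩ := exists_conjR_subset ((Subgroup.map_subtype_le (T0 : Subgroup C)).trans hCN)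
      (T0.isPGroup'.map C.subtype) inf_le_right (isPGroup_sN S T) hT
    have hle : Nat.card T0 ≤ Nat.card X := by
      rw [← Subgroup.card_map_of_injective C.subtype_injective (K := (T0 : Subgroup C)),
        ← Transfer.card_map_conj k⁻¹]
      refine Nat.card_mono (Set.toFinite _) ?_
      rw [Transfer.coe_map_conj_inv]
      rintro _ ⟨a, ha, rfl⟩
      exact ⟨(hksub ⟨a, ha, rfl⟩).1, hconjC k hk a ((Subgroup.map_subtype_le _) ha)⟩
    obtain ⟨a, ha⟩ := (IsPGroup.iff_card (p := p)).1 T0.isPGroup'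
    obtain ⟨b, hb⟩ := (IsPGroup.iff_card (p := p)).1 (S.isPGroup'.to_le (inf_le_left : X ≤ _))
    have hab : a ≤ b := (Nat.pow_le_pow_iff_right (Fact.out : p.Prime).one_lt).1 (ha ▸ hb ▸ hle)
    have h1 : Nat.card X * X.relIndex C = Nat.card C := by
      rw [Subgroup.relIndex, ← Nat.card_congr (Subgroup.subgroupOfEquivOfLe (inf_le_right : X ≤ C)).toEquiv]
      exact Subgroup.card_mul_index _
    have h2 := Subgroup.card_mul_index (T0 : Subgroup C)
    intro hd
    refine T0.not_dvd_index (hd.trans (Dvd.intro_left (p ^ (b - a)) ?_))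
    have hpos : 0 < p ^ a := pow_pos (Fact.out : p.Prime).pos a
    refine Nat.eq_of_mul_eq_mul_left hpos ?_
    rw [← mul_assoc, ← pow_add, Nat.add_sub_cancel' hab, ← hb, h1, ← ha, h2]
  obtain ⟨c, hc, hcsub⟩ := exists_conjR_subset (H := C) (Q := cj y X) (P := X)
    (by
      rw [← SetLike.coe_subset_coe, Transfer.coe_map_conj_inv]
      rintro _ ⟨a, ha, rfl⟩
      exact hconjC y hy a ha.2)
    ((S.isPGroup'.to_le inf_le_left).map _) inf_le_right (S.isPGroup'.to_le inf_le_left) hidx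
  rw [Transfer.coe_map_conj_inv, ← Transfer.conjR_mul] at hcsub
  have hzN : y * c ∈ Subgroup.normalizer (T : Set G) := Subgroup.mul_mem _ hy (hCN hc)
  have hB : (T : Set G) ∪ (X : Set G) ⊆ (S : Set G) :=
    Set.union_subset (fun a ha => hTS ha) (fun a ha => ha.1)
  have hcard : n < Nat.card ↥((T : Set G) ∪ (X : Set G)) := by
    refine lt_of_le_of_lt hn ?_
    refine Set.Finite.card_lt_card (Set.toFinite _) ⟨Set.subset_union_left, fun h => hz fun z hz' => ?_⟩
    refine h (Or.inr ⟨hz'.1, Subgroup.mem_centralizer_iff.2 fun t ht => ?_⟩)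
    exact Subgroup.mem_centralizer_iff.1 hz'.2 t (hTS ht)
  have h1 : R ((T : Set G) ∪ (X : Set G)) (y * c) := by
    refine hbig _ hB hcard _ ?_
    rintro _ ⟨a, ha | ha, rfl⟩
    · exact hTS ((Subgroup.mem_normalizer_iff''.1 hzN a).1 ha)
    · exact (hcsub ⟨a, ha, rfl⟩).1
  refine hcongr (hR.mono Set.subset_union_left h1) fun b hb => ?_
  have h2 := Subgroup.mem_centralizer_iff.1 hc _ ((Subgroup.mem_normalizer_iff''.1 hy b).1 hb)
  calc y⁻¹ * b * y = c⁻¹ * (c * (y⁻¹ * b * y)) := by group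
    _ = c⁻¹ * (y⁻¹ * b * y * c) := by rw [h2]
    _ = _ := by group

/-- All conjugations are realised when they are in normalizers of subgroups above `Z(S)`. -/
theorem pair_global (hR : IsReal (S : Set G) R) {W : Subgroup G → Subgroup G} (hW : IsConjugacyFunctor p W)
    (hWZ : ∀ H : Subgroup G, IsPGroup p H → zS H ≤ W H)
    (hcongr : ∀ {B : Set G} {g g' : G}, R B g → (∀ b ∈ B, g'⁻¹ * b * g' = g⁻¹ * b * g) → R B g')
    (hbot : ∀ B : Set G, B ⊆ {1} → ∀ y : G, R B y)
    (hM : ∀ x ∈ Subgroup.normalizer (W (S : Subgroup G) : Set G), ∀ B : Set G,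
      B ⊆ (S : Set G) → conjR x B ⊆ (S : Set G) → R B x)
    (hlocal : ∀ T : Subgroup G, Fully p (S : Subgroup G) T → zS (S : Subgroup G) ≤ T → T ≤ (S : Subgroup G) →
      T ≠ ⊥ →
      (∀ x ∈ Subgroup.normalizer (T : Set G) ⊓
          Subgroup.normalizer (W (sN (S : Subgroup G) T) : Set G), ∀ B : Set G,
        B ⊆ (sN (S : Subgroup G) T : Set G) → conjR x B ⊆ (sN (S : Subgroup G) T : Set G) → R B x) →
      LocAt (S : Subgroup G) R T)
    {B : Set G} {g : G} (hB : B ⊆ (S : Set G)) (hg : conjR g B ⊆ (S : Set G)) : R B g := by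
  refine Climb.global S (Good := Fully p (S : Subgroup G)) hR (fun V _ => move_fully S V) ?_ hbot
    (fun n hbig T hgood hTS hT1 hn hn' y hy => ?_) hB hg
  · exact fun y hy => hM y (functor_normalizer_le hW S.isPGroup' hy) _ subset_rfl
      (Transfer.conjR_subgroup_of_mem_normalizer hy).le
  by_cases hz : zS (S : Subgroup G) ≤ T
  · refine climb S hR (Good := fun T => Fully p (S : Subgroup G) T ∧ zS (S : Subgroup G) ≤ T) {W}
      (by rintro _ rfl; exact hW) ?_ (by rintro _ rfl; exact hM)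
      (fun T hg hTS hT1 h => hlocal T hg.1 hg.2 hTS hT1 (h _ rfl)) hbig T ⟨hgood, hz⟩ hTS hT1 hn' (T : Set G)
      (fun a ha => ⟨hTS ha, Subgroup.le_normalizer ha⟩) y hy
      ((Transfer.conjR_subgroup_of_mem_normalizer hy).le.trans hTS)
    intro T0 hgood0 hT0S _ W' hW'
    obtain ⟨hT0, -⟩ := hgood0
    rw [Set.mem_singleton_iff.1 hW']
    obtain ⟨m, hm, hfull⟩ := move_fully S (W (sN (S : Subgroup G) T0))
    refine ⟨m, hm, hfull, ?_⟩
    have hmP : conjR m (sN (S : Subgroup G) T0 : Set G) ⊆ (S : Set G) :=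
      (Transfer.conjR_mono m (show (sN (S : Subgroup G) T0 : Set G) ⊆
        (sN (S : Subgroup G) (W (sN (S : Subgroup G) T0)) : Set G) from fun a ha =>
        ⟨ha.1, functor_normalizer_le hW (isPGroup_sN S T0) (Subgroup.le_normalizer ha)⟩)).trans hm
    rw [← functor_cj hW (isPGroup_sN S T0) m, ← sN_cj S hT0 hmP]
    exact (le_centre_sN S (cj_le_of_move hT0S hmP)).trans (hWZ _ (isPGroup_sN S _))
  · exact extend_step S hTS hgood hz hbig hn hR hcongr hy

/-- A hypothesis on steps at a Sylow subgroup of `H`, used at the Sylow subgroup `P`. -/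
theorem real_of_steps (hR : IsReal (S : Set G) R) {H P Q : Subgroup G} (hPS : P ≤ (S : Subgroup G)) (hPH : P ≤ H)
    (hidx : ¬ p ∣ P.relIndex H) (hQH : Q ≤ H) (hQp : IsPGroup p Q) (hQidx : ¬ p ∣ Q.relIndex H)
    (M : Subgroup G → Set G)
    (hM : ∀ h ∈ H, ∀ x ∈ M (cj h P), h * x * h⁻¹ ∈ M P)
    (hQ : ∀ (X : Set G) (a : G), X ⊆ Q → a ∈ H → conjR a X ⊆ (Q : Set G) → Fus (Q : Set G) (M Q) X a)
    (hcongr : ∀ {B : Set G} {g g' : G}, R B g → (∀ b ∈ B, g'⁻¹ * b * g' = g⁻¹ * b * g) → R B g')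
    (hstep : ∀ x ∈ M P, ∀ B : Set G, B ⊆ (P : Set G) → conjR x B ⊆ (P : Set G) → R B x)
    {B : Set G} {y : G} (hy : y ∈ H) (hB : B ⊆ (P : Set G)) (hyB : conjR y B ⊆ (P : Set G)) : R B y := by
  have hPp : IsPGroup p P := S.isPGroup'.to_le hPS
  obtain ⟨h, hh, hsub⟩ := exists_conjR_subset hPH hPp hQH hQp hQidx
  obtain ⟨h', -, hsub'⟩ := exists_conjR_subset hQH hQp hPH hPp hidx
  have hQ' : cj h P = Q := by
    refine Subgroup.eq_of_le_of_card_ge ?_ ?_
    · rw [← SetLike.coe_subset_coe, Transfer.coe_map_conj_inv]; exact hsub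
    · rw [Transfer.card_map_conj, ← Transfer.card_map_conj h'⁻¹ Q]
      refine Nat.card_mono (Set.toFinite _) ?_
      rw [Transfer.coe_map_conj_inv]; exact hsub'
  subst hQ'
  have hPQ : ∀ {Y : Set G}, Y ⊆ (cj h P : Set G) → conjR h⁻¹ Y ⊆ (P : Set G) := by
    intro Y hY
    have := Transfer.conjR_mono h⁻¹ hY
    rwa [Transfer.coe_map_conj_inv, conjR_inv_cancel] at this
  have key : ∀ {Y : Set G} {a : G}, Steps (cj h P : Set G) (M (cj h P)) Y a → Y ⊆ (cj h P : Set G) →
      R (conjR h⁻¹ Y) (h * a * h⁻¹) := by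
    intro Y a hs
    induction hs with
    | nil Y =>
      intro hY
      rw [mul_one, mul_inv_cancel]
      exact hR.one ((hPQ hY).trans hPS)
    | @cons Y x z hx hxY _ ih =>
      intro hY
      rw [show h * (x * z) * h⁻¹ = (h * x * h⁻¹) * (h * z * h⁻¹) by group]
      have e : conjR (h * x * h⁻¹) (conjR h⁻¹ Y) = conjR h⁻¹ (conjR x Y) := by
        rw [← Transfer.conjR_mul, ← Transfer.conjR_mul]
        congr 1
        group
      have h1 := hstep _ (hM h hh x hx) _ (hPQ hY) (e ▸ hPQ hxY)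
      exact hR.mul ((hPQ hY).trans hPS) (e ▸ (hPQ hxY).trans hPS) h1 (e ▸ ih hxY)
  have hBQ : conjR h B ⊆ (cj h P : Set G) := by
    rw [Transfer.coe_map_conj_inv]; exact Transfer.conjR_mono h hB
  obtain ⟨a, ha, hae⟩ := hQ (conjR h B) (h⁻¹ * y * h) hBQ (H.mul_mem (H.mul_mem (H.inv_mem hh) hy) hh) (by
    rw [← Transfer.conjR_mul, show h * (h⁻¹ * y * h) = y * h by group, Transfer.conjR_mul,
      Transfer.coe_map_conj_inv]
    exact Transfer.conjR_mono h hyB)
  have h2 := key ha hBQ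
  rw [conjR_inv_cancel] at h2
  refine hcongr h2 fun b hb => ?_
  have h3 := hae (h⁻¹ * b * h) ⟨b, hb, rfl⟩
  calc y⁻¹ * b * y = h * ((h⁻¹ * y * h)⁻¹ * (h⁻¹ * b * h) * (h⁻¹ * y * h)) * h⁻¹ := by group
    _ = h * (a⁻¹ * (h⁻¹ * b * h) * a) * h⁻¹ := by rw [h3]
    _ = _ := by group

theorem Steps.exists_list {S M : Set G} {B : Set G} {g : G} (h : Steps S M B g) (hB : B ⊆ S) :
    ∃ (n : ℕ) (b : Fin n → G), (∀ i, b i ∈ M) ∧ (List.ofFn b).prod = g ∧
      ∀ k : ℕ, k ≤ n → conjR (((List.ofFn b).take k).prod) B ⊆ S := by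
  induction h with
  | nil B =>
    refine ⟨0, Fin.elim0, fun i => i.elim0, rfl, fun k hk => ?_⟩
    simpa [Transfer.conjR_one] using hB
  | @cons B x y hx hxB _ ih =>
    obtain ⟨n, b, h1, h2, h3⟩ := ih hxB
    refine ⟨n + 1, Fin.cons x b, Fin.cases hx h1, by rw [List.ofFn_succ]; simp [h2], fun k hk => ?_⟩
    rcases k with _ | j
    · simpa [Transfer.conjR_one] using hB
    · rw [List.ofFn_succ, List.take_succ_cons, List.prod_cons, Transfer.conjR_mul]
      simpa using h3 j (by omega)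

theorem steps_of_list {S M : Set G} : ∀ (L : List G) (B : Set G), (∀ x ∈ L, x ∈ M) →
    (∀ k : ℕ, k ≤ L.length → conjR ((L.take k).prod) B ⊆ S) → Steps S M B L.prod
  | [], B, _, _ => .nil B
  | x :: L, B, hM, hk => by
    rw [List.prod_cons]
    refine .cons (hM x (List.mem_cons_self ..)) (by simpa using hk 1 (by simp)) ?_
    refine steps_of_list L _ (fun y hy => hM y (List.mem_cons_of_mem _ hy)) fun k hk' => ?_
    have := hk (k + 1) (by simp; omega)
    rwa [List.take_succ_cons, List.prod_cons, Transfer.conjR_mul] at this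

end Cfsg.Lib.PLocal.Climb
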