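import Mathlib

/-!
Linear groups of dimension two without elements of order `p` containing many diagonal tori.
-/

set_option autoImplicit false

namespace Cfsg.Lib.PLocal.DiagonalPairing

variable {p : ℕ} [Fact p.Prime] {V : Type*} [AddCommGroup V] [Module (ZMod p) V]
  {H : Type*} [Group H] (ρ : H →* (V ≃ₗ[ZMod p] V))

/-- A basis of two vectors. -/
structure Frame (v w : V) : Prop where
  indep : ∀ s t : ZMod p, s • v + t • w = 0 → s = 0 ∧ t = 0
  span : ∀ u : V, ∃ s t : ZMod p, u = s • v + t • w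

/-- The line of `v` is diagonalised with all multipliers. -/
def Diag (v : V) : Prop :=
  ∀ l : ZMod p, l ≠ 0 → ∃ h : H, ρ h v = l • v ∧
    ∀ u : V, ∃ c : ZMod p, ρ h u = (l ^ 2)⁻¹ • u + c • v

/-- Two lines with the same stabiliser, containing the torus of cubes. -/
structure Pair (v w : V) : Prop where
  frame : Frame (p := p) v w
  fix : ∀ h : H, (∃ a : ZMod p, ρ h v = a • v) ↔ ∃ b : ZMod p, ρ h w = b • w
  torus : ∀ l : ZMod p, l ≠ 0 → ∃ h : H, ∃ b : ZMod p,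
    b ≠ 0 ∧ ρ h v = (l ^ 3 * b) • v ∧ ρ h w = b • w

variable {ρ}

theorem Frame.symm {v w : V} (h : Frame (p := p) v w) : Frame (p := p) w v :=
  ⟨fun s t e => (h.indep t s (by rw [add_comm]; exact e)).symm,
    fun u => let ⟨s, t, e⟩ := h.span u; ⟨t, s, e.trans (add_comm _ _)⟩⟩

theorem Frame.ext {v w : V} (h : Frame (p := p) v w) {s t s' t' : ZMod p}
    (e : s • v + t • w = s' • v + t' • w) : s = s' ∧ t = t' := by
  obtain ⟨h1, h2⟩ := h.indep (s - s') (t - t') (by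
    rw [sub_smul, sub_smul]
    have := sub_eq_zero.2 e
    rw [← this]
    abel)
  exact ⟨sub_eq_zero.1 h1, sub_eq_zero.1 h2⟩

theorem Frame.left_ne {v w : V} (h : Frame (p := p) v w) : v ≠ 0 := fun e =>
  one_ne_zero (h.indep 1 0 (by simp [e])).1

theorem Frame.eq {v w : V} (h : Frame (p := p) v w) {f g : V ≃ₗ[ZMod p] V} (hv : f v = g v)
    (hw : f w = g w) : f = g := by
  apply LinearEquiv.ext
  intro u
  obtain ⟨s, t, rfl⟩ := h.span u
  simp [hv, hw]

/-- Two distinct eigenvalues: only two eigenlines. -/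
theorem Frame.eigen {v w : V} (h : Frame (p := p) v w) {f : V ≃ₗ[ZMod p] V} {a b : ZMod p}
    (hab : a ≠ b) (hv : f v = a • v) (hw : f w = b • w) {s t c : ZMod p}
    (hu : f (s • v + t • w) = c • (s • v + t • w)) : s = 0 ∨ t = 0 := by
  rw [map_add, map_smul, map_smul, hv, hw, smul_add, smul_smul, smul_smul, smul_smul, smul_smul] at hu
  obtain ⟨h1, h2⟩ := h.ext hu
  by_contra hh
  push Not at hh
  exact hab ((mul_left_cancel₀ hh.1 (h1.trans (mul_comm c s))).trans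
    (mul_left_cancel₀ hh.2 (h2.trans (mul_comm c t))).symm)

/-- An element fixing one line of a regular diagonal element fixes the other one. -/
theorem fix_other (hp : ∀ h : H, ρ h ^ p = 1 → ρ h = 1) {v w : V} (hF : Frame (p := p) v w)
    {h k : H} {a b c : ZMod p} (hab : a ≠ b) (hv : ρ h v = a • v) (hw : ρ h w = b • w)
    (hk : ρ k v = c • v) : ∃ d : ZMod p, ρ k w = d • w := by
  obtain ⟨α, β, hkw⟩ := hF.span (ρ k w)
  have hc : c ≠ 0 := by
    rintro rfl
    rw [zero_smul, LinearEquiv.map_eq_zero_iff] at hk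
    exact hF.left_ne hk
  -- the commutator
  set A := ρ (h * k) with hA
  set B := ρ (k * h) with hB
  set u := ρ (h * k * (k * h)⁻¹) with hu
  have hAB : ∀ x, A x = u (B x) := by
    intro x
    rw [hu, hA, hB, ← LinearEquiv.mul_apply, ← map_mul, inv_mul_cancel_right]
  have hAv : A v = (c * a) • v := by
    rw [hA, map_mul, LinearEquiv.mul_apply, hk, map_smul, hv, smul_smul]
  have hBv : B v = (c * a) • v := by
    rw [hB, map_mul, LinearEquiv.mul_apply, hv, map_smul, hk, smul_smul, mul_comm]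
  have hAw : A w = (α * a) • v + (β * b) • w := by
    rw [hA, map_mul, LinearEquiv.mul_apply, hkw, map_add, map_smul, map_smul, hv, hw, smul_smul, smul_smul]
  have hBw : B w = (b * α) • v + (b * β) • w := by
    rw [hB, map_mul, LinearEquiv.mul_apply, hw, map_smul, hkw, smul_add, smul_smul, smul_smul]
  have hca : c * a ≠ 0 := by
    intro e
    rw [e, zero_smul, LinearEquiv.map_eq_zero_iff] at hAv
    exact hF.left_ne hAv
  have huv : u v = v := by
    have := hAB v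
    rw [hAv, hBv, map_smul] at this
    exact (smul_right_injective V hca this).symm
  have hbβ : b * β ≠ 0 := by
    intro e
    rw [e, zero_smul, add_zero] at hBw
    have : B w = B (((b * α) * (c * a)⁻¹) • v) := by
      rw [map_smul, hBv, hBw, smul_smul, inv_mul_cancel_right₀ hca]
    have h2 := B.injective this
    exact one_ne_zero (hF.indep (-((b * α) * (c * a)⁻¹)) 1 (by
      rw [one_smul, neg_smul, neg_add_eq_sub, sub_eq_zero]
      exact h2)).2
  obtain ⟨t, huw⟩ : ∃ t : ZMod p, u w = w + t • v := by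
    refine ⟨(α * a - b * α) * (b * β)⁻¹, ?_⟩
    have := hAB w
    rw [hAw, hBw, map_add, map_smul, map_smul, huv] at this
    refine smul_right_injective V hbβ ?_
    show (b * β) • u w = (b * β) • (w + _)
    rw [smul_add, smul_smul, ← mul_comm ((α * a - b * α) * (b * β)⁻¹), inv_mul_cancel_right₀ hbβ,
      sub_smul, eq_sub_of_add_eq' this.symm, mul_comm β b]
    abel
  have hpow : ∀ n : ℕ, (u ^ n) v = v ∧ (u ^ n) w = w + (n • t) • v := by
    intro n
    induction n with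
    | zero => simp [LinearEquiv.coe_one]
    | succ n ih =>
      rw [pow_succ', LinearEquiv.mul_apply, LinearEquiv.mul_apply, ih.1, ih.2, map_add, map_smul, huv, huw]
      refine ⟨rfl, ?_⟩
      rw [add_assoc, ← add_smul, succ_nsmul']
  have h1 : u = 1 := hp _ (hF.eq (by rw [← hu, (hpow p).1]; rfl) (by
    rw [← hu, (hpow p).2, nsmul_eq_mul, ZMod.natCast_self, zero_mul, zero_smul, add_zero]; rfl))
  have := hAB w
  rw [h1, hAw, hBw] at this
  obtain ⟨e, -⟩ := hF.ext (show (α * a) • v + (β * b) • w = (b * α) • v + (b * β) • w from this)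
  have hα : α = 0 := by
    by_contra hα
    exact hab (mul_left_cancel₀ hα (e.trans (mul_comm b α)))
  exact ⟨β, by rw [hkw, hα, zero_smul, zero_add]⟩

theorem exists_cube_ne_one (hp : 5 ≤ p) : ∃ l : ZMod p, l ≠ 0 ∧ l ^ 3 ≠ 1 := by
  obtain ⟨g, hg⟩ := IsCyclic.exists_generator (α := (ZMod p)ˣ)
  refine ⟨g, g.ne_zero, fun e => ?_⟩
  have h1 : orderOf g = p - 1 := by
    rw [orderOf_eq_card_of_forall_mem_zpowers hg, Nat.card_eq_fintype_card, ZMod.card_units]
  have := Nat.le_of_dvd (by norm_num) (h1 ▸ orderOf_dvd_of_pow_eq_one (Units.ext (by simpa using e) : g ^ 3 = 1))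
  omega

/-- A diagonalised line has a partner. -/
theorem exists_pair (hp : ∀ h : H, ρ h ^ p = 1 → ρ h = 1) (h5 : 5 ≤ p) {v w₀ : V}
    (hF₀ : Frame (p := p) v w₀) (hD : Diag ρ v) : ∃ w, Pair ρ v w := by
  obtain ⟨l, hl, hl3⟩ := exists_cube_ne_one h5
  obtain ⟨h, hv, hq⟩ := hD l hl
  obtain ⟨c, hc⟩ := hq w₀
  have hne : l ≠ (l ^ 2)⁻¹ := fun e => hl3 (by
    have h2 := mul_inv_cancel₀ (pow_ne_zero 2 hl)
    rw [← e] at h2
    linear_combination h2)
  obtain ⟨s, hs⟩ : ∃ s : ZMod p, c + s * l = (l ^ 2)⁻¹ * s :=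
    ⟨c / ((l ^ 2)⁻¹ - l), by
      have := sub_ne_zero.2 hne.symm
      field_simp
      ring⟩
  set w := w₀ + s • v with hwdef
  have hF : Frame (p := p) v w := by
    refine ⟨fun a b e => ?_, fun u => ?_⟩
    · obtain ⟨e1, e2⟩ := hF₀.indep (a + b * s) b (by rw [add_smul, mul_smul, ← e, hwdef, smul_add]; abel)
      exact ⟨by rwa [e2, zero_mul, add_zero] at e1, e2⟩
    · obtain ⟨a, b, rfl⟩ := hF₀.span u
      exact ⟨a - b * s, b, by rw [sub_smul, mul_smul, hwdef, smul_add]; abel⟩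
  have hw : ρ h w = (l ^ 2)⁻¹ • w := by
    rw [hwdef, map_add, map_smul, hc, hv, smul_add, smul_smul, smul_smul, ← hs, add_smul]
    abel
  have hfix : ∀ k : H, (∃ a : ZMod p, ρ k v = a • v) → ∃ b : ZMod p, ρ k w = b • w :=
    fun k ⟨a, ha⟩ => fix_other hp hF hne hv hw ha
  refine ⟨w, hF, fun k => ⟨hfix k, fun ⟨b, hb⟩ => fix_other hp hF.symm hne.symm hw hv hb⟩, fun m hm => ?_⟩
  obtain ⟨k, hkv, hkq⟩ := hD m hm
  obtain ⟨b, hb⟩ := hfix k ⟨m, hkv⟩
  obtain ⟨d, hd⟩ := hkq w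
  obtain ⟨-, e2⟩ := hF.ext (show (0 : ZMod p) • v + b • w = d • v + (m ^ 2)⁻¹ • w by
    rw [zero_smul, zero_add, ← hb, hd, add_comm])
  refine ⟨k, (m ^ 2)⁻¹, inv_ne_zero (pow_ne_zero _ hm), ?_, by rw [hb, e2]⟩
  rw [hkv]
  congr 1
  field_simp

theorem Pair.symm {v w : V} (h : Pair ρ v w) : Pair ρ w v := by
  refine ⟨h.frame.symm, fun k => (h.fix k).symm, fun l hl => ?_⟩
  obtain ⟨k, b, hb, h1, h2⟩ := h.torus l⁻¹ (inv_ne_zero hl)
  refine ⟨k, l⁻¹ ^ 3 * b, mul_ne_zero (pow_ne_zero _ (inv_ne_zero hl)) hb, ?_, h1⟩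
  rw [h2]
  congr 1
  field_simp

theorem Pair.smul {v w : V} (h : Pair ρ v w) {a b : ZMod p} (ha : a ≠ 0) (hb : b ≠ 0) :
    Pair ρ (a • v) (b • w) := by
  refine ⟨⟨fun s t e => ?_, fun u => ?_⟩, fun k => ?_, fun l hl => ?_⟩
  · rw [smul_smul, smul_smul] at e
    obtain ⟨e1, e2⟩ := h.frame.indep _ _ e
    exact ⟨(mul_eq_zero.1 e1).resolve_right ha, (mul_eq_zero.1 e2).resolve_right hb⟩
  · obtain ⟨s, t, rfl⟩ := h.frame.span u
    exact ⟨s * a⁻¹, t * b⁻¹, by rw [smul_smul, smul_smul, inv_mul_cancel_right₀ ha, inv_mul_cancel_right₀ hb]⟩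
  · have e : ∀ (x : V) (r c : ZMod p), r ≠ 0 → (ρ k (r • x) = c • r • x ↔ ρ k x = c • x) := by
      intro x r c hr
      rw [map_smul, smul_comm c r x]
      exact (smul_right_injective V hr).eq_iff
    simp only [e v a _ ha, e w b _ hb]
    exact h.fix k
  · obtain ⟨k, c, hc, h1, h2⟩ := h.torus l hl
    exact ⟨k, c, hc, by rw [map_smul, h1, smul_comm], by rw [map_smul, h2, smul_comm]⟩

theorem Pair.map {v w : V} (h : Pair ρ v w) (g : H) : Pair ρ (ρ g v) (ρ g w) := by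
  refine ⟨⟨fun s t e => h.frame.indep s t ((ρ g).injective (by simpa using e)), fun u => ?_⟩,
    fun k => ?_, fun l hl => ?_⟩
  · obtain ⟨s, t, e⟩ := h.frame.span ((ρ g).symm u)
    exact ⟨s, t, by rw [← map_smul, ← map_smul, ← map_add, ← e, LinearEquiv.apply_symm_apply]⟩
  · have e : ∀ (x : V) (c : ZMod p), ρ k (ρ g x) = c • ρ g x ↔ ρ (g⁻¹ * k * g) x = c • x := by
      intro x c
      rw [← (ρ g).injective.eq_iff (a := ρ (g⁻¹ * k * g) x), map_smul, ← LinearEquiv.mul_apply (ρ g),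
        ← map_mul, show g * (g⁻¹ * k * g) = k * g by group, map_mul, LinearEquiv.mul_apply]
    simp only [e]
    exact h.fix _
  · obtain ⟨k, c, hc, h1, h2⟩ := h.torus l hl
    refine ⟨g * k * g⁻¹, c, hc, ?_, ?_⟩ <;>
      rw [← LinearEquiv.mul_apply, ← map_mul, inv_mul_cancel_right, map_mul, LinearEquiv.mul_apply]
    · rw [h1, map_smul]
    · rw [h2, map_smul]

/-- The partner is unique. -/
theorem Pair.partner (h5 : 5 ≤ p) {v w w' : V} (h : Pair ρ v w) (h' : Pair ρ v w') :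
    ∃ c : ZMod p, c ≠ 0 ∧ w' = c • w := by
  obtain ⟨l, hl, hl3⟩ := exists_cube_ne_one h5
  obtain ⟨k, b, hb, h1, h2⟩ := h.torus l hl
  obtain ⟨d, hd⟩ := (h'.fix k).1 ⟨_, h1⟩
  obtain ⟨s, t, rfl⟩ := h.frame.span w'
  have hne : l ^ 3 * b ≠ b := fun e => hl3 ((mul_eq_right₀ hb).1 e)
  rcases h.frame.eigen hne h1 h2 hd with rfl | rfl
  · refine ⟨t, ?_, by rw [zero_smul, zero_add]⟩
    rintro rfl
    exact h'.frame.symm.left_ne (by simp)
  · exact absurd (h'.frame.indep s (-1) (by simp)).2 (by simp)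

section coordinates

variable {e f : V}

/-- The point with coordinate `x`. -/
abbrev pt (e f : V) (x : ZMod p) : V := x • e + f

variable (h5 : 5 ≤ p) (hef : Pair ρ e f)
include h5 hef

theorem coord_ne {x y : ZMod p} (h : Pair ρ (pt e f x) (pt e f y)) : x ≠ 0 := by
  rintro rfl
  rw [pt, zero_smul, zero_add] at h
  obtain ⟨c, -, hc⟩ := hef.symm.partner h5 h
  exact one_ne_zero (hef.frame.indep (y - c) 1 (by rw [sub_smul, one_smul, ← hc, pt]; abel)).2

theorem coord_unique {x y z : ZMod p} (h : Pair ρ (pt e f x) (pt e f y))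
    (h' : Pair ρ (pt e f x) (pt e f z)) : y = z := by
  obtain ⟨c, -, hc⟩ := h.partner h5 h'
  obtain ⟨e1, e2⟩ := hef.frame.ext (show z • e + (1 : ZMod p) • f = (c * y) • e + c • f by
    rw [one_smul, mul_smul, ← smul_add]; exact hc)
  rw [e1, ← e2, one_mul]

omit h5 in
theorem coord_scale {x y : ZMod p} (h : Pair ρ (pt e f x) (pt e f y)) {l : ZMod p} (hl : l ≠ 0) :
    Pair ρ (pt e f (l ^ 3 * x)) (pt e f (l ^ 3 * y)) := by
  obtain ⟨k, b, hb, h1, h2⟩ := hef.torus l hl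
  have hk : ∀ z : ZMod p, b⁻¹ • ρ k (pt e f z) = pt e f (l ^ 3 * z) := by
    intro z
    rw [pt, map_add, map_smul, h1, h2, smul_add, smul_smul, smul_smul, smul_smul, inv_mul_cancel₀ hb,
      one_smul, pt]
    congr 2
    field_simp
  have := (h.map k).smul (inv_ne_zero hb) (inv_ne_zero hb)
  rwa [hk, hk] at this

omit h5 in
/-- Image of the pair `e, f` under the torus of the pair `1, w`. -/
theorem coord_torus {w : ZMod p} (h : Pair ρ (pt e f (1 : ZMod p)) (pt e f w)) (hw : w ≠ 1) {l : ZMod p}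
    (hl : l ≠ 0) : ∃ k : H, ∀ x : ZMod p, ∃ r : ZMod p, r ≠ 0 ∧
      r • ρ k (pt e f x) = (x * (w - l ^ 3) + w * (l ^ 3 - 1)) • e + (x * (1 - l ^ 3) + (w * l ^ 3 - 1)) • f ∧
      r • ρ k e = (w - l ^ 3) • e + (1 - l ^ 3) • f := by
  obtain ⟨k, b, hb, h1, h2⟩ := h.torus l hl
  have hw1 : w - 1 ≠ 0 := sub_ne_zero.2 hw
  refine ⟨k, fun x => ⟨(w - 1) * b⁻¹, mul_ne_zero hw1 (inv_ne_zero hb), ?_⟩⟩
  have he : (w - 1) • e = pt e f w - pt e f (1 : ZMod p) := by
    simp only [pt, one_smul, sub_smul]; abel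
  have hf : (w - 1) • f = w • pt e f (1 : ZMod p) - pt e f w := by
    simp only [pt, one_smul, sub_smul, smul_add]; abel
  have hke : (w - 1) • ρ k e = (b * (w - l ^ 3)) • e + (b * (1 - l ^ 3)) • f := by
    rw [← map_smul, he, map_sub, h1, h2]
    simp only [pt, one_smul, smul_add, smul_smul, mul_sub, sub_smul, mul_comm b (l ^ 3), mul_one]
    abel
  have hkf : (w - 1) • ρ k f = (b * (w * (l ^ 3 - 1))) • e + (b * (w * l ^ 3 - 1)) • f := by
    rw [← map_smul, hf, map_sub, map_smul, h1, h2]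
    simp only [pt, one_smul, smul_add, smul_smul, mul_sub, sub_smul, mul_one]
    rw [show b * (w * l ^ 3) = w * (l ^ 3 * b) by ring]
    abel
  constructor
  · rw [mul_comm, mul_smul, pt, map_add, map_smul, smul_add, smul_comm (w - 1) x, hke, hkf]
    simp only [smul_add, smul_smul, add_smul]
    field_simp
    abel
  · rw [mul_comm, mul_smul, hke]
    simp only [smul_add, smul_smul]
    field_simp

end coordinates

/-- The cubes have index at most three. -/
theorem cube_cosets {w x y : ZMod p} (hw0 : w ≠ 0) (hx0 : x ≠ 0) (hy0 : y ≠ 0)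
    (hw : ∀ l : ZMod p, l ^ 3 ≠ w) (hx : ∀ l : ZMod p, l ^ 3 ≠ x) (hxw : ∀ l : ZMod p, l ^ 3 * w ≠ x)
    (hy : ∀ l : ZMod p, l ^ 3 ≠ y) (hyw : ∀ l : ZMod p, l ^ 3 * w ≠ y) :
    ∃ l : ZMod p, l ≠ 0 ∧ l ^ 3 * x = y := by
  obtain ⟨g, hg⟩ := IsCyclic.exists_generator (α := (ZMod p)ˣ)
  obtain ⟨i, hi⟩ := Subgroup.mem_zpowers_iff.1 (hg (Units.mk0 w hw0))
  obtain ⟨j, hj⟩ := Subgroup.mem_zpowers_iff.1 (hg (Units.mk0 x hx0))
  obtain ⟨k, hk⟩ := Subgroup.mem_zpowers_iff.1 (hg (Units.mk0 y hy0))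
  have e : ∀ (a b : ℤ) (u v : ZMod p) (hu : ((g ^ a : (ZMod p)ˣ) : ZMod p) = u)
      (hv : ((g ^ b : (ZMod p)ˣ) : ZMod p) = v), (3 : ℤ) ∣ b - a →
      ∃ l : ZMod p, l ≠ 0 ∧ l ^ 3 * u = v := by
    rintro a b u v rfl rfl ⟨c, hc⟩
    refine ⟨((g ^ c : (ZMod p)ˣ) : ZMod p), Units.ne_zero _, ?_⟩
    rw [← Units.val_pow_eq_pow_val, ← Units.val_mul, ← zpow_natCast, ← zpow_mul, ← zpow_add]
    congr 2
    push_cast
    omega
  have vi : ((g ^ i : (ZMod p)ˣ) : ZMod p) = w := by rw [hi]; rfl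
  have vj : ((g ^ j : (ZMod p)ˣ) : ZMod p) = x := by rw [hj]; rfl
  have vk : ((g ^ k : (ZMod p)ˣ) : ZMod p) = y := by rw [hk]; rfl
  have v0 : ((g ^ (0 : ℤ) : (ZMod p)ˣ) : ZMod p) = 1 := by simp
  refine e j k x y vj vk ?_
  by_contra hjk
  have n1 : ¬ (3 : ℤ) ∣ i - 0 := fun d => by
    obtain ⟨l, -, hl⟩ := e 0 i 1 w v0 vi d
    exact hw l (by rw [← hl, mul_one])
  have n2 : ¬ (3 : ℤ) ∣ j - 0 := fun d => by
    obtain ⟨l, -, hl⟩ := e 0 j 1 x v0 vj d
    exact hx l (by rw [← hl, mul_one])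
  have n3 : ¬ (3 : ℤ) ∣ k - 0 := fun d => by
    obtain ⟨l, -, hl⟩ := e 0 k 1 y v0 vk d
    exact hy l (by rw [← hl, mul_one])
  have n4 : ¬ (3 : ℤ) ∣ j - i := fun d => by
    obtain ⟨l, -, hl⟩ := e i j w x vi vj d
    exact hxw l hl
  have n5 : ¬ (3 : ℤ) ∣ k - i := fun d => by
    obtain ⟨l, -, hl⟩ := e i k w y vi vk d
    exact hyw l hl
  omega

/-- A regular cube. -/
def Good (w l : ZMod p) : Prop :=
  (w * l ^ 3 - 1) * (l ^ 3 - w) ≠ w ^ 2 * (l ^ 3 - 1) ^ 2 ∧
    (w * l ^ 3 - 1) * (l ^ 3 - w) ≠ (l ^ 3 - 1) ^ 2 ∧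
      (w * l ^ 3 - 1) * (l ^ 3 - w) ≠ -w * (l ^ 3 - 1) ^ 2

theorem small_cases : (∀ w : ZMod 11, w ≠ 0 → (∀ l : ZMod 11, l ^ 3 ≠ w) → False) ∧
    (∀ w : ZMod 13, w ≠ 0 → (∀ l : ZMod 13, l ^ 3 ≠ w) → ∃ l : ZMod 13, l ≠ 0 ∧ l ^ 3 ≠ 1 ∧
      (w * l ^ 3 - 1) * (l ^ 3 - w) ≠ w ^ 2 * (l ^ 3 - 1) ^ 2 ∧
      (w * l ^ 3 - 1) * (l ^ 3 - w) ≠ (l ^ 3 - 1) ^ 2 ∧
      (w * l ^ 3 - 1) * (l ^ 3 - w) ≠ -w * (l ^ 3 - 1) ^ 2) ∧
    (∀ w : ZMod 17, w ≠ 0 → (∀ l : ZMod 17, l ^ 3 ≠ w) → False) ∧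
    (∀ w : ZMod 19, w ≠ 0 → (∀ l : ZMod 19, l ^ 3 ≠ w) → ∃ l : ZMod 19, l ≠ 0 ∧ l ^ 3 ≠ 1 ∧
      (w * l ^ 3 - 1) * (l ^ 3 - w) ≠ w ^ 2 * (l ^ 3 - 1) ^ 2 ∧
      (w * l ^ 3 - 1) * (l ^ 3 - w) ≠ (l ^ 3 - 1) ^ 2 ∧
      (w * l ^ 3 - 1) * (l ^ 3 - w) ≠ -w * (l ^ 3 - 1) ^ 2) := by
  refine ⟨?_, ?_, ?_, ?_⟩ <;> decide +kernel

/-- There is a good cube. -/
theorem exists_good (h11 : 11 ≤ p) {w : ZMod p} (hw0 : w ≠ 0) (hw : ∀ l : ZMod p, l ^ 3 ≠ w) :
    ∃ l : ZMod p, l ≠ 0 ∧ l ^ 3 ≠ 1 ∧ Good w l := by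
  classical
  have hpp := (Fact.out : p.Prime)
  by_cases hbig : 23 ≤ p
  · by_contra hno
    push Not at hno
    have hw1 : w ≠ 1 := fun e => hw 1 (by rw [e, one_pow])
    -- the cubes are roots of three quadratics
    open Polynomial in
    let q : ZMod p → Polynomial (ZMod p) := fun K =>
      (C w * X - 1) * (X - C w) - C K * (X - 1) ^ 2
    let S : Finset (ZMod p) :=
      insert 1 (((q (w ^ 2)).roots.toFinset ∪ (q 1).roots.toFinset) ∪ (q (-w)).roots.toFinset)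
    have hdeg : ∀ K : ZMod p, (q K).natDegree ≤ 2 := by
      intro K
      simp only [q]
      compute_degree!
    have hne : ∀ K : ZMod p, K ≠ w → q K ≠ 0 := by
      intro K hK h0
      have hq2 : q K = C (w - K) * X ^ 2 + C (2 * K - 1 - w ^ 2) * X + C (w - K) := by
        simp only [q, map_sub, map_mul, map_pow, map_one, map_ofNat]
        ring
      have hc : (q K).coeff 2 = w - K := by
        rw [hq2]
        simp [Polynomial.coeff_X, Polynomial.coeff_C, -map_sub, -map_mul, -map_pow]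
      rw [h0, Polynomial.coeff_zero] at hc
      exact hK (sub_eq_zero.1 hc.symm).symm
    have hroots : ∀ K : ZMod p, (q K).roots.toFinset.card ≤ 2 := fun K =>
      ((Multiset.toFinset_card_le _).trans (Polynomial.card_roots' _)).trans (hdeg K)
    have h2w : -w ≠ w := by
      intro e
      have : (2 : ZMod p) * w = 0 := by linear_combination -e
      rcases mul_eq_zero.1 this with h | h
      · have h2 : ((2 : ℕ) : ZMod p) = 0 := by exact_mod_cast h
        rw [ZMod.natCast_eq_zero_iff] at h2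
        exact absurd (Nat.le_of_dvd (by norm_num) h2) (by omega)
      · exact hw0 h
    have hmem : ∀ u : (ZMod p)ˣ, ((u : ZMod p) ^ 3) ∈ S := by
      intro u
      by_cases h1 : (u : ZMod p) ^ 3 = 1
      · simp [S, h1]
      have := hno u u.ne_zero h1
      simp only [Good, not_and_or, not_not] at this
      simp only [S, Finset.mem_insert, Finset.mem_union, Multiset.mem_toFinset]
      rcases this with h | h | h
      · exact Or.inr (Or.inl (Or.inl (by
          rw [Polynomial.mem_roots (hne _ (fun e => hw1 (mul_left_cancel₀ hw0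
            (by rw [mul_one, ← sq, e]))))]
          simp [q, Polynomial.IsRoot, h])))
      · exact Or.inr (Or.inl (Or.inr (by
          rw [Polynomial.mem_roots (hne _ (Ne.symm hw1))]
          simp [q, Polynomial.IsRoot, h])))
      · exact Or.inr (Or.inr (by
          rw [Polynomial.mem_roots (hne _ h2w)]
          simp [q, Polynomial.IsRoot, h]))
    have hcard : Fintype.card (ZMod p)ˣ ≤ 3 * S.card := by
      rw [← Finset.card_univ, mul_comm]
      refine Finset.card_le_mul_card_image_of_maps_to (f := fun u : (ZMod p)ˣ => (u : ZMod p) ^ 3)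
        (fun u _ => hmem u) 3 (fun c _ => ?_) |>.trans (le_of_eq (mul_comm _ _))
      refine (Finset.card_le_card_of_injOn (fun u : (ZMod p)ˣ => (u : ZMod p)) ?_
        (fun a _ b _ h => Units.ext h)).trans
        ((Multiset.toFinset_card_le _).trans (Polynomial.card_nthRoots 3 c))
      intro u hu
      simp only [Finset.coe_filter, Set.mem_setOf_eq] at hu
      simp [Polynomial.mem_nthRoots, hu.2]
    have hS : S.card ≤ 7 := by
      refine (Finset.card_insert_le _ _).trans ?_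
      have := Finset.card_union_le ((q (w ^ 2)).roots.toFinset ∪ (q 1).roots.toFinset) (q (-w)).roots.toFinset
      have := Finset.card_union_le (q (w ^ 2)).roots.toFinset (q 1).roots.toFinset
      have := hroots (w ^ 2)
      have := hroots 1
      have := hroots (-w)
      omega
    rw [ZMod.card_units] at hcard
    omega
  · push Not at hbig
    obtain ⟨h1, h2, h3, h4⟩ := small_cases
    interval_cases p
    all_goals first
      | (exfalso; revert hpp; norm_num; done)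
      | exact (h1 w hw0 hw).elim
      | exact (h3 w hw0 hw).elim
      | exact h2 w hw0 hw
      | exact h4 w hw0 hw

/-- A swapped coset is impossible. -/
theorem false_of_swap (h11 : 11 ≤ p) {e f : V} (hef : Pair ρ e f) {w : ZMod p}
    (h : Pair ρ (pt e f (1 : ZMod p)) (pt e f w)) (hw : ∀ l : ZMod p, l ^ 3 ≠ w) : False := by
  have h5 : 5 ≤ p := by omega
  have hw0 : w ≠ 0 := coord_ne h5 hef h.symm
  have hw1 : w ≠ 1 := fun e => hw 1 (by rw [e, one_pow])
  obtain ⟨l, hl, hl1, g1, g2, g3⟩ := exists_good h11 hw0 hw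
  obtain ⟨k, hk⟩ := coord_torus hef h hw1 hl
  obtain ⟨r, hr, hkf, hke⟩ := hk 0
  rw [pt, zero_smul, zero_add] at hkf
  simp only [zero_mul, zero_add] at hkf
  set c := l ^ 3 with hc
  have d1 : w * c - 1 ≠ 0 := fun e0 => hw l⁻¹ (by
    rw [inv_pow]; exact inv_eq_of_mul_eq_one_left (sub_eq_zero.1 e0))
  have d2 : (1 : ZMod p) - c ≠ 0 := sub_ne_zero.2 (Ne.symm hl1)
  have hP := (hef.map k).symm.smul (a := r * (w * c - 1)⁻¹) (b := r * (1 - c)⁻¹)
    (mul_ne_zero hr (inv_ne_zero d1)) (mul_ne_zero hr (inv_ne_zero d2))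
  set m := w * (c - 1) / (w * c - 1) with hm
  set n := (w - c) / (1 - c) with hn
  have e1 : (r * (w * c - 1)⁻¹) • ρ k f = pt e f m := by
    rw [mul_comm, mul_smul, hkf, smul_add, smul_smul, smul_smul, inv_mul_cancel₀ d1, one_smul, pt, hm,
      div_eq_inv_mul]
  have e2 : (r * (1 - c)⁻¹) • ρ k e = pt e f n := by
    rw [mul_comm, mul_smul, hke, smul_add, smul_smul, smul_smul, inv_mul_cancel₀ d2, one_smul, pt, hn,
      div_eq_inv_mul]
  rw [e1, e2] at hP
  have hm0 : m ≠ 0 := coord_ne h5 hef hP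
  have hn0 : n ≠ 0 := coord_ne h5 hef hP.symm
  have hK : ∀ K : ZMod p, n = K * m → (w * c - 1) * (c - w) = (K * w) * (c - 1) ^ 2 := by
    intro K e
    rw [hn, hm] at e
    field_simp at e
    linear_combination -e
  by_cases hA : ∃ a : ZMod p, a ^ 3 = m
  · obtain ⟨a, ha⟩ := hA
    have ha0 : a ≠ 0 := fun e0 => hm0 (by rw [← ha, e0]; norm_num)
    have := coord_scale hef h ha0
    rw [mul_one, ha] at this
    exact g1 (by rw [hK w ((coord_unique h5 hef hP this).trans (mul_comm m w)), sq w])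
  by_cases hB : ∃ a : ZMod p, a ^ 3 * w = m
  · obtain ⟨a, ha⟩ := hB
    have ha0 : a ≠ 0 := fun e0 => hm0 (by rw [← ha, e0]; norm_num)
    have := coord_scale hef h.symm ha0
    rw [mul_one, ha] at this
    have e3 := coord_unique h5 hef hP this
    exact g2 (by
      rw [hK w⁻¹ (by rw [e3, ← ha, mul_comm (a ^ 3) w, inv_mul_cancel_left₀ hw0]), inv_mul_cancel₀ hw0,
        one_mul])
  push Not at hA hB
  have hC : ∀ a : ZMod p, a ^ 3 ≠ n := by
    intro a ha
    have ha0 : a ≠ 0 := fun e0 => hn0 (by rw [← ha, e0]; norm_num)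
    have := coord_scale hef h ha0
    rw [mul_one, ha] at this
    exact hB a (by rw [ha]; exact (coord_unique h5 hef hP.symm this).symm)
  have hD : ∀ a : ZMod p, a ^ 3 * w ≠ n := by
    intro a ha
    have ha0 : a ≠ 0 := fun e0 => hn0 (by rw [← ha, e0]; norm_num)
    have := coord_scale hef h.symm ha0
    rw [mul_one, ha] at this
    exact hA a (coord_unique h5 hef hP.symm this).symm
  obtain ⟨a, ha0, ha⟩ := cube_cosets hw0 hm0 hn0 hw hA hB hC hD
  have := coord_scale hef hP ha0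
  rw [ha] at this
  have e3 := coord_unique h5 hef hP.symm this
  have ha2 : (a ^ 3 - 1) * (a ^ 3 + 1) = 0 := by
    have : (a ^ 3 * a ^ 3) * m = 1 * m := by rw [one_mul, mul_assoc, ha]; exact e3.symm
    linear_combination mul_right_cancel₀ hm0 this
  rcases mul_eq_zero.1 ha2 with h0 | h0
  · rw [sub_eq_zero.1 h0, one_mul] at ha
    rw [ha] at hP
    exact hP.frame.indep 1 (-1) (by rw [one_smul, neg_one_smul, add_neg_cancel]) |>.1 |> one_ne_zero
  · exact g3 (by rw [hK (-1) (by rw [← ha, eq_neg_of_add_eq_zero_left h0]), neg_one_mul])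

theorem facts13 : (2 : ZMod 13) ≠ 0 ∧ (7 : ZMod 13) ≠ 0 ∧ (12 : ZMod 13) ≠ 0 ∧
    (12 : ZMod 13) * (2 * (-1 - 7 ^ 3) + -1 * (7 ^ 3 - 1)) = 3 ∧
    (12 : ZMod 13) * (2 * (1 - 7 ^ 3) + (-1 * 7 ^ 3 - 1)) = 1 ∧
    (7 : ZMod 13) * (-2 * (-1 - 7 ^ 3) + -1 * (7 ^ 3 - 1)) = 4 ∧
    (7 : ZMod 13) * (-2 * (1 - 7 ^ 3) + (-1 * 7 ^ 3 - 1)) = 1 ∧ (4 : ZMod 13) ≠ -3 := by
  decide +kernel

/-- Express the partner of a point by a coordinate. -/
theorem exists_coord (h5 : 5 ≤ p) {e f q : V} (hef : Pair ρ e f) {x : ZMod p} (hx : x ≠ 0)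
    (hq : Pair ρ (pt e f x) q) : ∃ y : ZMod p, Pair ρ (pt e f x) (pt e f y) := by
  obtain ⟨s, t, rfl⟩ := hef.frame.span q
  by_cases ht : t = 0
  · subst ht
    rw [zero_smul, add_zero] at hq
    have hs : s ≠ 0 := fun e0 => hq.frame.symm.left_ne (by rw [e0, zero_smul])
    have h2 := (hq.symm).smul (inv_ne_zero hs) one_ne_zero
    rw [inv_smul_smul₀ hs, one_smul] at h2
    obtain ⟨c, -, hc⟩ := hef.partner h5 h2
    exact absurd (hef.frame.indep x (1 - c) (by rw [sub_smul, one_smul, ← hc, pt]; abel)).1 hx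
  · refine ⟨t⁻¹ * s, ?_⟩
    have h2 := hq.smul one_ne_zero (inv_ne_zero ht)
    rw [one_smul, smul_add, smul_smul, inv_smul_smul₀ ht] at h2
    exact h2

/-- Three lines are impossible for `p ≥ 17`; all lines for `p ≥ 11`. -/
theorem core (h11 : 11 ≤ p) {e f q : V} (hef : Pair ρ e f) {x₀ : ZMod p} (hx0 : x₀ ≠ 0)
    (hq : Pair ρ (pt e f x₀) q) (hall : 17 ≤ p ∨ ∀ v : V, v ≠ 0 → ∃ w, Pair ρ v w) : False := by
  have h5 : 5 ≤ p := by omega
  have hpp := (Fact.out : p.Prime)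
  obtain ⟨y₀, hy⟩ := exists_coord h5 hef hx0 hq
  obtain ⟨e', he'⟩ : ∃ e', e' = x₀ • e := ⟨_, rfl⟩
  have hef' : Pair ρ e' f := by
    have := hef.smul hx0 one_ne_zero
    rw [one_smul, ← he'] at this
    exact this
  have hneg : ∀ (x z : ZMod p), Pair ρ (pt e' f x) (pt e' f z) → z = -x := by
    intro x z h
    have hx := coord_ne h5 hef' h
    by_cases hex : ∃ a : ZMod p, a ^ 3 * x = z
    · obtain ⟨a, rfl⟩ := hex
      have ha : a ≠ 0 := fun e0 => coord_ne h5 hef' h.symm (by rw [e0]; norm_num)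
      have e3 := coord_unique h5 hef' (coord_scale hef' h ha) h.symm
      have h2 : (a ^ 3 - 1) * (a ^ 3 + 1) = 0 := by
        have : (a ^ 3 * a ^ 3) * x = 1 * x := by rw [one_mul, mul_assoc]; exact e3
        linear_combination mul_right_cancel₀ hx this
      rcases mul_eq_zero.1 h2 with h0 | h0
      · rw [sub_eq_zero.1 h0, one_mul] at h
        exact absurd (h.frame.indep 1 (-1) (by rw [one_smul, neg_one_smul, add_neg_cancel])).1 one_ne_zero
      · rw [eq_neg_of_add_eq_zero_left h0, neg_one_mul]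
    · exfalso
      push Not at hex
      have h2 : Pair ρ (x • e') f := by
        have := hef'.smul hx one_ne_zero
        rwa [one_smul] at this
      refine false_of_swap h11 h2 (w := z * x⁻¹) ?_ fun a ha => hex a (by
        rw [ha, inv_mul_cancel_right₀ hx])
      simp only [pt, smul_smul, one_mul, inv_mul_cancel_right₀ hx]
      exact h
  have h1 : Pair ρ (pt e' f (1 : ZMod p)) (pt e' f ((-1 : ZMod p))) := by
    have h : Pair ρ (pt e' f (1 : ZMod p)) (pt e' f (y₀ * x₀⁻¹)) := by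
      simp only [pt, he', smul_smul, one_mul, inv_mul_cancel_right₀ hx0]
      exact hy
    rwa [hneg _ _ h] at h
  have hm1 : (-1 : ZMod p) ≠ 1 := fun e0 =>
    absurd (h1.frame.indep 1 (-1) (by
      rw [show pt e' f (-1 : ZMod p) = pt e' f (1 : ZMod p) by rw [e0], one_smul, neg_one_smul, add_neg_cancel])).1 one_ne_zero
  have hsq : ∀ l : ZMod p, l ≠ 0 → (l ^ 3) ^ 4 = 1 := by
    intro l hl
    by_cases hc1 : l ^ 3 = 1
    · rw [hc1, one_pow]
    by_cases hc2 : l ^ 3 = -1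
    · rw [hc2]; norm_num
    obtain ⟨k, hk⟩ := coord_torus hef' h1 hm1 hl
    obtain ⟨r, hr, hkf, hke⟩ := hk 0
    rw [pt, zero_smul, zero_add] at hkf
    simp only [zero_mul, zero_add] at hkf
    set c := l ^ 3 with hc
    have d1 : (-1 : ZMod p) * c - 1 ≠ 0 := fun e0 => hc2 (by linear_combination -e0)
    have d2 : (1 : ZMod p) - c ≠ 0 := sub_ne_zero.2 (Ne.symm hc1)
    have hP := (hef'.map k).symm.smul (a := r * (-1 * c - 1)⁻¹) (b := r * (1 - c)⁻¹)
      (mul_ne_zero hr (inv_ne_zero d1)) (mul_ne_zero hr (inv_ne_zero d2))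
    have e1 : (r * (-1 * c - 1)⁻¹) • ρ k f = pt e' f ((-1 * c - 1)⁻¹ * (-1 * (c - 1))) := by
      rw [mul_comm, mul_smul, hkf, smul_add, smul_smul, smul_smul, inv_mul_cancel₀ d1, one_smul]
    have e2 : (r * (1 - c)⁻¹) • ρ k e' = pt e' f ((1 - c)⁻¹ * (-1 - c)) := by
      rw [mul_comm, mul_smul, hke, smul_add, smul_smul, smul_smul, inv_mul_cancel₀ d2, one_smul]
    rw [e1, e2] at hP
    have h3 := hneg _ _ hP
    have h2 : (2 : ZMod p) * (c ^ 2 + 1) = 0 := by
      have h4 : ((1 - c)⁻¹ * (-1 - c)) * ((1 - c) * (-1 * c - 1)) =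
          -((-1 * c - 1)⁻¹ * (-1 * (c - 1))) * ((1 - c) * (-1 * c - 1)) := by rw [h3]
      have i1 : (1 - c)⁻¹ * (1 - c) = 1 := inv_mul_cancel₀ d2
      have i2 : (-1 * c - 1)⁻¹ * (-1 * c - 1) = 1 := inv_mul_cancel₀ d1
      linear_combination h4 - ((-1 - c) * (-1 * c - 1)) * i1 - ((-1) * (c - 1) * (1 - c)) * i2
    rcases mul_eq_zero.1 h2 with h0 | h0
    · exact absurd (show (-1 : ZMod p) = 1 by linear_combination -h0) hm1
    · linear_combination (c ^ 2 - 1) * h0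
  obtain ⟨g, hg⟩ := IsCyclic.exists_generator (α := (ZMod p)ˣ)
  have hog : orderOf g = p - 1 := by
    rw [orderOf_eq_card_of_forall_mem_zpowers hg, Nat.card_eq_fintype_card, ZMod.card_units]
  have hdvd : p - 1 ∣ 12 := hog ▸ orderOf_dvd_of_pow_eq_one (Units.ext (by
    rw [Units.val_pow_eq_pow_val, Units.val_one, show (12 : ℕ) = 3 * 4 from rfl, pow_mul]
    exact hsq g g.ne_zero))
  have hle : p ≤ 13 := by have := Nat.le_of_dvd (by norm_num) hdvd; omega
  have hp13 : p = 13 := by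
    interval_cases p <;> first | rfl | (exfalso; revert hpp; norm_num; done) | (exfalso; revert hdvd; norm_num; done)
  rcases hall with h | h
  · omega
  subst hp13
  have F := facts13
  obtain ⟨w, hw⟩ := h (pt e' f 2) (fun e0 => one_ne_zero (hef'.frame.indep 2 1 (by rwa [one_smul])).2)
  obtain ⟨z, hz⟩ := exists_coord h5 hef' (F.1) hw
  rw [hneg _ _ hz] at hz
  obtain ⟨k, hk⟩ := coord_torus hef' h1 hm1 (l := 7) (F.2.1)
  obtain ⟨r, hr, hk1, -⟩ := hk 2
  obtain ⟨r', hr', hk2, -⟩ := hk (-2)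
  have hP := (hz.map k).smul (a := 12 * r) (b := 7 * r') (mul_ne_zero (F.2.2.1) hr)
    (mul_ne_zero (F.2.1) hr')
  rw [mul_smul, mul_smul, hk1, hk2, smul_add, smul_add, smul_smul, smul_smul, smul_smul, smul_smul] at hP
  rw [show (12 : ZMod 13) * (2 * (-1 - 7 ^ 3) + -1 * (7 ^ 3 - 1)) = 3 from F.2.2.2.1,
    show (12 : ZMod 13) * (2 * (1 - 7 ^ 3) + (-1 * 7 ^ 3 - 1)) = 1 from F.2.2.2.2.1,
    show (7 : ZMod 13) * (-2 * (-1 - 7 ^ 3) + -1 * (7 ^ 3 - 1)) = 4 from F.2.2.2.2.2.1,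
    show (7 : ZMod 13) * (-2 * (1 - 7 ^ 3) + (-1 * 7 ^ 3 - 1)) = 1 from F.2.2.2.2.2.2.1, one_smul] at hP
  exact F.2.2.2.2.2.2.2 (hneg _ _ hP)

end Cfsg.Lib.PLocal.DiagonalPairing
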