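import Mathlib
import Cfsg.Prelude.Def_Transfer

/-!
# Degree bound for faithful actions of extraspecial groups in coprime characteristic
-/

set_option autoImplicit false
open Cfsg Subgroup

namespace Cfsg.Lib.ExtraDim

theorem core {E : Type*} [Group E] [Finite E] {V : Type*} [AddCommGroup V] [Finite V] [Nontrivial V]
    {p r : ℕ} [Fact p.Prime] [hr : Fact r.Prime] (Ψ : E →* AddMonoid.End V)
    (hirr : ∀ U : AddSubgroup V, (∀ e : E, ∀ v ∈ U, Ψ e v ∈ U) → U = ⊥ ∨ U = ⊤)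
    (hrv : ∀ v : V, r • v = 0) (hZ : Nat.card (center E) = p)
    (hfaith : ∀ z ∈ center E, Ψ z = 1 → z = 1) (hcomm : _root_.commutator E ≤ center E) :
    ∃ f d : ℕ, 1 ≤ f ∧ p ∣ r ^ f - 1 ∧ Nat.card E ≤ p * d ^ 2 ∧ Nat.card V = r ^ (f * d) := by
  classical
  set C : Subring (AddMonoid.End V) := Subring.centralizer (Set.range Ψ) with hC
  have hCc : ∀ (c : C) (e : E) (v : V), (c : AddMonoid.End V) (Ψ e v) = Ψ e ((c : AddMonoid.End V) v) :=
    fun c e v => (DFunLike.congr_fun (Subring.mem_centralizer_iff.1 c.2 _ ⟨e, rfl⟩) v).symm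
  haveI : Finite (AddMonoid.End V) := DFunLike.finite _
  haveI : Nontrivial C := ⟨0, 1, fun h => by
    obtain ⟨v, hv⟩ := exists_ne (0 : V)
    exact hv (DFunLike.congr_fun (congrArg Subtype.val h) v).symm⟩
  haveI : NoZeroDivisors C := ⟨fun {a b} h => by
    by_contra! hab
    have hk : (AddMonoidHom.ker (a : AddMonoid.End V)) = ⊥ := by
      refine (hirr _ fun e v hv => ?_).resolve_right fun ht => hab.1 (Subtype.ext (AddMonoidHom.ext fun v => ?_))
      · show (a : AddMonoid.End V) (Ψ e v) = 0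
        rw [hCc, show (a : AddMonoid.End V) v = 0 from hv, map_zero]
      · exact (show v ∈ AddMonoidHom.ker (a : AddMonoid.End V) by rw [ht]; trivial)
    refine hab.2 (Subtype.ext (AddMonoidHom.ext fun v => ?_))
    have : (a : AddMonoid.End V) ((b : AddMonoid.End V) v) = 0 :=
      DFunLike.congr_fun (congrArg Subtype.val h) v
    exact (AddMonoidHom.ker_eq_bot_iff _).1 hk (this.trans (map_zero _).symm)⟩
  haveI : IsDomain C := NoZeroDivisors.to_isDomain C
  letI : Field C := (Finite.isDomain_to_isField C).toField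
  let T : E → (V →ₗ[C] V) := fun e =>
    { toFun := Ψ e
      map_add' := map_add _
      map_smul' := fun c v => (hCc c e v).symm }
  have hT : ∀ x y v, T (x * y) v = T x (T y v) := fun x y v => by
    show Ψ (x * y) v = Ψ x (Ψ y v)
    rw [map_mul]; rfl
  have hTne : ∀ x, T x ≠ 0 := by
    intro x h
    obtain ⟨v, hv⟩ := exists_ne (0 : V)
    have h1 : T x (T x⁻¹ v) = v := by
      rw [← hT, mul_inv_cancel]
      show Ψ 1 v = v
      rw [map_one]; rfl
    exact hv (by rw [← h1, h]; rfl)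
  -- scalars of central elements
  let σ : center E →* C :=
    { toFun := fun z => ⟨Ψ (z : E), Subring.mem_centralizer_iff.2 (by
        rintro _ ⟨e, rfl⟩
        rw [← map_mul, ← map_mul, mem_center_iff.1 z.2 e])⟩
      map_one' := Subtype.ext (map_one Ψ : Ψ ((1 : center E) : E) = 1)
      map_mul' := fun a b => Subtype.ext (map_mul Ψ (a : E) (b : E)) }
  have hσ : Function.Injective σ := fun a b h => by
    have h1 : σ (a⁻¹ * b) = 1 := by rw [map_mul, ← h, ← map_mul, inv_mul_cancel, map_one]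
    exact inv_mul_eq_one.1 (Subtype.ext (hfaith _ (a⁻¹ * b).2 (congrArg Subtype.val h1)))
  have hc : ∀ e x : E, e * x * e⁻¹ * x⁻¹ ∈ center E := fun e x =>
    hcomm (commutator_mem_commutator (mem_top e) (mem_top x))
  let χ : E → (E →* C) := fun x =>
    { toFun := fun e => σ ⟨e * x * e⁻¹ * x⁻¹, hc e x⟩
      map_one' := by rw [show (⟨1 * x * 1⁻¹ * x⁻¹, hc 1 x⟩ : center E) = 1 from Subtype.ext (by simp), map_one]
      map_mul' := fun e e' => by
        rw [← map_mul]
        refine congrArg σ (Subtype.ext ?_)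
        show (e * e') * x * (e * e')⁻¹ * x⁻¹ = (e * x * e⁻¹ * x⁻¹) * (e' * x * e'⁻¹ * x⁻¹)
        have h := mem_center_iff.1 (hc e' x) e
        calc (e * e') * x * (e * e')⁻¹ * x⁻¹
            = (e * (e' * x * e'⁻¹ * x⁻¹)) * (x * e⁻¹ * x⁻¹) := by group
          _ = ((e' * x * e'⁻¹ * x⁻¹) * e) * (x * e⁻¹ * x⁻¹) := by rw [h]
          _ = (e' * x * e'⁻¹ * x⁻¹) * (e * x * e⁻¹ * x⁻¹) := by group
          _ = (e * x * e⁻¹ * x⁻¹) * (e' * x * e'⁻¹ * x⁻¹) := mem_center_iff.1 (hc e x) _ }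
  let ι : E ⧸ center E → E := Quotient.out
  have hι : Function.Injective (χ ∘ ι) := fun a b h => by
    rw [← Quotient.out_eq a, ← Quotient.out_eq b]
    refine QuotientGroup.eq.2 (mem_center_iff.2 fun e => ?_)
    have he : σ ⟨e * ι a * e⁻¹ * (ι a)⁻¹, hc _ _⟩ = σ ⟨e * ι b * e⁻¹ * (ι b)⁻¹, hc _ _⟩ :=
      DFunLike.congr_fun h e
    have he' : e * ι a * e⁻¹ * (ι a)⁻¹ = e * ι b * e⁻¹ * (ι b)⁻¹ := congrArg Subtype.val (hσ he)
    have hz := mem_center_iff.1 (hc e (ι a)) (ι a)⁻¹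
    show e * ((ι a)⁻¹ * ι b) = (ι a)⁻¹ * ι b * e
    have h2 : (e * (ι a)⁻¹ * e⁻¹) = (ι a)⁻¹ * (e * ι a * e⁻¹ * (ι a)⁻¹)⁻¹ := by group
    have h3 : (e * ι b * e⁻¹) = (e * ι b * e⁻¹ * (ι b)⁻¹) * ι b := by group
    have h4 : e * ((ι a)⁻¹ * ι b) = (e * (ι a)⁻¹ * e⁻¹) * (e * ι b * e⁻¹) * e := by group
    rw [h4, h2, h3, he']
    group
  haveI : Module.Finite C V := Module.Finite.of_finite
  set d := Module.finrank C V
  have hli : LinearIndependent C (T ∘ ι) := by
    letI := Fintype.ofFinite (E ⧸ center E)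
    rw [Fintype.linearIndependent_iff]
    intro g hg i
    by_contra hgi
    obtain ⟨v, hv⟩ : ∃ v, T (ι i) v ≠ 0 := by
      by_contra! h
      exact hTne (ι i) (LinearMap.ext h)
    obtain ⟨φ, hφ⟩ : ∃ φ : Module.Dual C V, φ (T (ι i) v) ≠ 0 := by
      by_contra! h
      exact hv ((Module.forall_dual_apply_eq_zero_iff C _).1 h)
    have key : ∀ e : E, ∑ j, (g j * φ (T (ι j) v)) • (χ (ι j) e) = 0 := by
      intro e
      have h0 : T e ((∑ j, g j • T (ι j)) (T e⁻¹ v)) = 0 := by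
        show T e ((∑ j, g j • (T ∘ ι) j) (T e⁻¹ v)) = 0
        rw [hg]; simp
      have h1 : ∀ j, T e (T (ι j) (T e⁻¹ v)) = χ (ι j) e • T (ι j) v := by
        intro j
        rw [← hT, ← hT, show e * ι j * e⁻¹ = (e * ι j * e⁻¹ * (ι j)⁻¹) * ι j by group]
        show Ψ _ v = Ψ _ (Ψ _ v)
        rw [map_mul]; rfl
      simp only [LinearMap.sum_apply, LinearMap.smul_apply, map_sum, map_smul, h1] at h0
      have h5 := congrArg φ h0
      rw [map_sum, map_zero] at h5
      refine Eq.trans (Finset.sum_congr rfl fun j _ => ?_) h5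
      simp only [map_smul, smul_eq_mul]
      ring
    have hind := Fintype.linearIndependent_iff.1 ((linearIndependent_monoidHom E C).comp _ hι)
      (fun j => g j * φ (T (ι j) v)) (by
        funext e
        simp only [Finset.sum_apply, Pi.smul_apply, Function.comp_apply, Pi.zero_apply]
        exact key e) i
    exact (mul_ne_zero hgi hφ) hind
  have hcount : Nat.card (E ⧸ center E) ≤ d ^ 2 := by
    letI := Fintype.ofFinite (E ⧸ center E)
    have := hli.fintype_card_le_finrank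
    rw [Module.finrank_linearMap, ← pow_two] at this
    rwa [Nat.card_eq_fintype_card]
  letI := Fintype.ofFinite C
  haveI : CharP C r := by
    refine (CharP.charP_iff_prime_eq_zero hr.out).2 (Subtype.ext (AddMonoidHom.ext fun v => ?_))
    have h : (((r : C) : AddMonoid.End V)) = r • (1 : AddMonoid.End V) := by
      rw [nsmul_one]; rfl
    rw [h]
    exact hrv v
  obtain ⟨f, -, hf⟩ := FiniteField.card C r
  refine ⟨f, d, f.2, ?_, ?_, ?_⟩
  · rw [← hf]
    obtain ⟨z, hz⟩ := exists_prime_orderOf_dvd_card' (G := center E) p (by rw [hZ])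
    have hd : orderOf (σ z) = p := by rw [orderOf_injective σ hσ, hz]
    rw [← hd]
    refine orderOf_dvd_of_pow_eq_one (FiniteField.pow_card_sub_one_eq_one _ fun h0 => ?_)
    rw [h0, orderOf_zero] at hd
    exact (Fact.out : p.Prime).ne_zero hd.symm
  · rw [card_eq_card_quotient_mul_card_subgroup (center E), hZ, mul_comm]
    exact Nat.mul_le_mul_left p hcount
  · rw [Module.natCard_eq_pow_finrank (K := C), Nat.card_eq_fintype_card, hf, pow_mul]

theorem le_normalizer_of_conj {G : Type*} [Group G] {E U : Subgroup G}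
    (h : ∀ e ∈ E, ∀ x ∈ U, e * x * e⁻¹ ∈ U) : E ≤ normalizer (U : Set G) := fun e he =>
  mem_normalizer_iff.2 fun x => ⟨h e he x, fun hx => by
    have := h e⁻¹ (E.inv_mem he) _ hx
    simpa [mul_assoc] using this⟩

/-- S2912. -/
theorem extraspecial_bound {G : Type*} [Group G] [Finite G] {p r : ℕ} [Fact p.Prime] [hr : Fact r.Prime]
    (hpr : p ≠ r) (E A : Subgroup G) (w : ℕ) (hE : IsExtraspecial p ↥E)
    (hEcard : Nat.card ↥E = p ^ (2 * w + 1)) (hA : IsElementaryAbelian r A)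
    (hnorm : E ≤ normalizer (A : Set G)) (hfaith : E ⊓ centralizer (A : Set G) = ⊥) (n : ℕ)
    (hmin : ∀ k : ℕ, 1 ≤ k → p ∣ r ^ k - 1 → n ≤ k) : r ^ (n * p ^ w) ≤ Nat.card ↥A := by
  classical
  have hAc : ∀ x ∈ A, ∀ y ∈ A, x * y = y * x := fun x hx y hy =>
    congrArg Subtype.val (hA.1.is_comm.comm (⟨x, hx⟩ : A) ⟨y, hy⟩)
  obtain ⟨z, hz⟩ := exists_prime_orderOf_dvd_card' (G := center E) p (by rw [hE.2])
  have hzc : ∀ e ∈ E, e * ((z : E) : G) = ((z : E) : G) * e := fun e he =>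
    congrArg Subtype.val (mem_center_iff.1 z.2 ⟨e, he⟩)
  set ζ : G := ((z : E) : G)
  have hζ : orderOf ζ = p := by rw [Subgroup.orderOf_coe, Subgroup.orderOf_coe, hz]
  have hgen : ∀ y ∈ center E, ∃ k : ℕ, (y : G) = ζ ^ k := by
    intro y hy
    obtain ⟨k, hk⟩ := (Submonoid.mem_powers_iff _ _).1
      (mem_powers_of_prime_card hE.2 (g := z) (g' := (⟨y, hy⟩ : center E))
        (fun h => (Fact.out : p.Prime).ne_one (by rw [← hz, h, orderOf_one])))
    refine ⟨k, ?_⟩
    have := congrArg (fun x : center E => ((x : E) : G)) hk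
    simpa using this.symm
  -- minimal invariant subgroup on which `ζ` acts nontrivially
  obtain ⟨W, ⟨hWA, hWE, hWζ⟩, hWmin⟩ := (Set.toFinite {U : Subgroup G | U ≤ A ∧ E ≤ normalizer (U : Set G) ∧
      ¬ ζ ∈ centralizer (U : Set G)}).exists_minimal ⟨A, le_rfl, hnorm, fun h => by
    have : ζ = 1 := (mem_bot).1 (hfaith ▸ ⟨(z : E).2, h⟩)
    rw [this, orderOf_one] at hζ
    exact (Fact.out : p.Prime).ne_one hζ.symm⟩
  have hconj : ∀ e ∈ E, ∀ a ∈ W, e * a * e⁻¹ ∈ W := fun e he a ha =>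
    (mem_normalizer_iff.1 (hWE he) a).1 ha
  have hζE : ζ ∈ E := (z : E).2
  let δ : W →* W :=
    { toFun := fun a => ⟨ζ * a * ζ⁻¹ * (a : G)⁻¹, W.mul_mem (hconj ζ hζE a a.2) (W.inv_mem a.2)⟩
      map_one' := Subtype.ext (by simp)
      map_mul' := fun a b => Subtype.ext (by
        show ζ * ((a : G) * b) * ζ⁻¹ * ((a : G) * b)⁻¹
          = (ζ * a * ζ⁻¹ * (a : G)⁻¹) * (ζ * b * ζ⁻¹ * (b : G)⁻¹)
        have h := hAc _ (hWA (hconj ζ hζE b b.2)) (a : G)⁻¹ (A.inv_mem (hWA a.2))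
        have h' := hAc (a : G)⁻¹ (A.inv_mem (hWA a.2)) (b : G)⁻¹ (A.inv_mem (hWA b.2))
        calc ζ * ((a : G) * b) * ζ⁻¹ * ((a : G) * b)⁻¹
            = (ζ * a * ζ⁻¹) * (ζ * b * ζ⁻¹) * ((b : G)⁻¹ * (a : G)⁻¹) := by group
          _ = (ζ * a * ζ⁻¹) * ((ζ * b * ζ⁻¹) * (a : G)⁻¹) * (b : G)⁻¹ := by rw [← h']; group
          _ = (ζ * a * ζ⁻¹) * ((a : G)⁻¹ * (ζ * b * ζ⁻¹)) * (b : G)⁻¹ := by rw [h]
          _ = _ := by group) }
  have hfix : ∀ c ∈ W, ∀ a ∈ W, c = ζ * a * ζ⁻¹ * a⁻¹ → ζ * c = c * ζ → c = 1 := by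
    intro c hc a ha hca hcomm
    have hk : ∀ k : ℕ, ζ ^ k * a * (ζ ^ k)⁻¹ = c ^ k * a := by
      intro k
      induction k with
      | zero => simp
      | succ k ih =>
        have hck : ζ * c ^ k = c ^ k * ζ := Commute.pow_right hcomm k
        calc ζ ^ (k + 1) * a * (ζ ^ (k + 1))⁻¹ = ζ * (ζ ^ k * a * (ζ ^ k)⁻¹) * ζ⁻¹ := by
              rw [pow_succ']; group
          _ = c ^ k * (ζ * a * ζ⁻¹ * a⁻¹) * a := by rw [ih, ← mul_assoc, hck]; group
          _ = c ^ (k + 1) * a := by rw [← hca, pow_succ]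
    have h1 : c ^ p = 1 := by
      have := hk p
      rw [← hζ, pow_orderOf_eq_one] at this
      simpa [hζ] using this
    have h2 : c ^ r = 1 := hA.2 c (hWA hc)
    exact orderOf_eq_one_iff.1 (Nat.eq_one_of_dvd_coprimes ((Nat.coprime_primes Fact.out hr.out).2 hpr)
      (orderOf_dvd_of_pow_eq_one h1) (orderOf_dvd_of_pow_eq_one h2))
  have hR : δ.range.map W.subtype = W := by
    refine le_antisymm (map_subtype_le _) (hWmin ⟨(map_subtype_le _).trans hWA, fun e he => ?_, fun h => ?_⟩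
      (map_subtype_le _))
    · refine le_normalizer_of_conj ?_ he
      rintro e he _ ⟨_, ⟨a, rfl⟩, rfl⟩
      refine ⟨δ ⟨e * a * e⁻¹, hconj e he a a.2⟩, ⟨_, rfl⟩, ?_⟩
      show ζ * (e * a * e⁻¹) * ζ⁻¹ * (e * (a : G) * e⁻¹)⁻¹ = e * (ζ * a * ζ⁻¹ * (a : G)⁻¹) * e⁻¹
      have he' : e * ζ = ζ * e := hzc e he
      have he'' : e⁻¹ * ζ⁻¹ = ζ⁻¹ * e⁻¹ := by rw [← mul_inv_rev, ← mul_inv_rev, he']
      calc ζ * (e * a * e⁻¹) * ζ⁻¹ * (e * (a : G) * e⁻¹)⁻¹
          = (ζ * e) * a * (e⁻¹ * ζ⁻¹) * (e * (a : G) * e⁻¹)⁻¹ := by group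
        _ = (e * ζ) * a * (ζ⁻¹ * e⁻¹) * (e * (a : G) * e⁻¹)⁻¹ := by rw [he', he'']
        _ = _ := by group
    · refine hWζ (mem_centralizer_iff.2 fun a ha => ?_)
      have hc := hfix _ (W.mul_mem (hconj ζ hζE a ha) (W.inv_mem ha)) a ha rfl
        (mem_centralizer_iff.1 h _ ⟨δ ⟨a, ha⟩, ⟨_, rfl⟩, rfl⟩).symm
      rw [mul_inv_eq_one, mul_inv_eq_iff_eq_mul] at hc
      exact hc.symm
  have hinj : Function.Injective δ := Finite.injective_iff_surjective.2 fun b => by
    obtain ⟨c, ⟨a, rfl⟩, hc⟩ := (hR.ge b.2 : (b : G) ∈ _)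
    exact ⟨a, Subtype.ext hc⟩
  have hnofix : ∀ a ∈ W, ζ * a = a * ζ → a = 1 := fun a ha h => by
    have h1 : δ ⟨a, ha⟩ = δ 1 := by
      rw [map_one]
      exact Subtype.ext (by show ζ * a * ζ⁻¹ * a⁻¹ = 1; rw [h, mul_inv_cancel_right, mul_inv_cancel])
    exact congrArg Subtype.val (hinj h1)
  haveI : IsMulCommutative W := ⟨⟨fun x y => Subtype.ext (hAc x (hWA x.2) y (hWA y.2))⟩⟩
  letI : CommGroup W := { (inferInstance : Group W) with mul_comm := fun x y => Subtype.ext (hAc x (hWA x.2) y (hWA y.2)) }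
  let φ : E → (W →* W) := fun e =>
    { toFun := fun a => ⟨(e : G) * a * (e : G)⁻¹, hconj e e.2 a a.2⟩
      map_one' := Subtype.ext (by simp)
      map_mul' := fun a b => Subtype.ext (by
        show (e : G) * ((a : G) * b) * (e : G)⁻¹ = ((e : G) * a * (e : G)⁻¹) * ((e : G) * b * (e : G)⁻¹)
        group) }
  let Ψ : E →* AddMonoid.End (Additive W) :=
    { toFun := fun e => MonoidHom.toAdditive (φ e)
      map_one' := AddMonoidHom.ext fun a => Subtype.ext (by
        show ((1 : E) : G) * (Additive.toMul a : W) * ((1 : E) : G)⁻¹ = (Additive.toMul a : W)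
        simp)
      map_mul' := fun e e' => AddMonoidHom.ext fun a => Subtype.ext (by
        show ((e * e' : E) : G) * (Additive.toMul a : W) * ((e * e' : E) : G)⁻¹
          = (e : G) * ((e' : G) * (Additive.toMul a : W) * (e' : G)⁻¹) * (e : G)⁻¹
        rw [Subgroup.coe_mul]; group) }
  have hW1 : W ≠ ⊥ := fun h => hWζ (by
    rw [h]
    refine mem_centralizer_iff.2 fun a ha => ?_
    rw [Subgroup.coe_bot, Set.mem_singleton_iff] at ha
    rw [ha, one_mul, mul_one])
  haveI : Nontrivial W := (nontrivial_iff_ne_bot W).2 hW1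
  obtain ⟨f, d, hf, hdvd, hle, hcard⟩ := core (p := p) (r := r) Ψ
    (fun U hU => by
      by_cases hUb : U = ⊥
      · exact Or.inl hUb
      right
      set U' : Subgroup G := (AddSubgroup.toSubgroup' U).map W.subtype
      have hU'W : U' ≤ W := map_subtype_le _
      have hU'N : E ≤ normalizer (U' : Set G) := le_normalizer_of_conj fun e he x hx => by
        obtain ⟨a, ha, rfl⟩ := hx
        exact ⟨φ ⟨e, he⟩ a, hU ⟨e, he⟩ (Additive.ofMul a) ha, rfl⟩
      have hU'ζ : ¬ ζ ∈ centralizer (U' : Set G) := fun h => by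
        refine hUb (eq_bot_iff.2 fun v hv => ?_)
        have := hnofix _ (Additive.toMul v).2
          (mem_centralizer_iff.1 h _ ⟨Additive.toMul v, hv, rfl⟩).symm
        exact AddSubgroup.mem_bot.2 (by
          have h1 : Additive.toMul v = 1 := Subtype.ext this
          exact h1)
      have hWU : W ≤ U' := hWmin ⟨hU'W.trans hWA, hU'N, hU'ζ⟩ hU'W
      refine eq_top_iff.2 fun v _ => ?_
      obtain ⟨a, ha, hav⟩ := hWU (Additive.toMul v).2
      have : a = Additive.toMul v := Subtype.ext hav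
      subst this
      exact ha)
    (fun v => by
      show (Additive.toMul v) ^ r = 1
      exact Subtype.ext (by simpa using hA.2 _ (hWA (Additive.toMul v).2)))
    hE.2
    (fun y hy h => by
      by_contra hy1
      obtain ⟨a, ha⟩ := exists_ne (1 : W)
      obtain ⟨k, hk⟩ := hgen y hy
      have hya : (y : G) * a * (y : G)⁻¹ = a :=
        congrArg Subtype.val (DFunLike.congr_fun h (Additive.ofMul a))
      have hya' : Commute (ζ ^ k) (a : G) := by
        show _ * _ = _ * _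
        rw [← hk]
        exact mul_inv_eq_iff_eq_mul.1 hya
      have hcop : k.Coprime (orderOf ζ) := by
        rw [hζ]
        refine ((Fact.out : p.Prime).coprime_iff_not_dvd.2 fun hd => hy1 ?_).symm
        rw [← hζ] at hd
        exact Subtype.ext (hk.trans (orderOf_dvd_iff_pow_eq_one.1 hd))
      obtain ⟨m, hm⟩ := exists_pow_eq_self_of_coprime hcop
      have : Commute ζ (a : G) := by rw [← hm]; exact hya'.pow_left m
      exact ha (Subtype.ext (hnofix a a.2 this)))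
    hE.1.2.2.le
  have hd : p ^ w ≤ d := by
    rw [hEcard, pow_succ'] at hle
    have h1 := Nat.le_of_mul_le_mul_left hle (Fact.out : p.Prime).pos
    rw [mul_comm 2 w, pow_mul] at h1
    exact (Nat.pow_le_pow_iff_left two_ne_zero).1 h1
  calc r ^ (n * p ^ w) ≤ r ^ (f * d) :=
        Nat.pow_le_pow_right hr.out.pos (Nat.mul_le_mul (hmin f hf hdvd) hd)
    _ = Nat.card W := hcard.symm.trans (Nat.card_congr Additive.toMul)
    _ ≤ Nat.card A := Nat.card_le_card_of_injective _ (Subgroup.inclusion_injective hWA)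

end Cfsg.Lib.ExtraDim
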