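import Mathlib
import Cfsg.Prelude.Def_Transfer
import Cfsg.Agent.Lib.PLocal.DiagonalPairing

/-!
Groups with an extraspecial Sylow subgroup of order `p ^ 3` and large automizers of its maximal subgroups.
-/

set_option autoImplicit false

open scoped commutatorElement
open Subgroup

namespace Cfsg.Lib.PLocal.ExtraspecialThree

open Cfsg.Lib.PLocal.DiagonalPairing

variable {p : ℕ} [Fact p.Prime]

theorem frame_of_card {W : Type*} [AddCommGroup W] [Module (ZMod p) W] [Finite W]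
    (hW : Nat.card W = p ^ 2) {v u : W} (hv : v ≠ 0) (hu : ∀ c : ZMod p, c • v ≠ u) :
    Frame (p := p) v u := by
  have hi : ∀ s t : ZMod p, s • v + t • u = 0 → s = 0 ∧ t = 0 := by
    intro s t h
    have ht : t = 0 := by
      by_contra ht
      apply hu (-(t⁻¹ * s))
      rw [neg_smul, mul_smul, ← smul_neg, neg_eq_of_add_eq_zero_right h, inv_smul_smul₀ ht]
    rw [ht, zero_smul, add_zero] at h
    exact ⟨(smul_eq_zero.1 h).resolve_right hv, ht⟩
  refine ⟨hi, fun w => ?_⟩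
  have hinj : Function.Injective fun st : ZMod p × ZMod p => st.1 • v + st.2 • u := by
    intro a b h
    obtain ⟨h1, h2⟩ := hi (a.1 - b.1) (a.2 - b.2) (by
      rw [sub_smul, sub_smul]
      have := sub_eq_zero.2 h
      simp only at this
      rw [← this]; abel)
    exact Prod.ext (sub_eq_zero.1 h1) (sub_eq_zero.1 h2)
  obtain ⟨st, hst⟩ := ((Nat.bijective_iff_injective_and_card _).2
    ⟨hinj, by rw [hW, Nat.card_prod, Nat.card_zmod, sq]⟩).2 w
  exact ⟨st.1, st.2, hst.symm⟩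

variable {G : Type*} [Group G]

/-- The diagonal automorphism of `⟨x, z⟩` with inverse multipliers is induced. -/
def Full (p : ℕ) (x z : G) : Prop :=
  ∀ i j : ℕ, (i : ZMod p) * (j : ZMod p) = 1 → ∃ g : G, g * x * g⁻¹ = x ^ i ∧ g * z * g⁻¹ = z ^ j

/-- The upper transvection is induced. -/
def Up (p : ℕ) (x z : G) : Prop :=
  ∀ t : ZMod p, ∃ g : G, g * x * g⁻¹ = x * z ^ t.val ∧ g * z * g⁻¹ = z

theorem pow_congr {x : G} (hx : x ^ p = 1) {a b : ℕ} (h : (a : ZMod p) = b) : x ^ a = x ^ b := by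
  rw [ZMod.natCast_eq_natCast_iff'] at h
  rw [pow_eq_pow_mod a hx, pow_eq_pow_mod b hx, h]

theorem conj_pow_pow {x z : G} {g : G} {k : ℕ} (hgx : g * x * g⁻¹ = x * z ^ k) (hgz : g * z * g⁻¹ = z) :
    ∀ n : ℕ, g ^ n * x * (g ^ n)⁻¹ = x * z ^ (n * k) ∧ g ^ n * z * (g ^ n)⁻¹ = z := by
  intro n
  induction n with
  | zero => simp
  | succ n ih =>
    rw [pow_succ', mul_inv_rev]
    refine ⟨?_, ?_⟩
    · calc g * g ^ n * x * ((g ^ n)⁻¹ * g⁻¹) = g * (g ^ n * x * (g ^ n)⁻¹) * g⁻¹ := by group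
        _ = (g * x * g⁻¹) * (g * z * g⁻¹) ^ (n * k) := by rw [ih.1, conj_pow]; group
        _ = x * z ^ ((n + 1) * k) := by
          rw [hgx, hgz, mul_assoc, ← pow_add]; congr 2; ring
    · calc g * g ^ n * z * ((g ^ n)⁻¹ * g⁻¹) = g * (g ^ n * z * (g ^ n)⁻¹) * g⁻¹ := by group
        _ = z := by rw [ih.2, hgz]

/-- One nontrivial transvection induces all. -/
theorem up_of_one {x z : G} (hz : z ^ p = 1) {g : G} {k : ℕ} (hk : (k : ZMod p) ≠ 0)
    (hgx : g * x * g⁻¹ = x * z ^ k) (hgz : g * z * g⁻¹ = z) : Up p x z := by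
  intro t
  obtain ⟨h1, h2⟩ := conj_pow_pow hgx hgz (t * (k : ZMod p)⁻¹).val
  refine ⟨_, h1.trans ?_, h2⟩
  congr 1
  apply pow_congr hz
  push_cast
  rw [ZMod.natCast_zmod_val, ZMod.natCast_zmod_val, inv_mul_cancel_right₀ hk]

/-- Both families of transvections give the diagonal automorphisms. -/
theorem full_of_up {x z : G} (hx : x ^ p = 1) (hz : z ^ p = 1) (hxz : Commute x z)
    (h12 : Up p x z) (h21 : Up p z x) : Full p x z := by
  intro i j hij
  have hcomb : ∀ (g : G) (a b : ℕ), g * (x ^ a * z ^ b) * g⁻¹ =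
      (g * x * g⁻¹) ^ a * (g * z * g⁻¹) ^ b := fun g a b => by
    rw [conj_pow, conj_pow]; group
  -- action in exponents
  let M : ZMod p → ZMod p → G := fun s t => x ^ s.val * z ^ t.val
  have hM : ∀ a b : ℕ, x ^ a * z ^ b = M a b := fun a b =>
    congrArg₂ (· * ·) (pow_congr hx (ZMod.natCast_zmod_val _).symm) (pow_congr hz (ZMod.natCast_zmod_val _).symm)
  have e12 : ∀ c : ZMod p, ∃ g : G, ∀ s t, g * M s t * g⁻¹ = M s (t + c * s) := by
    intro c
    obtain ⟨g, h1, h2⟩ := h12 c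
    refine ⟨g, fun s t => ?_⟩
    show g * (x ^ s.val * z ^ t.val) * g⁻¹ = _
    rw [hcomb, h1, h2, (hxz.pow_right _).mul_pow, mul_assoc, ← pow_mul, ← pow_add, hM]
    congr 1
    · exact ZMod.natCast_zmod_val _
    · push_cast [ZMod.natCast_zmod_val]; ring
  have e21 : ∀ c : ZMod p, ∃ g : G, ∀ s t, g * M s t * g⁻¹ = M (s + c * t) t := by
    intro c
    obtain ⟨g, h1, h2⟩ := h21 c
    refine ⟨g, fun s t => ?_⟩
    show g * (x ^ s.val * z ^ t.val) * g⁻¹ = _
    rw [hcomb, h1, h2, ((hxz.pow_left _).symm).mul_pow, ← pow_mul,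
      ← (hxz.pow_pow (c.val * t.val) t.val).eq, ← mul_assoc, ← pow_add, hM]
    congr 1
    · push_cast [ZMod.natCast_zmod_val]; ring
    · exact ZMod.natCast_zmod_val _
  have hi0 : (i : ZMod p) ≠ 0 := left_ne_zero_of_mul_eq_one hij
  obtain ⟨g1, k1⟩ := e12 (i : ZMod p)
  obtain ⟨g2, k2⟩ := e21 (-(j : ZMod p))
  obtain ⟨g3, k3⟩ := e12 (-1)
  obtain ⟨g4, k4⟩ := e21 1
  have htot : ∀ s t : ZMod p, (g1 * g2 * g1 * g3 * g4 * g3) * M s t * (g1 * g2 * g1 * g3 * g4 * g3)⁻¹ =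
      M ((j : ZMod p) * s) ((i : ZMod p) * t) := by
    intro s t
    calc _ = g1 * (g2 * (g1 * (g3 * (g4 * (g3 * M s t * g3⁻¹) * g4⁻¹) * g3⁻¹) * g1⁻¹) * g2⁻¹) * g1⁻¹ := by
          group
      _ = _ := by
          rw [k3, k4, k3, k1, k2, k1]
          congr 1
          · linear_combination (-t) * hij
          · linear_combination (s - t * (i : ZMod p)) * hij
  -- invert the roles
  refine ⟨(g1 * g2 * g1 * g3 * g4 * g3)⁻¹, ?_, ?_⟩
  · have h := htot ((i : ℕ) : ZMod p) 0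
    rw [mul_comm (j : ZMod p), hij, mul_zero] at h
    have e1 : M (i : ZMod p) 0 = x ^ i := by
      have := hM i 0
      rw [pow_zero, mul_one, Nat.cast_zero] at this
      exact this.symm
    have e2 : M 1 0 = x := by
      have := hM 1 0
      rw [pow_one, pow_zero, mul_one, Nat.cast_one, Nat.cast_zero] at this
      exact this.symm
    rw [e1, e2] at h
    calc _ = (g1 * g2 * g1 * g3 * g4 * g3)⁻¹ * ((g1 * g2 * g1 * g3 * g4 * g3) * x ^ i * (g1 * g2 * g1 * g3 * g4 * g3)⁻¹) * (g1 * g2 * g1 * g3 * g4 * g3) := by rw [h, inv_inv]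
      _ = x ^ i := by group
  · have h := htot 0 ((j : ℕ) : ZMod p)
    rw [hij, mul_zero] at h
    have e1 : M 0 (j : ZMod p) = z ^ j := by
      have := hM 0 j
      rw [pow_zero, one_mul, Nat.cast_zero] at this
      exact this.symm
    have e2 : M 0 1 = z := by
      have := hM 0 1
      rw [pow_one, pow_zero, one_mul, Nat.cast_one, Nat.cast_zero] at this
      exact this.symm
    rw [e1, e2] at h
    calc _ = (g1 * g2 * g1 * g3 * g4 * g3)⁻¹ * ((g1 * g2 * g1 * g3 * g4 * g3) * z ^ j * (g1 * g2 * g1 * g3 * g4 * g3)⁻¹) * (g1 * g2 * g1 * g3 * g4 * g3) := by rw [h, inv_inv]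
      _ = z ^ j := by group

/-- The first transvection family from automorphisms of order `p`. -/
theorem up_of_aut {A : Subgroup G} {x z : G} (hxA : x ∈ A) (hzA : z ∈ A) (hx : x ^ p = 1)
    (hz : z ^ p = 1) (hind : ∀ s t : ZMod p, x ^ s.val * z ^ t.val = 1 → s = 0 ∧ t = 0)
    (hgen : ∀ a ∈ A, ∃ s t : ZMod p, a = x ^ s.val * z ^ t.val) (hxz : Commute x z)
    (hSL : ∀ φ : MulAut ↥A, orderOf φ = p → ∃ g : G, ∀ a : ↥A, (φ a : G) = g * (a : G) * g⁻¹) :
    Up p x z := by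
  have hmem : ∀ s t : ZMod p, x ^ s.val * z ^ t.val ∈ A := fun s t =>
    mul_mem (pow_mem hxA _) (pow_mem hzA _)
  have hadd : ∀ s t s' t' : ZMod p, (x ^ s.val * z ^ t.val) * (x ^ s'.val * z ^ t'.val) =
      x ^ (s + s').val * z ^ (t + t').val := by
    intro s t s' t'
    rw [(hxz.pow_pow s'.val t.val).symm.mul_mul_mul_comm, ← pow_add, ← pow_add,
      pow_congr (p := p) hx (show ((s.val + s'.val : ℕ) : ZMod p) = ((s + s').val : ℕ) by simp),
      pow_congr (p := p) hz (show ((t.val + t'.val : ℕ) : ZMod p) = ((t + t').val : ℕ) by simp)]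
  choose cs ct hct using fun a : ↥A => hgen a a.2
  have huniq : ∀ (s t s' t' : ZMod p), x ^ s.val * z ^ t.val = x ^ s'.val * z ^ t'.val → s = s' ∧ t = t' := by
    intro s t s' t' h
    obtain ⟨h1, h2⟩ := hind (s - s') (t - t') (by
      refine mul_right_cancel (b := x ^ s'.val * z ^ t'.val) ?_
      rw [hadd, sub_add_cancel, sub_add_cancel, one_mul, h])
    exact ⟨sub_eq_zero.1 h1, sub_eq_zero.1 h2⟩
  have hc : ∀ a b : ↥A, cs (a * b) = cs a + cs b ∧ ct (a * b) = ct a + ct b := by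
    intro a b
    refine huniq _ _ _ _ ?_
    rw [← hct (a * b), ← hadd, ← hct a, ← hct b]
    rfl
  let T : ZMod p → (↥A → ↥A) := fun c a => ⟨x ^ (cs a).val * z ^ (ct a + c * cs a).val, hmem _ _⟩
  have hTc : ∀ c a, cs (T c a) = cs a ∧ ct (T c a) = ct a + c * cs a := fun c a =>
    huniq _ _ _ _ (hct (T c a)).symm
  have hTT : ∀ c d a, T c (T d a) = T (c + d) a := by
    intro c d a
    apply Subtype.ext
    show x ^ (cs (T d a)).val * z ^ (ct (T d a) + c * cs (T d a)).val = _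
    rw [(hTc d a).1, (hTc d a).2, add_assoc, add_comm (d * cs a), ← add_mul]
  have hT0 : ∀ a, T 0 a = a := fun a => Subtype.ext (by
    show x ^ (cs a).val * z ^ (ct a + 0 * cs a).val = _
    rw [zero_mul, add_zero, ← hct])
  let φ : MulAut ↥A :=
    { toFun := T 1
      invFun := T (-1)
      left_inv := fun a => by rw [hTT, neg_add_cancel, hT0]
      right_inv := fun a => by rw [hTT, add_neg_cancel, hT0]
      map_mul' := fun a b => Subtype.ext (by
        show _ = (T 1 a : G) * (T 1 b : G)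
        show x ^ (cs (a * b)).val * z ^ (ct (a * b) + 1 * cs (a * b)).val = _
        rw [(hc a b).1, (hc a b).2]
        show _ = (x ^ (cs a).val * z ^ (ct a + 1 * cs a).val) * (x ^ (cs b).val * z ^ (ct b + 1 * cs b).val)
        rw [hadd]
        congr 3
        ring) }
  have hpw : ∀ (n : ℕ) (a : ↥A), (φ ^ n) a = T n a := by
    intro n
    induction n with
    | zero => intro a; rw [pow_zero, MulAut.one_apply, Nat.cast_zero, hT0]
    | succ n ih =>
      intro a
      rw [pow_succ', MulAut.mul_apply, ih]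
      show T 1 (T n a) = _
      rw [hTT, Nat.cast_succ, add_comm]
  have hone : ∀ (a : G) (ha : a ∈ A) (s t : ZMod p), a = x ^ s.val * z ^ t.val →
      cs ⟨a, ha⟩ = s ∧ ct ⟨a, ha⟩ = t := fun a ha s t h =>
    huniq _ _ _ _ ((hct ⟨a, ha⟩).symm.trans h)
  have hx1 := hone x hxA 1 0 (by simp [ZMod.val_one])
  have hz1 := hone z hzA 0 1 (by simp [ZMod.val_one])
  have hord : orderOf φ = p := by
    refine orderOf_eq_prime ?_ ?_
    · ext a : 1
      rw [hpw, ZMod.natCast_self, hT0, MulAut.one_apply]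
    · intro h
      have := congrArg ct (congrArg (fun ψ : MulAut ↥A => ψ ⟨x, hxA⟩) h)
      rw [MulAut.one_apply, show φ ⟨x, hxA⟩ = T 1 ⟨x, hxA⟩ from rfl, (hTc _ _).2, hx1.1, hx1.2] at this
      simp at this
  obtain ⟨g, hg⟩ := hSL φ hord
  refine up_of_one (k := 1) hz (by simp) (g := g) ?_ ?_
  · rw [← hg ⟨x, hxA⟩]
    show x ^ (cs _).val * z ^ (ct _ + 1 * cs _).val = _
    rw [hx1.1, hx1.2]
    simp [ZMod.val_one]
  · rw [← hg ⟨z, hzA⟩]
    show x ^ (cs _).val * z ^ (ct _ + 1 * cs _).val = _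
    rw [hz1.1, hz1.2]
    simp [ZMod.val_one]

section setting

variable [Finite G] (P : Sylow p G)

/-- The data of an extraspecial Sylow subgroup of order `p ^ 3` and exponent `p`. -/
structure Data (z : G) : Prop where
  card : Nat.card ↥(P : Subgroup G) = p ^ 3
  pow : ∀ q ∈ (P : Subgroup G), q ^ p = 1
  mem : z ∈ (P : Subgroup G)
  cen : ∀ q ∈ (P : Subgroup G), Commute z q
  zne : z ≠ 1
  com : ∀ a ∈ (P : Subgroup G), ∀ b ∈ (P : Subgroup G), ∃ k : ZMod p, ⁅a, b⁆ = z ^ k.val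
  center : ∀ a ∈ (P : Subgroup G), (∀ b ∈ (P : Subgroup G), Commute a b) → ∃ k : ZMod p, a = z ^ k.val

omit [Finite G] in
theorem exists_data (hE : Cfsg.IsExtraspecial p ↥P) (hcard : Nat.card P = p ^ 3)
    (hexp : Monoid.exponent ↥P = p) : ∃ z, Data P z := by
  haveI : IsCyclic (Subgroup.center ↥P) := isCyclic_of_prime_card hE.2
  obtain ⟨ζ, hζ⟩ := IsCyclic.exists_generator (α := Subgroup.center ↥P)
  have hpow : ∀ q ∈ (P : Subgroup G), q ^ p = 1 := by
    intro q hq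
    have h := Monoid.pow_exponent_eq_one (⟨q, hq⟩ : ↥P)
    rw [hexp] at h
    exact congrArg Subtype.val h
  have hzp : ((ζ : ↥P) : G) ^ p = 1 := hpow _ (ζ : ↥P).2
  have hz : ∀ a : ↥P, a ∈ Subgroup.center ↥P → ∃ k : ZMod p, (a : G) = ((ζ : ↥P) : G) ^ k.val := by
    intro a ha
    obtain ⟨n, hn⟩ := Subgroup.mem_zpowers_iff.1 (hζ ⟨a, ha⟩)
    obtain ⟨m, hm⟩ : ∃ m : ℕ, ζ ^ m = ⟨a, ha⟩ := by
      have hf : IsOfFinOrder ζ := isOfFinOrder_iff_pow_eq_one.2 ⟨p, (Fact.out : p.Prime).pos, by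
        have := pow_card_eq_one' (x := ζ)
        rwa [hE.2] at this⟩
      exact (Submonoid.mem_powers_iff _ _).1 (hf.mem_powers_iff_mem_zpowers.2 (hζ _))
    refine ⟨(m : ZMod p), ?_⟩
    rw [pow_congr hzp (show (((m : ZMod p).val : ℕ) : ZMod p) = m from ZMod.natCast_zmod_val _)]
    exact (congrArg (fun u : Subgroup.center ↥P => ((u : ↥P) : G)) hm).symm
  refine ⟨((ζ : ↥P) : G), ⟨hcard, hpow, (ζ : ↥P).2, ?_, ?_, ?_, ?_⟩⟩
  · intro q hq
    exact congrArg Subtype.val (Subgroup.mem_center_iff.1 ζ.2 ⟨q, hq⟩).symm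
  · intro h
    have h1 : ∀ u : Subgroup.center ↥P, u = 1 := fun u => by
      obtain ⟨k, hk⟩ := hz u u.2
      rw [h, one_pow] at hk
      exact Subtype.ext (Subtype.ext hk)
    haveI : Subsingleton (Subgroup.center ↥P) := ⟨fun a b => (h1 a).trans (h1 b).symm⟩
    have := hE.2
    rw [Nat.card_unique] at this
    exact (Fact.out : p.Prime).ne_one this.symm
  · intro a ha b hb
    obtain ⟨k, hk⟩ := hz ⁅(⟨a, ha⟩ : ↥P), ⟨b, hb⟩⁆ (by
      rw [← hE.1.2.2]
      exact Subgroup.commutator_mem_commutator (Subgroup.mem_top _) (Subgroup.mem_top _))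
    exact ⟨k, hk⟩
  · intro a ha h
    exact hz ⟨a, ha⟩ (Subgroup.mem_center_iff.2 fun b => Subtype.ext (h b b.2).symm.eq)

variable {P}

theorem Data.zpow_p {z : G} (D : Data P z) : z ^ p = 1 := D.pow z D.mem

theorem Data.pow_eq_one {z : G} (D : Data P z) {k : ZMod p} (h : z ^ k.val = 1) : k = 0 := by
  have ho : orderOf z = p := orderOf_eq_prime D.zpow_p D.zne
  have hd := orderOf_dvd_of_pow_eq_one h
  rw [ho] at hd
  have := Nat.eq_zero_of_dvd_of_lt hd (ZMod.val_lt k)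
  exact (ZMod.val_eq_zero k).1 this

theorem Data.conj {z : G} (D : Data P z) {a b : G} (ha : a ∈ (P : Subgroup G)) (hb : b ∈ (P : Subgroup G)) :
    ∃ k : ZMod p, a * b * a⁻¹ = b * z ^ k.val := by
  obtain ⟨k, hk⟩ := D.com a ha b hb
  refine ⟨k, ?_⟩
  rw [← ((D.cen b hb).pow_left k.val).eq, ← hk, commutatorElement_def]
  group

theorem Data.commutator_mul {z : G} (D : Data P z) {a b c : G} (ha : a ∈ (P : Subgroup G))
    (hb : b ∈ (P : Subgroup G)) (hc : c ∈ (P : Subgroup G)) :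
    ⁅a, b * c⁆ = ⁅a, b⁆ * ⁅a, c⁆ ∧ ⁅a * b, c⁆ = ⁅a, c⁆ * ⁅b, c⁆ := by
  obtain ⟨k, hk⟩ := D.com a ha c hc
  obtain ⟨m, hm⟩ := D.com b hb c hc
  have e1 : ⁅a, b * c⁆ = ⁅a, b⁆ * (b * ⁅a, c⁆ * b⁻¹) := by simp only [commutatorElement_def]; group
  have e2 : ⁅a * b, c⁆ = (a * ⁅b, c⁆ * a⁻¹) * ⁅a, c⁆ := by simp only [commutatorElement_def]; group
  refine ⟨?_, ?_⟩
  · rw [e1, hk, ← ((D.cen b hb).pow_left k.val).eq, mul_inv_cancel_right]
  · rw [e2, hm, hk, ← ((D.cen a ha).pow_left m.val).eq, mul_inv_cancel_right, ← pow_add, ← pow_add,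
      add_comm]

theorem Data.commutator_pow {z : G} (D : Data P z) {a b : G} (ha : a ∈ (P : Subgroup G))
    (hb : b ∈ (P : Subgroup G)) : ∀ m n : ℕ, ⁅a ^ m, b ^ n⁆ = ⁅a, b⁆ ^ (m * n) := by
  have h1 : ∀ (n : ℕ) (u : G), u ∈ (P : Subgroup G) → ⁅u, b ^ n⁆ = ⁅u, b⁆ ^ n := by
    intro n u hu
    induction n with
    | zero => rw [pow_zero, pow_zero, commutatorElement_one_right]
    | succ n ih => rw [pow_succ, (D.commutator_mul hu (pow_mem hb n) hb).1, ih, ← pow_succ]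
  intro m n
  induction m with
  | zero => rw [pow_zero, commutatorElement_one_left, zero_mul, pow_zero]
  | succ m ih =>
    rw [pow_succ, (D.commutator_mul (pow_mem ha m) ha (pow_mem hb n)).2, ih, h1 n a ha, ← pow_add]
    congr 1
    ring

/-- An element outside `⟨x, z⟩` moves `x`. -/
theorem Data.exists_move {z : G} (D : Data P z) {x : G} (hx : x ∈ (P : Subgroup G))
    (hxz : ∀ k : ZMod p, x ≠ z ^ k.val) :
    ∃ y ∈ (P : Subgroup G), ∃ t : ZMod p, t ≠ 0 ∧ y * x * y⁻¹ = x * z ^ t.val := by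
  by_contra hno
  push Not at hno
  obtain ⟨k, hk⟩ := D.center x hx fun b hb => by
    obtain ⟨t, ht⟩ := D.conj hb hx
    have : t = 0 := by
      by_contra h
      exact hno b hb t h ht
    rw [this, ZMod.val_zero, pow_zero, mul_one, mul_inv_eq_iff_eq_mul] at ht
    exact ht.symm
  exact hxz k hk

/-- Lift an automorphism of `⟨x, z⟩` to the normalizer of the Sylow subgroup. -/
theorem exists_lift {z : G} (D : Data P z) {x : G} (hx : x ∈ (P : Subgroup G))
    (hxz : ∀ k : ZMod p, x ≠ z ^ k.val) {g : G} {i j : ℕ} (hij : (i : ZMod p) * (j : ZMod p) = 1)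
    (hgx : g * x * g⁻¹ = x ^ i) (hgz : g * z * g⁻¹ = z ^ j) :
    ∃ n ∈ Subgroup.normalizer ((P : Subgroup G) : Set G), n * x * n⁻¹ = x ^ i ∧ n * z * n⁻¹ = z ^ j := by
  obtain ⟨y, hy, t, ht, hyx⟩ := D.exists_move hx hxz
  have hyz : y * z * y⁻¹ = z := by rw [← (D.cen y hy).eq, mul_inv_cancel_right]
  set K := Subgroup.centralizer ({x, z} : Set G) with hK
  have hKmem : ∀ u : G, u ∈ K ↔ u * x * u⁻¹ = x ∧ u * z * u⁻¹ = z := by
    intro u
    rw [hK, Subgroup.mem_centralizer_iff]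
    simp only [Set.mem_insert_iff, Set.mem_singleton_iff, forall_eq_or_imp, forall_eq, mul_inv_eq_iff_eq_mul]
    exact and_congr eq_comm eq_comm
  have hnorm : (P : Subgroup G) ≤ Subgroup.normalizer (K : Set G) := by
    intro q hq
    obtain ⟨k, hk⟩ := D.conj hq hx
    have hqz : q * z * q⁻¹ = z := by rw [← (D.cen q hq).eq, mul_inv_cancel_right]
    rw [Subgroup.mem_normalizer_iff]
    intro u
    constructor
    · intro hu
      obtain ⟨h1, h2⟩ := (hKmem u).1 hu
      refine (hKmem _).2 ⟨?_, ?_⟩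
      · obtain ⟨k', hk'⟩ := D.conj (inv_mem hq) hx
        calc q * u * q⁻¹ * x * (q * u * q⁻¹)⁻¹ = q * (u * (q⁻¹ * x * q⁻¹⁻¹) * u⁻¹) * q⁻¹ := by group
          _ = q * ((u * x * u⁻¹) * (u * z * u⁻¹) ^ k'.val) * q⁻¹ := by rw [hk', conj_pow]; group
          _ = q * (q⁻¹ * x * q⁻¹⁻¹) * q⁻¹ := by rw [h1, h2, hk']
          _ = x := by group
      · calc q * u * q⁻¹ * z * (q * u * q⁻¹)⁻¹ = q * (u * (q⁻¹ * z * q⁻¹⁻¹) * u⁻¹) * q⁻¹ := by group
          _ = q * (u * z * u⁻¹) * q⁻¹ := by rw [← (D.cen _ (inv_mem hq)).eq, mul_inv_cancel_right]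
          _ = z := by rw [h2, hqz]
    · intro hu
      obtain ⟨h1, h2⟩ := (hKmem _).1 hu
      refine (hKmem u).2 ⟨?_, ?_⟩
      · calc u * x * u⁻¹ = q⁻¹ * ((q * u * q⁻¹) * (q * x * q⁻¹) * (q * u * q⁻¹)⁻¹) * q := by group
          _ = q⁻¹ * (((q * u * q⁻¹) * x * (q * u * q⁻¹)⁻¹) *
              ((q * u * q⁻¹) * z * (q * u * q⁻¹)⁻¹) ^ k.val) * q := by rw [hk, conj_pow]; group
          _ = q⁻¹ * (q * x * q⁻¹) * q := by rw [h1, h2, hk]
          _ = x := by group
      · calc u * z * u⁻¹ = q⁻¹ * ((q * u * q⁻¹) * (q * z * q⁻¹) * (q * u * q⁻¹)⁻¹) * q := by group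
          _ = q⁻¹ * (q * z * q⁻¹) * q := by rw [hqz, h2]
          _ = z := by group
  have hsub : (g • P : Sylow p G) ≤ (P : Subgroup G) ⊔ K := by
    intro w hw
    rw [Sylow.coe_subgroup_smul, Subgroup.mem_pointwise_smul_iff_inv_smul_mem] at hw
    set q := (MulAut.conj g)⁻¹ • w with hq
    have hqe : q = g⁻¹ * w * g := by
      simp [hq, MulAut.smul_def]
    have hw2 : w = g * q * g⁻¹ := by rw [hqe]; group
    obtain ⟨k, hk⟩ := D.conj hw hx
    have hqz : q * z * q⁻¹ = z := by rw [← (D.cen q hw).eq, mul_inv_cancel_right]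
    have hginvx : g⁻¹ * x * g = x ^ j := by
      have h : g * x ^ j * g⁻¹ = x := by
        rw [← conj_pow, hgx, ← pow_mul, pow_congr (p := p) (D.pow x hx) (b := 1) (by push_cast; exact hij),
          pow_one]
      calc g⁻¹ * x * g = g⁻¹ * (g * x ^ j * g⁻¹) * g := by rw [h]
        _ = x ^ j := by group
    have hginvz : g⁻¹ * z * g = z ^ i := by
      have h : g * z ^ i * g⁻¹ = z := by
        rw [← conj_pow, hgz, ← pow_mul, pow_congr (p := p) D.zpow_p (b := 1)
          (by push_cast; rw [mul_comm]; exact hij), pow_one]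
      calc g⁻¹ * z * g = g⁻¹ * (g * z ^ i * g⁻¹) * g := by rw [h]
        _ = z ^ i := by group
    have hwz : w * z * w⁻¹ = z := by
      calc w * z * w⁻¹ = g * (q * (g⁻¹ * z * g) * q⁻¹) * g⁻¹ := by rw [hw2]; group
        _ = g * (g⁻¹ * z * g) * g⁻¹ := by rw [hginvz, ← conj_pow, hqz]
        _ = z := by group
    have hwx : w * x * w⁻¹ = x * z ^ (j * j * k.val) := by
      calc w * x * w⁻¹ = g * (q * (g⁻¹ * x * g) * q⁻¹) * g⁻¹ := by rw [hw2]; group
        _ = g * (x * z ^ k.val) ^ j * g⁻¹ := by rw [hginvx, ← conj_pow, hk]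
        _ = g * (x ^ j * z ^ (k.val * j)) * g⁻¹ := by
          rw [(((D.cen x hx).pow_left k.val).symm).mul_pow, ← pow_mul]
        _ = (g * x * g⁻¹) ^ j * (g * z * g⁻¹) ^ (k.val * j) := by rw [conj_pow, conj_pow]; group
        _ = _ := by
          rw [hgx, hgz, ← pow_mul, ← pow_mul, pow_congr (p := p) (D.pow x hx) (b := 1)
            (by push_cast; exact hij), pow_one]
          congr 2
          ring
    obtain ⟨m, hm⟩ : ∃ m : ℕ, (m : ZMod p) * t = ((j * j * k.val : ℕ) : ZMod p) :=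
      ⟨(((j * j * k.val : ℕ) : ZMod p) * t⁻¹).val, by rw [ZMod.natCast_zmod_val, inv_mul_cancel_right₀ ht]⟩
    obtain ⟨hy1, hy2⟩ := conj_pow_pow hyx hyz m
    have hK' : (y ^ m)⁻¹ * w ∈ K := by
      refine (hKmem _).2 ⟨?_, ?_⟩
      · calc (y ^ m)⁻¹ * w * x * ((y ^ m)⁻¹ * w)⁻¹ = (y ^ m)⁻¹ * (w * x * w⁻¹) * (y ^ m) := by group
          _ = (y ^ m)⁻¹ * (y ^ m * x * (y ^ m)⁻¹) * (y ^ m) := by
            rw [hwx, hy1, pow_congr (p := p) D.zpow_p (b := m * t.val) (a := j * j * k.val)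
              (by rw [← hm, Nat.cast_mul, ZMod.natCast_zmod_val])]
          _ = x := by group
      · calc (y ^ m)⁻¹ * w * z * ((y ^ m)⁻¹ * w)⁻¹ = (y ^ m)⁻¹ * (w * z * w⁻¹) * (y ^ m) := by group
          _ = (y ^ m)⁻¹ * (y ^ m * z * (y ^ m)⁻¹) * (y ^ m) := by rw [hwz, hy2]
          _ = z := by group
    rw [show w = y ^ m * ((y ^ m)⁻¹ * w) by group]
    exact mul_mem (mem_sup_left (pow_mem hy m)) (mem_sup_right hK')
  obtain ⟨r, hr⟩ := MulAction.exists_smul_eq ↥((P : Subgroup G) ⊔ K) (P.subtype le_sup_left)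
    ((g • P).subtype hsub)
  rw [Sylow.smul_subtype le_sup_left] at hr
  have hr' := Sylow.subtype_injective hr
  -- split the conjugating element
  have hrmem : (r : G) ∈ K ⊔ (P : Subgroup G) := by rw [sup_comm]; exact r.2
  rw [← SetLike.mem_coe, Subgroup.coe_mul_of_right_le_normalizer_left K (P : Subgroup G) hnorm] at hrmem
  obtain ⟨c, hc, q, hq, hcq⟩ := hrmem
  have hr2 : c • P = g • P := by
    rw [← hr']
    show c • P = (r : G) • P
    rw [← hcq, mul_smul, Sylow.smul_eq_iff_mem_normalizer.2 (Subgroup.le_normalizer hq)]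
  refine ⟨c⁻¹ * g, Sylow.smul_eq_iff_mem_normalizer.1 (by rw [mul_smul, ← hr2, inv_smul_smul]), ?_, ?_⟩
  · obtain ⟨h1, h2⟩ := (hKmem _).1 (inv_mem hc)
    calc c⁻¹ * g * x * (c⁻¹ * g)⁻¹ = c⁻¹ * (g * x * g⁻¹) * c⁻¹⁻¹ := by group
      _ = x ^ i := by rw [hgx, ← conj_pow, h1]
  · obtain ⟨h1, h2⟩ := (hKmem _).1 (inv_mem hc)
    calc c⁻¹ * g * z * (c⁻¹ * g)⁻¹ = c⁻¹ * (g * z * g⁻¹) * c⁻¹⁻¹ := by group
      _ = z ^ j := by rw [hgz, ← conj_pow, h2]

/-- The abelian group structure on the quotient by the centre. -/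
@[reducible] def quotientCommGroup {z : G} (D : Data P z) :
    CommGroup (↥(P : Subgroup G) ⧸ Subgroup.center ↥(P : Subgroup G)) :=
  { (inferInstance : Group (↥(P : Subgroup G) ⧸ Subgroup.center ↥(P : Subgroup G))) with
    mul_comm := fun a b => by
      induction a using QuotientGroup.induction_on with
      | H a =>
        induction b using QuotientGroup.induction_on with
        | H b =>
          rw [← QuotientGroup.mk_mul, ← QuotientGroup.mk_mul, QuotientGroup.eq, Subgroup.mem_center_iff]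
          intro c
          obtain ⟨k, hk⟩ := D.com (b : G)⁻¹ (inv_mem b.2) (a : G)⁻¹ (inv_mem a.2)
          have hz := (D.cen c c.2).pow_left k.val
          apply Subtype.ext
          have he : (((a * b)⁻¹ * (b * a) : ↥(P : Subgroup G)) : G) = z ^ k.val := by
            rw [← hk, commutatorElement_def]
            push_cast
            group
          show (c : G) * _ = _ * (c : G)
          rw [he]
          exact hz.eq.symm }

/-- The quotient as a vector space, its action of the normalizer, diagonalised lines. -/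
theorem main' {z : G} (D : Data P z) (h11 : 11 ≤ p) {V : Type*} [AddCommGroup V]
    [Module (ZMod p) V] [Finite V] (cl : ↥(P : Subgroup G) → V) (hclsurj : ∀ v, ∃ q, cl q = v)
    (hclmul : ∀ a b, cl (a * b) = cl a + cl b)
    (hclker : ∀ a, cl a = 0 ↔ a ∈ Subgroup.center ↥(P : Subgroup G))
    (hfull : 17 ≤ p ∧ (∃ x : Fin 3 → G, (∀ i, x i ∈ (P : Subgroup G)) ∧ (∀ i, Full p (x i) z) ∧
        (∀ i (k : ZMod p), x i ≠ z ^ k.val) ∧
        ∀ i j, i ≠ j → ∀ k m : ZMod p, x i ≠ x j ^ k.val * z ^ m.val) ∨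
      ∀ x ∈ (P : Subgroup G), (∀ k : ZMod p, x ≠ z ^ k.val) → Full p x z) : False := by
  classical
  have hp := (Fact.out : p.Prime)
  have h5 : 5 ≤ p := by omega
  have hclone : cl 1 = 0 := (hclker 1).2 (one_mem _)
  have hclinv : ∀ a, cl a⁻¹ = -cl a := fun a => by
    rw [eq_neg_iff_add_eq_zero, ← hclmul, inv_mul_cancel, hclone]
  have hclpow : ∀ (a : ↥(P : Subgroup G)) (n : ℕ), cl (a ^ n) = (n : ZMod p) • cl a := by
    intro a n
    rw [Nat.cast_smul_eq_nsmul]
    induction n with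
    | zero => rw [pow_zero, zero_smul, hclone]
    | succ n ih => rw [pow_succ, hclmul, ih, succ_nsmul]
  have hcl0 : ∀ a : ↥(P : Subgroup G), cl a = 0 ↔ ∃ k : ZMod p, (a : G) = z ^ k.val := by
    intro a
    refine (hclker a).trans ⟨fun h => ?_, ?_⟩
    · exact D.center a a.2 fun b hb => (congrArg Subtype.val (Subgroup.mem_center_iff.1 h ⟨b, hb⟩)).symm
    · rintro ⟨k, hk⟩
      refine Subgroup.mem_center_iff.2 fun b => Subtype.ext ?_
      show (b : G) * (a : G) = (a : G) * (b : G)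
      rw [hk]
      exact ((D.cen b b.2).pow_left k.val).eq.symm
  have hcard : Nat.card V = p ^ 2 := by
    have hZ : Nat.card (Subgroup.center ↥(P : Subgroup G)) = p := by
      have he : (Subgroup.center ↥(P : Subgroup G)) = Subgroup.zpowers (⟨z, D.mem⟩ : ↥(P : Subgroup G)) := by
        refine le_antisymm (fun a ha => ?_) (Subgroup.zpowers_le.2 (Subgroup.mem_center_iff.2 fun b =>
          Subtype.ext (D.cen b b.2).eq.symm))
        obtain ⟨k, hk⟩ := D.center a a.2 fun b hb =>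
          (congrArg Subtype.val (Subgroup.mem_center_iff.1 ha ⟨b, hb⟩)).symm
        exact Subgroup.mem_zpowers_iff.2 ⟨(k.val : ℤ), by rw [zpow_natCast]; exact Subtype.ext hk.symm⟩
      rw [he, Nat.card_zpowers]
      exact orderOf_eq_prime (Subtype.ext D.zpow_p) (fun h => D.zne (congrArg Subtype.val h))
    let χ : ↥(P : Subgroup G) →* Multiplicative V :=
      MonoidHom.mk' (fun a => Multiplicative.ofAdd (cl a)) (fun a b => congrArg Multiplicative.ofAdd (hclmul a b))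
    have hχ : Function.Surjective χ := fun v => (hclsurj v.toAdd).imp fun q hq => congrArg Multiplicative.ofAdd hq
    have hker : χ.ker = Subgroup.center ↥(P : Subgroup G) := Subgroup.ext fun a =>
      ((MonoidHom.mem_ker).trans ofAdd_eq_one).trans (hclker a)
    have h := Subgroup.card_eq_card_quotient_mul_card_subgroup (Subgroup.center ↥(P : Subgroup G))
    rw [Nat.card_congr ((QuotientGroup.quotientMulEquivOfEq hker.symm).trans
      (QuotientGroup.quotientKerEquivOfSurjective χ hχ)).toEquiv, Nat.card_congr Multiplicative.toAdd] at h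
    rw [D.card, hZ, pow_succ] at h
    exact (Nat.eq_of_mul_eq_mul_right hp.pos h).symm
  -- the action
  set N := Subgroup.normalizer ((P : Subgroup G) : Set G) with hN
  have hconj : ∀ (n : N) (q : G), q ∈ (P : Subgroup G) → (n : G) * q * (n : G)⁻¹ ∈ (P : Subgroup G) :=
    fun n q hq => (Subgroup.mem_normalizer_iff.1 n.2 q).1 hq
  let act : N → ↥(P : Subgroup G) →* ↥(P : Subgroup G) := fun n =>
    { toFun := fun q => ⟨(n : G) * q * (n : G)⁻¹, hconj n q q.2⟩
      map_one' := Subtype.ext (by simp)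
      map_mul' := fun a b => Subtype.ext (by simp [mul_assoc]) }
  have hactc : ∀ n (q : ↥(P : Subgroup G)), q ∈ Subgroup.center ↥(P : Subgroup G) →
      act n q ∈ Subgroup.center ↥(P : Subgroup G) := by
    intro n q hq
    refine Subgroup.mem_center_iff.2 fun b => ?_
    have hb : b = act n (act n⁻¹ b) := Subtype.ext (by
      show (b : G) = (n : G) * ((n : G)⁻¹ * b * (n : G)⁻¹⁻¹) * (n : G)⁻¹
      group)
    rw [hb, ← map_mul, ← map_mul, Subgroup.mem_center_iff.1 hq]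
  choose sur hsur using hclsurj
  have hwd : ∀ n a b, cl a = cl b → cl (act n a) = cl (act n b) := by
    intro n a b h
    have h0 : cl (a⁻¹ * b) = 0 := by rw [hclmul, hclinv, h, neg_add_cancel]
    have h1 := (hclker _).2 (hactc n _ ((hclker _).1 h0))
    rw [map_mul, map_inv, hclmul, hclinv, neg_add_eq_zero] at h1
    exact h1
  let L : N → V →ₗ[ZMod p] V := fun n =>
    (AddMonoidHom.mk' (fun v => cl (act n (sur v))) (fun v w => by
      rw [← hclmul, ← map_mul]
      exact hwd n _ _ (by rw [hclmul, hsur, hsur, hsur]))).toZModLinearMap p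
  have hL : ∀ n a, L n (cl a) = cl (act n a) := fun n a => hwd n _ _ (hsur (cl a))
  have hLm : ∀ m n v, L (m * n) v = L m (L n v) := by
    intro m n v
    rw [← hsur v, hL, hL, hL]
    exact congrArg cl (Subtype.ext (by
        show ((m : G) * n) * (sur v : G) * ((m : G) * n)⁻¹ = (m : G) * ((n : G) * sur v * (n : G)⁻¹) * (m : G)⁻¹
        group))
  have hL1 : ∀ v, L 1 v = v := by
    intro v
    rw [← hsur v, hL]
    exact congrArg cl (Subtype.ext (by show (1 : G) * (sur v : G) * (1 : G)⁻¹ = sur v; simp))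
  let rho : N → (V ≃ₗ[ZMod p] V) := fun n =>
    LinearEquiv.ofLinearMap (L n) (L n⁻¹)
      (LinearMap.ext fun v => (hLm n n⁻¹ v).symm.trans (by rw [mul_inv_cancel, hL1]; rfl))
      (LinearMap.ext fun v => (hLm n⁻¹ n v).symm.trans (by rw [inv_mul_cancel, hL1]; rfl))
  let ρ : N →* (V ≃ₗ[ZMod p] V) :=
    MonoidHom.mk' rho (fun m n => LinearEquiv.ext fun v => hLm m n v)
  have hρ : ∀ n (q : ↥(P : Subgroup G)), ρ n (cl q) = cl ⟨(n : G) * q * (n : G)⁻¹, hconj n q q.2⟩ :=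
    fun n q => hL n q
  have hP1 : ∀ n : N, (n : G) ∈ (P : Subgroup G) → ρ n = 1 := by
    intro n hn
    refine LinearEquiv.ext fun v => ?_
    obtain ⟨q, rfl⟩ : ∃ q, cl q = v := ⟨_, hsur v⟩
    obtain ⟨k, hk⟩ := D.conj hn q.2
    rw [hρ]
    show _ = cl q
    rw [show (⟨(n : G) * q * (n : G)⁻¹, hconj n q q.2⟩ : ↥(P : Subgroup G)) =
      q * ⟨z ^ k.val, pow_mem D.mem _⟩ from Subtype.ext hk, hclmul, (hcl0 ⟨z ^ k.val, _⟩).2 ⟨k, rfl⟩,
      add_zero]
  have hord : ∀ n : N, ρ n ^ p = 1 → ρ n = 1 := by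
    intro n hn
    obtain ⟨e, m, hm, hem⟩ := Nat.exists_eq_pow_mul_and_not_dvd (orderOf_pos n).ne' p hp.ne_one
    have hpm : IsPGroup p (Subgroup.zpowers ((n : G) ^ m)) := by
      have hd : Nat.card (Subgroup.zpowers ((n : G) ^ m)) ∣ p ^ e := by
        rw [Nat.card_zpowers, orderOf_dvd_iff_pow_eq_one, ← pow_mul, mul_comm, ← hem,
          show orderOf n = orderOf (n : G) from (Subgroup.orderOf_coe n).symm, pow_orderOf_eq_one]
      obtain ⟨k, -, hk⟩ := (Nat.dvd_prime_pow hp).1 hd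
      exact IsPGroup.of_card hk
    have hmem : (n : G) ^ m ∈ (P : Subgroup G) := by
      have h : Subgroup.zpowers ((n : G) ^ m) ≤ (P : Subgroup G) := fun u hu =>
        ((hpm.inf_normalizer_sylow P).le ⟨hu, (Subgroup.zpowers_le (H := N)).2 (pow_mem n.2 m) hu⟩).2
      exact h (Subgroup.mem_zpowers _)
    have h1 : ρ n ^ m = 1 := by rw [← map_pow]; exact hP1 _ hmem
    have h2 := pow_gcd_eq_one.2 ⟨h1, hn⟩
    rwa [Nat.Coprime.gcd_eq_one ((hp.coprime_iff_not_dvd.2 hm).symm), pow_one] at h2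
  have hdiag : ∀ x : ↥(P : Subgroup G), (∀ k : ZMod p, (x : G) ≠ z ^ k.val) → Full p (x : G) z →
      Diag ρ (cl x) := by
    intro x hxz hF l hl
    have hij : ((l.val : ℕ) : ZMod p) * ((l⁻¹.val : ℕ) : ZMod p) = 1 := by
      rw [ZMod.natCast_zmod_val, ZMod.natCast_zmod_val, mul_inv_cancel₀ hl]
    obtain ⟨g, hgx, hgz⟩ := hF _ _ hij
    obtain ⟨n, hn, hnx, hnz⟩ := exists_lift D x.2 hxz hij hgx hgz
    refine ⟨⟨n, hn⟩, ?_, fun u => ?_⟩
    · rw [hρ, show (⟨n * (x : G) * n⁻¹, _⟩ : ↥(P : Subgroup G)) = x ^ l.val from Subtype.ext hnx, hclpow,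
        ZMod.natCast_zmod_val]
    have hx0 : cl x ≠ 0 := fun h => by
      obtain ⟨k, hk⟩ := (hcl0 x).1 h
      exact hxz k hk
    obtain ⟨y, hy, t, ht, hyx⟩ := D.exists_move x.2 hxz
    let yy : ↥(P : Subgroup G) := ⟨y, hy⟩
    have hind : ∀ c : ZMod p, c • cl x ≠ cl yy := by
      intro c hc
      rw [← ZMod.natCast_zmod_val c, ← hclpow, ← sub_eq_zero] at hc
      have h0 : cl ((yy⁻¹) * x ^ c.val) = 0 := by
        rw [← hc, sub_eq_neg_add, hclmul, hclinv]
      obtain ⟨k, hk⟩ := (hcl0 _).1 h0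
      have hy2 : y = (x : G) ^ c.val * (z ^ k.val)⁻¹ := by
        have h' : y⁻¹ * (x : G) ^ c.val = z ^ k.val := hk
        rw [← h']; group
      have hcomm : Commute y (x : G) := by
        rw [hy2]
        exact ((Commute.refl (x : G)).pow_left _).mul_left (((D.cen x x.2).pow_left _).inv_left)
      rw [hcomm.eq, mul_inv_cancel_right] at hyx
      exact ht (D.pow_eq_one (mul_eq_left.1 hyx.symm))
    have hfr := frame_of_card (v := cl x) (u := cl yy) hcard hx0 hind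
    obtain ⟨a, b, hab⟩ := hfr.span (ρ ⟨n, hn⟩ (cl yy))
    have ha : b = (l ^ 2)⁻¹ := by
      have h0 : cl ((x ^ a.val * yy ^ b.val)⁻¹ * ⟨n * y * n⁻¹, hconj ⟨n, hn⟩ y hy⟩) = 0 := by
        have h' : cl ⟨n * y * n⁻¹, hconj ⟨n, hn⟩ y hy⟩ = cl (x ^ a.val * yy ^ b.val) := by
          rw [hclmul, hclpow, hclpow, ZMod.natCast_zmod_val, ZMod.natCast_zmod_val, ← hab, hρ]
        rw [hclmul, h', hclinv]
        exact neg_add_cancel _
      obtain ⟨k, hk⟩ := (hcl0 _).1 h0
      have hny : n * y * n⁻¹ = (x : G) ^ a.val * y ^ b.val * z ^ k.val := by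
        rw [← hk]
        show _ = (x : G) ^ a.val * y ^ b.val * (((x : G) ^ a.val * y ^ b.val)⁻¹ * (n * y * n⁻¹))
        group
      -- apply `n` to the commutator
      have hc1 : ⁅y, (x : G)⁆ = z ^ t.val := by
        rw [commutatorElement_def, hyx, ← ((D.cen x x.2).pow_left t.val).eq, mul_inv_cancel_right]
      have hxb : ⁅y ^ b.val, (x : G) ^ l.val⁆ = z ^ (t.val * (b.val * l.val)) := by
        rw [D.commutator_pow hy x.2, hc1, ← pow_mul]
      have hxa : ⁅(x : G) ^ a.val, (x : G) ^ l.val⁆ = 1 :=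
        commutatorElement_eq_one_iff_mul_comm.2 ((Commute.refl (x : G)).pow_pow _ _).eq
      have hzx : ⁅z ^ k.val, (x : G) ^ l.val⁆ = 1 :=
        commutatorElement_eq_one_iff_mul_comm.2 ((D.cen x x.2).pow_pow _ _).eq
      have hcomp : z ^ (l⁻¹.val * t.val) = z ^ (t.val * (b.val * l.val)) := by
        calc z ^ (l⁻¹.val * t.val) = (n * z * n⁻¹) ^ t.val := by rw [hnz, ← pow_mul]
          _ = n * ⁅y, (x : G)⁆ * n⁻¹ := by rw [conj_pow, hc1]
          _ = ⁅n * y * n⁻¹, n * (x : G) * n⁻¹⁆ := by simp only [commutatorElement_def]; group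
          _ = ⁅(x : G) ^ a.val * y ^ b.val * z ^ k.val, (x : G) ^ l.val⁆ := by rw [hny, hnx]
          _ = z ^ (t.val * (b.val * l.val)) := by
            rw [(D.commutator_mul (mul_mem (pow_mem x.2 _) (pow_mem hy _)) (pow_mem D.mem _) (pow_mem x.2 _)).2,
              (D.commutator_mul (pow_mem x.2 _) (pow_mem hy _) (pow_mem x.2 _)).2, hxa, hzx, hxb, one_mul,
              mul_one]
      have he : (l⁻¹ * t : ZMod p) = t * (b * l) := by
        have hm : ∀ u v : ℕ, z ^ u = z ^ v → (u : ZMod p) = v := by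
          intro u v huv
          rw [ZMod.natCast_eq_natCast_iff]
          rw [pow_eq_pow_iff_modEq, orderOf_eq_prime D.zpow_p D.zne] at huv
          exact huv
        have := hm _ _ hcomp
        simpa using this
      have he' : b * (l ^ 2) = 1 := by
        apply mul_right_cancel₀ ht
        have h2 : l * l⁻¹ = 1 := mul_inv_cancel₀ hl
        linear_combination -l * he + t * h2
      exact eq_inv_of_mul_eq_one_left he'
    obtain ⟨s, r, rfl⟩ := hfr.span u
    refine ⟨s * l + r * a - (l ^ 2)⁻¹ * s, ?_⟩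
    rw [map_add, map_smul, map_smul, hab, hρ,
      show (⟨n * (x : G) * n⁻¹, _⟩ : ↥(P : Subgroup G)) = x ^ l.val from Subtype.ext hnx, hclpow,
      ZMod.natCast_zmod_val, ha]
    simp only [smul_add, smul_smul, sub_smul, add_smul, mul_comm (l ^ 2)⁻¹ r]
    abel
  have hframe : ∀ v : V, v ≠ 0 →
      ∃ u, Frame (p := p) v u := by
    intro v hv
    haveI : Fintype V := Fintype.ofFinite _
    obtain ⟨u, hu⟩ : ∃ u, ∀ c : ZMod p, c • v ≠ u := by
      by_contra hno
      push Not at hno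
      have := Nat.card_le_card_of_surjective (fun c : ZMod p => c • v) hno
      rw [hcard, Nat.card_zmod, sq] at this
      exact absurd this (not_le.2 (Nat.lt_mul_self_iff.2 hp.one_lt))
    exact ⟨u, frame_of_card hcard hv hu⟩
  have hpair : ∀ x : ↥(P : Subgroup G), (∀ k : ZMod p, (x : G) ≠ z ^ k.val) → Full p (x : G) z →
      ∃ w, Pair ρ (cl x) w := by
    intro x hxz hF
    have hx0 : cl x ≠ 0 := fun h => by
      obtain ⟨k, hk⟩ := (hcl0 x).1 h
      exact hxz k hk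
    obtain ⟨u, hu⟩ := hframe _ hx0
    exact exists_pair hord h5 hu (hdiag x hxz hF)
  have hall' : (∀ x ∈ (P : Subgroup G), (∀ k : ZMod p, x ≠ z ^ k.val) → Full p x z) →
      ∀ v, v ≠ 0 → ∃ w, Pair ρ v w := by
    intro h v hv
    obtain ⟨q, rfl⟩ : ∃ q, cl q = v := ⟨_, hsur v⟩
    have hq : ∀ k : ZMod p, (q : G) ≠ z ^ k.val := fun k hk => hv ((hcl0 q).2 ⟨k, hk⟩)
    exact hpair q hq (h q q.2 hq)
  rcases hfull with ⟨h17, x, hx, hF, hxz, hne⟩ | h
  · obtain ⟨f, hef⟩ := hpair ⟨x 0, hx 0⟩ (hxz 0) (hF 0)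
    set e := cl ⟨x 0, hx 0⟩ with he
    have hcoord : ∀ i, i ≠ 0 → ∃ s t : ZMod p, t ≠ 0 ∧ cl ⟨x i, hx i⟩ = s • e + t • f := by
      intro i hi
      obtain ⟨s, t, hst⟩ := hef.frame.span (cl ⟨x i, hx i⟩)
      refine ⟨s, t, fun ht => ?_, hst⟩
      rw [ht, zero_smul, add_zero, he, ← ZMod.natCast_zmod_val s, ← hclpow] at hst
      have h0 : cl ((⟨x 0, hx 0⟩ : ↥(P : Subgroup G)) ^ s.val)⁻¹ + cl ⟨x i, hx i⟩ = 0 := by
        rw [hst, hclinv]; exact neg_add_cancel _
      rw [← hclmul] at h0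
      obtain ⟨m, hm⟩ := (hcl0 _).1 h0
      refine hne i 0 hi s m ?_
      rw [← hm]
      push_cast
      group
    obtain ⟨s₁, t₁, ht₁, h1⟩ := hcoord 1 (by decide)
    obtain ⟨s₂, t₂, ht₂, h2⟩ := hcoord 2 (by decide)
    have hgo : ∀ (i : Fin 3) (s t : ZMod p), t ≠ 0 → s ≠ 0 → cl ⟨x i, hx i⟩ = s • e + t • f → False := by
      intro i s t ht hs hi
      obtain ⟨w, hw⟩ := hpair ⟨x i, hx i⟩ (hxz i) (hF i)
      have h' := hw.smul (inv_ne_zero ht) one_ne_zero
      rw [hi, one_smul, smul_add, smul_smul, inv_smul_smul₀ ht] at h'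
      exact core h11 hef (mul_ne_zero (inv_ne_zero ht) hs) h' (Or.inl h17)
    by_cases hs1 : s₁ = 0
    · by_cases hs2 : s₂ = 0
      · rw [hs1, zero_smul, zero_add] at h1
        rw [hs2, zero_smul, zero_add] at h2
        have h0 : cl ((⟨x 2, hx 2⟩ : ↥(P : Subgroup G)) ^ (t₁ * t₂⁻¹).val)⁻¹ + cl ⟨x 1, hx 1⟩ = 0 := by
          rw [h1, hclinv, hclpow,
            ZMod.natCast_zmod_val, h2, smul_smul, inv_mul_cancel_right₀ ht₂, neg_add_cancel]
        rw [← hclmul] at h0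
        obtain ⟨m, hm⟩ := (hcl0 _).1 h0
        refine hne 1 2 (by decide) (t₁ * t₂⁻¹) m ?_
        rw [← hm]
        push_cast
        group
      · exact hgo 2 s₂ t₂ ht₂ hs2 h2
    · exact hgo 1 s₁ t₁ ht₁ hs1 h1
  · obtain ⟨v, hv⟩ : ∃ v : V, v ≠ 0 := by
      by_contra hno
      push Not at hno
      haveI : Subsingleton V :=
        ⟨fun a b => (hno a).trans (hno b).symm⟩
      rw [Nat.card_unique] at hcard
      exact absurd hcard.symm (Nat.one_lt_pow two_ne_zero hp.one_lt).ne'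
    obtain ⟨f, hef⟩ := hall' h v hv
    obtain ⟨w, hw⟩ := hall' h (pt v f (1 : ZMod p)) (fun h0 => one_ne_zero (hef.frame.indep 1 1 (by
      rw [one_smul, one_smul, ← h0, pt, one_smul])).1)
    exact core h11 hef one_ne_zero hw (Or.inr (hall' h))

/-- The abstract statement for the quotient by the centre. -/
theorem main {z : G} (D : Data P z) (h11 : 11 ≤ p)
    (hfull : 17 ≤ p ∧ (∃ x : Fin 3 → G, (∀ i, x i ∈ (P : Subgroup G)) ∧ (∀ i, Full p (x i) z) ∧
        (∀ i (k : ZMod p), x i ≠ z ^ k.val) ∧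
        ∀ i j, i ≠ j → ∀ k m : ZMod p, x i ≠ x j ^ k.val * z ^ m.val) ∨
      ∀ x ∈ (P : Subgroup G), (∀ k : ZMod p, x ≠ z ^ k.val) → Full p x z) : False := by
  letI := quotientCommGroup D
  have hqp : ∀ v : Additive (↥(P : Subgroup G) ⧸ Subgroup.center ↥(P : Subgroup G)), p • v = 0 := by
    intro v
    obtain ⟨q, hq⟩ := QuotientGroup.mk_surjective v.toMul
    apply Additive.toMul.injective
    rw [toMul_nsmul, toMul_zero, ← hq, ← QuotientGroup.mk_pow, QuotientGroup.eq_one_iff,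
      show q ^ p = 1 from Subtype.ext (D.pow q q.2)]
    exact one_mem _
  exact @main' p _ G _ _ P z D h11 _ _ (AddCommGroup.zmodModule hqp) _
    (fun q => Additive.ofMul (QuotientGroup.mk q)) (fun v => QuotientGroup.mk_surjective v.toMul)
    (fun a b => rfl) (fun a => Additive.toMul.injective.eq_iff.symm.trans (QuotientGroup.eq_one_iff a)) hfull

end setting

variable [Finite G] {P : Sylow p G} {z : G}

/-- A subgroup of order `p ^ 2` of `P` contains the centre and is abelian. -/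
theorem frame_sub (D : Data P z) {A : Subgroup G} (hAP : A ≤ (P : Subgroup G))
    (hA : Nat.card ↥A = p ^ 2) :
    ∃ x ∈ A, z ∈ A ∧ (∀ k : ZMod p, x ≠ z ^ k.val) ∧
      (∀ s t : ZMod p, x ^ s.val * z ^ t.val = 1 → s = 0 ∧ t = 0) ∧
      ∀ a ∈ A, ∃ s t : ZMod p, a = x ^ s.val * z ^ t.val := by
  classical
  have hp := (Fact.out : p.Prime)
  obtain ⟨x, hxA, hxz⟩ : ∃ x ∈ A, ∀ k : ZMod p, x ≠ z ^ k.val := by
    by_contra hno
    push Not at hno
    have hsurj : Function.Surjective fun k : {k : ZMod p // z ^ k.val ∈ A} => (⟨z ^ k.1.val, k.2⟩ : A) := by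
      intro a
      obtain ⟨k, hk⟩ := hno a a.2
      exact ⟨⟨k, hk ▸ a.2⟩, Subtype.ext hk.symm⟩
    have := (Nat.card_le_card_of_surjective _ hsurj).trans
      (Nat.card_le_card_of_injective _ (Subtype.val_injective (p := fun k : ZMod p => z ^ k.val ∈ A)))
    rw [hA, Nat.card_zmod, sq] at this
    exact absurd this (not_le.2 (Nat.lt_mul_self_iff.2 hp.one_lt))
  have hind : ∀ s t : ZMod p, x ^ s.val * z ^ t.val = 1 → s = 0 ∧ t = 0 := by
    intro s t h
    have hs : s = 0 := by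
      by_contra hs
      have h1 : x ^ s.val = z ^ (-t).val := by
        rw [mul_eq_one_iff_eq_inv] at h
        rw [h, inv_eq_iff_mul_eq_one, ← pow_add, pow_congr (p := p) D.zpow_p (b := 0) (by simp), pow_zero]
      apply hxz (-t * s⁻¹)
      calc x = (x ^ s.val) ^ s⁻¹.val := by
            rw [← pow_mul, pow_congr (p := p) (D.pow x (hAP hxA)) (b := 1) (by simp [mul_inv_cancel₀ hs]),
              pow_one]
        _ = _ := by rw [h1, ← pow_mul]; exact pow_congr D.zpow_p (by simp)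
    subst hs
    rw [ZMod.val_zero, pow_zero, one_mul] at h
    exact ⟨rfl, D.pow_eq_one h⟩
  have hzA : z ∈ A := by
    by_contra hzA
    -- otherwise all of `P` would commute with `x`
    have hinj : Function.Injective fun q : A × ZMod p => (⟨(q.1 : G) * z ^ q.2.val,
        mul_mem (hAP q.1.2) (pow_mem D.mem _)⟩ : ↥(P : Subgroup G)) := by
      intro q q' h
      have h' : (q.1 : G) * z ^ q.2.val = (q'.1 : G) * z ^ q'.2.val := congrArg Subtype.val h
      have hmem : z ^ q.2.val * (z ^ q'.2.val)⁻¹ ∈ A := by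
        rw [show z ^ q.2.val * (z ^ q'.2.val)⁻¹ = (q.1 : G)⁻¹ * q'.1 by
          rw [eq_inv_mul_iff_mul_eq, ← mul_assoc, h']; group]
        exact mul_mem (inv_mem q.1.2) q'.1.2
      have hk : q.2 = q'.2 := by
        by_contra hne
        have h2 : z ^ (q.2 - q'.2).val = z ^ q.2.val * (z ^ q'.2.val)⁻¹ := by
          rw [eq_mul_inv_iff_mul_eq, ← pow_add]
          exact pow_congr D.zpow_p (by simp)
        have h3 := pow_mem (h2 ▸ hmem : z ^ (q.2 - q'.2).val ∈ A) (q.2 - q'.2)⁻¹.val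
        rw [← pow_mul, pow_congr (p := p) D.zpow_p (b := 1)
          (by simp [mul_inv_cancel₀ (sub_ne_zero.2 hne)]), pow_one] at h3
        exact hzA h3
      rw [hk] at h'
      exact Prod.ext (Subtype.ext (mul_right_cancel h')) hk
    have hbij := (Nat.bijective_iff_injective_and_card _).2
      ⟨hinj, by rw [Nat.card_prod, hA, Nat.card_zmod, D.card]; ring⟩
    obtain ⟨k, hk⟩ := D.center x (hAP hxA) fun b hb => by
      obtain ⟨⟨a, m⟩, hq⟩ := hbij.2 ⟨b, hb⟩
      have hb' : (a : G) * z ^ m.val = b := congrArg Subtype.val hq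
      have hc := IsPGroup.commutative_of_card_eq_prime_sq (p := p) (G := A) hA
      rw [← hb']
      exact Commute.mul_right (congrArg Subtype.val (hc ⟨x, hxA⟩ a))
        (((D.cen x (hAP hxA)).pow_left _).symm)
    exact hxz k hk
  refine ⟨x, hxA, hzA, hxz, hind, fun a ha => ?_⟩
  have hinj : Function.Injective fun q : ZMod p × ZMod p =>
      (⟨x ^ q.1.val * z ^ q.2.val, mul_mem (pow_mem hxA _) (pow_mem hzA _)⟩ : A) := by
    intro q q' h
    have h' : x ^ q.1.val * z ^ q.2.val = x ^ q'.1.val * z ^ q'.2.val := congrArg Subtype.val h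
    obtain ⟨h1, h2⟩ := hind (q.1 - q'.1) (q.2 - q'.2) (by
      refine mul_right_cancel (b := x ^ q'.1.val * z ^ q'.2.val) ?_
      rw [one_mul, ((D.cen x (hAP hxA)).pow_pow (q.2 - q'.2).val q'.1.val).mul_mul_mul_comm,
        ← pow_add, ← pow_add, ← h']
      congr 1
      · exact pow_congr (D.pow x (hAP hxA)) (by simp)
      · exact pow_congr D.zpow_p (by simp))
    exact Prod.ext (sub_eq_zero.1 h1) (sub_eq_zero.1 h2)
  obtain ⟨q, hq⟩ := ((Nat.bijective_iff_injective_and_card _).2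
    ⟨hinj, by rw [Nat.card_prod, hA, Nat.card_zmod, sq]⟩).2 ⟨a, ha⟩
  exact ⟨q.1, q.2, (congrArg Subtype.val hq).symm⟩

/-- S3054. -/
theorem le_thirteen (P : Sylow p G) (hE : Cfsg.IsExtraspecial p ↥P)
    (hcard : Nat.card P = p ^ 3) (hexp : Monoid.exponent ↥P = p)
    (A : Fin 3 → Subgroup G) (hA : Function.Injective A) (hAP : ∀ i, A i ≤ (P : Subgroup G))
    (hAcard : ∀ i, Nat.card ↥(A i) = p ^ 2)
    (hSL : ∀ i, ∀ φ : MulAut ↥(A i), orderOf φ = p → ∃ g : G, ∀ a : ↥(A i), (φ a : G) = g * (a : G) * g⁻¹) :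
    p ≤ 13 := by
  by_contra hlt
  have h17 : 17 ≤ p := by
    have hp := (Fact.out : p.Prime)
    by_contra h
    interval_cases p <;> (revert hp; norm_num)
  obtain ⟨z, D⟩ := exists_data P hE hcard hexp
  choose x hxA hzA hxz hind hgen using fun i => frame_sub D (hAP i) (hAcard i)
  have hxP := fun i => hAP i (hxA i)
  have hcomm := fun i => (D.cen _ (hxP i)).symm
  refine main D (by omega) (Or.inl ⟨h17, x, hxP, fun i => ?_, hxz, fun i j hij k m h => hij ?_⟩)
  · refine full_of_up (D.pow _ (hxP i)) D.zpow_p (hcomm i)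
      (up_of_aut (hxA i) (hzA i) (D.pow _ (hxP i)) D.zpow_p (hind i) (hgen i) (hcomm i) (hSL i))
      (up_of_aut (hzA i) (hxA i) D.zpow_p (D.pow _ (hxP i)) (fun s t h => ?_) (fun a ha => ?_)
        (hcomm i).symm (hSL i))
    · rw [((D.cen _ (hxP i)).pow_pow _ _).eq] at h
      exact (hind i t s h).symm
    · obtain ⟨s, t, h⟩ := hgen i a ha
      exact ⟨t, s, by rw [h, ((D.cen _ (hxP i)).pow_pow _ _).eq]⟩
  · refine hA (Subgroup.eq_of_le_of_card_ge (fun a ha => ?_) (by rw [hAcard, hAcard]))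
    obtain ⟨s, t, rfl⟩ := hgen i a ha
    exact mul_mem (pow_mem (by rw [h]; exact mul_mem (pow_mem (hxA j) _) (pow_mem (hzA j) _)) _)
      (pow_mem (hzA j) _)

/-- S3055. -/
theorem le_seven (P : Sylow p G) (hE : Cfsg.IsExtraspecial p ↥P)
    (hcard : Nat.card P = p ^ 3) (hexp : Monoid.exponent ↥P = p)
    (hconj : ∀ x y : ↥P, x ≠ 1 → y ≠ 1 → ∃ g : G, g * (x : G) * g⁻¹ = (y : G)) : p ≤ 7 := by
  classical
  have hp := (Fact.out : p.Prime)
  by_contra hlt
  have h11 : 11 ≤ p := by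
    by_contra h
    interval_cases p <;> (revert hp; norm_num)
  obtain ⟨z, D⟩ := exists_data P hE hcard hexp
  refine main D h11 (Or.inr fun x hx hxz => ?_)
  obtain ⟨y, hy, t, ht, hyx⟩ := D.exists_move hx hxz
  have hup : Up p x z :=
    up_of_one D.zpow_p (k := t.val) (by rwa [ZMod.natCast_zmod_val]) hyx
      (by rw [← (D.cen y hy).eq, mul_inv_cancel_right])
  refine full_of_up (D.pow x hx) D.zpow_p (D.cen x hx).symm hup ?_
  -- the other family
  have hx1 : (⟨x, hx⟩ : ↥P) ≠ 1 := fun h => hxz 0 (by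
    rw [ZMod.val_zero, pow_zero]; exact congrArg Subtype.val h)
  obtain ⟨g₀, hg₀⟩ := hconj ⟨z, D.mem⟩ ⟨x, hx⟩ (fun h => D.zne (congrArg Subtype.val h)) hx1
  simp only at hg₀
  -- a Sylow subgroup of the centralizer of `x`
  set C := Subgroup.centralizer ({x} : Set G) with hC
  have hP' : ((g₀ • P : Sylow p G) : Subgroup G) ≤ C := by
    intro w hw
    rw [Sylow.coe_subgroup_smul, Subgroup.mem_pointwise_smul_iff_inv_smul_mem] at hw
    rw [hC, Subgroup.mem_centralizer_singleton_iff]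
    have hw2 : g₀⁻¹ * w * g₀ ∈ (P : Subgroup G) := by simpa [MulAut.smul_def] using hw
    have hc := (D.cen _ hw2).eq
    rw [← hg₀]
    calc w * (g₀ * z * g₀⁻¹) = g₀ * ((g₀⁻¹ * w * g₀) * z) * g₀⁻¹ := by group
      _ = g₀ * (z * (g₀⁻¹ * w * g₀)) * g₀⁻¹ := by rw [hc]
      _ = (g₀ * z * g₀⁻¹) * w := by group
  set A : Subgroup G := Subgroup.closure {x, z} with hAdef
  have hAP : A ≤ (P : Subgroup G) := (Subgroup.closure_le _).2 (by
    rintro a (rfl | rfl)
    exacts [hx, D.mem])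
  have hAC : A ≤ C := (Subgroup.closure_le _).2 (by
    rintro a (rfl | rfl)
    · exact Subgroup.mem_centralizer_singleton_iff.2 rfl
    · exact Subgroup.mem_centralizer_singleton_iff.2 (D.cen x hx).eq)
  obtain ⟨Q, hQ⟩ := IsPGroup.exists_le_sylow (p := p) (P := A.subgroupOf C)
    ((P.isPGroup'.to_le hAP).of_equiv (Subgroup.subgroupOfEquivOfLe hAC).symm)
  obtain ⟨r, hr⟩ := MulAction.exists_smul_eq C ((g₀ • P).subtype hP') Q
  rw [Sylow.smul_subtype hP'] at hr
  -- `Q` as a conjugate of `P`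
  set g₁ := (r : G) * g₀ with hg₁
  have hQP : ∀ q : G, q ∈ (P : Subgroup G) → ∃ hq : g₁ * q * g₁⁻¹ ∈ C, (⟨_, hq⟩ : C) ∈ (Q : Subgroup C) := by
    intro q hq
    have hmem : g₀ * q * g₀⁻¹ ∈ ((g₀ • P : Sylow p G) : Subgroup G) := by
      rw [Sylow.coe_subgroup_smul]
      exact Subgroup.smul_mem_pointwise_smul q (MulAut.conj g₀) _ hq
    have hCm : g₁ * q * g₁⁻¹ ∈ C := by
      rw [show g₁ * q * g₁⁻¹ = (r : G) * (g₀ * q * g₀⁻¹) * (r : G)⁻¹ by rw [hg₁]; group]
      exact mul_mem (mul_mem r.2 (hP' hmem)) (inv_mem r.2)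
    refine ⟨hCm, ?_⟩
    rw [← hr, Sylow.coe_subtype, Subgroup.mem_subgroupOf]
    show g₁ * q * g₁⁻¹ ∈ ((r : G) • (g₀ • P : Sylow p G) : Sylow p G)
    rw [← mul_smul]
    show g₁ * q * g₁⁻¹ ∈ (((r : G) * g₀) • P : Sylow p G)
    show g₁ * q * g₁⁻¹ ∈ ((g₁ • P : Sylow p G) : Subgroup G)
    rw [Sylow.coe_subgroup_smul]
    exact Subgroup.smul_mem_pointwise_smul q (MulAut.conj g₁) _ hq
  have hQA : ∀ a ∈ A, ∃ q ∈ (P : Subgroup G), g₁ * q * g₁⁻¹ = a := by
    intro a ha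
    have h1 : (⟨a, hAC ha⟩ : C) ∈ (Q : Subgroup C) := hQ ha
    rw [← hr, Sylow.coe_subtype, Subgroup.mem_subgroupOf] at h1
    have h2 : a ∈ ((g₁ • P : Sylow p G) : Subgroup G) := by rw [hg₁, mul_smul]; exact h1
    rw [Sylow.coe_subgroup_smul, Subgroup.mem_pointwise_smul_iff_inv_smul_mem] at h2
    exact ⟨g₁⁻¹ * a * g₁, by simpa [MulAut.smul_def] using h2, by group⟩
  obtain ⟨x', hx', hxe⟩ := hQA x (Subgroup.subset_closure (Or.inl rfl))
  obtain ⟨z', hz', hze⟩ := hQA z (Subgroup.subset_closure (Or.inr rfl))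
  have hcx : ∀ q ∈ (P : Subgroup G), Commute x' q := by
    intro q hq
    obtain ⟨hCm, -⟩ := hQP q hq
    have h := Subgroup.mem_centralizer_singleton_iff.1 hCm
    rw [← hxe] at h
    exact (mul_left_cancel (a := g₁) (mul_right_cancel (b := g₁⁻¹) (by
      calc g₁ * (x' * q) * g₁⁻¹ = g₁ * x' * g₁⁻¹ * (g₁ * q * g₁⁻¹) := by group
        _ = g₁ * q * g₁⁻¹ * (g₁ * x' * g₁⁻¹) := h.symm
        _ = g₁ * (q * x') * g₁⁻¹ := by group)) : x' * q = q * x')
  obtain ⟨a, ha⟩ := D.center x' hx' hcx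
  have hz'ne : ∀ k : ZMod p, z' ≠ z ^ k.val := by
    intro k hk
    have ha0 : a ≠ 0 := by
      rintro rfl
      rw [ZMod.val_zero, pow_zero] at ha
      rw [ha, mul_one, mul_inv_cancel] at hxe
      exact hx1 (Subtype.ext hxe.symm)
    -- then `z` is a power of `x`
    have e : z = x ^ (a⁻¹ * k).val := by
      rw [← hze, ← hxe, conj_pow, ha, hk, ← pow_mul]
      congr 2
      exact pow_congr D.zpow_p (by simp [ha0])
    have hb : (a⁻¹ * k) ≠ 0 := fun h0 => D.zne (by rw [e, h0, ZMod.val_zero, pow_zero])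
    refine hxz (a⁻¹ * k)⁻¹ ?_
    rw [e, ← pow_mul, pow_congr (p := p) (D.pow x hx) (b := 1) (by
      push_cast [ZMod.natCast_zmod_val]; exact mul_inv_cancel₀ hb), pow_one]
  obtain ⟨q, hq, s, hs, hqz⟩ := D.exists_move hz' hz'ne
  have ha0 : a ≠ 0 := by
    rintro rfl
    rw [ZMod.val_zero, pow_zero] at ha
    rw [ha, mul_one, mul_inv_cancel] at hxe
    exact hx1 (Subtype.ext hxe.symm)
  refine up_of_one (D.pow x hx) (k := (s * a⁻¹).val) (by rw [ZMod.natCast_zmod_val]; exact mul_ne_zero hs (inv_ne_zero ha0))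
    (g := g₁ * q * g₁⁻¹) ?_ ?_
  · calc g₁ * q * g₁⁻¹ * z * (g₁ * q * g₁⁻¹)⁻¹ = g₁ * (q * (g₁⁻¹ * z * g₁) * q⁻¹) * g₁⁻¹ := by group
      _ = g₁ * (z' * z ^ s.val) * g₁⁻¹ := by rw [show g₁⁻¹ * z * g₁ = z' by rw [← hze]; group, hqz]
      _ = (g₁ * z' * g₁⁻¹) * (g₁ * x' * g₁⁻¹) ^ (s * a⁻¹).val := by
        rw [conj_pow, ha, ← pow_mul,
          pow_congr (p := p) D.zpow_p (b := s.val) (a := a.val * (s * a⁻¹).val) (by simp [mul_comm a, ha0])]
        group
      _ = z * x ^ (s * a⁻¹).val := by rw [hze, hxe]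
  · calc g₁ * q * g₁⁻¹ * x * (g₁ * q * g₁⁻¹)⁻¹ = g₁ * (q * (g₁⁻¹ * x * g₁) * q⁻¹) * g₁⁻¹ := by group
      _ = g₁ * (q * x' * q⁻¹) * g₁⁻¹ := by rw [show g₁⁻¹ * x * g₁ = x' by rw [← hxe]; group]
      _ = x := by rw [← (hcx q hq).eq, mul_inv_cancel_right, hxe]

end Cfsg.Lib.PLocal.ExtraspecialThree
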