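import Mathlib
import Cfsg.Agent.Lib.PLocal.QuadraticSection
import Cfsg.Agent.Lib.PLocal.Factorization
import Cfsg.Agent.Lib.PLocal.FFQuotient

/-!
The group induced by `J(G)` on a normal elementary abelian subgroup.
-/

set_option autoImplicit false
set_option linter.unusedSectionVars false
set_option linter.style.haveILetI false

open scoped commutatorElement IsMulCommutative

namespace Cfsg.Lib.PLocal.FF

open Subgroup

variable {G : Type*} [Group G] [Finite G] {p : ℕ} [hp : Fact p.Prime]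

/-- The join of all `Ω₁(Z(S))`. -/
abbrev omegaV (p : ℕ) (G : Type*) [Group G] : Subgroup G :=
  ⨆ S : Sylow p G, Cfsg.Lib.PLocal.omegaZ p (S : Subgroup G)

theorem omegaV_elem (hsep : Cfsg.IsPSolvable p G) (hO : Cfsg.pPrimeCore p G = ⊥) :
    Cfsg.IsElementaryAbelian p (omegaV p G) := by
  set Z := Cfsg.pCore p G ⊓ centralizer (Cfsg.pCore p G : Set G)
  have hle : omegaV p G ≤ Cfsg.omegaOne p Z := iSup_le fun S => (closure_le _).2 (by
    rintro z ⟨hz, hzp⟩
    have hzc : z ∈ centralizer (Cfsg.pCore p G : Set G) :=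
      centralizer_le (SetLike.coe_subset_coe.2 (Cfsg.Lib.Transfer.pCore_le_sylow S)) hz.2
    exact mem_omegaOne (show z ∈ Z from
      ⟨Cfsg.Lib.PLocal.selfCentralizingCore_of_pSolvable hsep hO hzc, hzc⟩) hzp)
  refine elem_le (omegaOne_elem ?_) hle
  intro x hx y hy
  exact mem_centralizer_iff.1 hy.2 x hx.1

theorem pCore_quot_omegaV [(omegaV p G).Normal] :
    Cfsg.pCore p (G ⧸ centralizer (omegaV p G : Set G)) = ⊥ :=
  Cfsg.Lib.PLocal.pCore_quotient_eq_bot _ (iSup_le fun S => le_iSup_of_le S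
    (le_inf (le_iSup (fun T : Sylow p G => Cfsg.Lib.PLocal.omegaZ p (T : Subgroup G)) S)
      ((omegaOne_le _).trans inf_le_right)))

theorem off_comp {M : Type*} [AddCommGroup M] [Module (ZMod p) M] [Finite M] {Γ Δ : Type*} [Group Γ] [Group Δ]
    [Finite Γ] [Finite Δ]
    {ρ : Γ →* Module.End (ZMod p) M} (ι : Δ →* Γ) (hι : Function.Injective ι) {B : Subgroup Δ}
    (h : Off ρ (B.map ι)) : Off (ρ.comp ι) B := by
  have hfix : ∀ C : Subgroup Δ, fix (ρ.comp ι) C = fix ρ (C.map ι) := fun C => by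
    ext v
    rw [mem_fix, mem_fix]
    exact ⟨fun h => by rintro _ ⟨c, hc, rfl⟩; exact h c hc, fun h c hc => h _ ⟨c, hc, rfl⟩⟩
  refine ⟨fun C hC => ?_, ?_⟩
  · have := h.1 (C.map ι) (map_mono hC)
    rwa [card_map_of_injective hι, card_map_of_injective hι, ← hfix, ← hfix] at this
  · exact elem_mk (fun x hx y hy => hι (by
      rw [map_mul, map_mul]; exact elem_comm h.2 ⟨x, hx, rfl⟩ ⟨y, hy, rfl⟩))
      (fun x hx => hι (by rw [map_pow, map_one]; exact h.2.2 _ ⟨x, hx, rfl⟩))

variable (V : Subgroup G) [V.Normal] [IsMulCommutative ↥V] [Module (ZMod p) (Additive ↥V)]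

/-- The image of `J(G)` in `G / C(V)`. -/
abbrev jBar (p : ℕ) (V : Subgroup G) [V.Normal] : Subgroup (G ⧸ centralizer (V : Set G)) :=
  (Cfsg.thompsonSubgroup p G).map (QuotientGroup.mk' (centralizer (V : Set G)))

/-- The representation of the image of `J(G)`. -/
noncomputable abbrev jRep : ↥(jBar p V) →* Module.End (ZMod p) (Additive ↥V) :=
  (quotRep (p := p) (V := V)).comp (jBar p V).subtype

theorem jBar_normal : (jBar p V).Normal := by
  haveI := Cfsg.Lib.PLocal.thompsonSubgroup_characteristic (G := G) (p := p)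
  exact Subgroup.Normal.map inferInstance _ (QuotientGroup.mk'_surjective _)

theorem hyp_jRep (hsep : Cfsg.IsPSolvable p G) (hO : Cfsg.pCore p (G ⧸ centralizer (V : Set G)) = ⊥) :
    Hyp (jRep (p := p) V) (Cfsg.pPrimeCore p ↥(jBar p V)) := by
  haveI := jBar_normal (p := p) V
  refine ⟨quotRep_injective.comp (jBar p V).subtype_injective, Cfsg.Lib.Transfer.pPrimeCore_normal p,
    Cfsg.Lib.Solv.not_dvd_card_pPrimeCore p, Cfsg.Lib.Characters.centralizer_pPrimeCore_le ?_ ?_⟩
  · exact QuadSection.pSolvable_subgroup (Cfsg.Lib.PLocal.IsPSolvable.of_surjective (QuotientGroup.mk' _)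
      (QuotientGroup.mk'_surjective _) hsep) _
  · apply map_injective (jBar p V).subtype_injective
    rw [Cfsg.Lib.Solv.map_pCore_subgroup, hO, bot_inf_eq, Subgroup.map_bot]

theorem gens_jRep (hsep : Cfsg.IsPSolvable p G) (hV : Cfsg.IsElementaryAbelian p V)
    (hO : Cfsg.pCore p (G ⧸ centralizer (V : Set G)) = ⊥) : sSup (Gens (jRep (p := p) V)) = ⊤ := by
  apply map_injective (jBar p V).subtype_injective
  refine le_antisymm (map_mono le_top) ?_
  rw [← MonoidHom.range_eq_map, range_subtype]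
  refine map_le_iff_le_comap.2 (sSup_le fun A hA => map_le_iff_le_comap.1 ?_)
  set Ā := A.map (QuotientGroup.mk' (centralizer (V : Set G)))
  have hle : Ā ≤ jBar p V := map_mono (le_thompsonSubgroup hA)
  have hm : (Ā.subgroupOf (jBar p V)).map (jBar p V).subtype = Ā := by
    rw [subgroupOf_map_subtype, inf_eq_left.2 hle]
  have hoff : Off (jRep (p := p) V) (Ā.subgroupOf (jBar p V)) := off_comp _ (jBar p V).subtype_injective (by
    rw [hm]; exact off_map hA.1 (Cfsg.Lib.PLocal.isBestOffender_of_maxElem hV hA))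
  calc Ā = (Ā.subgroupOf (jBar p V)).map (jBar p V).subtype := hm.symm
    _ ≤ _ := map_mono ((eq_iSup_prime (hyp_jRep V hsep hO) _ hoff).trans (sSup_le fun B hB => le_sSup hB.2))

theorem exists_gen_jRep (hsep : Cfsg.IsPSolvable p G) (hV : Cfsg.IsElementaryAbelian p V)
    (hO : Cfsg.pCore p (G ⧸ centralizer (V : Set G)) = ⊥)
    (hJ : ¬ Cfsg.thompsonSubgroup p G ≤ centralizer (V : Set G)) :
    ∃ B, B ∈ Gens (jRep (p := p) V) := by
  by_contra hc
  push Not at hc
  have h0 : sSup (Gens (jRep (p := p) V)) = ⊥ := sSup_eq_bot.2 fun B hB => absurd hB (hc B)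
  rw [gens_jRep V hsep hV hO] at h0
  have h1 := congrArg (Subgroup.map (jBar p V).subtype) h0
  rw [← MonoidHom.range_eq_map, range_subtype, Subgroup.map_bot, Subgroup.map_eq_bot_iff, QuotientGroup.ker_mk'] at h1
  exact hJ h1

/-- The quotient of a preimage. -/
noncomputable def preimageQuot {C : Subgroup G} [C.Normal] (D : Subgroup (G ⧸ C)) :
    ↥(D.comap (QuotientGroup.mk' C)) ⧸ C.subgroupOf (D.comap (QuotientGroup.mk' C)) ≃* ↥D :=
  (QuotientGroup.quotientMulEquivOfEq (by
    ext x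
    rw [mem_subgroupOf, MonoidHom.mem_ker, MonoidHom.comp_apply, Subgroup.coe_subtype, QuotientGroup.mk'_apply,
      QuotientGroup.eq_one_iff])).trans
    ((QuotientGroup.quotientKerEquivRange ((QuotientGroup.mk' C).comp (D.comap (QuotientGroup.mk' C)).subtype)).trans
      (MulEquiv.subgroupCongr (by
        rw [MonoidHom.range_comp, range_subtype, map_comap_eq_self_of_surjective (QuotientGroup.mk'_surjective C)])))

end Cfsg.Lib.PLocal.FF
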