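import Mathlib
import Cfsg.Agent.Lib.Solv.Coprime
import Cfsg.Agent.Lib.PLocal.FFFailure
import Cfsg.Agent.Lib.PLocal.FFCoprime

/-!
Coprime operators on the group induced by `J(K)`: transport of the abstract diagonal construction.
-/

set_option autoImplicit false
set_option linter.unusedSectionVars false
set_option linter.style.haveILetI false

open scoped commutatorElement IsMulCommutative

namespace Cfsg.Lib.PLocal.FF

open Subgroup

variable {G : Type*} [Group G] [Finite G] {p : ℕ} [hp : Fact p.Prime] {K X : Subgroup G}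

/-- Conjugation of `X` on `K`. -/
noncomputable def conjOn (hXK : X ≤ normalizer (K : Set G)) : ↥X →* MulAut ↥K :=
  (K.normalizerMonoidHom).comp (Subgroup.inclusion hXK)

theorem conjOn_apply (hXK : X ≤ normalizer (K : Set G)) (x : ↥X) (k : ↥K) :
    ((conjOn hXK x k : ↥K) : G) = (x : G) * k * (x : G)⁻¹ := rfl

theorem omegaV_map {L : Type*} [Group L] [Finite L] (e : L ≃* L) : (omegaV p L).map e.toMonoidHom = omegaV p L := by
  have hle : ∀ f : L ≃* L, (omegaV p L).map f.toMonoidHom ≤ omegaV p L := fun f => by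
    rw [omegaV, Subgroup.map_iSup]
    refine iSup_le fun S => ?_
    rw [Cfsg.Lib.PLocal.omegaZ_map]
    exact le_iSup_of_le (S.mapSurjective f.surjective) le_rfl
  refine le_antisymm (hle e) fun v hv => ?_
  exact ⟨e.symm v, hle e.symm ⟨v, hv, rfl⟩, e.apply_symm_apply v⟩

theorem map_centralizer_equiv {L : Type*} [Group L] (e : L ≃* L) {V : Subgroup L} (hV : V.map e.toMonoidHom = V) :
    (centralizer (V : Set L)).map e.toMonoidHom = centralizer (V : Set L) := by
  ext y
  rw [Subgroup.mem_map_equiv, mem_centralizer_iff, mem_centralizer_iff]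
  constructor
  · intro h v hv
    rw [SetLike.mem_coe, ← hV] at hv
    obtain ⟨w, hw, rfl⟩ := hv
    have := congrArg e (h w hw)
    rwa [map_mul, map_mul, MulEquiv.apply_symm_apply] at this
  · intro h w hw
    refine e.injective ?_
    rw [map_mul, map_mul, MulEquiv.apply_symm_apply]
    exact h _ (hV.le ⟨w, hw, rfl⟩)

theorem pPrimeCore_map_self {L : Type*} [Group L] [Finite L] (e : L ≃* L) :
    (Cfsg.pPrimeCore p L).map e.toMonoidHom = Cfsg.pPrimeCore p L := by
  have hc : Nat.card ↥((Cfsg.pPrimeCore p L).map e.toMonoidHom) = Nat.card ↥(Cfsg.pPrimeCore p L) :=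
    card_map_of_injective (f := e.toMonoidHom) e.injective
  refine eq_of_le_of_card_ge (Cfsg.Lib.Solv.le_pPrimeCore
    ((Cfsg.Lib.Transfer.pPrimeCore_normal p).map _ e.surjective) ?_) hc.ge
  rw [hc]
  exact (hp.out.coprime_iff_not_dvd.2 (Cfsg.Lib.Solv.not_dvd_card_pPrimeCore p)).symm

variable (p)

/-- Coprime operators and fixed lifts for the group induced by `J(K)` on `V`. -/
theorem exists_ops {q : ℕ} [Fact q.Prime] (hXK : X ≤ normalizer (K : Set G)) (hX : Cfsg.IsElementaryAbelian q X)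
    (hq : ¬ q ∣ Nat.card K) (V : Subgroup ↥K) [V.Normal] [IsMulCommutative ↥V] [Module (ZMod p) (Additive ↥V)]
    (hVinv : ∀ x, V.map (conjOn hXK x).toMonoidHom = V) :
    ∃ (α : ↥X →* MulAut ↥(jBar p V)) (τ : ↥X →* Module.End (ZMod p) (Additive ↥V)),
      Ops (jRep (p := p) V) (Cfsg.pPrimeCore p ↥(jBar p V)) q α τ ∧
      (∀ x v, ((Additive.toMul (τ x v) : ↥V) : ↥K) = conjOn hXK x ((Additive.toMul v : ↥V) : ↥K)) ∧
      ∀ g : ↥(jBar p V), (∀ x, α x g = g) → ∃ c : ↥K, (c : G) ∈ centralizer (X : Set G) ∧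
        QuotientGroup.mk' (centralizer (V : Set ↥K)) c = (g : ↥K ⧸ centralizer (V : Set ↥K)) := by
  set C := centralizer (V : Set ↥K)
  have hC : ∀ x, C.map (conjOn hXK x).toMonoidHom = C := fun x => map_centralizer_equiv _ (hVinv x)
  let σ : ↥X →* MulAut (↥K ⧸ C) := MonoidHom.mk' (fun x => QuotientGroup.congr C C (conjOn hXK x) (hC x))
    fun x y => MulEquiv.ext fun g => by
      obtain ⟨k, rfl⟩ := QuotientGroup.mk'_surjective _ g
      show QuotientGroup.mk' C (conjOn hXK (x * y) k) = QuotientGroup.mk' C (conjOn hXK x (conjOn hXK y k))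
      rw [map_mul]; rfl
  have hJ : ∀ x, ∀ g ∈ jBar p V, σ x g ∈ jBar p V := by
    rintro x _ ⟨k, hk, rfl⟩
    exact ⟨conjOn hXK x k, by rw [← Cfsg.Lib.PLocal.thompsonSubgroup_map (p := p) (conjOn hXK x)]; exact ⟨k, hk, rfl⟩, rfl⟩
  let α : ↥X →* MulAut ↥(jBar p V) := MonoidHom.mk' (fun x =>
    { toFun := fun g => ⟨σ x g, hJ x g g.2⟩
      invFun := fun g => ⟨σ x⁻¹ g, hJ _ g g.2⟩
      left_inv := fun g => Subtype.ext (by show σ x⁻¹ (σ x g) = g; rw [← MulAut.mul_apply, ← map_mul, inv_mul_cancel, map_one]; rfl)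
      right_inv := fun g => Subtype.ext (by show σ x (σ x⁻¹ g) = g; rw [← MulAut.mul_apply, ← map_mul, mul_inv_cancel, map_one]; rfl)
      map_mul' := fun g g' => Subtype.ext (map_mul (σ x) (g : ↥K ⧸ C) g') })
    fun x y => MulEquiv.ext fun g => Subtype.ext (by show σ (x * y) g = σ x (σ y g); rw [map_mul]; rfl)
  have hmem : ∀ (x : ↥X) (v : ↥V), conjOn hXK x (v : ↥K) ∈ V := fun x v =>
    (hVinv x).le ⟨v, v.2, rfl⟩
  let τ : ↥X →* Module.End (ZMod p) (Additive ↥V) :=
    { toFun := fun x => AddMonoidHom.toZModLinearMap p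
        { toFun := fun v => Additive.ofMul (⟨conjOn hXK x ((Additive.toMul v : ↥V) : ↥K), hmem x _⟩ : ↥V)
          map_zero' := Additive.toMul.injective (Subtype.ext (map_one (conjOn hXK x)))
          map_add' := fun u v => Additive.toMul.injective (Subtype.ext (map_mul (conjOn hXK x) _ _)) }
      map_one' := LinearMap.ext fun v => Additive.toMul.injective (Subtype.ext (by
        show conjOn hXK 1 _ = _; rw [map_one]; rfl))
      map_mul' := fun x y => LinearMap.ext fun v => Additive.toMul.injective (Subtype.ext (by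
        show conjOn hXK (x * y) _ = conjOn hXK x (conjOn hXK y _); rw [map_mul]; rfl)) }
  refine ⟨α, τ, ⟨fun x g v => ?_, fun x => pPrimeCore_map_self _, Fact.out, fun x => Subtype.ext (hX.2 x x.2), fun hd => hq ?_⟩,
    fun x v => rfl, fun g hg => ?_⟩
  · obtain ⟨g, hgJ⟩ := g
    obtain ⟨k, rfl⟩ := QuotientGroup.mk'_surjective _ g
    refine Additive.toMul.injective (Subtype.ext ?_)
    show conjOn hXK x (k * ((Additive.toMul v : ↥V) : ↥K) * k⁻¹) =
      conjOn hXK x k * conjOn hXK x ((Additive.toMul v : ↥V) : ↥K) * (conjOn hXK x k)⁻¹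
    rw [map_mul, map_mul, map_inv]
  · exact hd.trans ((Subgroup.card_subgroup_dvd_card _).trans (Subgroup.card_quotient_dvd_card C))
  · obtain ⟨k, hk⟩ := QuotientGroup.mk'_surjective C (g : ↥K ⧸ C)
    haveI := hX.1
    have hcop : (Nat.card ↥X).Coprime (Nat.card ↥K) := by
      obtain ⟨n, hn⟩ := IsPGroup.iff_card.1 (Cfsg.Lib.PLocal.elem_isPGroup hX)
      rw [hn]
      exact ((Fact.out : q.Prime).coprime_iff_not_dvd.2 hq).pow_left n
    have hfix : ∀ a ∈ X, a * (k : G) * a⁻¹ * (k : G)⁻¹ ∈ C.map K.subtype := by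
      intro a ha
      refine ⟨conjOn hXK ⟨a, ha⟩ k * k⁻¹, ?_, rfl⟩
      rw [SetLike.mem_coe, ← QuotientGroup.eq_one_iff]
      show QuotientGroup.mk' C (conjOn hXK ⟨a, ha⟩ k * k⁻¹) = 1
      rw [map_mul, map_inv, mul_inv_eq_one]
      have h1 : σ ⟨a, ha⟩ (g : ↥K ⧸ C) = (g : ↥K ⧸ C) := congrArg Subtype.val (hg ⟨a, ha⟩)
      rw [← hk] at h1
      exact h1
    obtain ⟨c, hc, hck⟩ := Cfsg.Lib.Solv.fixed_coset X K hXK hcop (Or.inl inferInstance) (C.map K.subtype)
      (map_subtype_le _) (fun u hu => mem_normalizer_fintype fun n hn => by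
        obtain ⟨n', hn', rfl⟩ := hn
        exact ⟨⟨u, hu⟩ * n' * ⟨u, hu⟩⁻¹, (inferInstance : C.Normal).conj_mem n' hn' _, rfl⟩)
      (fun a ha => mem_normalizer_fintype fun n hn => by
        obtain ⟨n', hn', rfl⟩ := hn
        exact ⟨conjOn hXK ⟨a, ha⟩ n', (hC ⟨a, ha⟩).le ⟨n', hn', rfl⟩, rfl⟩) (k : G) k.2 hfix
    refine ⟨⟨c, hc.1⟩, hc.2, ?_⟩
    rw [← hk]
    obtain ⟨n', hn', hn⟩ := hck
    refine (QuotientGroup.eq.2 ?_).symm
    rw [show k⁻¹ * (⟨c, hc.1⟩ : ↥K) = n' from Subtype.ext hn.symm]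
    exact hn'

end Cfsg.Lib.PLocal.FF
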