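import Mathlib
import Cfsg.Agent.Lib.PLocal.ClimbApply
import Cfsg.Agent.Lib.PLocal.StrongControlInd
import Cfsg.Agent.Lib.PLocal.TransferControl
import Cfsg.Agent.Lib.PLocal.TransferDegree

/-!
A family of functors controls strong fusion as soon as it does so in the sections whose `p`-core contains
its centralizer.
-/

set_option autoImplicit false
set_option linter.unusedSectionVars false
set_option linter.style.haveILetI false

open scoped commutatorElement Pointwise

namespace Cfsg.Lib.PLocal.FamilyInd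

open Cfsg Cfsg.Lib.PLocal.Climb

universe u

local notation "conjR" => Cfsg.Lib.Transfer.conjR

variable {p : ℕ} {𝓦 : Set (∀ (Q : Type u) [Group Q], Subgroup Q)}

/-- The functors induced on the subgroups of `X`. -/
abbrev famG (𝓦 : Set (∀ (Q : Type u) [Group Q], Subgroup Q)) (X : Type u) [Group X] :
    Set (Subgroup X → Subgroup X) :=
  (fun W => inducedFunctor (G := X) W) '' 𝓦

/-- The family controls strong fusion in `X`. -/
abbrev Control (p : ℕ) (𝓦 : Set (∀ (Q : Type u) [Group Q], Subgroup Q)) (X : Type u) [Group X] : Prop :=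
  FamilyControlsStrongFusionIn p (famG 𝓦 X) ⊤

/-- Control in every constrained section. -/
def Hyp (p : ℕ) (𝓦 : Set (∀ (Q : Type u) [Group Q], Subgroup Q)) (X : Type u) [Group X] : Prop :=
  ∀ (L : Type u) [Group L] [Finite L], Involves L X →
    Subgroup.centralizer (pCore p L : Set L) ≤ pCore p L → Control p 𝓦 L

theorem isConjugacyFunctor_induced [Fact p.Prime] {W : ∀ (Q : Type u) [Group Q], Subgroup Q}
    (hW : IsCharPFunctor.{u} p W) (X : Type u) [Group X] [Finite X] :
    IsConjugacyFunctor p (inducedFunctor (G := X) W) := fun P hP =>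
  ⟨TransferControl.induced_le W P, fun hne => TransferControl.induced_ne_bot hW P hP hne,
    fun g => TransferControl.induced_map hW _ P hP (Function.Injective.injOn (MulAut.conj g).injective)⟩

theorem famG_functor [Fact p.Prime] (h𝓦 : ∀ W ∈ 𝓦, IsCharPFunctor.{u} p W) (X : Type u) [Group X] [Finite X] :
    ∀ f ∈ famG 𝓦 X, IsConjugacyFunctor p f := by
  rintro _ ⟨W, hW, rfl⟩
  exact isConjugacyFunctor_induced (h𝓦 W hW) X

/-- Control seen through an injective homomorphism. -/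
theorem control_map [Fact p.Prime] (h𝓦 : ∀ W ∈ 𝓦, IsCharPFunctor.{u} p W) {X G : Type u} [Group X] [Finite X]
    [Group G] (f : X →* G) (hf : Function.Injective f) (h : Control p 𝓦 X) :
    FamilyControlsStrongFusionIn p (famG 𝓦 G) f.range := by
  obtain ⟨T, -, hTp, hidx, hT⟩ := h
  refine ⟨T.map f, Subgroup.map_le_range f T, hTp.map f, ?_, fun A g hg hA hgA => ?_⟩
  · rw [MonoidHom.range_eq_map, Subgroup.relIndex_map_map_of_injective _ _ hf]
    exact hidx
  obtain ⟨x, rfl⟩ := hg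
  have hsub : ∀ a ∈ A, ∃ t ∈ T, f t = a := fun a ha => hA ha
  have hAT : f ⁻¹' A ⊆ (T : Set X) := fun a ha => by
    obtain ⟨t, ht, hta⟩ := hsub _ ha
    exact hf hta ▸ ht
  obtain ⟨n, c, h0, h1, h2, h3⟩ := hT (f ⁻¹' A) x trivial hAT (by
    rintro _ ⟨a, ha, rfl⟩
    obtain ⟨t, ht, hta⟩ := hgA ⟨f a, ha, rfl⟩
    have hta' : f t = f x * f a * (f x)⁻¹ := hta
    rw [← map_inv, ← map_mul, ← map_mul] at hta'
    show x * a * x⁻¹ ∈ T
    rw [← hf hta']
    exact ht)
  refine ⟨n, f ∘ c, by simp [h0], fun i => ?_, fun i => ?_, fun a ha => ?_⟩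
  · obtain ⟨_, ⟨W, hW, rfl⟩, -, hi⟩ := h1 i
    refine ⟨_, ⟨W, hW, rfl⟩, ⟨c i.succ * (c i.castSucc)⁻¹, by simp⟩, ?_⟩
    show _ ∈ Subgroup.normalizer ((inducedFunctor W (T.map f) : Subgroup G) : Set G)
    rw [TransferControl.induced_map (h𝓦 W hW) f T hTp hf.injOn,
      show (f ∘ c) i.succ * ((f ∘ c) i.castSucc)⁻¹ = f (c i.succ * (c i.castSucc)⁻¹) by simp]
    refine Subgroup.mem_normalizer_iff.2 fun y => ⟨?_, ?_⟩
    · rintro ⟨u, hu, rfl⟩
      exact ⟨_, (Subgroup.mem_normalizer_iff.1 hi u).1 hu, by simp [mul_assoc]⟩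
    · rintro ⟨u, hu, hue⟩
      refine ⟨_, (Subgroup.mem_normalizer_iff''.1 hi u).1 hu, ?_⟩
      rw [map_mul, map_mul, hue, map_inv]
      group
  · rintro _ ⟨a, ha, rfl⟩
    obtain ⟨t, -, rfl⟩ := hsub a ha
    exact ⟨_, h2 i ⟨t, ha, rfl⟩, by simp⟩
  · obtain ⟨t, -, rfl⟩ := hsub a ha
    have := congrArg f (h3 t ha)
    simpa using this

theorem Hyp.of_involves {X G : Type u} [Group X] [Group G] (h : Hyp p 𝓦 G) (hX : Involves X G) : Hyp p 𝓦 X :=
  fun L _ _ hL hc => h L (TransferControl.involves_trans hL hX) hc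

variable [Fact p.Prime] {G : Type u} [Group G] [Finite G] (S : Sylow p G)

/-- The allowed steps at `S`. -/
abbrev stepSet (𝓦 : Set (∀ (Q : Type u) [Group Q], Subgroup Q)) (S : Subgroup G) : Set G :=
  {x | ∃ f ∈ famG 𝓦 G, x ∈ Subgroup.normalizer (f S : Set G)}

theorem isReal_steps : IsReal (S : Set G) (Fus (S : Set G) (stepSet 𝓦 (S : Subgroup G))) :=
  isReal_fus fun _ ⟨f, hf, hx⟩ => ⟨f, hf, Subgroup.inv_mem _ hx⟩

/-- Control in an overgroup of `S` realizes its conjugations by steps. -/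
theorem real_in_subgroup (h𝓦 : ∀ W ∈ 𝓦, IsCharPFunctor.{u} p W) {H : Subgroup G} (hSH : (S : Subgroup G) ≤ H)
    (hH : Control p 𝓦 H) {B : Set G} {y : G} (hy : y ∈ H) (hB : B ⊆ (S : Set G))
    (hyB : conjR y B ⊆ (S : Set G)) : Fus (S : Set G) (stepSet 𝓦 (S : Subgroup G)) B y := by
  have h := control_map h𝓦 H.subtype H.subtype_injective hH
  rw [Subgroup.range_subtype] at h
  exact real_of_family S (famG_functor h𝓦 G) (isReal_steps S) le_rfl hSH
    (fun hd => S.not_dvd_index (hd.trans (Subgroup.relIndex_dvd_index_of_le hSH))) h (fun h e => h.congr e)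
    (fun f hf x hx B _ hxB => .of_mem ⟨f, hf, hx.2⟩ hxB) hy hB hyB

section Lift

variable {Q : Type u} [Group Q] [Finite Q] (q : G →* Q) (R : Set G → G → Prop)

/-- A conjugation in the image lifts. -/
def Lifts (B' : Set Q) (g : Q) : Prop :=
  ∀ B : Set G, B ⊆ (S : Set G) → q '' B ⊆ B' →
    ∃ x, R B x ∧ conjR x B ⊆ (S : Set G) ∧ ∀ b ∈ B, q (x⁻¹ * b * x) = g⁻¹ * q b * g

theorem lifts_mul (hR : IsReal (S : Set G) R) {B' : Set Q} {x y : Q} (hx : Lifts S q R B' x)
    (hy : Lifts S q R (conjR x B') y) : Lifts S q R B' (x * y) := by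
  intro B hB hqB
  obtain ⟨a, ha, haS, hae⟩ := hx B hB hqB
  obtain ⟨b, hb, hbS, hbe⟩ := hy (conjR a B) haS (by
    rintro _ ⟨_, ⟨c, hc, rfl⟩, rfl⟩
    exact ⟨q c, hqB ⟨c, hc, rfl⟩, (hae c hc).symm⟩)
  refine ⟨a * b, hR.mul hB haS ha hb, by rwa [Transfer.conjR_mul], fun c hc => ?_⟩
  rw [show (a * b)⁻¹ * c * (a * b) = b⁻¹ * (a⁻¹ * c * a) * b by group, hbe _ ⟨c, hc, rfl⟩, hae c hc]
  group

theorem lifts_congr {B' : Set Q} {x y : Q} (hx : Lifts S q R B' x)
    (h : ∀ b ∈ B', y⁻¹ * b * y = x⁻¹ * b * x) : Lifts S q R B' y := by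
  intro B hB hqB
  obtain ⟨a, ha, haS, hae⟩ := hx B hB hqB
  exact ⟨a, ha, haS, fun b hb => (hae b hb).trans (h _ (hqB ⟨b, hb, rfl⟩)).symm⟩

/-- Lifting control from a quotient. -/
theorem lift_fusion (h𝓦 : ∀ W ∈ 𝓦, IsCharPFunctor.{u} p W) (hq : Function.Surjective q)
    (hR : IsReal (S : Set G) R) (hQ : Control p 𝓦 Q)
    (hstep : ∀ W ∈ 𝓦, ∀ x ∈ Subgroup.normalizer
        ((inducedFunctor W ((S : Subgroup G).map q) : Subgroup Q) : Set Q),
      ∀ B : Set G, B ⊆ (S : Set G) → (∀ b ∈ B, x⁻¹ * q b * x ∈ (S : Subgroup G).map q) →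
        ∃ a, R B a ∧ conjR a B ⊆ (S : Set G) ∧ ∀ b ∈ B, q (a⁻¹ * b * a) = x⁻¹ * q b * x)
    {B : Set G} (hB : B ⊆ (S : Set G)) {g : G} (hg : ∀ b ∈ B, q (g⁻¹ * b * g) ∈ (S : Subgroup G).map q) :
    ∃ a, R B a ∧ conjR a B ⊆ (S : Set G) ∧ ∀ b ∈ B, q (a⁻¹ * b * a) = q (g⁻¹ * b * g) := by
  set S' := S.mapSurjective hq
  have hS' : (S' : Subgroup Q) = (S : Subgroup G).map q := rfl
  have hR' : IsReal ((S' : Subgroup Q) : Set Q)
      (fun B' x => Lifts S q R B' x ∧ Lifts S q R (conjR x B') x⁻¹) := by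
    refine ⟨fun {B'} _ => ?_, fun {B' x y} _ _ hx hy => ⟨lifts_mul S q R hR hx.1 hy.1, ?_⟩,
      fun {B' B'' x} hBB h => ?_, fun {B' x} _ _ h => ⟨h.2, ?_⟩⟩
    · have h : ∀ B'' : Set Q, Lifts S q R B'' 1 := fun B'' B hB _ =>
        ⟨1, hR.one hB, by rwa [Transfer.conjR_one], fun b _ => by simp⟩
      exact ⟨h _, by rw [inv_one]; exact h _⟩
    · rw [mul_inv_rev]
      refine lifts_mul S q R hR (x := y⁻¹) ?_ ?_
      · rw [Transfer.conjR_mul]; exact hy.2
      · rw [Transfer.conjR_mul, conjR_inv_cancel]; exact hx.2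
    · exact ⟨fun B hB hqB => h.1 B hB (hqB.trans hBB),
        fun B hB hqB => h.2 B hB (hqB.trans (Transfer.conjR_mono x hBB))⟩
    · rw [conjR_inv_cancel, inv_inv]; exact h.1
  obtain ⟨a, ha, haS, hae⟩ := (real_of_family (H := ⊤) (P := (S' : Subgroup Q)) S' (famG_functor h𝓦 Q) hR'
    le_rfl le_top (by rw [Subgroup.relIndex_top_right]; exact S'.not_dvd_index) hQ
    (fun {B' x y} h e => ⟨lifts_congr S q R h.1 e, by
      rw [Cfsg.Lib.PLocal.Climb.conjR_congr e]
      refine lifts_congr S q R h.2 ?_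
      rintro _ ⟨b, hb, rfl⟩
      calc y⁻¹⁻¹ * (x⁻¹ * b * x) * y⁻¹ = y⁻¹⁻¹ * (y⁻¹ * b * y) * y⁻¹ := by rw [e b hb]
        _ = _ := by group⟩)
    (by
      rintro _ ⟨W, hW, rfl⟩ x hx B' hB' hxB'
      refine ⟨fun B hB hqB => hstep W hW x hx.2 B hB fun b hb => hxB' ⟨q b, hqB ⟨b, hb, rfl⟩, rfl⟩,
        fun B hB hqB => hstep W hW x⁻¹ (Subgroup.inv_mem _ hx.2) B hB fun b hb => ?_⟩
      obtain ⟨c, hc, hce⟩ := hqB ⟨b, hb, rfl⟩
      have hce' : x⁻¹ * c * x = q b := hce
      rw [← hce', show x⁻¹⁻¹ * (x⁻¹ * c * x) * x⁻¹ = c by group]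
      exact hB' hc)
    (B := q '' B) (y := q g) trivial (by rintro _ ⟨b, hb, rfl⟩; exact ⟨b, hB hb, rfl⟩)
    (by
      rintro _ ⟨_, ⟨b, hb, rfl⟩, rfl⟩
      have h := hg b hb
      rw [map_mul, map_mul, map_inv] at h
      exact h)).1 B hB subset_rfl
  exact ⟨a, ha, haS, fun b hb => by rw [hae b hb]; simp⟩

end Lift

/-- A normal subgroup of the normalizer of `T` meets `S` in a Sylow subgroup. -/
theorem inf_index_of_fully {T C : Subgroup G} (hT : Fully p (S : Subgroup G) T)
    (hCN : C ≤ Subgroup.normalizer (T : Set G))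
    (hconjC : ∀ z ∈ Subgroup.normalizer (T : Set G), ∀ c ∈ C, z⁻¹ * c * z ∈ C) :
    ¬ p ∣ ((S : Subgroup G) ⊓ C).relIndex C := by
  set X := (S : Subgroup G) ⊓ C with hX
  obtain ⟨T0⟩ := (inferInstance : Nonempty (Sylow p C))
  obtain ⟨k, hk, hksub⟩ := exists_conjR_subset ((Subgroup.map_subtype_le (T0 : Subgroup C)).trans hCN)
    (T0.isPGroup'.map C.subtype) inf_le_right (isPGroup_sN S T) hT
  have hle : Nat.card T0 ≤ Nat.card X := by
    rw [← Subgroup.card_map_of_injective C.subtype_injective (K := (T0 : Subgroup C)),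
      ← Transfer.card_map_conj k⁻¹]
    refine Nat.card_mono (Set.toFinite _) ?_
    rw [Transfer.coe_map_conj_inv]
    rintro _ ⟨a, ha, rfl⟩
    exact ⟨(hksub ⟨a, ha, rfl⟩).1, hconjC k hk a ((Subgroup.map_subtype_le _) ha)⟩
  obtain ⟨a, ha⟩ := (IsPGroup.iff_card (p := p)).1 T0.isPGroup'
  obtain ⟨b, hb⟩ := (IsPGroup.iff_card (p := p)).1 (S.isPGroup'.to_le (inf_le_left : X ≤ _))
  have hab : a ≤ b := (Nat.pow_le_pow_iff_right (Fact.out : p.Prime).one_lt).1 (ha ▸ hb ▸ hle)
  have h1 : Nat.card X * X.relIndex C = Nat.card C := by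
    rw [Subgroup.relIndex, ← Nat.card_congr (Subgroup.subgroupOfEquivOfLe (inf_le_right : X ≤ C)).toEquiv]
    exact Subgroup.card_mul_index _
  have h2 := Subgroup.card_mul_index (T0 : Subgroup C)
  intro hd
  refine T0.not_dvd_index (hd.trans (Dvd.intro_left (p ^ (b - a)) ?_))
  have hpos : 0 < p ^ a := pow_pos (Fact.out : p.Prime).pos a
  refine Nat.eq_of_mul_eq_mul_left hpos ?_
  rw [← mul_assoc, ← pow_add, Nat.add_sub_cancel' hab, ← hb, h1, ← ha, h2]

/-- Control passes up from the quotient by a normal `p'`-subgroup. -/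
theorem control_of_quotient (h𝓦 : ∀ W ∈ 𝓦, IsCharPFunctor.{u} p W) (K : Subgroup G) [K.Normal]
    (hK : (Nat.card K).Coprime p) (hQ : Control p 𝓦 (G ⧸ K)) : Control p 𝓦 G := by
  obtain ⟨S⟩ := (inferInstance : Nonempty (Sylow p G))
  refine family_controls_of_fus S fun {B g} hB hg => ?_
  set q := QuotientGroup.mk' K with hq
  have hqs : Function.Surjective q := QuotientGroup.mk'_surjective K
  have hinj : Set.InjOn q (S : Subgroup G) := by
    intro x hx y hy h
    obtain ⟨k, hk⟩ := S.isPGroup' ⟨x⁻¹ * y, (S : Subgroup G).mul_mem ((S : Subgroup G).inv_mem hx) hy⟩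
    have h1 := Subgroup.orderOf_dvd_natCard (s := K) (QuotientGroup.eq.1 h)
    have h2 := orderOf_dvd_of_pow_eq_one (congrArg Subtype.val hk : (x⁻¹ * y) ^ p ^ k = 1)
    exact inv_mul_eq_one.1
      (orderOf_eq_one_iff.1 (Nat.eq_one_of_dvd_coprimes (hK.pow_right k) h1 h2))
  refine Exists.elim (lift_fusion S q (Fus (S : Set G) (stepSet 𝓦 (S : Subgroup G))) h𝓦 hqs (isReal_steps S) hQ ?_ hB
    fun b hb => ⟨_, hg ⟨b, hb, rfl⟩, rfl⟩)
    fun a ⟨ha, haS, hae⟩ => Fus.congr ha fun b hb => hinj (hg ⟨b, hb, rfl⟩) (haS ⟨b, hb, rfl⟩) (hae b hb).symm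
  intro W hW x hx B hB hxB
  set Z := inducedFunctor W (S : Subgroup G) with hZdef
  have hZp : IsPGroup p Z := S.isPGroup'.to_le (TransferControl.induced_le W _)
  have hZq : inducedFunctor W ((S : Subgroup G).map q) = Z.map q :=
    TransferControl.induced_map (h𝓦 W hW) q _ S.isPGroup' hinj
  rw [hZq] at hx
  obtain ⟨x0, rfl⟩ := hqs x
  obtain ⟨o, ho, hox⟩ := exists_mul_mem_normalizer K Z hK hZp (g := x0) (by
    rintro _ ⟨z, hz, rfl⟩
    obtain ⟨z', hz', e⟩ : q x0 * q z * (q x0)⁻¹ ∈ Z.map q :=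
      (Subgroup.mem_normalizer_iff.1 hx _).1 ⟨z, hz, rfl⟩
    rw [← map_inv, ← map_mul, ← map_mul] at e
    have h1 : z'⁻¹ * (x0 * z * x0⁻¹) ∈ K := QuotientGroup.eq.1 e
    show x0 * z * x0⁻¹ ∈ K ⊔ Z
    rw [← mul_inv_cancel_left z' (x0 * z * x0⁻¹)]
    exact Subgroup.mul_mem _ (Subgroup.mem_sup_right hz') (Subgroup.mem_sup_left h1))
  set N := Subgroup.normalizer (Z : Set G) with hN
  have hSN : (S : Subgroup G) ≤ N :=
    Subgroup.le_normalizer.trans (TransferControl.normalizer_le (h𝓦 W hW) _ S.isPGroup')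
  set H := ((S : Subgroup G).map q).comap q ⊓ N with hH
  have hqo : q (o * x0) = q x0 := by
    rw [map_mul, show q o = 1 from (QuotientGroup.eq_one_iff o).2 ho, one_mul]
  have hcl : Subgroup.closure B ≤ (S : Subgroup G) := (Subgroup.closure_le _).2 hB
  have hsubH : cj (o * x0) (Subgroup.closure B) ≤ H := by
    rw [Subgroup.map_le_iff_le_comap, Subgroup.closure_le]
    intro b hb
    refine ⟨?_, ?_⟩
    · show q ((o * x0)⁻¹ * b * (o * x0)⁻¹⁻¹) ∈ (S : Subgroup G).map q
      rw [inv_inv, map_mul, map_mul, map_inv, hqo]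
      exact hxB b hb
    · show (o * x0)⁻¹ * b * (o * x0)⁻¹⁻¹ ∈ N
      rw [inv_inv]
      exact N.mul_mem (N.mul_mem (N.inv_mem hox) (hSN (hB hb))) hox
  have hSH : (S : Subgroup G) ≤ H := le_inf (Subgroup.le_comap_map q _) hSN
  obtain ⟨h, hh, hsub⟩ := exists_conjR_subset hsubH ((S.isPGroup'.to_le hcl).map _) hSH S.isPGroup'
    fun hd => S.not_dvd_index (hd.trans (Subgroup.relIndex_dvd_index_of_le hSH))
  obtain ⟨s, hs, hsh⟩ := hh.1
  have hqa : q (o * x0 * h * s⁻¹) = q x0 := by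
    rw [map_mul, map_mul, hqo, map_inv, hsh, mul_inv_cancel_right]
  have hmemN : o * x0 * h * s⁻¹ ∈ N := N.mul_mem (N.mul_mem hox hh.2) (N.inv_mem (hSN hs))
  have hsubS : conjR (o * x0 * h * s⁻¹) B ⊆ (S : Set G) := by
    rw [Transfer.conjR_mul, Transfer.conjR_mul]
    rintro _ ⟨a, ha, rfl⟩
    refine (S : Subgroup G).mul_mem ((S : Subgroup G).mul_mem ((S : Subgroup G).inv_mem ((S : Subgroup G).inv_mem hs))
      (hsub ?_)) ((S : Subgroup G).inv_mem hs)
    rw [Transfer.coe_map_conj_inv]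
    exact Transfer.conjR_mono h (Transfer.conjR_mono _ Subgroup.subset_closure) ha
  exact ⟨_, Fus.of_mem ⟨_, ⟨W, hW, rfl⟩, hmemN⟩ hsubS, hsubS, fun b _ => by rw [map_mul, map_mul, map_inv, hqa]⟩

/-- The induction step. -/
theorem control_step (h𝓦 : ∀ W ∈ 𝓦, IsCharPFunctor.{u} p W) (hG : Hyp p 𝓦 G)
    (IH : ∀ H : Subgroup G, H ≠ ⊤ → Control p 𝓦 H)
    (IHq : ∀ (N : Subgroup G) [N.Normal], N ≠ ⊥ → Control p 𝓦 (G ⧸ N)) : Control p 𝓦 G := by
  obtain ⟨S⟩ := (inferInstance : Nonempty (Sylow p G))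
  haveI := Transfer.pCore_normal (G := G) p
  set Y := pCore p G with hY
  have hYp : IsPGroup p Y := Transfer.pCore_isPGroup p
  have hYS : Y ≤ (S : Subgroup G) := Transfer.pCore_le_sylow S
  by_cases hY1 : Y = ⊥
  · refine family_controls_of_fus S fun hB hg => family_fusion_of_locals S
      (Good := Fully p (S : Subgroup G)) (famG_functor h𝓦 G) (fun V _ => move_fully S V) (fun _ h => h)
      (fun T _ hTS hT1 => ?_) hB hg
    have hN : Subgroup.normalizer (T : Set G) ≠ ⊤ := fun h => hT1 (le_bot_iff.1 (hY1 ▸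
      Transfer.le_pCore (Subgroup.normalizer_eq_top_iff.1 h) (S.isPGroup'.to_le hTS)))
    have h := control_map h𝓦 (Subgroup.normalizer (T : Set G)).subtype
      (Subgroup.normalizer (T : Set G)).subtype_injective (IH _ hN)
    rwa [Subgroup.range_subtype] at h
  set C := Subgroup.centralizer (Y : Set G) with hC
  by_cases hCY : C ≤ Y
  · exact hG G (TransferControl.involves_refl G) hCY
  haveI hCn : C.Normal := inferInstance
  obtain ⟨Cs, hCs⟩ := Solv.sylow_inf_subnormal (H := C) (Subgroup.Normal.isSubnormal hCn) S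
  set U := Y ⊔ ((S : Subgroup G) ⊓ C) with hU
  have hUS : U ≤ (S : Subgroup G) := sup_le hYS inf_le_left
  by_cases hUn : Subgroup.normalizer (U : Set G) = ⊤
  · haveI : U.Normal := Subgroup.normalizer_eq_top_iff.1 hUn
    have hUY : U ≤ Y := Transfer.le_pCore inferInstance (S.isPGroup'.to_le hUS)
    have hCsY : ∀ c : C, c ∈ (Cs : Subgroup C) → (c : G) ∈ Y := fun c hc => by
      rw [hCs] at hc
      exact hUY (Subgroup.mem_sup_right ⟨hc, c.2⟩)
    have hcent : Subgroup.normalizer ((Cs : Subgroup C) : Set C) ≤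
        Subgroup.centralizer ((Cs : Subgroup C) : Set C) := fun c _ =>
      Subgroup.mem_centralizer_iff.2 fun y hy => Subtype.ext
        (Subgroup.mem_centralizer_iff.1 c.2 _ (hCsY y hy))
    have hK₀c : (Nat.card (pResidual p C)).Coprime p :=
      Transfer.hasNormalPComplement_iff_pResidual.1
        ⟨Cs, _, inferInstance, MonoidHom.ker_transferSylow_isComplement' Cs hcent⟩
    haveI : (pResidual p C).Characteristic := Transfer.pResidual_characteristic p
    set K := (pResidual p C).map C.subtype with hK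
    haveI hKn : K.Normal := ConjAct.normal_of_characteristic_of_normal
    have hKc : (Nat.card K).Coprime p := by
      rw [hK, Subgroup.card_map_of_injective C.subtype_injective]
      exact hK₀c
    refine control_of_quotient h𝓦 K hKc (IHq K fun hK1 => hCY fun c hc => ?_)
    have h1 : pResidual p C = ⊥ :=
      (Subgroup.map_eq_bot_iff_of_injective _ C.subtype_injective).1 hK1
    have h2 := Transfer.pResidual_sup_sylow Cs
    rw [h1, bot_sup_eq] at h2
    exact hCsY ⟨c, hc⟩ (h2 ▸ Subgroup.mem_top _)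
  have hSnotY : ¬ (S : Subgroup G) ≤ Y := fun h => hUn (by
    rw [show U = Y from le_antisymm (hUS.trans h) le_sup_left]
    exact Subgroup.normalizer_eq_top (H := Y))
  have hNS : Subgroup.normalizer ((S : Subgroup G) : Set G) ≠ ⊤ := fun h =>
    hSnotY (Transfer.le_pCore (Subgroup.normalizer_eq_top_iff.1 h) S.isPGroup')
  have hSU : (S : Subgroup G) ≤ Subgroup.normalizer (U : Set G) := by
    intro s hs
    refine mem_normalizer_of_conj_le fun x hx => ?_
    have h1 : U ≤ U.comap (MulAut.conj s).toMonoidHom := sup_le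
      (fun z hz => Subgroup.mem_sup_left ((inferInstance : Y.Normal).conj_mem z hz s))
      (fun z hz => Subgroup.mem_sup_right ⟨(S : Subgroup G).mul_mem ((S : Subgroup G).mul_mem hs hz.1)
        ((S : Subgroup G).inv_mem hs), hCn.conj_mem z hz.2 s⟩)
    exact h1 hx
  refine family_controls_of_fus S fun {B g} hB hg => ?_
  refine Climb.global S (Good := Fully p (S : Subgroup G)) (isReal_steps S) (fun V _ => move_fully S V)
    (fun y hy => real_in_subgroup S h𝓦 Subgroup.le_normalizer (IH _ hNS) hy subset_rfl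
      (Transfer.conjR_subgroup_of_mem_normalizer hy).le)
    (fun B hB y => fus_bot hB y) (fun n hbig T hT hTS _ hn _ y hy => ?_) hB hg
  set M := stepSet 𝓦 (S : Subgroup G) with hM
  have hR := isReal_steps (𝓦 := 𝓦) S
  have hyT : conjR y (T : Set G) = (T : Set G) := Transfer.conjR_subgroup_of_mem_normalizer hy
  by_cases hYT : ¬ Y ≤ T
  · set D := T ⊔ Y
    have hDS : D ≤ (S : Subgroup G) := sup_le hTS hYS
    have hyD : conjR y (D : Set G) ⊆ (S : Set G) := by
      rintro _ ⟨d, hd, rfl⟩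
      have h1 : D ≤ (S : Subgroup G).comap (MulAut.conj y⁻¹).toMonoidHom := sup_le
        (fun t ht => by
          show y⁻¹ * t * y⁻¹⁻¹ ∈ (S : Subgroup G)
          rw [inv_inv]
          exact hTS ((Subgroup.mem_normalizer_iff''.1 hy t).1 ht))
        (fun z hz => hYS ((inferInstance : Y.Normal).conj_mem z hz y⁻¹))
      have h2 : y⁻¹ * d * y⁻¹⁻¹ ∈ (S : Subgroup G) := h1 hd
      rw [inv_inv] at h2
      exact h2
    refine hR.mono (SetLike.coe_subset_coe.2 le_sup_left) (hbig _ hDS ?_ y hyD)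
    refine lt_of_le_of_lt hn (lt_of_le_of_ne (Subgroup.card_le_of_le le_sup_left) fun e => hYT ?_)
    rw [Subgroup.eq_of_le_of_card_ge (le_sup_left : T ≤ D) e.ge]
    exact le_sup_right
  rw [not_not] at hYT
  set N := Subgroup.normalizer (T : Set G) with hN
  by_cases hCS : C ⊔ (S : Subgroup G) = ⊤
  · -- conjugation is a step up to the stabilizer of `T` modulo `Y`
    set q := QuotientGroup.mk' Y with hq
    have hqs : Function.Surjective q := QuotientGroup.mk'_surjective Y
    have hcom : ((S : Subgroup G).map q).comap q = (S : Subgroup G) := by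
      rw [Subgroup.comap_map_eq, hq, QuotientGroup.ker_mk', sup_eq_left.2 hYS]
    refine Exists.elim (lift_fusion S q (Fus (S : Set G) M) h𝓦 hqs hR (IHq Y hY1) ?_ (B := (T : Set G)) (g := y)
      (fun t ht => hTS ht) fun t ht => ⟨_, hTS ((Subgroup.mem_normalizer_iff''.1 hy t).1 ht), rfl⟩)
      fun a ⟨ha, _, hae⟩ => ?_
    · intro W hW x hx B hB hxB
      obtain ⟨x, rfl⟩ := hqs x
      set Z := inducedFunctor W ((S : Subgroup G).map q) with hZ
      set W2 := Z.comap q with hW2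
      have hS1 : (S : Subgroup G).map q ≠ ⊥ := fun h => hSnotY (by
        rw [Subgroup.map_eq_bot_iff, hq, QuotientGroup.ker_mk'] at h; exact h)
      have hW2S : W2 ≤ (S : Subgroup G) := by
        rw [← hcom]; exact Subgroup.comap_mono (TransferControl.induced_le W _)
      have hW2n : Subgroup.normalizer (W2 : Set G) ≠ ⊤ := by
        intro h
        have h1 : W2 ≤ Y := Transfer.le_pCore (Subgroup.normalizer_eq_top_iff.1 h) (S.isPGroup'.to_le hW2S)
        refine TransferControl.induced_ne_bot (h𝓦 W hW) _ (S.isPGroup'.map q) hS1 (eq_bot_iff.2 fun z hz => ?_)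
        obtain ⟨w, rfl⟩ := hqs z
        exact Subgroup.mem_bot.2 ((QuotientGroup.eq_one_iff w).2 (h1 hz))
      have hmem : ∀ v : G, q v ∈ Subgroup.normalizer (Z : Set (G ⧸ Y)) → v ∈ Subgroup.normalizer (W2 : Set G) := by
        intro v hv
        refine mem_normalizer_of_conj_le fun w hw => ?_
        show q (v * w * v⁻¹) ∈ Z
        rw [map_mul, map_mul, map_inv]
        exact (Subgroup.mem_normalizer_iff.1 hv _).1 hw
      have hxS : conjR x B ⊆ (S : Set G) := by
        rintro _ ⟨b, hb, rfl⟩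
        have h2 : x⁻¹ * b * x ∈ ((S : Subgroup G).map q).comap q := by
          rw [Subgroup.mem_comap, map_mul, map_mul, map_inv]
          exact hxB b hb
        rw [hcom] at h2
        exact h2
      refine ⟨x, real_in_subgroup S h𝓦 (fun s hs => hmem s ?_) (IH _ hW2n) (hmem x hx) hB hxS, hxS,
        fun b _ => by simp⟩
      exact TransferControl.normalizer_le (h𝓦 W hW) _ (S.isPGroup'.map q) (Subgroup.le_normalizer ⟨s, hs, rfl⟩)
    have hmodY : ∀ t ∈ T, (a⁻¹ * t * a)⁻¹ * (y⁻¹ * t * y) ∈ Y := fun t ht => QuotientGroup.eq.1 (hae t ht)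
    have haN : a ∈ N := by
      rw [← inv_inv a]
      refine Subgroup.inv_mem _ (mem_normalizer_of_conj_le fun t ht => ?_)
      have h2 := T.mul_mem ((Subgroup.mem_normalizer_iff''.1 hy t).1 ht) (T.inv_mem (hYT (hmodY t ht)))
      simpa [mul_assoc] using h2
    let K : Subgroup G :=
      { carrier := {v | v ∈ N ∧ ∀ t ∈ T, q (v⁻¹ * t * v) = q t}
        one_mem' := ⟨N.one_mem, fun t _ => by simp⟩
        mul_mem' := fun {v w} hv hw => ⟨N.mul_mem hv.1 hw.1, fun t ht => by
          rw [show (v * w)⁻¹ * t * (v * w) = w⁻¹ * (v⁻¹ * t * v) * w by group,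
            hw.2 _ ((Subgroup.mem_normalizer_iff''.1 hv.1 t).1 ht), hv.2 t ht]⟩
        inv_mem' := fun {v} hv => ⟨N.inv_mem hv.1, fun t ht => by
          rw [← hv.2 _ ((Subgroup.mem_normalizer_iff''.1 (N.inv_mem hv.1) t).1 ht)]
          congr 1
          group⟩ }
    have hu : a⁻¹ * y ∈ K := by
      refine ⟨N.mul_mem (N.inv_mem haN) hy, fun t ht => ?_⟩
      have h1 := hae (a * t * a⁻¹) ((Subgroup.mem_normalizer_iff.1 haN t).1 ht)
      rw [show a⁻¹ * (a * t * a⁻¹) * a = t by group] at h1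
      rw [h1]
      congr 1
      group
    have hKN : K ≤ N := fun v hv => hv.1
    have hKconj : ∀ z ∈ N, ∀ v ∈ K, z⁻¹ * v * z ∈ K := fun z hz v hv =>
      ⟨N.mul_mem (N.mul_mem (N.inv_mem hz) hv.1) hz, fun t ht => by
        have h1 := hv.2 _ ((Subgroup.mem_normalizer_iff.1 hz t).1 ht)
        rw [show (z⁻¹ * v * z)⁻¹ * t * (z⁻¹ * v * z) = z⁻¹ * (v⁻¹ * (z * t * z⁻¹) * v) * z by group,
          map_mul, map_mul, h1]
        simp [mul_assoc]⟩
    set CT := Subgroup.centralizer (T : Set G) with hCT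
    have hCTK : CT ≤ K := fun v hv => ⟨Subgroup.centralizer_le_normalizer _ hv, fun t ht => by
      rw [mul_assoc, Subgroup.mem_centralizer_iff.1 hv t ht, inv_mul_cancel_left]⟩
    set X := (S : Subgroup G) ⊓ K with hX
    have hCT' : ∀ v ∈ K, ∀ {r : ℕ}, r.Prime → r ≠ p → ∀ k : ℕ, v ^ r ^ k = 1 → v ∈ CT := by
      intro v hv r hr hrp k hk
      have hcop : ∀ j : ℕ, (r ^ k).Coprime (p ^ j) := fun j =>
        ((Nat.coprime_primes hr Fact.out).2 hrp).pow k j
      have hvC : v ∈ C := by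
        obtain ⟨c, hc, s, hs, hcs⟩ := Subgroup.mem_sup_of_normal_left.1 (hCS ▸ Subgroup.mem_top v)
        obtain ⟨j, hj⟩ := S.isPGroup' ⟨s, hs⟩
        refine (QuotientGroup.eq_one_iff v).1 (orderOf_eq_one_iff.1 (Nat.eq_one_of_dvd_coprimes (hcop j)
          (orderOf_dvd_of_pow_eq_one ?_) (orderOf_dvd_of_pow_eq_one ?_)))
        · rw [← QuotientGroup.mk_pow, hk]; rfl
        · rw [← hcs, QuotientGroup.mk_mul, show (QuotientGroup.mk c : G ⧸ C) = 1 from (QuotientGroup.eq_one_iff c).2 hc,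
            one_mul, ← QuotientGroup.mk_pow, show s ^ p ^ j = 1 from congrArg Subtype.val hj]
          rfl
      refine Subgroup.mem_centralizer_iff.2 fun t ht => ?_
      set z := t⁻¹ * (v⁻¹ * t * v) with hz
      have hzY : z ∈ Y := QuotientGroup.eq.1 (hv.2 t ht).symm
      have hvz : Commute v z := (Subgroup.mem_centralizer_iff.1 hvC z hzY).symm
      have hit : ∀ m : ℕ, (v ^ m)⁻¹ * t * v ^ m = t * z ^ m := by
        intro m
        induction m with
        | zero => simp
        | succ m ih =>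
          calc (v ^ (m + 1))⁻¹ * t * v ^ (m + 1) = v⁻¹ * ((v ^ m)⁻¹ * t * v ^ m) * v := by
                rw [pow_succ]; group
            _ = (v⁻¹ * t * v) * (v⁻¹ * z ^ m * v) := by rw [ih]; group
            _ = t * z * z ^ m := by
              rw [mul_assoc v⁻¹ (z ^ m) v, ← (hvz.pow_right m).eq, inv_mul_cancel_left, hz]; group
            _ = _ := by rw [mul_assoc, ← pow_succ']
      have h1 := hit (r ^ k)
      rw [hk] at h1
      obtain ⟨j, hj⟩ := hYp ⟨z, hzY⟩
      have h4 : z = 1 := orderOf_eq_one_iff.1 (Nat.eq_one_of_dvd_coprimes (hcop j)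
        (orderOf_dvd_of_pow_eq_one (by simpa using h1.symm))
        (orderOf_dvd_of_pow_eq_one (congrArg Subtype.val hj)))
      rw [hz, inv_mul_eq_one] at h4
      calc t * v = v * (v⁻¹ * t * v) := by group
        _ = v * t := by rw [← h4]
    have hle : K ≤ X ⊔ CT := by
      refine Subgroup.relIndex_eq_one.1 (Nat.eq_one_iff_not_exists_prime_dvd.2 fun r hr hrd => ?_)
      by_cases hrp : r = p
      · subst hrp
        exact inf_index_of_fully S hT hKN hKconj (hrd.trans (Subgroup.relIndex_dvd_of_le_left K le_sup_left))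
      · haveI := Fact.mk hr
        obtain ⟨R0⟩ := (inferInstance : Nonempty (Sylow r K))
        refine R0.not_dvd_index (hrd.trans (Subgroup.index_dvd_of_le fun v hv => ?_))
        obtain ⟨k, hk⟩ := R0.isPGroup' ⟨v, hv⟩
        exact Subgroup.mem_sup_right (hCT' v v.2 hr hrp k
          (congrArg (fun w : (R0 : Subgroup K) => ((w : K) : G)) hk))
    have hXn : X ≤ Subgroup.normalizer (CT : Set G) := fun x hx => by
      rw [← inv_inv x]
      refine Subgroup.inv_mem _ (mem_normalizer_of_conj_le fun v hv => ?_)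
      rw [inv_inv]
      refine Subgroup.mem_centralizer_iff.2 fun t ht => ?_
      have h1 := Subgroup.mem_centralizer_iff.1 hv (x * t * x⁻¹) ((Subgroup.mem_normalizer_iff.1 (hKN hx.2) t).1 ht)
      calc t * (x⁻¹ * v * x) = x⁻¹ * (x * t * x⁻¹ * v) * x := by group
        _ = x⁻¹ * (v * (x * t * x⁻¹)) * x := by rw [h1]
        _ = _ := by group
    have h1 := hle hu
    rw [← SetLike.mem_coe, Subgroup.coe_mul_of_left_le_normalizer_right _ _ hXn] at h1
    obtain ⟨s, hs, c, hc, hsc⟩ := h1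
    have hsS : Fus (S : Set G) M (T : Set G) s := by
      refine real_in_subgroup S h𝓦 le_rfl ?_ hs.1 (fun t ht => hTS ht) ?_
      · refine hG _ (TransferControl.involves_subgroup _) fun v _ => ?_
        exact Transfer.le_pCore (inferInstance : (⊤ : Subgroup (S : Subgroup G)).Normal)
          (S.isPGroup'.to_subgroup ⊤) trivial
      · exact (Transfer.conjR_subgroup_of_mem_normalizer (hKN hs.2)).le.trans fun t ht => hTS ht
    have haT := Transfer.conjR_subgroup_of_mem_normalizer (H := T) haN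
    refine Fus.congr (hR.mul (fun t ht => hTS ht) (haT.le.trans fun t ht => hTS ht) ha (haT.symm ▸ hsS))
      fun t ht => ?_
    have hy' : y = a * s * c := by
      rw [mul_assoc, show s * c = a⁻¹ * y from hsc, mul_inv_cancel_left]
    have h3 : ((a * s)⁻¹ * t * (a * s)) ∈ T :=
      (Subgroup.mem_normalizer_iff''.1 (N.mul_mem haN (hKN hs.2)) t).1 ht
    calc y⁻¹ * t * y = c⁻¹ * (((a * s)⁻¹ * t * (a * s)) * c) := by rw [hy']; group
      _ = c⁻¹ * (c * ((a * s)⁻¹ * t * (a * s))) := by rw [Subgroup.mem_centralizer_iff.1 hc _ h3]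
      _ = _ := by group
  · -- conjugation is a step in `C S` followed by one on a larger set
    set C' := C ⊓ N with hC'
    set X := (S : Subgroup G) ⊓ C' with hX
    have hconj : ∀ z ∈ N, ∀ c ∈ C', z⁻¹ * c * z ∈ C' := fun z hz c hc =>
      ⟨by simpa using hCn.conj_mem c hc.1 z⁻¹, N.mul_mem (N.mul_mem (N.inv_mem hz) hc.2) hz⟩
    by_cases hXT : ¬ X ≤ T
    · obtain ⟨c, hc, hcsub⟩ := exists_conjR_subset (H := C') (Q := cj y X) (P := X)
        (by
          rw [← SetLike.coe_subset_coe, Transfer.coe_map_conj_inv]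
          rintro _ ⟨a, ha, rfl⟩
          exact hconj y hy a ha.2)
        ((S.isPGroup'.to_le inf_le_left).map _) inf_le_right (S.isPGroup'.to_le inf_le_left)
        (inf_index_of_fully S hT inf_le_right hconj)
      rw [Transfer.coe_map_conj_inv, ← Transfer.conjR_mul] at hcsub
      have hzN : y * c ∈ N := N.mul_mem hy hc.2
      have hDS : (T : Set G) ∪ (X : Set G) ⊆ (S : Set G) :=
        Set.union_subset (fun a ha => hTS ha) (fun a ha => ha.1)
      have hcard : n < Nat.card ↥((T : Set G) ∪ (X : Set G)) := lt_of_le_of_lt hn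
        (Set.Finite.card_lt_card (Set.toFinite _) ⟨Set.subset_union_left, fun h => hXT fun z hz => h (Or.inr hz)⟩)
      have h1 : Fus (S : Set G) M ((T : Set G) ∪ (X : Set G)) (y * c) := by
        refine hbig _ hDS hcard _ ?_
        rintro _ ⟨a, ha | ha, rfl⟩
        · exact hTS ((Subgroup.mem_normalizer_iff''.1 hzN a).1 ha)
        · exact (hcsub ⟨a, ha, rfl⟩).1
      have hzT := Transfer.conjR_subgroup_of_mem_normalizer (H := T) hzN
      have h2 : Fus (S : Set G) M (T : Set G) c⁻¹ := by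
        refine real_in_subgroup S h𝓦 le_sup_right (IH _ hCS) (Subgroup.mem_sup_left (C.inv_mem hc.1))
          (fun a ha => hTS ha) ?_
        exact (Transfer.conjR_subgroup_of_mem_normalizer (N.inv_mem hc.2)).le.trans fun a ha => hTS ha
      have h3 := hR.mul (fun a ha => hTS ha) (hzT.le.trans fun a ha => hTS ha)
        (hR.mono Set.subset_union_left h1) (hzT.symm ▸ h2)
      rwa [mul_inv_cancel_right] at h3
    · rw [not_not] at hXT
      have hSC : (S : Subgroup G) ⊓ C ≤ T := by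
        by_contra hne
        set D := T ⊔ ((S : Subgroup G) ⊓ C)
        have hDp : IsPGroup p D := S.isPGroup'.to_le (sup_le hTS inf_le_left)
        have hlt : T < D := lt_of_le_of_ne le_sup_left fun e => hne (e ▸ le_sup_right)
        haveI : Group.IsNilpotent D := hDp.isNilpotent
        have hlt' : T.subgroupOf D < Subgroup.normalizer ((T.subgroupOf D : Subgroup D) : Set D) := by
          refine Group.normalizerCondition_of_isNilpotent _ (lt_top_iff_ne_top.2 fun e => hlt.ne ?_)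
          exact le_antisymm hlt.le (Subgroup.subgroupOf_eq_top.1 e)
        obtain ⟨d, hd, hdT⟩ := SetLike.exists_of_lt hlt'
        have hdN : (d : G) ∈ N := mem_normalizer_of_conj_le fun t ht =>
          (Subgroup.mem_normalizer_iff.1 hd ⟨t, hlt.le ht⟩).1 ht
        have hTn : T ≤ Subgroup.normalizer (((S : Subgroup G) ⊓ C : Subgroup G) : Set G) := fun t ht =>
          mem_normalizer_of_conj_le fun z hz =>
            ⟨(S : Subgroup G).mul_mem ((S : Subgroup G).mul_mem (hTS ht) hz.1) ((S : Subgroup G).inv_mem (hTS ht)),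
              hCn.conj_mem z hz.2 t⟩
        have hd2 : (d : G) ∈ ((T ⊔ ((S : Subgroup G) ⊓ C) : Subgroup G) : Set G) := d.2
        rw [Subgroup.coe_mul_of_left_le_normalizer_right _ _ hTn] at hd2
        obtain ⟨t, ht, s, hs, hts⟩ := hd2
        refine hdT ?_
        show (d : G) ∈ T
        rw [← hts]
        refine T.mul_mem ht (hXT ⟨hs.1, hs.2, ?_⟩)
        have h5 := N.mul_mem (N.inv_mem (Subgroup.le_normalizer ht)) hdN
        rwa [← hts, inv_mul_cancel_left] at h5
      have hyU : y ∈ Subgroup.normalizer (U : Set G) := by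
        rw [← inv_inv y]
        refine Subgroup.inv_mem _ (mem_normalizer_of_conj_le fun u hu => ?_)
        have h1 : U ≤ U.comap (MulAut.conj y⁻¹).toMonoidHom := sup_le
          (fun z hz => Subgroup.mem_sup_left ((inferInstance : Y.Normal).conj_mem z hz y⁻¹))
          (fun z hz => Subgroup.mem_sup_right ⟨by
            show y⁻¹ * z * y⁻¹⁻¹ ∈ (S : Subgroup G)
            rw [inv_inv]
            exact hTS ((Subgroup.mem_normalizer_iff''.1 hy z).1 (hSC hz)), hCn.conj_mem z hz.2 y⁻¹⟩)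
        exact h1 hu
      exact real_in_subgroup S h𝓦 hSU (IH _ hUn) hyU (fun a ha => hTS ha) (hyT.le.trans fun a ha => hTS ha)

/-- Control in the constrained sections gives control. -/
theorem control_of_hyp (h𝓦 : ∀ W ∈ 𝓦, IsCharPFunctor.{u} p W) :
    ∀ (n : ℕ) (G : Type u) [Group G] [Finite G], Nat.card G = n → Hyp p 𝓦 G → Control p 𝓦 G := by
  intro n
  induction n using Nat.strong_induction_on with
  | _ n ih =>
  intro G _ _ hn hG
  subst hn
  refine control_step h𝓦 hG
    (fun H hH => ih _ (card_lt_of_ne_top hH) H rfl (hG.of_involves (TransferControl.involves_subgroup H)))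
    fun N _ hN => ih _ ?_ (G ⧸ N) rfl (hG.of_involves (TransferControl.involves_quotient N))
  rw [Subgroup.card_eq_card_quotient_mul_card_subgroup N]
  haveI : Nontrivial N := (Subgroup.nontrivial_iff_ne_bot N).2 hN
  exact lt_mul_of_one_lt_right Nat.card_pos Finite.one_lt_card

/-- The hypothesis on sections in the form used by the statements. -/
theorem hyp_of_sections (h𝓦 : ∀ W ∈ 𝓦, IsCharPFunctor.{u} p W)
    (hloc : ∀ (K R : Subgroup G) [hR : (R.subgroupOf K).Normal],
      Subgroup.centralizer ((pCore p (↥K ⧸ R.subgroupOf K) : Subgroup (↥K ⧸ R.subgroupOf K)) :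
        Set (↥K ⧸ R.subgroupOf K)) ≤ pCore p (↥K ⧸ R.subgroupOf K) →
      Control p 𝓦 (↥K ⧸ R.subgroupOf K)) : Hyp p 𝓦 G := by
  intro L _ _ hL hc
  obtain ⟨K, R, hR, ⟨e⟩⟩ := hL
  have h := control_map h𝓦 e.toMonoidHom e.injective (hloc K R (PLocal.selfCentralizingCore_congr e.symm hc))
  rwa [MonoidHom.range_eq_top.2 e.surjective] at h

/-- A functor with normal value controls. -/
theorem control_of_normal {W : ∀ (Q : Type u) [Group Q], Subgroup Q} (hW : W ∈ 𝓦) (T : Sylow p G)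
    (h : (inducedFunctor W (T : Subgroup G)).Normal) : Control p 𝓦 G :=
  family_controls_of_fus T fun {B g} _ hg => Fus.of_mem ⟨_, ⟨W, hW, rfl⟩, by
    rw [Subgroup.normalizer_eq_top_iff.2 h]; exact Subgroup.mem_top g⟩ hg

/-- A factorization by two normalizers controls. -/
theorem control_of_pair (h𝓦 : ∀ W ∈ 𝓦, IsCharPFunctor.{u} p W) {W₁ W₂ : ∀ (Q : Type u) [Group Q], Subgroup Q}
    (hW₁ : W₁ ∈ 𝓦) (hW₂ : W₂ ∈ 𝓦) (T : Sylow p G)
    (h : ∀ x : G, ∃ a ∈ Subgroup.normalizer ((inducedFunctor W₁ (T : Subgroup G) : Subgroup G) : Set G),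
      ∃ b ∈ Subgroup.normalizer ((inducedFunctor W₂ (T : Subgroup G) : Subgroup G) : Set G), x = a * b) :
    Control p 𝓦 G := by
  refine family_controls_of_fus T fun {B g} hB hg => ?_
  set N₁ := Subgroup.normalizer ((inducedFunctor W₁ (T : Subgroup G) : Subgroup G) : Set G)
  set N₂ := Subgroup.normalizer ((inducedFunctor W₂ (T : Subgroup G) : Subgroup G) : Set G)
  have h1 : (T : Subgroup G) ≤ N₁ :=
    Subgroup.le_normalizer.trans (TransferControl.normalizer_le (h𝓦 _ hW₁) _ T.isPGroup')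
  have h2 : (T : Subgroup G) ≤ N₂ :=
    Subgroup.le_normalizer.trans (TransferControl.normalizer_le (h𝓦 _ hW₂) _ T.isPGroup')
  obtain ⟨a, ha, b, hb, rfl⟩ := h g
  have hcl : Subgroup.closure B ≤ (T : Subgroup G) := (Subgroup.closure_le _).2 hB
  have hsub : cj a (Subgroup.closure B) ≤ N₁ ⊓ N₂ := by
    rw [Subgroup.map_le_iff_le_comap, Subgroup.closure_le]
    intro c hc
    refine ⟨?_, ?_⟩
    · show a⁻¹ * c * a⁻¹⁻¹ ∈ N₁
      rw [inv_inv]
      exact N₁.mul_mem (N₁.mul_mem (N₁.inv_mem ha) (h1 (hB hc))) ha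
    · show a⁻¹ * c * a⁻¹⁻¹ ∈ N₂
      have h3 := h2 (hg ⟨c, hc, rfl⟩)
      have h4 := N₂.mul_mem (N₂.mul_mem hb h3) (N₂.inv_mem hb)
      simpa [mul_assoc] using h4
  obtain ⟨c, hc, hcsub⟩ := exists_conjR_subset hsub ((T.isPGroup'.to_le hcl).map _) (le_inf h1 h2) T.isPGroup'
    fun hd => T.not_dvd_index (hd.trans (Subgroup.relIndex_dvd_index_of_le (le_inf h1 h2)))
  have hac : conjR (a * c) B ⊆ (T : Set G) := by
    rw [Transfer.conjR_mul]
    refine (Transfer.conjR_mono c ?_).trans hcsub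
    rw [Transfer.coe_map_conj_inv]
    exact Transfer.conjR_mono a Subgroup.subset_closure
  have hR := isReal_steps (𝓦 := 𝓦) T
  rw [show a * b = (a * c) * (c⁻¹ * b) by group]
  refine hR.mul hB hac (Fus.of_mem ⟨_, ⟨W₁, hW₁, rfl⟩, N₁.mul_mem ha hc.1⟩ hac)
    (Fus.of_mem ⟨_, ⟨W₂, hW₂, rfl⟩, N₂.mul_mem (N₂.inv_mem hc.2) hb⟩ ?_)
  rw [← Transfer.conjR_mul, show (a * c) * (c⁻¹ * b) = a * b by group]
  exact hg

/-- Control by one functor at a given Sylow subgroup. -/
theorem exists_of_control_singleton {W : ∀ (Q : Type u) [Group Q], Subgroup Q} (hW : IsCharPFunctor.{u} p W)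
    (h : Control p {W} G) (T : Sylow p G) {A : Set G} (hA : A ⊆ (T : Subgroup G)) {g : G}
    (hg : (fun a => g * a * g⁻¹) '' A ⊆ (T : Subgroup G)) :
    ∃ x ∈ Subgroup.normalizer ((inducedFunctor W (T : Subgroup G) : Subgroup G) : Set G),
      ∀ a ∈ A, g * a * g⁻¹ = x * a * x⁻¹ := by
  have h𝓦 : ∀ W' ∈ ({W} : Set (∀ (Q : Type u) [Group Q], Subgroup Q)), IsCharPFunctor.{u} p W' := by
    rintro _ rfl
    exact hW
  rw [image_left] at hg
  obtain ⟨g', hs, he⟩ := real_of_family T (famG_functor h𝓦 G) (isReal_steps (𝓦 := {W}) T) (H := ⊤)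
    (P := (T : Subgroup G)) le_rfl le_top (by rw [Subgroup.relIndex_top_right]; exact T.not_dvd_index) h
    (fun h e => h.congr e) (fun f hf x hx B _ hxB => .of_mem ⟨f, hf, hx.2⟩ hxB) (y := g⁻¹) trivial hA hg
  have hg' : g' ∈ Subgroup.normalizer ((inducedFunctor W (T : Subgroup G) : Subgroup G) : Set G) :=
    hs.mem_subgroup (by
      rintro x ⟨_, ⟨W', rfl, rfl⟩, hx⟩
      exact hx)
  refine ⟨g'⁻¹, Subgroup.inv_mem _ hg', fun a ha => ?_⟩
  have h5 := he a ha
  rw [inv_inv] at h5 ⊢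
  exact h5

end Cfsg.Lib.PLocal.FamilyInd
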