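import Cfsg.Agent.Lib.PLocal.IntersectionControl

/-!
# Control of Sylow intersections by the family of a normalizer functor
-/

set_option autoImplicit false
set_option linter.unusedSectionVars false
set_option linter.style.haveILetI false

namespace Cfsg.Lib.FunctorControl

open Subgroup Cfsg Cfsg.Lib.InterControl
open scoped Pointwise

variable {G : Type*} [Group G] [Finite G] {p : ℕ} [hp : Fact p.Prime]

/-- A chain of Sylow subgroups through members of `𝓕`, all containing `D`. -/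
inductive Link (𝓕 : Set (Subgroup G)) (D : Subgroup G) : Sylow p G → Sylow p G → Prop
  | refl (U : Sylow p G) : Link 𝓕 D U U
  | step {U V W : Sylow p G} (X : Subgroup G) (x : G)
      (hXU : X ∈ sylowMembers p 𝓕 (U : Subgroup G)) (hXV : X ∈ sylowMembers p 𝓕 (V : Subgroup G))
      (hx : x ∈ X) (hxV : subgroupConjRight x (V : Subgroup G) = (U : Subgroup G))
      (hD : D ≤ (V : Subgroup G) ⊓ X) (h : Link 𝓕 D V W) : Link 𝓕 D U W

namespace Link

variable {𝓕 : Set (Subgroup G)} {D E : Subgroup G}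

theorem trans {U V W : Sylow p G} (h₁ : Link 𝓕 D U V) (h₂ : Link 𝓕 D V W) : Link 𝓕 D U W := by
  induction h₁ with
  | refl => exact h₂
  | step X x a b c d e _ ih => exact .step X x a b c d e (ih h₂)

theorem mono {U V : Sylow p G} (h : Link 𝓕 E U V) (hDE : D ≤ E) : Link 𝓕 D U V := by
  induction h with
  | refl => exact .refl _
  | step X x a b c d e _ ih => exact .step X x a b c d (hDE.trans e) ih

theorem single {U V : Sylow p G} (X : Subgroup G) (x : G)
    (hXU : X ∈ sylowMembers p 𝓕 (U : Subgroup G)) (hXV : X ∈ sylowMembers p 𝓕 (V : Subgroup G))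
    (hx : x ∈ X) (hxV : subgroupConjRight x (V : Subgroup G) = (U : Subgroup G))
    (hD : D ≤ (V : Subgroup G) ⊓ X) : Link 𝓕 D U V :=
  .step X x hXU hXV hx hxV hD (.refl V)

theorem conj (h𝓕 : IsNormalSet 𝓕) (a : G) {U V : Sylow p G} (h : Link 𝓕 D U V) :
    Link 𝓕 (subgroupConjRight a⁻¹ D) (a • U) (a • V) := by
  have hc : ∀ W : Sylow p G, ((a • W : Sylow p G) : Subgroup G) = subgroupConjRight a⁻¹ (W : Subgroup G) :=
    fun W => by rw [sc_sylow, inv_inv]
  induction h with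
  | refl => exact .refl _
  | @step U V W X x hU hV hx hxV hD _ ih =>
    refine .step (subgroupConjRight a⁻¹ X) (a * x * a⁻¹) ?_ ?_ ?_ ?_ ?_ ih
    · rw [hc]; exact members_conj h𝓕 _ hU
    · rw [hc]; exact members_conj h𝓕 _ hV
    · rw [mem_sc]
      simpa [mul_assoc] using hx
    · rw [hc, hc, sc_sc, ← hxV, sc_sc]
      congr 1
      group
    · rw [hc]
      intro d hd
      exact ⟨map_mono (hD.trans inf_le_left) hd, map_mono (hD.trans inf_le_right) hd⟩

theorem exists_chain {U V : Sylow p G} (h : Link 𝓕 D U V) :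
    ∃ (n : ℕ) (c : Fin (n + 1) → Sylow p G) (X : Fin n → Subgroup G) (x : Fin n → G),
      c 0 = U ∧ c (Fin.last n) = V ∧
      ∀ i : Fin n,
        X i ∈ sylowMembers p 𝓕 (c i.castSucc : Subgroup G) ∧ X i ∈ sylowMembers p 𝓕 (c i.succ : Subgroup G) ∧
        x i ∈ X i ∧ subgroupConjRight (x i) (c i.succ : Subgroup G) = (c i.castSucc : Subgroup G) ∧
        D ≤ (c i.succ : Subgroup G) ⊓ X i := by
  induction h with
  | refl U => exact ⟨0, fun _ => U, Fin.elim0, Fin.elim0, rfl, rfl, fun i => i.elim0⟩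
  | @step U V W X x hU hV hx hxV hD _ ih =>
    obtain ⟨n, c, Y, y, h0, hn, hall⟩ := ih
    refine ⟨n + 1, Fin.cons U c, Fin.cons X Y, Fin.cons x y, rfl, ?_, fun i => ?_⟩
    · rw [← Fin.succ_last, Fin.cons_succ, hn]
    · induction i using Fin.cases with
      | zero =>
        rw [Fin.castSucc_zero, Fin.cons_succ, h0, Fin.cons_zero, Fin.cons_zero, Fin.cons_zero]
        exact ⟨hU, hV, hx, hxV, hD⟩
      | succ j =>
        rw [← Fin.succ_castSucc, Fin.cons_succ, Fin.cons_succ, Fin.cons_succ, Fin.cons_succ]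
        exact hall j

end Link

/-- `R` is a Sylow `p`-subgroup of `M`. -/
def IsSylIn (p : ℕ) (R M : Subgroup G) : Prop :=
  R ≤ M ∧ IsPGroup p R ∧ ∀ Q : Subgroup G, Q ≤ M → IsPGroup p Q → R ≤ Q → Q = R

theorem isSylIn_of_sylow {M : Subgroup G} (P : Sylow p ↥M) :
    IsSylIn p ((P : Subgroup ↥M).map M.subtype) M := by
  refine ⟨map_subtype_le _, P.isPGroup'.map _, fun Q hQM hQ hPQ => ?_⟩
  have h := P.is_maximal' (hQ.comap_subtype : IsPGroup p (Q.subgroupOf M)) fun x hx =>
    hPQ (mem_map_of_mem M.subtype hx)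
  exact (map_subgroupOf_eq_of_le hQM).symm.trans (congrArg (Subgroup.map M.subtype) h)

theorem exists_sylow {R M : Subgroup G} (h : IsSylIn p R M) :
    ∃ P : Sylow p ↥M, (P : Subgroup ↥M).map M.subtype = R := by
  obtain ⟨P, hP⟩ := (h.2.1.comap_subtype : IsPGroup p (R.subgroupOf M)).exists_le_sylow
  refine ⟨P, ?_⟩
  exact h.2.2 _ (map_subtype_le _) (P.isPGroup'.map _)
    ((map_subgroupOf_eq_of_le h.1).ge.trans (map_mono hP))

theorem exists_ge {Q M : Subgroup G} (hQM : Q ≤ M) (hQ : IsPGroup p Q) :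
    ∃ R, IsSylIn p R M ∧ Q ≤ R := by
  obtain ⟨P, hP⟩ := (hQ.comap_subtype : IsPGroup p (Q.subgroupOf M)).exists_le_sylow
  exact ⟨_, isSylIn_of_sylow P, (map_subgroupOf_eq_of_le hQM).ge.trans (map_mono hP)⟩

theorem card_le_syl {R M Q : Subgroup G} (h : IsSylIn p R M) (hQM : Q ≤ M) (hQ : IsPGroup p Q) :
    Nat.card Q ≤ Nat.card R := by
  obtain ⟨R', hR', hle⟩ := exists_ge hQM hQ
  obtain ⟨P, rfl⟩ := exists_sylow h
  obtain ⟨P', rfl⟩ := exists_sylow hR'
  refine (Nat.card_le_card_of_injective _ (inclusion_injective hle)).trans (le_of_eq ?_)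
  rw [card_map_of_injective M.subtype_injective, card_map_of_injective M.subtype_injective,
    P.card_eq_multiplicity, P'.card_eq_multiplicity]

theorem exists_conj {R R' M : Subgroup G} (h : IsSylIn p R M) (h' : IsSylIn p R' M) :
    ∃ m ∈ M, R' = subgroupConjRight m⁻¹ R := by
  obtain ⟨P, rfl⟩ := exists_sylow h
  obtain ⟨P', rfl⟩ := exists_sylow h'
  obtain ⟨m, rfl⟩ := MulAction.exists_smul_eq (↥M) P P'
  refine ⟨m, m.2, ?_⟩
  rw [Sylow.coe_subgroup_smul]
  show (((P : Subgroup ↥M).map (MulAut.conj m).toMonoidHom)).map M.subtype =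
    ((P : Subgroup ↥M).map M.subtype).map (MulAut.conj ((m : G)⁻¹⁻¹)).toMonoidHom
  rw [Subgroup.map_map, Subgroup.map_map, inv_inv]
  rfl

/-- A Sylow subgroup of the whole group over a Sylow subgroup of `M`. -/
theorem exists_over {R M : Subgroup G} (h : IsSylIn p R M) :
    ∃ U : Sylow p G, (U : Subgroup G) ⊓ M = R := by
  obtain ⟨U, hU⟩ := h.2.1.exists_le_sylow
  exact ⟨U, h.2.2 _ inf_le_right (U.isPGroup'.to_le inf_le_left) (le_inf hU h.1)⟩

theorem eq_of_over {R M : Subgroup G} (h : IsSylIn p R M) {U : Sylow p G} (hU : R ≤ (U : Subgroup G)) :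
    (U : Subgroup G) ⊓ M = R :=
  h.2.2 _ inf_le_right (U.isPGroup'.to_le inf_le_left) (le_inf hU h.1)

theorem mem_members {𝓕 : Set (Subgroup G)} {M : Subgroup G} (hM : M ∈ 𝓕) {U : Sylow p G}
    (h : IsSylIn p ((U : Subgroup G) ⊓ M) M) : M ∈ sylowMembers p 𝓕 (U : Subgroup G) :=
  ⟨hM, exists_sylow h⟩

theorem isSylIn_top (U : Sylow p G) {M : Subgroup G} (hUM : (U : Subgroup G) ≤ M) :
    IsSylIn p ((U : Subgroup G) ⊓ M) M := by
  rw [inf_eq_left.2 hUM]
  exact ⟨hUM, U.isPGroup', fun Q _ hQ hle => U.is_maximal' hQ hle⟩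

section Functor

variable {f : Subgroup G → Set (Subgroup G)}

theorem family_normal (hf : IsNormalizerFunctor p f) : IsNormalSet (functorFamily p f ⊤) := by
  rintro X ⟨P, F, hF, rfl⟩ g
  obtain ⟨U, hU⟩ : ∃ U : Sylow p G, (U : Subgroup G) = (P : Subgroup ↥(⊤ : Subgroup G)).map (Subgroup.subtype _) := by
    refine ⟨⟨_, P.isPGroup'.map _, fun {Q} hQ hle => ?_⟩, rfl⟩
    exact (isSylIn_of_sylow P).2.2 Q le_top hQ hle
  rw [← hU] at hF
  let U' : Sylow p G := g⁻¹ • U
  refine ⟨U'.subtype le_top, subgroupConjRight g F, ?_, ?_⟩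
  · rw [Sylow.coe_subtype, map_subgroupOf_eq_of_le le_top]
    show subgroupConjRight g F ∈ f (((g⁻¹ • U : Sylow p G) : Subgroup G))
    rw [← sc_sylow, subgroupConjRight, (hf _ U.isPGroup').2]
    exact ⟨F, hF, rfl⟩
  · rw [top_inf_eq, top_inf_eq, subgroupConjRight, subgroupConjRight,
      map_equiv_normalizer_eq F (MulAut.conj g⁻¹)]

/-- The member attached to a Sylow subgroup of the group and one of its distinguished subgroups. -/
theorem normalizer_mem (U : Sylow p G) {F : Subgroup G} (hF : F ∈ f (U : Subgroup G)) :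
    normalizer (F : Set G) ∈ functorFamily p f ⊤ := by
  refine ⟨U.subtype le_top, F, ?_, (top_inf_eq _).symm⟩
  rwa [Sylow.coe_subtype, map_subgroupOf_eq_of_le le_top]

/-- Steps inside a regular subgroup. -/
theorem regular_chain {M : Subgroup G} (hr : IsFunctorRegular p f M) {R R' D : Subgroup G}
    (hR : IsSylIn p R M) (hR' : IsSylIn p R' M) (hD1 : D ≠ ⊥) (hDR : D ≤ R) (hDR' : D ≤ R')
    (rel : Subgroup G → Subgroup G → Prop) (hrefl : ∀ T, IsSylIn p T M → D ≤ T → rel T T)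
    (htrans : ∀ T₁ T₂ T₃, rel T₁ T₂ → rel T₂ T₃ → rel T₁ T₃)
    (hstep : ∀ (P : Subgroup G) (F : Subgroup G) (T T' : Subgroup G) (x : G), IsSylIn p P M → F ∈ f P →
      IsSylIn p T M → IsSylIn p T' M → T ≤ normalizer (F : Set G) → T' ≤ normalizer (F : Set G) →
      x ∈ M ⊓ normalizer (F : Set G) → subgroupConjRight x T' = T → D ≤ T → D ≤ T' → (∀ y ∈ P, y ∈ normalizer (F : Set G)) → rel T T')
    (hfN : ∀ (P : Subgroup G), IsPGroup p P → ∀ F ∈ f P, P ≤ normalizer (F : Set G)) :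
    rel R R' := by
  by_cases hne : R = R'
  · subst hne; exact hrefl R hR hDR
  obtain ⟨P₀, rfl⟩ := exists_sylow hR
  obtain ⟨P₁, rfl⟩ := exists_sylow hR'
  have hmeet : D.subgroupOf M ≤ (P₀ : Subgroup ↥M) ⊓ (P₁ : Subgroup ↥M) := fun d hd => by
    obtain ⟨a, ha, hae⟩ := hDR hd
    obtain ⟨b, hb, hbe⟩ := hDR' hd
    exact ⟨M.subtype_injective hae ▸ ha, M.subtype_injective hbe ▸ hb⟩
  obtain ⟨n, c, X, x, h0, hn, hall⟩ := hr P₀ P₁ (fun e => hne (by rw [e])) (fun e => hD1 (by
    have h1 : D.subgroupOf M = ⊥ := le_bot_iff.1 (e ▸ hmeet)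
    rw [← map_subgroupOf_eq_of_le (hDR.trans (map_subtype_le _)), h1, Subgroup.map_bot]))
  have key : ∀ i : Fin (n + 1), rel ((P₀ : Subgroup ↥M).map M.subtype) ((c i : Subgroup ↥M).map M.subtype) ∧
      D ≤ (c i : Subgroup ↥M).map M.subtype := by
    intro i
    induction i using Fin.induction with
    | zero => rw [h0]; exact ⟨hrefl _ hR hDR, hDR⟩
    | succ i ih =>
      obtain ⟨hX1, hX2, hx, hconj, hDi⟩ := hall i
      obtain ⟨⟨X₀, ⟨P, F, hF, hX₀⟩, hXeq⟩, Q1, hQ1⟩ := hX1
      obtain ⟨-, Q2, hQ2⟩ := hX2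
      have hPF := hfN _ (P.isPGroup'.map _) F hF
      have hXM : X i = (normalizer (F : Set G)).subgroupOf M := by
        rw [← hXeq, hX₀]; exact inf_subgroupOf_left _ _
      have hPX : (P : Subgroup ↥M) ≤ X i := by
        rw [hXM]; exact fun a ha => hPF (mem_map_of_mem M.subtype ha)
      have hfull : ∀ (Q : Sylow p ↥(X i)) (T : Sylow p ↥M),
          (Q : Subgroup ↥(X i)).map (X i).subtype = (T : Subgroup ↥M) ⊓ X i →
            (T : Subgroup ↥M).map M.subtype ≤ normalizer (F : Set G) := by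
        intro Q T hQ
        have hle : Nat.card P ≤ Nat.card ↥((T : Subgroup ↥M) ⊓ X i) := by
          have h := card_le_syl (isSylIn_of_sylow Q) hPX P.isPGroup'
          rwa [hQ] at h
        have heq : (T : Subgroup ↥M) ⊓ X i = T := eq_of_le_of_card_ge inf_le_left (by
          rw [T.card_eq_multiplicity, ← P.card_eq_multiplicity]; exact hle)
        rintro _ ⟨a, ha, rfl⟩
        have h := (heq.ge ha).2
        rw [hXM] at h
        exact h
      have hDT : D ≤ (c i.succ : Subgroup ↥M).map M.subtype := fun d hd => by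
        have hdM : d ∈ M := map_subtype_le _ (hDR hd)
        exact ⟨⟨d, hdM⟩, (hDi (hmeet (show (⟨d, hdM⟩ : ↥M) ∈ D.subgroupOf M from hd))).1, rfl⟩
      refine ⟨htrans _ _ _ ih.1 (hstep _ F _ _ (x i : G) (isSylIn_of_sylow P) hF (isSylIn_of_sylow _)
        (isSylIn_of_sylow _) (hfull Q1 _ hQ1) (hfull Q2 _ hQ2) ⟨(x i).2, ?_⟩ ?_ ih.2 hDT
        (fun y hy => hPF hy)), hDT⟩
      · rw [hXM] at hx; exact hx
      · rw [← hconj, subgroupConjRight, subgroupConjRight, Subgroup.map_map, Subgroup.map_map]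
        rfl
  exact hn ▸ (key (Fin.last n)).1

/-- Inside a regular subgroup containing full Sylow subgroups. -/
theorem link_regular (hf : IsNormalizerFunctor p f) {H : Subgroup G} (hr : IsFunctorRegular p f H)
    {U V : Sylow p G} (hU : (U : Subgroup G) ≤ H) (hV : (V : Subgroup G) ≤ H) {D : Subgroup G}
    (hD1 : D ≠ ⊥) (hDU : D ≤ (U : Subgroup G)) (hDV : D ≤ (V : Subgroup G)) :
    Link (functorFamily p f ⊤) D U V := by
  have hfN : ∀ (P : Subgroup G), IsPGroup p P → ∀ F ∈ f P, P ≤ normalizer (F : Set G) :=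
    fun P hP F hF => le_normalizer.trans (((hf P hP).1 F hF).2)
  have hUs := isSylIn_top U hU
  have hVs := isSylIn_top V hV
  rw [inf_eq_left.2 hU] at hUs
  rw [inf_eq_left.2 hV] at hVs
  have hfull : ∀ T : Subgroup G, IsSylIn p T H → ∃ W : Sylow p G, (W : Subgroup G) = T := by
    intro T hT
    obtain ⟨W, hW⟩ := exists_over hT
    refine ⟨W, ?_⟩
    have h1 := card_le_syl hT hU U.isPGroup'
    have h2 : Nat.card ↥(W : Subgroup G) ≤ Nat.card ↥((W : Subgroup G) ⊓ H) := by
      rw [hW, W.card_eq_multiplicity, ← U.card_eq_multiplicity]; exact h1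
    exact (eq_of_le_of_card_ge inf_le_left h2).symm.trans hW
  obtain ⟨W, W', hW, hW', h⟩ := regular_chain hr hUs hVs hD1 hDU hDV
    (fun T T' => ∃ W W' : Sylow p G, (W : Subgroup G) = T ∧ (W' : Subgroup G) = T' ∧
      Link (functorFamily p f ⊤) D W W')
    (fun T hT _ => by
      obtain ⟨W, hW⟩ := hfull T hT
      exact ⟨W, W, hW, hW, .refl _⟩)
    (fun T₁ T₂ T₃ => by
      rintro ⟨A, B, hA, hB, h1⟩ ⟨B', C, hB', hC, h2⟩
      obtain rfl : B = B' := Sylow.ext (hB.trans hB'.symm)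
      exact ⟨A, C, hA, hC, h1.trans h2⟩)
    (fun P F T T' x hP hF hT hT' hTN hT'N hx hconj hDT hDT' _ => by
      obtain ⟨A, hA⟩ := hfull T hT
      obtain ⟨B, hB⟩ := hfull T' hT'
      obtain ⟨C, hC⟩ := hfull P hP
      have hmem := normalizer_mem C (hC.symm ▸ hF : F ∈ f (C : Subgroup G))
      refine ⟨A, B, hA, hB, Link.single _ x (mem_members hmem (isSylIn_top A (hA.symm ▸ hTN)))
        (mem_members hmem (isSylIn_top B (hB.symm ▸ hT'N))) hx.2 ?_ ?_⟩
      · rw [hA, hB]; exact hconj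
      · rw [hB]; exact le_inf hDT' (hDT'.trans hT'N))
    hfN
  obtain rfl : W = U := Sylow.ext hW
  obtain rfl : W' = V := Sylow.ext hW'
  exact h

/-- S2957. -/
theorem regular_of_product (hf : IsNormalizerFunctor p f) (S₀ : Sylow p G) (G₁ G₂ : Subgroup G)
    (h₁ : (S₀ : Subgroup G) ≤ G₁) (h₂ : (S₀ : Subgroup G) ≤ G₂)
    (hprod : ∀ g : G, ∃ g₁ ∈ G₁, ∃ g₂ ∈ G₂, g = g₁ * g₂)
    (hr₁ : IsFunctorRegular p f G₁) (hr₂ : IsFunctorRegular p f G₂) :
    IsFunctorRegular p f ⊤ := by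
  have h𝓕 := family_normal hf
  -- pairs starting at `S₀`
  have hS₀ : ∀ (T : Sylow p G) (D : Subgroup G), D ≠ ⊥ → D ≤ (S₀ : Subgroup G) → D ≤ (T : Subgroup G) →
      Link (functorFamily p f ⊤) D S₀ T := by
    intro T D hD1 hDS hDT
    obtain ⟨g, rfl⟩ := MulAction.exists_smul_eq G S₀ T
    obtain ⟨g₁, hg₁, g₂, hg₂, rfl⟩ := hprod g
    set D' := subgroupConjRight g₁ D with hD'
    have hD'1 : D' ≠ ⊥ := fun e => hD1 ((map_eq_bot_iff_of_injective _ (MulAut.conj g₁⁻¹).injective).1 e)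
    have hsm : ∀ (w : G) (W : Sylow p G) (y : G),
        y ∈ ((w • W : Sylow p G) : Subgroup G) ↔ w⁻¹ * y * w ∈ (W : Subgroup G) := fun w W y => by
      have h : ((w • W : Sylow p G) : Subgroup G) = subgroupConjRight w⁻¹ (W : Subgroup G) := by
        rw [sc_sylow, inv_inv]
      rw [h, mem_sc, inv_inv]
    have hD'G₂ : ∀ d ∈ D', d ∈ ((g₂ • S₀ : Sylow p G) : Subgroup G) := by
      intro d hd
      rw [hD', mem_sc] at hd
      have := (hsm _ _ _).1 (hDT hd)
      rw [hsm]
      simpa [mul_assoc] using this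
    have hg₂S : ((g₂ • S₀ : Sylow p G) : Subgroup G) ≤ G₂ := fun y hy => by
      have := G₂.mul_mem (G₂.mul_mem hg₂ (h₂ ((hsm _ _ _).1 hy))) (G₂.inv_mem hg₂)
      simpa [mul_assoc] using this
    have hD'G₁ : D' ≤ G₁ := fun d hd => by
      rw [hD', mem_sc] at hd
      have := G₁.mul_mem (G₁.mul_mem (G₁.inv_mem hg₁) (h₁ (hDS hd))) hg₁
      simpa [mul_assoc] using this
    -- a Sylow subgroup of `G₁ ∩ G₂` containing `D'`
    obtain ⟨R, hR, hD'R⟩ := exists_ge (p := p) (Q := D') (M := G₁ ⊓ G₂)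
      (le_inf hD'G₁ fun d hd => hg₂S (hD'G₂ d hd)) ((S₀.isPGroup'.to_le hDS).map _)
    have hS₁₂ := isSylIn_top S₀ (le_inf h₁ h₂)
    rw [inf_eq_left.2 (le_inf h₁ h₂)] at hS₁₂
    obtain ⟨d, hd, hRd⟩ := exists_conj hS₁₂ hR
    rw [sc_sylow, inv_inv] at hRd
    rw [hRd] at hD'R
    have hd₁S : ((d • S₀ : Sylow p G) : Subgroup G) ≤ G₁ := hRd ▸ hR.1.trans inf_le_left
    have hd₂S : ((d • S₀ : Sylow p G) : Subgroup G) ≤ G₂ := hRd ▸ hR.1.trans inf_le_right
    have l2 := (link_regular hf hr₂ hd₂S hg₂S hD'1 hD'R hD'G₂).conj h𝓕 g₁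
    have e : subgroupConjRight g₁⁻¹ D' = D := by rw [hD', sc_sc, mul_inv_cancel, sc_one]
    rw [e, ← mul_smul g₁ g₂] at l2
    have hU₁ : ((g₁ • (d • S₀) : Sylow p G) : Subgroup G) ≤ G₁ := fun y hy => by
      have := G₁.mul_mem (G₁.mul_mem hg₁ (hd₁S ((hsm _ _ _).1 hy))) (G₁.inv_mem hg₁)
      simpa [mul_assoc] using this
    have hDU : D ≤ ((g₁ • (d • S₀) : Sylow p G) : Subgroup G) := fun y hy => (hsm _ _ _).2 (hD'R (by
      rw [hD', mem_sc]; simpa [mul_assoc] using hy))
    exact (link_regular hf hr₁ h₁ hU₁ hD1 hDS hDU).trans l2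
  have hall : ControlsSylowIntersections p (functorFamily p f ⊤) := by
    intro S T _ hne
    refine Link.exists_chain ?_
    obtain ⟨a, rfl⟩ := MulAction.exists_smul_eq G S₀ S
    set D := ((a • S₀ : Sylow p G) : Subgroup G) ⊓ (T : Subgroup G)
    have h := (hS₀ (a⁻¹ • T) (subgroupConjRight a D)
      (fun e => hne ((map_eq_bot_iff_of_injective _ (MulAut.conj a⁻¹).injective).1 e)) ?_ ?_).conj h𝓕 a
    · rwa [sc_sc, mul_inv_cancel, sc_one, smul_inv_smul] at h
    · refine (map_mono inf_le_left).trans (le_of_eq ?_)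
      show subgroupConjRight a _ = _
      rw [sc_sylow, inv_smul_smul]
    · rw [← sc_sylow]
      exact map_mono inf_le_right
  -- transfer to `↥⊤`
  intro S T hST hne
  set e := (⊤ : Subgroup G).subtype
  have hes : Function.Injective e := subtype_injective _
  have hlift : ∀ W : Sylow p ↥(⊤ : Subgroup G), ∃ W' : Sylow p G, (W' : Subgroup G) = (W : Subgroup _).map e :=
    fun W => ⟨⟨_, W.isPGroup'.map _, fun {Q} hQ hle => (isSylIn_of_sylow W).2.2 Q le_top hQ hle⟩, rfl⟩
  obtain ⟨S', hS'⟩ := hlift S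
  obtain ⟨T', hT'⟩ := hlift T
  have hinf : (S' : Subgroup G) ⊓ (T' : Subgroup G) = ((S : Subgroup _) ⊓ (T : Subgroup _)).map e := by
    rw [hS', hT', map_inf _ _ _ hes]
  obtain ⟨n, c, X, x, h0, hn, hstep⟩ := hall S' T'
    (fun h => hST (Sylow.ext (map_injective hes (by rw [← hS', ← hT', h]))))
    (fun h => hne ((map_eq_bot_iff_of_injective _ hes).1 (hinf ▸ h)))
  refine ⟨n, fun i => (c i).subtype le_top, fun i => (X i).subgroupOf ⊤, fun i => ⟨x i, mem_top _⟩, ?_, ?_, fun i => ?_⟩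
  · apply Sylow.ext
    apply map_injective hes
    rw [Sylow.coe_subtype, map_subgroupOf_eq_of_le le_top, h0, hS']
  · apply Sylow.ext
    apply map_injective hes
    rw [Sylow.coe_subtype, map_subgroupOf_eq_of_le le_top, hn, hT']
  obtain ⟨hX1, hX2, hx, hc, hD⟩ := hstep i
  have hmem : ∀ W : Sylow p G, X i ∈ sylowMembers p (functorFamily p f ⊤) (W : Subgroup G) →
      (X i).subgroupOf ⊤ ∈ sylowMembers p ((fun X : Subgroup G => X.subgroupOf ⊤) '' functorFamily p f ⊤)
        ((W.subtype le_top : Sylow p ↥(⊤ : Subgroup G)) : Subgroup _) := by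
    rintro W ⟨hX, Q, hQ⟩
    refine ⟨⟨_, hX, rfl⟩, ?_⟩
    refine exists_sylow ⟨inf_le_right, (W.subtype le_top).isPGroup'.to_le inf_le_left, fun Q' hQ'X hQ'p hle => ?_⟩
    apply map_injective hes
    have hmap : ∀ Y : Subgroup G, (Y.subgroupOf ⊤).map e = Y := fun Y => map_subgroupOf_eq_of_le le_top
    rw [Sylow.coe_subtype, map_inf _ _ _ hes, hmap, hmap]
    refine ((hQ ▸ isSylIn_of_sylow Q).2.2 (Q'.map e) ?_ (hQ'p.map _) ?_)
    · exact (map_mono hQ'X).trans (hmap _).le
    · rw [← hmap (W : Subgroup G), ← hmap (X i), ← map_inf _ _ _ hes]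
      exact map_mono hle
  refine ⟨hmem _ hX1, hmem _ hX2, hx, ?_, ?_⟩
  · apply map_injective hes
    rw [Sylow.coe_subtype, Sylow.coe_subtype, map_subgroupOf_eq_of_le le_top, ← hc, subgroupConjRight,
      Subgroup.map_map, subgroupConjRight]
    conv_rhs => rw [← map_subgroupOf_eq_of_le (le_top : (c i.succ : Subgroup G) ≤ ⊤), Subgroup.map_map]
    rfl
  · intro d hd
    exact hD (hinf ▸ mem_map_of_mem e hd)

/-- S2956. -/
theorem family_controls (hf : IsNormalizerFunctor p f)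
    (hf1 : ∀ P : Subgroup G, IsPGroup p P → P ≠ ⊥ → ∀ F ∈ f P, F ≠ ⊥) :
    ControlsSylowIntersections p
      (functorFamily p f ⊤ ∪ {M | IsMaximalPLocal p M ∧ ¬ IsFunctorRegular p f M}) := by
  set 𝓕 := functorFamily p f ⊤ ∪ {M | IsMaximalPLocal p M ∧ ¬ IsFunctorRegular p f M}
  have hfN : ∀ (P : Subgroup G), IsPGroup p P → ∀ F ∈ f P, P ≤ normalizer (F : Set G) :=
    fun P hP F hF => le_normalizer.trans (((hf P hP).1 F hF).2)
  have hgrow : ∀ (U : Sylow p G) (R : Subgroup G), R ≤ (U : Subgroup G) → R ≠ (U : Subgroup G) →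
      Nat.card R < Nat.card ↥((U : Subgroup G) ⊓ normalizer (R : Set G)) := by
    intro U R hRU hne
    by_contra! hle
    have e : R = (U : Subgroup G) ⊓ normalizer (R : Set G) := eq_of_le_of_card_ge (le_inf hRU le_normalizer) hle
    haveI := U.isPGroup'.isNilpotent
    have hnc := (normalizerCondition_iff_only_full_group_self_normalizing).1
      (normalizerCondition_of_isNilpotent (G := ↥(U : Subgroup G))) (R.subgroupOf U) ?_
    · exact hne (le_antisymm hRU (subgroupOf_eq_top.1 hnc))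
    · refine le_antisymm (fun a ha => ?_) le_normalizer
      show (a : G) ∈ R
      rw [e]
      refine ⟨a.2, mem_normalizer_iff.2 fun d => ⟨fun hd => ?_, fun hd => ?_⟩⟩
      · exact (mem_normalizer_iff.1 ha ⟨d, hRU hd⟩).1 hd
      · have hd' : d ∈ (U : Subgroup G) := by
          have := (U : Subgroup G).mul_mem ((U : Subgroup G).mul_mem
            ((U : Subgroup G).inv_mem a.2) (hRU hd)) a.2
          simpa [mul_assoc] using this
        exact (mem_normalizer_iff.1 ha ⟨d, hd'⟩).2 hd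
  suffices main : ∀ D : Subgroup G, D ≠ ⊥ → ∀ U V : Sylow p G, D ≤ (U : Subgroup G) → D ≤ (V : Subgroup G) →
      Link 𝓕 D U V from
    fun S T _ hne => Link.exists_chain (main _ hne S T inf_le_left inf_le_right)
  intro D
  induction hk : Nat.card G - Nat.card D using Nat.strong_induction_on generalizing D with
  | _ k ih =>
  subst hk
  intro hD1
  have bridge : ∀ U V : Sylow p G, D ≤ (U : Subgroup G) → D ≤ (V : Subgroup G) →
      Nat.card D < Nat.card ↥((U : Subgroup G) ⊓ (V : Subgroup G)) → Link 𝓕 D U V := by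
    intro U V hU hV hlt
    have hle := card_le_card_group ((U : Subgroup G) ⊓ (V : Subgroup G))
    exact (ih _ (by omega) _ rfl (fun e => by rw [e, card_bot] at hlt; have := Nat.card_pos (α := D); omega)
      U V inf_le_left inf_le_right).mono (le_inf hU hV)
  -- through a `p`-local subgroup
  have inner : ∀ j : ℕ, ∀ (M R R' : Subgroup G), IsPLocal p M → IsSylIn p R M → IsSylIn p R' M →
      Nat.card G - Nat.card R = j → Nat.card D < Nat.card R → D ≤ R → D ≤ R' →
      ∀ U V : Sylow p G, R ≤ (U : Subgroup G) → R' ≤ (V : Subgroup G) → Link 𝓕 D U V := by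
    intro j
    induction j using Nat.strong_induction_on with
    | _ j ihj =>
    intro M₀ R₀ R₀' hM₀ hR₀ hR₀' hj hlt₀ hDR₀ hDR₀' U₀ V₀ hRU₀ hRV₀
    subst hj
    obtain ⟨M, ⟨hMl, hMM⟩, hMmax⟩ := (Set.toFinite {N : Subgroup G | IsPLocal p N ∧ M₀ ≤ N}).exists_maximal
      ⟨M₀, hM₀, le_rfl⟩
    have hMx : IsMaximalPLocal p M := ⟨hMl, fun N hN hle => le_antisymm (hMmax ⟨hN, hMM.trans hle⟩ hle) hle⟩
    obtain ⟨R, hR, hR₀R⟩ := exists_ge (hR₀.1.trans hMM) hR₀.2.1
    obtain ⟨R', hR', hR₀R'⟩ := exists_ge (hR₀'.1.trans hMM) hR₀'.2.1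
    obtain ⟨U, hU⟩ := exists_over hR
    obtain ⟨V, hV⟩ := exists_over hR'
    have hc₀ : Nat.card R₀' = Nat.card R₀ := le_antisymm (card_le_syl hR₀ hR₀'.1 hR₀'.2.1)
      (card_le_syl hR₀' hR₀.1 hR₀.2.1)
    have hlt : Nat.card D < Nat.card R := hlt₀.trans_le (Nat.card_le_card_of_injective _ (inclusion_injective hR₀R))
    have hRU : R ≤ (U : Subgroup G) := hU ▸ inf_le_left
    have hRV : R' ≤ (V : Subgroup G) := hV ▸ inf_le_left
    have hDR : D ≤ R := hDR₀.trans hR₀R
    have hDR' : D ≤ R' := hDR₀'.trans hR₀R'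
    have hb : ∀ (Q : Subgroup G) (A B : Sylow p G), D ≤ Q → Nat.card D < Nat.card Q →
        Q ≤ (A : Subgroup G) → Q ≤ (B : Subgroup G) → Link 𝓕 D A B := fun Q A B hDQ hQ hA hB =>
      bridge A B (hDQ.trans hA) (hDQ.trans hB)
        (hQ.trans_le (Nat.card_le_card_of_injective _ (inclusion_injective (le_inf hA hB))))
    refine ((hb R₀ U₀ U hDR₀ hlt₀ hRU₀ (hR₀R.trans hRU)).trans ?_).trans
      (hb R₀' V V₀ hDR₀' (hc₀ ▸ hlt₀) (hR₀R'.trans hRV) hRV₀)
    by_cases hreg : IsFunctorRegular p f M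
    · obtain ⟨-, -, h⟩ := regular_chain hreg hR hR' hD1 hDR hDR'
        (fun T T' => IsPGroup p T ∧ IsPGroup p T' ∧ ∀ A B : Sylow p G, T ≤ (A : Subgroup G) →
          T' ≤ (B : Subgroup G) → Link 𝓕 D A B)
        (fun T hT hDT => ⟨hT.2.1, hT.2.1, fun A B hA hB => hb T A B hDT
          (hlt.trans_le (card_le_syl hT hR.1 hR.2.1)) hA hB⟩)
        (fun T₁ T₂ T₃ h12 h23 => by
          obtain ⟨B, hB⟩ := h12.2.1.exists_le_sylow
          exact ⟨h12.1, h23.2.1, fun A C hA hC => (h12.2.2 A B hA hB).trans (h23.2.2 B C hB hC)⟩)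
        (fun P F T T' x hP hF hT hT' hTN hT'N hx hconj hDT hDT' hPN => by
          refine ⟨hT.2.1, hT'.2.1, fun A B hA hB => ?_⟩
          have hcP : Nat.card R ≤ Nat.card P := card_le_syl hP hR.1 hR.2.1
          have hcT : Nat.card R ≤ Nat.card T := card_le_syl hT hR.1 hR.2.1
          have hcT' : Nat.card R ≤ Nat.card T' := card_le_syl hT' hR.1 hR.2.1
          obtain ⟨C, hC⟩ := hP.2.1.exists_le_sylow
          by_cases hfull : P = (C : Subgroup G)
          · -- the normalizer is a member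
            have hmem : normalizer (F : Set G) ∈ 𝓕 := Or.inl (normalizer_mem C (hfull ▸ hF))
            have hfullT : ∀ (T : Subgroup G) (A : Sylow p G), IsSylIn p T M → T ≤ (A : Subgroup G) →
                T = (A : Subgroup G) := fun T A hT hA => eq_of_le_of_card_ge hA (by
              have := card_le_syl hT hP.1 hP.2.1
              rw [hfull] at this
              rwa [A.card_eq_multiplicity, ← C.card_eq_multiplicity])
            obtain rfl := hfullT T A hT hA
            obtain rfl := hfullT T' B hT' hB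
            exact Link.single _ x (mem_members hmem (isSylIn_top A hTN)) (mem_members hmem (isSylIn_top B hT'N))
              hx.2 hconj (le_inf hDT' (hDT'.trans hT'N))
          · -- a larger `p`-local subgroup
            have hP1 : P ≠ ⊥ := fun e => by
              rw [e, card_bot] at hcP
              have := Nat.card_pos (α := D); omega
            have hL : IsPLocal p (normalizer (F : Set G)) :=
              ⟨F, hP.2.1.to_le ((hf P hP.2.1).1 F hF).1, hf1 P hP.2.1 hP1 F hF, rfl⟩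
            obtain ⟨Q, hQ, hTQ⟩ := exists_ge hTN hT.2.1
            obtain ⟨Q', hQ', hTQ'⟩ := exists_ge hT'N hT'.2.1
            obtain ⟨A', hA'⟩ := exists_over hQ
            obtain ⟨B', hB'⟩ := exists_over hQ'
            have hbig : Nat.card P < Nat.card Q := lt_of_lt_of_le (hgrow C P hC hfull)
              (card_le_syl hQ (inf_le_right.trans ((hf P hP.2.1).1 F hF).2) (C.isPGroup'.to_le inf_le_left))
            have hR₀le : Nat.card R₀ ≤ Nat.card R := Nat.card_le_card_of_injective _ (inclusion_injective hR₀R)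
            have hQG := card_le_card_group Q
            have hA'Q : Q ≤ (A' : Subgroup G) := hA' ▸ inf_le_left
            have hB'Q : Q' ≤ (B' : Subgroup G) := hB' ▸ inf_le_left
            have hl := ihj _ (by omega) _ Q Q' hL hQ hQ' rfl (by omega) (hDT.trans hTQ) (hDT'.trans hTQ')
              A' B' hA'Q hB'Q
            exact ((hb T A A' hDT (hlt.trans_le hcT) hA (hTQ.trans hA'Q)).trans hl).trans
              (hb T' B' B hDT' (hlt.trans_le hcT') (hTQ'.trans hB'Q) hB))
        hfN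
      exact h U V hRU hRV
    · have hmem : M ∈ 𝓕 := Or.inr ⟨hMx, hreg⟩
      obtain ⟨m, hm, hRm⟩ := exists_conj hR hR'
      have hU' : ((m • U : Sylow p G) : Subgroup G) ⊓ M = R' := by
        refine eq_of_over hR' ?_
        rw [← inv_inv m, ← sc_sylow, hRm]
        exact map_mono hRU
      refine (Link.single M m (mem_members hmem (hU ▸ hR)) (mem_members hmem (hU' ▸ hR')) hm ?_ ?_).trans
        (hb R' (m • U) V hDR' ?_ (hU' ▸ inf_le_left) hRV)
      · rw [sc_sylow, inv_smul_smul]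
      · rw [hU']; exact hDR'
      · exact hlt.trans_le (card_le_syl hR' hR.1 hR.2.1)
  intro S T hDS hDT
  by_cases hST : S = T
  · subst hST; exact .refl _
  by_cases hlt : Nat.card D < Nat.card ↥((S : Subgroup G) ⊓ (T : Subgroup G))
  · exact bridge S T hDS hDT hlt
  have hne : ∀ W : Sylow p G, D ≤ (W : Subgroup G) → D ≠ (W : Subgroup G) := by
    intro W hW e
    refine hST (Sylow.ext ?_)
    have hcW : ∀ A : Sylow p G, D ≤ (A : Subgroup G) → D = (A : Subgroup G) := fun A hA =>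
      eq_of_le_of_card_ge hA (by rw [e, A.card_eq_multiplicity, W.card_eq_multiplicity])
    rw [← hcW S hDS, ← hcW T hDT]
  have hN : IsPLocal p (normalizer (D : Set G)) := ⟨D, S.isPGroup'.to_le hDS, hD1, rfl⟩
  obtain ⟨R, hR, hSR⟩ := exists_ge (M := normalizer (D : Set G)) inf_le_right
    (S.isPGroup'.to_le (inf_le_left : (S : Subgroup G) ⊓ normalizer (D : Set G) ≤ S))
  obtain ⟨R', hR', hTR⟩ := exists_ge (M := normalizer (D : Set G)) inf_le_right
    (T.isPGroup'.to_le (inf_le_left : (T : Subgroup G) ⊓ normalizer (D : Set G) ≤ T))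
  obtain ⟨U, hU⟩ := exists_over hR
  obtain ⟨V, hV⟩ := exists_over hR'
  have hSN := hgrow S D hDS (hne S hDS)
  have hTN := hgrow T D hDT (hne T hDT)
  have hRU : R ≤ (U : Subgroup G) := hU ▸ inf_le_left
  have hR'V : R' ≤ (V : Subgroup G) := hV ▸ inf_le_left
  have hDR : D ≤ R := (le_inf hDS le_normalizer).trans hSR
  have hDR' : D ≤ R' := (le_inf hDT le_normalizer).trans hTR
  refine ((bridge S U hDS (hDR.trans hRU) ?_).trans (inner _ _ R R' hN hR hR' rfl ?_ hDR hDR' U V hRU hR'V)).trans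
    (bridge V T (hDR'.trans hR'V) hDT ?_)
  · exact hSN.trans_le (Nat.card_le_card_of_injective _ (inclusion_injective (le_inf inf_le_left (hSR.trans hRU))))
  · exact hSN.trans_le (Nat.card_le_card_of_injective _ (inclusion_injective hSR))
  · exact hTN.trans_le (Nat.card_le_card_of_injective _ (inclusion_injective (le_inf (hTR.trans hR'V) inf_le_left)))

end Functor

end Cfsg.Lib.FunctorControl
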