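import Mathlib
import Cfsg.Prelude.Def_SylowControl
import Cfsg.Prelude.Def_SylowChains
import Cfsg.Agent.Lib.Solv.Cores

/-!
Control of Sylow intersections and strong control of fusion by a family of subgroups.
-/

set_option autoImplicit false
set_option linter.unusedSectionVars false
set_option linter.style.haveILetI false

namespace Cfsg.Lib.InterControl

open Subgroup Cfsg

variable {G : Type*} [Group G] [Finite G] {p : ℕ} [hp : Fact p.Prime]

theorem mem_sc {g a : G} {X : Subgroup G} : a ∈ subgroupConjRight g X ↔ g * a * g⁻¹ ∈ X := by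
  constructor
  · rintro ⟨b, hb, rfl⟩
    simpa [mul_assoc] using hb
  · intro h
    exact ⟨g * a * g⁻¹, h, by simp [mul_assoc]⟩

theorem sc_sc (g h : G) (X : Subgroup G) :
    subgroupConjRight h (subgroupConjRight g X) = subgroupConjRight (g * h) X := by
  ext a
  simp only [mem_sc]
  simp [mul_assoc]

theorem sc_one (X : Subgroup G) : subgroupConjRight 1 X = X := by
  ext a; simp [mem_sc]

theorem sc_self {x : G} {X : Subgroup G} (hx : x ∈ X) : subgroupConjRight x X = X := by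
  ext a
  rw [mem_sc, Subgroup.mul_mem_cancel_right _ (X.inv_mem hx), Subgroup.mul_mem_cancel_left _ hx]

theorem sc_eq_iff {g : G} {X : Subgroup G} :
    subgroupConjRight g X = X ↔ g ∈ normalizer (X : Set G) := by
  rw [mem_normalizer_iff]
  constructor
  · intro h a
    conv_lhs => rw [← h]
    exact mem_sc
  · intro h
    ext a
    rw [mem_sc]; exact (h a).symm

theorem sc_sylow (g : G) (S : Sylow p G) :
    subgroupConjRight g (S : Subgroup G) = ((g⁻¹ • S : Sylow p G) : Subgroup G) := by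
  rw [Sylow.coe_subgroup_smul]; rfl

theorem members_conj {𝓕 : Set (Subgroup G)} (h𝓕 : IsNormalSet 𝓕) (g : G) {S X : Subgroup G}
    (hX : X ∈ sylowMembers p 𝓕 S) :
    subgroupConjRight g X ∈ sylowMembers p 𝓕 (subgroupConjRight g S) := by
  obtain ⟨hX, P, hP⟩ := hX
  refine ⟨h𝓕 X hX g, ?_⟩
  set φ : G →* G := (MulAut.conj g⁻¹).toMonoidHom with hφ
  have hinj : Function.Injective φ := (MulAut.conj g⁻¹).injective
  let e := X.equivMapOfInjective φ hinj
  show ∃ Q : Sylow p ↥(X.map φ), (Q : Subgroup ↥(X.map φ)).map (X.map φ).subtype = S.map φ ⊓ X.map φ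
  have hsur : Function.Surjective e.toMonoidHom := e.surjective
  refine ⟨P.mapSurjective hsur, ?_⟩
  rw [Sylow.coe_mapSurjective, Subgroup.map_map]
  show _ = S.map φ ⊓ X.map φ
  rw [← Subgroup.map_inf _ _ _ hinj, ← hP, Subgroup.map_map]
  rfl

/-- Conjugation of the factorisation `g = y₁⋯yₙy₀`. -/
theorem strong_of_controls {𝓕 : Set (Subgroup G)} (h𝓕 : IsNormalSet 𝓕)
    (hc : ControlsSylowIntersections p 𝓕) : FamilyStronglyControlsFusion p 𝓕 := by
  intro S A g hAS hA hAg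
  set T : Sylow p G := g • S with hT
  have hTg : subgroupConjRight g (T : Subgroup G) = S := by
    rw [sc_sylow, hT, inv_smul_smul]
  have hAT : ∀ a ∈ A, a ∈ (T : Subgroup G) := fun a ha => by
    rw [hT, Sylow.coe_subgroup_smul]
    exact ⟨g⁻¹ * a * g, hAg ⟨a, ha, rfl⟩, by simp [mul_assoc]⟩
  by_cases hST : S = T
  · refine ⟨0, Fin.elim0, Fin.elim0, g, ?_, fun i => i.elim0, by simp, fun i => i.elim0⟩
    exact sc_eq_iff.1 (by rw [hST]; exact hTg.trans (congrArg _ hST))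
  obtain ⟨a, haA, ha1⟩ := hA
  have hne : (S : Subgroup G) ⊓ (T : Subgroup G) ≠ ⊥ := fun h =>
    ha1 (mem_bot.1 (h ▸ (Subgroup.mem_inf.2 ⟨hAS haA, hAT a haA⟩)))
  obtain ⟨n, c, X, x, hc0, hcn, hstep⟩ := hc S T hST hne
  let z : Fin (n + 1) → G := fun i => Fin.induction (1 : G) (fun j zj => x j * zj) i
  have hz0 : z 0 = 1 := rfl
  have hzs : ∀ i : Fin n, z i.succ = x i * z i.castSucc := fun i => by
    simp only [z, Fin.induction_succ]
  have hzc : ∀ i : Fin (n + 1), subgroupConjRight (z i) (c i : Subgroup G) = S := by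
    intro i
    induction i using Fin.induction with
    | zero => rw [hz0, sc_one, hc0]
    | succ i ih => rw [hzs, ← sc_sc, (hstep i).2.2.2.1, ih]
  let y : Fin n → G := fun i => (z i.castSucc)⁻¹ * z i.succ
  have hprod : ∀ i : Fin (n + 1), Fin.partialProd y i = z i := by
    intro i
    induction i using Fin.induction with
    | zero => rw [Fin.partialProd_zero, hz0]
    | succ i ih => rw [Fin.partialProd_succ, ih, mul_inv_cancel_left]
  refine ⟨n, fun i => subgroupConjRight (z i.succ) (X i), y, (z (Fin.last n))⁻¹ * g, ?_, fun i => ⟨?_, ?_⟩,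
    ?_, fun i => ?_⟩
  · refine sc_eq_iff.1 ?_
    have h1 := hzc (Fin.last n)
    rw [hcn] at h1
    conv_lhs => rw [← h1]
    rw [sc_sc, mul_inv_cancel_left, hTg]
  · have h1 := members_conj h𝓕 (z i.succ) (hstep i).2.1
    rwa [hzc] at h1
  · show (z i.castSucc)⁻¹ * z i.succ ∈ _
    rw [mem_sc, hzs]
    have h1 : x i * z i.castSucc * ((z i.castSucc)⁻¹ * (x i * z i.castSucc)) * (x i * z i.castSucc)⁻¹ = x i := by
      group
    rw [h1]
    exact (hstep i).2.2.1
  · have h1 := hprod (Fin.last n)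
    rw [Fin.partialProd, Fin.val_last, List.take_of_length_le (by simp)] at h1
    rw [h1, mul_inv_cancel_left]
  · have h1 := hprod i.succ
    rw [Fin.partialProd, Fin.val_succ] at h1
    rw [h1]
    rintro _ ⟨b, hb, rfl⟩
    have h2 : b ∈ (c i.succ : Subgroup G) ⊓ X i := (hstep i).2.2.2.2 ⟨hAS hb, hAT b hb⟩
    have h3 : ∀ W : Subgroup G, b ∈ W → (z i.succ)⁻¹ * b * z i.succ ∈ subgroupConjRight (z i.succ) W :=
      fun W hW => by rw [mem_sc]; simpa [mul_assoc] using hW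
    refine ⟨?_, h3 _ h2.2⟩
    show (z i.succ)⁻¹ * b * z i.succ ∈ (S : Subgroup G)
    rw [← hzc i.succ]
    exact h3 _ h2.1

theorem controls_of_strong {𝓕 : Set (Subgroup G)} (h𝓕 : IsNormalSet 𝓕)
    (hs : FamilyStronglyControlsFusion p 𝓕) : ControlsSylowIntersections p 𝓕 := by
  intro S T hST hne
  obtain ⟨g, hg⟩ := MulAction.exists_smul_eq G S T
  subst hg
  obtain ⟨a, ha, ha1⟩ : ∃ a ∈ (S : Subgroup G) ⊓ ((g • S : Sylow p G) : Subgroup G), a ≠ 1 := by
    by_contra h
    push Not at h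
    exact hne ((Subgroup.eq_bot_iff_forall _).2 h)
  have hgS : subgroupConjRight g ((g • S : Sylow p G) : Subgroup G) = S := by
    rw [sc_sylow, inv_smul_smul]
  obtain ⟨n, Y, y, y₀, hy₀, hY, hg, hA⟩ := hs S ((S : Subgroup G) ⊓ ((g • S : Sylow p G) : Subgroup G) : Subgroup G) g
    (fun b hb => hb.1) ⟨a, ha, ha1⟩ (by
      rintro _ ⟨b, hb, rfl⟩
      show g⁻¹ * b * g ∈ (S : Subgroup G)
      rw [← hgS, mem_sc]
      show g * (g⁻¹ * b * g) * g⁻¹ ∈ ((g • S : Sylow p G) : Subgroup G)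
      rw [show g * (g⁻¹ * b * g) * g⁻¹ = b by group]
      exact hb.2)
  let z : Fin (n + 1) → G := Fin.partialProd y
  have hzs : ∀ i : Fin n, z i.succ = z i.castSucc * y i := Fin.partialProd_succ y
  refine ⟨n, fun i => z i • S, fun i => subgroupConjRight (z i.succ)⁻¹ (Y i),
    fun i => z i.succ * (z i.castSucc)⁻¹, ?_, ?_, fun i => ?_⟩
  · simp [z]
  · show z (Fin.last n) • S = g • S
    have h1 : g = z (Fin.last n) * y₀ := by
      rw [hg]
      show (List.ofFn y).prod * y₀ = ((List.ofFn y).take _).prod * y₀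
      rw [Fin.val_last, List.take_of_length_le (by simp)]
    rw [h1, mul_smul, (Sylow.smul_eq_iff_mem_normalizer).2 hy₀]
  have hconj : ∀ w : G, ((w • S : Sylow p G) : Subgroup G) = subgroupConjRight w⁻¹ (S : Subgroup G) := fun w => by
    rw [sc_sylow, inv_inv]
  have hX : subgroupConjRight (z i.castSucc)⁻¹ (Y i) = subgroupConjRight (z i.succ)⁻¹ (Y i) := by
    rw [hzs, mul_inv_rev, ← sc_sc, sc_self (Subgroup.inv_mem _ (hY i).2)]
  beta_reduce
  refine ⟨?_, ?_, ?_, ?_, ?_⟩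
  · rw [hconj, ← hX]
    exact members_conj h𝓕 _ (hY i).1
  · rw [hconj]
    exact members_conj h𝓕 _ (hY i).1
  · rw [← hX, mem_sc]
    have h1 : (z i.castSucc)⁻¹ * (z i.succ * (z i.castSucc)⁻¹) * (z i.castSucc)⁻¹⁻¹ = y i := by
      rw [hzs]; group
    rw [h1]
    exact (hY i).2
  · rw [hconj, hconj, sc_sc]
    congr 1
    group
  · intro b hb
    have h1 := hA i ⟨b, hb, rfl⟩
    have h2 : ((List.ofFn y).take (i.val + 1)).prod = z i.succ := rfl
    rw [h2] at h1
    rw [Subgroup.mem_inf, hconj, mem_sc, mem_sc, inv_inv]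
    exact h1

/-- S2939. -/
theorem controls_iff {𝓕 : Set (Subgroup G)} (h𝓕 : IsNormalSet 𝓕) :
    ControlsSylowIntersections p 𝓕 ↔ FamilyStronglyControlsFusion p 𝓕 :=
  ⟨strong_of_controls h𝓕, controls_of_strong h𝓕⟩

/-- S2955. -/
theorem generated {𝓕 : Set (Subgroup G)} (h𝓕 : IsNormalSet 𝓕) (hc : ControlsSylowIntersections p 𝓕)
    (hconn : IsSylowChainConnected p G) (S : Sylow p G) :
    (⨆ X ∈ sylowMembers p 𝓕 (S : Subgroup G), X) ⊔ normalizer ((S : Subgroup G) : Set G) = ⊤ := by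
  set K := (⨆ X ∈ sylowMembers p 𝓕 (S : Subgroup G), X) ⊔ normalizer ((S : Subgroup G) : Set G) with hK
  have hadj : ∀ k ∈ K, ∀ T : Sylow p G,
      ((k • S : Sylow p G) : Subgroup G) ⊓ (T : Subgroup G) ≠ ⊥ → ∃ k' ∈ K, k' • S = T := by
    intro k hk T hne
    obtain ⟨g, hg⟩ := MulAction.exists_smul_eq G S (k⁻¹ • T)
    obtain ⟨a, ⟨ha1, ha2⟩, ha0⟩ : ∃ a ∈ ((k • S : Sylow p G) : Subgroup G) ⊓ (T : Subgroup G), a ≠ 1 := by
      by_contra h
      push Not at h
      exact hne ((Subgroup.eq_bot_iff_forall _).2 h)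
    have e1 : k⁻¹ * a * k ∈ (S : Subgroup G) := by
      rw [Sylow.coe_subgroup_smul] at ha1
      obtain ⟨b, hb, rfl⟩ := ha1
      show k⁻¹ * (k * b * k⁻¹) * k ∈ (S : Subgroup G)
      rwa [show k⁻¹ * (k * b * k⁻¹) * k = b by group]
    have e2 : g⁻¹ * (k⁻¹ * a * k) * g ∈ (S : Subgroup G) := by
      have h1 : T = (k * g) • S := by rw [mul_smul, hg, smul_inv_smul]
      rw [h1, Sylow.coe_subgroup_smul] at ha2
      obtain ⟨b, hb, hab⟩ := ha2
      rw [← hab]
      show g⁻¹ * (k⁻¹ * ((k * g) * b * (k * g)⁻¹) * k) * g ∈ (S : Subgroup G)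
      rwa [show g⁻¹ * (k⁻¹ * ((k * g) * b * (k * g)⁻¹) * k) * g = b by group]
    obtain ⟨n, Y, y, y₀, hy₀, hY, hgp, -⟩ := strong_of_controls h𝓕 hc S {k⁻¹ * a * k} g
      (by rintro _ rfl; exact e1) ⟨_, rfl, fun h => ha0 (by simpa [mul_assoc] using congrArg (fun t => k * t * k⁻¹) h)⟩
      (by rintro _ ⟨b, rfl, rfl⟩; exact e2)
    refine ⟨k * g, mul_mem hk ?_, by rw [mul_smul, hg, smul_inv_smul]⟩
    rw [hgp]
    refine mul_mem (list_prod_mem ?_) (mem_sup_right hy₀)
    intro t ht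
    obtain ⟨i, rfl⟩ := (List.mem_ofFn' y t).1 ht
    exact mem_sup_left (mem_iSup_of_mem (Y i) (mem_iSup_of_mem (hY i).1 (hY i).2))
  refine eq_top_iff.2 fun g _ => ?_
  obtain ⟨n, c, hc0, hcn, -, hlink⟩ := hconn S (g • S)
  have hall : ∀ i : Fin (n + 1), ∃ k ∈ K, k • S = c i := by
    intro i
    induction i using Fin.induction with
    | zero => exact ⟨1, one_mem _, by rw [one_smul, hc0]⟩
    | succ i ih =>
      obtain ⟨k, hk, hkS⟩ := ih
      exact hadj k hk _ (hkS ▸ (hlink i).2)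
  obtain ⟨k, hk, hkS⟩ := hall (Fin.last n)
  rw [hcn] at hkS
  have h1 : k⁻¹ * g ∈ normalizer ((S : Subgroup G) : Set G) := by
    exact Sylow.smul_eq_iff_mem_normalizer.1 (by rw [mul_smul, ← hkS, inv_smul_smul])
  have := mul_mem hk (mem_sup_right (S := (⨆ X ∈ sylowMembers p 𝓕 (S : Subgroup G), X)) h1)
  simpa using this

end Cfsg.Lib.InterControl
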