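import Mathlib
import Cfsg.Agent.Lib.PLocal.Constraint
import Cfsg.Agent.Lib.Solv.Coprime2

/-!
Invariant `p'`-subgroups in `p`-constrained groups: if the abelian `p`-subgroup `E` contains the
`p`-elements of its centralizer, an `E`-invariant `p'`-subgroup lies in the `p'`-core.
-/

set_option autoImplicit false

open scoped Classical
open scoped commutatorElement Pointwise

namespace Cfsg.Lib.PLocal

open Cfsg Subgroup

variable {H : Type*} [Group H]

/-- A product read forwards and backwards. -/
def palin (l : List H) : H := l.prod * l.reverse.prod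

theorem palin_cons (a : H) (l : List H) : palin (a :: l) = a * palin l * a := by
  simp [palin, List.reverse_cons, mul_assoc]

theorem palin_mem {C : Subgroup H} {l : List H} (h : ∀ x ∈ l, x ∈ C) : palin l ∈ C :=
  C.mul_mem (C.list_prod_mem h) (C.list_prod_mem fun x hx => h x (List.mem_reverse.1 hx))

/-- Inside a subgroup of class two the product read forwards and backwards ignores the order. -/
theorem palin_perm {C : Subgroup H}
    (hC : ∀ a ∈ C, ∀ b ∈ C, ∀ c ∈ C, Commute (a * b * a⁻¹ * b⁻¹) c)
    {l m : List H} (hperm : l.Perm m) : (∀ x ∈ l, x ∈ C) → palin l = palin m := by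
  induction hperm with
  | nil => intro _; rfl
  | cons a _ ih =>
    intro h
    rw [palin_cons, palin_cons, ih fun x hx => h x (List.mem_cons_of_mem _ hx)]
  | swap a b l =>
    intro h
    have ha : a ∈ C := h a (by simp)
    have hb : b ∈ C := h b (by simp)
    have hm : palin l ∈ C := palin_mem fun x hx => h x (by simp [hx])
    rw [palin_cons, palin_cons, palin_cons, palin_cons]
    set m := palin l
    set c := b * a * b⁻¹ * a⁻¹ with hc
    have hcc : Commute c (a * b * m) := hC b hb a ha _ (C.mul_mem (C.mul_mem ha hb) hm)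
    calc b * (a * m * a) * b = c * (a * b * m) * (a * b) := by rw [hc]; group
      _ = (a * b * m) * (c * a * b) := by rw [hcc.eq]; group
      _ = a * (b * m * b) * a := by rw [hc]; group
  | trans h₁ _ ih₁ ih₂ =>
    intro h
    rw [ih₁ h, ih₂ fun x hx => h x (h₁.mem_iff.2 hx)]

variable [Finite H] {p : ℕ} [hp : Fact p.Prime] {C Q E : Subgroup H}

/-- Odd `p`: a `p'`-group centralizing the fixed points of a `p`-group normalizing it centralizes. -/
theorem centralizes_of_fixed_odd (hp2 : p ≠ 2) (C Q E : Subgroup H) (hC : IsPGroup p C)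
    (hE : IsPGroup p E) (hQ : (Nat.card Q).Coprime p) (hEC : E ≤ normalizer (C : Set H))
    (hQC : Q ≤ normalizer (C : Set H)) (hEQ : E ≤ normalizer (Q : Set H))
    (hfix : C ⊓ centralizer (E : Set H) ≤ centralizer (Q : Set H)) :
    Q ≤ centralizer (C : Set H) := by
  induction C using (wellFounded_lt (α := Subgroup H)).induction with
  | _ C ih =>
    have hproper : ∀ D : Subgroup H, D < C → E ≤ normalizer (D : Set H) →
        Q ≤ normalizer (D : Set H) → Q ≤ centralizer (D : Set H) := fun D hD h1 h2 =>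
      ih D hD (hC.to_le hD.le) h1 h2 ((inf_le_inf_right _ hD.le).trans hfix)
    by_cases hCQ : C ≤ centralizer (Q : Set H)
    · exact le_centralizer_iff.1 hCQ
    have hcop : (Nat.card Q).Coprime (Nat.card C) := by
      obtain ⟨n, hn⟩ := IsPGroup.iff_card.1 hC
      rw [hn]
      exact hQ.pow_right n
    have hCs : Group.IsSolvable C := by
      have := hC.isNilpotent
      infer_instance
    have hcomm : ⁅C, Q⁆ = C := by
      by_contra hne
      have hlt : ⁅C, Q⁆ < C :=
        lt_of_le_of_ne (Solv.commutator_le_of_normalizes hQC) hne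
      have h1 := hproper _ hlt (fun e he => by
        rw [← Solv.conj_smul_eq_self_iff, Solv.conj_smul_commutator,
          Solv.conj_smul_eq_self_iff.2 (hEC he), Solv.conj_smul_eq_self_iff.2 (hEQ he)])
        (Solv.le_normalizer_commutator_right C Q)
      have h2 : ⁅⁅C, Q⁆, Q⁆ = ⊥ :=
        commutator_eq_bot_iff_le_centralizer.2 (le_centralizer_iff.1 h1)
      exact hCQ (commutator_eq_bot_iff_le_centralizer.1
        (Solv.centralizes_of_commutator_commutator_eq_bot Q C hQC hcop (Or.inr hCs) h2))
    have hCCle : ⁅C, C⁆ ≤ C := commutator_le.2 fun a ha b hb =>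
      C.mul_mem (C.mul_mem (C.mul_mem ha hb) (C.inv_mem ha)) (C.inv_mem hb)
    have hCC : ⁅C, C⁆ < C := by
      refine lt_of_le_of_ne hCCle fun heq => hCQ ?_
      obtain ⟨n, hn⟩ := (Subgroup.isNilpotent_iff_lowerCentralSeries C).1 hC.isNilpotent
      have key : ∀ k : ℕ, C ≤ C.lowerCentralSeries k := by
        intro k
        induction k with
        | zero => rw [Subgroup.lowerCentralSeries_zero]
        | succ k ihk =>
          rw [Subgroup.lowerCentralSeries_succ]
          exact heq.ge.trans (commutator_mono ihk le_rfl)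
      exact (key n).trans (hn.le.trans bot_le)
    have hCCQ : ⁅C, C⁆ ≤ centralizer (Q : Set H) := le_centralizer_iff.1 (hproper _ hCC
      (fun e he => by
        rw [← Solv.conj_smul_eq_self_iff, Solv.conj_smul_commutator,
          Solv.conj_smul_eq_self_iff.2 (hEC he)])
      (fun e he => by
        rw [← Solv.conj_smul_eq_self_iff, Solv.conj_smul_commutator,
          Solv.conj_smul_eq_self_iff.2 (hQC he)]))
    -- `C` has class two
    have hclass : ∀ a ∈ C, ∀ b ∈ C, ∀ c ∈ C, Commute (a * b * a⁻¹ * b⁻¹) c := by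
      have h1 : ⁅⁅Q, ⁅C, C⁆⁆, C⁆ = ⊥ := by
        rw [commutator_eq_bot_iff_le_centralizer.2 (le_centralizer_iff.1 hCCQ), commutator_bot_left]
      have h2 : ⁅⁅⁅C, C⁆, C⁆, Q⁆ = ⊥ := commutator_eq_bot_iff_le_centralizer.2
        ((commutator_mono hCCle le_rfl).trans hCCQ)
      have h3 := commutator_commutator_eq_bot_of_rotate h1 h2
      rw [hcomm, commutator_eq_bot_iff_le_centralizer] at h3
      intro a ha b hb c hc
      exact mem_centralizer_iff.1 (h3 hc) _ (commutator_mem_commutator ha hb)
    set K := C ⊓ centralizer (Q : Set H) with hK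
    have hCCK : ⁅C, C⁆ ≤ K := le_inf hCCle hCCQ
    haveI hKn : (K.subgroupOf C).Normal := ⟨fun k hk c => by
      show (c : H) * k * (c : H)⁻¹ ∈ K
      have h1 : ⁅(c : H), (k : H)⁆ * k ∈ K :=
        K.mul_mem (hCCK (commutator_mem_commutator c.2 k.2)) hk
      simpa [commutatorElement_def] using h1⟩
    have hEK : E ≤ normalizer (K : Set H) := fun e he => Solv.fixed_inf_normalized (hEC he) (hEQ he)
    -- a coset fixed by `E`
    obtain ⟨w, hwC, hwK, hwE⟩ : ∃ w ∈ C, w ∉ K ∧ ∀ e ∈ E, w⁻¹ * (e * w * e⁻¹) ∈ K := by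
      let act : E → (↥C ⧸ K.subgroupOf C) → ↥C ⧸ K.subgroupOf C := fun e =>
        Quotient.map' (fun c : ↥C => (⟨e * c * e⁻¹, (mem_normalizer_iff.1 (hEC e.2) _).1 c.2⟩ : ↥C))
          (fun a b hab => by
            rw [QuotientGroup.leftRel_apply, mem_subgroupOf] at hab ⊢
            have h1 := (mem_normalizer_iff.1 (hEK e.2) _).1 hab
            simpa [mul_assoc] using h1)
      letI : MulAction E (↥C ⧸ K.subgroupOf C) :=
        { smul := act
          one_smul := fun x => by
            obtain ⟨c, rfl⟩ := QuotientGroup.mk_surjective x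
            exact congrArg QuotientGroup.mk (Subtype.ext (by simp))
          mul_smul := fun e e' x => by
            obtain ⟨c, rfl⟩ := QuotientGroup.mk_surjective x
            exact congrArg QuotientGroup.mk (Subtype.ext (by simp [mul_assoc])) }
      have hdvd : p ∣ Nat.card (↥C ⧸ K.subgroupOf C) := by
        obtain ⟨n, hn⟩ := IsPGroup.iff_card.1 hC
        obtain ⟨k, -, hk⟩ := (Nat.dvd_prime_pow hp.out).1 (hn ▸ (K.subgroupOf C).index_dvd_card)
        rcases k with _ | k
        · rw [pow_zero, index_eq_one, subgroupOf_eq_top] at hk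
          exact absurd (hk.trans inf_le_right) hCQ
        · show p ∣ (K.subgroupOf C).index
          rw [hk]
          exact dvd_pow_self p k.succ_ne_zero
      have hfix1 : ((1 : ↥C) : ↥C ⧸ K.subgroupOf C) ∈
          MulAction.fixedPoints E (↥C ⧸ K.subgroupOf C) := fun e =>
        congrArg QuotientGroup.mk (Subtype.ext (by simp))
      obtain ⟨b, hb, hne⟩ := hE.exists_fixed_point_of_prime_dvd_card_of_fixed_point _ hdvd hfix1
      obtain ⟨w, rfl⟩ := QuotientGroup.mk_surjective b
      refine ⟨w, w.2, fun hwK => hne ?_, fun e he => ?_⟩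
      · exact QuotientGroup.eq.2 (by simpa [mem_subgroupOf] using hwK)
      · have h1 := QuotientGroup.eq.1 (hb ⟨e, he⟩).symm
        simpa [mem_subgroupOf] using h1
    exfalso
    haveI := Fintype.ofFinite Q
    let a : Q → H := fun x => w * ((x : H) * w⁻¹ * (x : H)⁻¹)
    have haC : ∀ x, a x ∈ C := fun x =>
      C.mul_mem hwC ((mem_normalizer_iff.1 (hQC x.2) _).1 (C.inv_mem hwC))
    set l := (Finset.univ : Finset Q).toList with hl
    set F := palin (l.map a) with hF
    have hlC : ∀ y ∈ l.map a, y ∈ C := fun y hy => by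
      obtain ⟨x, -, rfl⟩ := List.mem_map.1 hy
      exact haC x
    have hFC : F ∈ C := palin_mem hlC
    have hFE : F ∈ centralizer (E : Set H) := by
      refine mem_centralizer_iff.2 fun e he => ?_
      set k := w⁻¹ * (e * w * e⁻¹) with hk
      have hkK : k ∈ K := hwE e he
      let σ : Q ≃ Q :=
        { toFun := fun x => ⟨e * x * e⁻¹, (mem_normalizer_iff.1 (hEQ he) _).1 x.2⟩
          invFun := fun x => ⟨e⁻¹ * x * e, by
            have := (mem_normalizer_iff.1 (inv_mem (hEQ he)) _).1 x.2
            simpa using this⟩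
          left_inv := fun x => Subtype.ext (by simp [mul_assoc])
          right_inv := fun x => Subtype.ext (by simp [mul_assoc]) }
      have hmap : ∀ x : Q, MulAut.conj e (a x) = a (σ x) := by
        intro x
        have hc : Commute ((σ x : Q) : H) k := mem_centralizer_iff.1 hkK.2 _ (σ x).2
        show e * (w * ((x : H) * w⁻¹ * (x : H)⁻¹)) * e⁻¹ =
          w * (((σ x : Q) : H) * w⁻¹ * ((σ x : Q) : H)⁻¹)
        calc e * (w * ((x : H) * w⁻¹ * (x : H)⁻¹)) * e⁻¹
            = (e * w * e⁻¹) * ((e * x * e⁻¹) * (e * w * e⁻¹)⁻¹ * (e * x * e⁻¹)⁻¹) := by group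
          _ = w * k * (((σ x : Q) : H) * (w * k)⁻¹ * ((σ x : Q) : H)⁻¹) := by
              rw [hk, mul_inv_cancel_left]; rfl
          _ = w * k * ((((σ x : Q) : H) * k⁻¹) * w⁻¹ * ((σ x : Q) : H)⁻¹) := by group
          _ = _ := by rw [hc.inv_right.eq]; group
      have h1 : MulAut.conj e F = F := by
        have h2 : MulAut.conj e F = palin ((l.map a).map (MulAut.conj e)) := by
          simp only [hF, palin, map_mul, map_list_prod, List.map_reverse]
        rw [h2, List.map_map]
        have h3 : (MulAut.conj e : H → H) ∘ a = a ∘ σ := funext hmap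
        rw [h3, ← List.map_map]
        have hperm : (l.map σ).Perm l := by
          refine (List.perm_ext_iff_of_nodup ?_ (Finset.nodup_toList _)).2 fun x => ?_
          · exact (Finset.nodup_toList _).map σ.injective
          · exact ⟨fun _ => Finset.mem_toList.2 (Finset.mem_univ _), fun _ => List.mem_map.2
              ⟨σ.symm x, Finset.mem_toList.2 (Finset.mem_univ _), σ.apply_symm_apply x⟩⟩
        exact palin_perm hclass (hperm.map a) fun y hy => by
          obtain ⟨x, -, rfl⟩ := List.mem_map.1 hy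
          exact haC x
      exact mul_inv_eq_iff_eq_mul.1 h1
    have hFK : F ∈ K := ⟨hFC, hfix ⟨hFC, hFE⟩⟩
    -- read everything modulo `K`
    set q := QuotientGroup.mk' (K.subgroupOf C) with hq
    letI : CommGroup (↥C ⧸ K.subgroupOf C) :=
      { (inferInstance : Group (↥C ⧸ K.subgroupOf C)) with
        mul_comm := fun u v => by
          obtain ⟨u, rfl⟩ := QuotientGroup.mk_surjective u
          obtain ⟨v, rfl⟩ := QuotientGroup.mk_surjective v
          rw [← QuotientGroup.mk_mul, ← QuotientGroup.mk_mul]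
          refine QuotientGroup.eq.2 ?_
          rw [mem_subgroupOf]
          have h1 := hCCK (commutator_mem_commutator (C.inv_mem v.2) (C.inv_mem u.2))
          simpa [commutatorElement_def, mul_assoc] using h1 }
    let b : Q → ↥C := fun x =>
      ⟨(x : H) * w⁻¹ * (x : H)⁻¹, (mem_normalizer_iff.1 (hQC x.2) _).1 (C.inv_mem hwC)⟩
    let a' : Q → ↥C := fun x => ⟨w, hwC⟩ * b x
    set u := (l.map b).prod with hu
    have hu1 : q u = 1 := by
      have hfixu : ∀ y ∈ Q, y * (u : H) * y⁻¹ * (u : H)⁻¹ ∈ K := by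
        intro y hy
        let τ : ↥C →* ↥C :=
          { toFun := fun c => ⟨y * c * y⁻¹, (mem_normalizer_iff.1 (hQC hy) _).1 c.2⟩
            map_one' := Subtype.ext (by simp)
            map_mul' := fun c d => Subtype.ext (by simp [mul_assoc]) }
        have h1 : q (τ u) = q u := by
          rw [hu, map_list_prod τ, map_list_prod q, map_list_prod q, List.map_map, List.map_map,
            List.map_map]
          refine List.Perm.prod_eq ?_
          have h2 : (τ : ↥C → ↥C) ∘ b = b ∘ fun x : Q => (⟨y, hy⟩ : Q) * x := by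
            funext x
            exact Subtype.ext (by simp [τ, b, mul_assoc])
          rw [Function.comp_assoc, h2, ← Function.comp_assoc, ← List.map_map]
          refine List.Perm.map _ ?_
          refine (List.perm_ext_iff_of_nodup ?_ (Finset.nodup_toList _)).2 fun x => ?_
          · exact (Finset.nodup_toList _).map (mul_right_injective _)
          · exact ⟨fun _ => Finset.mem_toList.2 (Finset.mem_univ _), fun _ => List.mem_map.2
              ⟨(⟨y, hy⟩ : Q)⁻¹ * x, Finset.mem_toList.2 (Finset.mem_univ _), mul_inv_cancel_left _ x⟩⟩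
        have h3 : q (τ u * u⁻¹) = 1 := by rw [map_mul, map_inv, h1, mul_inv_cancel]
        exact (QuotientGroup.eq_one_iff (τ u * u⁻¹)).1 h3
      obtain ⟨c, hc, huc⟩ := Solv.fixed_coset Q C hQC hcop (Or.inr hCs) K inf_le_left
        ((normal_subgroupOf_iff_le_normalizer inf_le_left).1 hKn)
        (fun x hx => Solv.fixed_inf_normalized (hQC hx) (le_normalizer hx)) u u.2 hfixu
      refine (QuotientGroup.eq_one_iff u).2 ?_
      show (u : H) ∈ K
      have : (u : H) = c * ((u : H)⁻¹ * c)⁻¹ := by group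
      rw [this]
      exact K.mul_mem hc (K.inv_mem huc)
    have hqa : (q (l.map a').prod) = q ⟨w, hwC⟩ ^ Fintype.card Q := by
      rw [map_list_prod, List.map_map]
      have : ((l.map (q ∘ a')).prod) = ((l.map fun _ => q ⟨w, hwC⟩).prod) * (l.map (q ∘ b)).prod := by
        rw [← List.prod_map_mul]
        rfl
      rw [this, ← List.map_map, ← map_list_prod, ← hu, hu1, mul_one, List.map_const',
        List.prod_replicate, hl, Finset.length_toList, Finset.card_univ]
    have hval : ((l.map a').prod : H) = (l.map a).prod := by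
      rw [← Subgroup.coe_subtype, map_list_prod, List.map_map]
      rfl
    have hvalr : ((l.map a').reverse.prod : H) = (l.map a).reverse.prod := by
      rw [← Subgroup.coe_subtype, map_list_prod, List.map_reverse, List.map_map]
      rfl
    have hfin : q ⟨w, hwC⟩ ^ (2 * Fintype.card Q) = 1 := by
      have h1 : q ((l.map a').prod * (l.map a').reverse.prod) = 1 := by
        refine (QuotientGroup.eq_one_iff _).2 ?_
        show ((l.map a').prod : H) * ((l.map a').reverse.prod : H) ∈ K
        rw [hval, hvalr]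
        exact hFK
      rw [map_mul, map_list_prod q (l.map a').reverse, List.map_reverse, List.prod_reverse,
        ← map_list_prod q, hqa, ← pow_add] at h1
      rwa [two_mul]
    apply hwK
    have hord : orderOf (q ⟨w, hwC⟩) ∣ 2 * Fintype.card Q := orderOf_dvd_of_pow_eq_one hfin
    obtain ⟨n, hn⟩ := IsPGroup.iff_orderOf.1 (hC.to_quotient (K.subgroupOf C)) (q ⟨w, hwC⟩)
    rw [hn] at hord
    rcases n with _ | n
    · exact (QuotientGroup.eq_one_iff (⟨w, hwC⟩ : ↥C)).1
        (orderOf_eq_one_iff.1 (hn.trans (pow_zero p)))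
    exfalso
    rcases (Nat.Prime.dvd_mul hp.out).1 ((dvd_pow_self p n.succ_ne_zero).trans hord) with h | h
    · exact hp2 ((Nat.prime_dvd_prime_iff_eq hp.out Nat.prime_two).1 h)
    · rw [Fintype.card_eq_nat_card] at h
      exact (hp.out.coprime_iff_not_dvd.1 hQ.symm) h

/-- The class two case: a `p'`-group acting faithfully and centralizing the fixed points of `E` is
trivial. -/
theorem eq_bot_of_fixed_class_two (hC : IsPGroup p C) (hE : IsPGroup p E)
    (hQ : (Nat.card Q).Coprime p) (hEC : E ≤ normalizer (C : Set H))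
    (hQC : Q ≤ normalizer (C : Set H)) (hEQ : E ≤ normalizer (Q : Set H))
    (hfix : C ⊓ centralizer (E : Set H) ≤ centralizer (Q : Set H))
    (hcl : ∀ c ∈ C, ∀ e ∈ E, ∀ d ∈ E, Commute (c * e * c⁻¹ * e⁻¹) d)
    (hfaith : Q ⊓ centralizer (C : Set H) = ⊥) : Q = ⊥ := by
  have hk : ∀ e ∈ E, ∀ c ∈ C, c⁻¹ * (e * c * e⁻¹) ∈ C ⊓ centralizer (E : Set H) := by
    intro e he c hc
    refine ⟨C.mul_mem (C.inv_mem hc) ((mem_normalizer_iff.1 (hEC he) _).1 hc),
      mem_centralizer_iff.2 fun d hd => ?_⟩
    have := (hcl c⁻¹ (C.inv_mem hc) e he d hd).eq.symm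
    simpa [mul_assoc] using this
  have hQE : ∀ e ∈ E, ∀ x ∈ Q, Commute e x := by
    intro e he x hx
    set y := e * x * e⁻¹ * x⁻¹ with hy
    have hyQ : y ∈ Q := Q.mul_mem ((mem_normalizer_iff.1 (hEQ he) _).1 hx) (Q.inv_mem hx)
    have hycen : y ∈ centralizer (C : Set H) := by
      refine mem_centralizer_iff.2 fun c hc => ?_
      set d := x⁻¹ * c * x with hd
      have hdC : d ∈ C := by
        have := (mem_normalizer_iff.1 (inv_mem (hQC hx)) _).1 hc
        simpa using this
      set k₁ := c⁻¹ * (e * c * e⁻¹) with hk₁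
      set k₂ := d⁻¹ * (e * d * e⁻¹) with hk₂
      have h₁ := hk e he c hc
      have h₂ := hk e he d hdC
      have hd' : e⁻¹ * d * e = d * k₂⁻¹ := by
        have h3 : Commute e k₂ := mem_centralizer_iff.1 h₂.2 e he
        have h4 : e * d * e⁻¹ = d * k₂ := by rw [hk₂]; group
        calc e⁻¹ * d * e = e⁻¹ * ((e * d * e⁻¹) * k₂⁻¹) * e := by rw [h4]; group
          _ = d * (e⁻¹ * k₂⁻¹ * e) := by group
          _ = d * k₂⁻¹ := by rw [h3.inv_left.inv_right.eq]; group
      have hx2 : Commute x k₂⁻¹ := (show Commute x k₂ from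
        mem_centralizer_iff.1 (hfix h₂) x hx).inv_right
      have he2 : Commute e k₂⁻¹ := (show Commute e k₂ from
        mem_centralizer_iff.1 h₂.2 e he).inv_right
      set t := k₁ * k₂⁻¹ with ht
      have hyc : y * c * y⁻¹ = c * t := by
        calc y * c * y⁻¹ = e * x * (e⁻¹ * d * e) * x⁻¹ * e⁻¹ := by rw [hy, hd]; group
          _ = e * ((x * d * x⁻¹) * (x * k₂⁻¹ * x⁻¹)) * e⁻¹ := by rw [hd']; group
          _ = (e * c * e⁻¹) * (e * k₂⁻¹ * e⁻¹) := by
              rw [hx2.eq, hd]; group
          _ = c * t := by rw [he2.eq, ht, hk₁]; group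
      have hyt : Commute y t := mem_centralizer_iff.1
        (hfix ((C ⊓ centralizer (E : Set H)).mul_mem h₁ (inv_mem h₂))) y hyQ
      have hpow : ∀ n : ℕ, y ^ n * c * (y ^ n)⁻¹ = c * t ^ n := by
        intro n
        induction n with
        | zero => simp
        | succ n ihn =>
          calc y ^ (n + 1) * c * (y ^ (n + 1))⁻¹ = y * (y ^ n * c * (y ^ n)⁻¹) * y⁻¹ := by
                rw [pow_succ']; group
            _ = (y * c * y⁻¹) * (y * t ^ n * y⁻¹) := by rw [ihn]; group
            _ = c * t ^ (n + 1) := by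
                rw [hyc, (hyt.pow_right n).eq, mul_inv_cancel_right, pow_succ']; group
      have ht1 : t = 1 := by
        have h5 := hpow (orderOf y)
        rw [pow_orderOf_eq_one] at h5
        have h6 : t ^ orderOf y = 1 := by simpa using h5.symm
        have htC : t ∈ C := C.mul_mem h₁.1 (C.inv_mem h₂.1)
        obtain ⟨n, hn⟩ := IsPGroup.iff_orderOf.1 hC ⟨t, htC⟩
        rw [Subgroup.orderOf_mk] at hn
        refine orderOf_eq_one_iff.1 (Nat.eq_one_of_dvd_coprimes ?_
          (dvd_refl (orderOf t)) (orderOf_dvd_of_pow_eq_one h6))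
        rw [hn]
        exact ((Nat.Coprime.coprime_dvd_left (Subgroup.orderOf_dvd_natCard _ hyQ) hQ).symm).pow_left n
      rw [ht1, mul_one] at hyc
      exact (mul_inv_eq_iff_eq_mul.1 hyc).symm
    have hy1 : y = 1 := by
      have : y ∈ Q ⊓ centralizer (C : Set H) := ⟨hyQ, hycen⟩
      rwa [hfaith, mem_bot] at this
    rw [hy] at hy1
    exact mul_inv_eq_iff_eq_mul.1 (mul_inv_eq_one.1 hy1)
  rw [eq_bot_iff, ← hfaith]
  exact le_inf le_rfl (Solv.thompson_PxQ E Q C hE hQ hC
    (fun e he => mem_centralizer_iff.2 fun x hx => ((hQE e he x hx).eq).symm) hEC hQC hfix)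

/-- In a `p`-constrained group with trivial `p'`-core an invariant `p'`-subgroup is trivial. -/
theorem eq_bot_of_invariant (hH : SelfCentralizingCore p H) (hE : IsPGroup p E)
    (hEfull : ∀ x ∈ centralizer (E : Set H), IsPGroup p (zpowers x) → x ∈ E)
    (hcl : p = 2 → ∀ T : Subgroup H, IsPGroup p T → ∀ a ∈ T, ∀ b ∈ T, ∀ c ∈ T,
      Commute (a * b * a⁻¹ * b⁻¹) c)
    (hQ : (Nat.card Q).Coprime p) (hEQ : E ≤ normalizer (Q : Set H)) : Q = ⊥ := by
  haveI := Transfer.pCore_normal (G := H) p
  set C := pCore p H with hC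
  have hCp : IsPGroup p C := Transfer.pCore_isPGroup p
  have hEC : E ≤ normalizer (C : Set H) := by rw [normalizer_eq_top]; exact le_top
  have hQC : Q ≤ normalizer (C : Set H) := by rw [normalizer_eq_top]; exact le_top
  have hdis : ∀ y ∈ Q, y ∈ C → y = 1 := by
    intro y hy hyC
    obtain ⟨n, hn⟩ := IsPGroup.iff_card.1 hCp
    have := Subgroup.inf_eq_bot_of_coprime (H := Q) (K := C) (by rw [hn]; exact hQ.pow_right n)
    have h1 : y ∈ Q ⊓ C := ⟨hy, hyC⟩
    rwa [this, mem_bot] at h1
  have hfix : C ⊓ centralizer (E : Set H) ≤ centralizer (Q : Set H) := by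
    rintro u ⟨huC, huE⟩
    have huE' : u ∈ E := hEfull u huE (hCp.to_le (zpowers_le.2 huC))
    refine mem_centralizer_iff.2 fun x hx => ?_
    have h1 : x * u * x⁻¹ * u⁻¹ = 1 := by
      refine hdis _ ?_ ?_
      · rw [show x * u * x⁻¹ * u⁻¹ = x * (u * x⁻¹ * u⁻¹) by group]
        exact Q.mul_mem hx ((mem_normalizer_iff.1 (hEQ huE') _).1 (Q.inv_mem hx))
      · exact C.mul_mem ((mem_normalizer_iff.1 (hQC hx) _).1 huC) (C.inv_mem huC)
    exact mul_inv_eq_iff_eq_mul.1 (mul_inv_eq_one.1 h1)
  have hfaith : Q ⊓ centralizer (C : Set H) = ⊥ :=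
    eq_bot_iff.2 fun y hy => mem_bot.2 (hdis y hy.1 (hH hy.2))
  by_cases hp2 : p = 2
  · refine eq_bot_of_fixed_class_two hCp hE hQ hEC hQC hEQ hfix (fun c hc e he d hd => ?_) hfaith
    exact hcl hp2 (E ⊔ C) (IsPGroup.to_sup_of_normal_right' hE hCp hEC) c (mem_sup_right hc) e
      (mem_sup_left he) d (mem_sup_left hd)
  · rw [eq_bot_iff, ← hfaith]
    exact le_inf le_rfl (centralizes_of_fixed_odd hp2 C Q E hCp hE hQ hEC hQC hEQ hfix)

/-- In a `p`-constrained group an invariant `p'`-subgroup lies in the `p'`-core. -/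
theorem le_pPrimeCore_of_invariant (hH : IsPConstrained p H) (hE : IsPGroup p E)
    (hEfull : ∀ x ∈ centralizer (E : Set H), IsPGroup p (zpowers x) → x ∈ E)
    (hcl : p = 2 → ∀ T : Subgroup H, IsPGroup p T → ∀ a ∈ T, ∀ b ∈ T, ∀ c ∈ T,
      Commute (a * b * a⁻¹ * b⁻¹) c)
    (hQ : (Nat.card Q).Coprime p) (hEQ : E ≤ normalizer (Q : Set H)) : Q ≤ pPrimeCore p H := by
  haveI := Transfer.pPrimeCore_normal (G := H) p
  set q := QuotientGroup.mk' (pPrimeCore p H) with hq
  have hbot : Q.map q = ⊥ := by
    refine eq_bot_of_invariant (E := E.map q) (isPConstrained_iff_quotient.1 hH) (hE.map q) ?_ ?_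
      (hQ.coprime_dvd_left (card_map_dvd Q q)) ((map_mono hEQ).trans (le_normalizer_map q))
    · intro y hy hyp
      rw [← map_centralizer_mk hE] at hy
      obtain ⟨x, hx, rfl⟩ := hy
      obtain ⟨n, hn⟩ := IsPGroup.iff_orderOf.1 hyp ⟨q x, mem_zpowers _⟩
      rw [Subgroup.orderOf_mk] at hn
      set m := ordCompl[p] (orderOf x) with hm
      have hmp : m.Coprime p := (Nat.coprime_ordCompl hp.out (orderOf_pos x).ne').symm
      have h1 : x ^ m ∈ E := by
        refine hEfull _ (pow_mem hx m) (IsPGroup.of_card (n := (orderOf x).factorization p) ?_)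
        rw [Nat.card_zpowers, orderOf_pow_of_dvd
          (Nat.ordCompl_pos p (orderOf_pos x).ne').ne' (Nat.ordCompl_dvd _ _),
          Nat.div_div_self (Nat.ordProj_dvd _ _) (orderOf_pos x).ne']
      obtain ⟨j, hj⟩ := exists_pow_eq_self_of_coprime (x := q x) (n := m)
        (by rw [hn]; exact hmp.pow_right n)
      rw [← hj, ← map_pow, ← map_pow]
      exact mem_map_of_mem q (pow_mem h1 j)
    · intro hp2 T hT a ha b hb c hc
      set M := T.comap q with hM
      let f : M →* T := (q.comp M.subtype).codRestrict T fun x => x.2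
      have hf : Function.Surjective f := fun t => by
        obtain ⟨x, hx⟩ := QuotientGroup.mk'_surjective _ (t : H ⧸ pPrimeCore p H)
        exact ⟨⟨x, show q x ∈ T by rw [hx]; exact t.2⟩, Subtype.ext hx⟩
      obtain ⟨P⟩ : Nonempty (Sylow p M) := inferInstance
      have htop : ((Sylow.mapSurjective hf P : Sylow p T) : Subgroup T) = ⊤ :=
        ((Sylow.mapSurjective hf P).is_maximal' (hT.of_equiv Subgroup.topEquiv.symm) le_top).symm
      have hlift : ∀ t ∈ T, ∃ x ∈ (P : Subgroup M).map M.subtype, q x = t := by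
        intro t ht
        have h1 : (⟨t, ht⟩ : T) ∈ ((Sylow.mapSurjective hf P : Sylow p T) : Subgroup T) := by
          rw [htop]; exact mem_top _
        rw [Sylow.coe_mapSurjective] at h1
        obtain ⟨x, hx, hxe⟩ := h1
        exact ⟨x, ⟨x, hx, rfl⟩, congrArg Subtype.val hxe⟩
      obtain ⟨a', ha', rfl⟩ := hlift a ha
      obtain ⟨b', hb', rfl⟩ := hlift b hb
      obtain ⟨c', hc', rfl⟩ := hlift c hc
      have h2 := (hcl hp2 _ (P.isPGroup'.map _) a' ha' b' hb' c' hc').map q
      rwa [map_mul, map_mul, map_mul, map_inv, map_inv] at h2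
  intro x hx
  have h1 : q x ∈ Q.map q := mem_map_of_mem q hx
  rw [hbot, mem_bot] at h1
  exact (QuotientGroup.eq_one_iff x).1 h1

end Cfsg.Lib.PLocal
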