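import Mathlib
import Cfsg.Agent.Lib.PLocal.InvariantCoprime
import Cfsg.Agent.Lib.Transfer.Critical
import Cfsg.Agent.Lib.Transfer.OmegaCentralizer

/-!
Odd `p`: invariant `p'`-subgroups of `p`-constrained groups, when `A` contains the elements of
order `p` of its centralizer.
-/

set_option autoImplicit false

namespace Cfsg.Lib.PLocal

open Cfsg Subgroup
open scoped commutatorElement

variable {H : Type*} [Group H] [Finite H] {p : ℕ} [hp : Fact p.Prime]

/-- Odd `p`: a `p'`-group centralizing the fixed points of exponent `p` centralizes. -/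
theorem centralizes_of_fixed_omega (hp2 : p ≠ 2) (C Q E : Subgroup H) (hC : IsPGroup p C)
    (hE : IsPGroup p E) (hQ : (Nat.card Q).Coprime p) (hEC : E ≤ normalizer (C : Set H))
    (hQC : Q ≤ normalizer (C : Set H)) (hEQ : E ≤ normalizer (Q : Set H))
    (hfix : ∀ x ∈ C, x ∈ centralizer (E : Set H) → x ^ p = 1 → x ∈ centralizer (Q : Set H)) :
    Q ≤ centralizer (C : Set H) := by
  induction C using (wellFounded_lt (α := Subgroup H)).induction with
  | _ C ih =>
    have hproper : ∀ D : Subgroup H, D < C → E ≤ normalizer (D : Set H) →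
        Q ≤ normalizer (D : Set H) → Q ≤ centralizer (D : Set H) := fun D hD h1 h2 =>
      ih D hD (hC.to_le hD.le) h1 h2 fun x hx => hfix x (hD.le hx)
    by_cases hexp : ∀ x ∈ C, x ^ p = 1
    · exact centralizes_of_fixed_odd hp2 C Q E hC hE hQ hEC hQC hEQ
        fun x hx => hfix x hx.1 hx.2 (hexp x hx.1)
    have hcop : (Nat.card Q).Coprime (Nat.card C) := by
      obtain ⟨n, hn⟩ := IsPGroup.iff_card.1 hC
      rw [hn]
      exact hQ.pow_right n
    have hCs : Group.IsSolvable C := by
      have := hC.isNilpotent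
      infer_instance
    by_cases hcomm : ⁅C, Q⁆ = C
    swap
    · have hlt : ⁅C, Q⁆ < C := lt_of_le_of_ne (Solv.commutator_le_of_normalizes hQC) hcomm
      have h1 := hproper _ hlt (fun e he => by
        rw [← Solv.conj_smul_eq_self_iff, Solv.conj_smul_commutator,
          Solv.conj_smul_eq_self_iff.2 (hEC he), Solv.conj_smul_eq_self_iff.2 (hEQ he)])
        (Solv.le_normalizer_commutator_right C Q)
      have h2 : ⁅⁅C, Q⁆, Q⁆ = ⊥ :=
        commutator_eq_bot_iff_le_centralizer.2 (le_centralizer_iff.1 h1)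
      exact le_centralizer_iff.1 (commutator_eq_bot_iff_le_centralizer.1
        (Solv.centralizes_of_commutator_commutator_eq_bot Q C hQC hcop (Or.inr hCs) h2))
    set Ω : Subgroup H := closure {x | x ∈ C ∧ x ^ p = 1} with hΩ
    have hΩC : Ω ≤ C := (closure_le _).2 fun x hx => hx.1
    have hΩn : ∀ g : H, g ∈ normalizer (C : Set H) → g ∈ normalizer (Ω : Set H) := by
      intro g hg
      have key : ∀ g : H, g ∈ normalizer (C : Set H) → ∀ x ∈ Ω, g * x * g⁻¹ ∈ Ω := by
        intro g hg x hx
        have hle : Ω.map (MulAut.conj g).toMonoidHom ≤ Ω := by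
          rw [hΩ, MonoidHom.map_closure, closure_le]
          rintro _ ⟨y, ⟨hy, hyp⟩, rfl⟩
          refine subset_closure ⟨(mem_normalizer_iff.1 hg y).1 hy, ?_⟩
          show (g * y * g⁻¹) ^ p = 1
          rw [conj_pow, hyp, mul_one, mul_inv_cancel]
        exact hle ⟨x, hx, rfl⟩
      rw [mem_normalizer_iff]
      refine fun x => ⟨key g hg x, fun hx => ?_⟩
      have := key g⁻¹ (inv_mem hg) _ hx
      simpa [mul_assoc] using this
    by_cases hΩlt : Ω < C
    · have h1 := hproper Ω hΩlt (fun e he => hΩn e (hEC he)) (fun g hg => hΩn g (hQC hg))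
      intro g hg
      rw [mem_centralizer_iff]
      intro c hc
      let f : C ≃* C :=
        { toFun := fun x => ⟨g * x * g⁻¹, (mem_normalizer_iff.1 (hQC hg) _).1 x.2⟩
          invFun := fun x => ⟨g⁻¹ * x * g, by
            have := (mem_normalizer_iff.1 (inv_mem (hQC hg)) _).1 x.2
            simpa using this⟩
          left_inv := fun x => Subtype.ext (by simp [mul_assoc])
          right_inv := fun x => Subtype.ext (by simp [mul_assoc])
          map_mul' := fun x y => Subtype.ext (by simp [mul_assoc]) }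
      have hit : ∀ (k : ℕ) (x : C), ((f^[k] x : C) : H) = g ^ k * x * (g ^ k)⁻¹ := by
        intro k
        induction k with
        | zero => simp
        | succ k ih =>
          intro x
          rw [Function.iterate_succ_apply']
          show g * ((f^[k] x : C) : H) * g⁻¹ = _
          rw [ih, pow_succ', mul_inv_rev]
          group
      have hord : g ^ Nat.card Q = 1 :=
        orderOf_dvd_iff_pow_eq_one.1 (Subgroup.orderOf_dvd_natCard Q hg)
      have hfx := Cfsg.Lib.Transfer.fixed_of_fix_omega hp2 (Nat.card C) C rfl hC f (Nat.card Q) hQ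
        (fun x => Subtype.ext (by rw [hit, hord, one_mul, inv_one, mul_one]))
        (fun x hx => Subtype.ext (by
          have hxΩ : (x : H) ∈ Ω := subset_closure ⟨x.2, by
            have := congrArg Subtype.val hx; simpa using this⟩
          show g * (x : H) * g⁻¹ = x
          rw [← mem_centralizer_iff.1 (h1 hg) _ hxΩ, mul_inv_cancel_right]))
        ⟨c, hc⟩
      have h3 : g * c * g⁻¹ = c := congrArg Subtype.val hfx
      exact (mul_inv_eq_iff_eq_mul.1 h3).symm
    exfalso
    have hΩeq : Ω = C := hΩC.eq_or_lt.resolve_right hΩlt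
    have hCCle : ⁅C, C⁆ ≤ C := commutator_le.2 fun a ha b hb =>
      C.mul_mem (C.mul_mem (C.mul_mem ha hb) (C.inv_mem ha)) (C.inv_mem hb)
    by_cases hCb : ⁅C, C⁆ = C
    · obtain ⟨n, hn⟩ := (Subgroup.isNilpotent_iff_lowerCentralSeries C).1 hC.isNilpotent
      have key : ∀ k : ℕ, C ≤ C.lowerCentralSeries k := by
        intro k
        induction k with
        | zero => rw [Subgroup.lowerCentralSeries_zero]
        | succ k ihk =>
          rw [Subgroup.lowerCentralSeries_succ]
          exact hCb.ge.trans (commutator_mono ihk le_rfl)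
      refine hexp fun x hx => ?_
      have h0 : x ∈ (⊥ : Subgroup H) := hn ▸ key n hx
      rw [mem_bot.1 h0, one_pow]
    have hCCQ : ⁅C, C⁆ ≤ centralizer (Q : Set H) := le_centralizer_iff.1
      (hproper _ (lt_of_le_of_ne hCCle hCb)
      (fun e he => by
        rw [← Solv.conj_smul_eq_self_iff, Solv.conj_smul_commutator,
          Solv.conj_smul_eq_self_iff.2 (hEC he)])
      (fun e he => by
        rw [← Solv.conj_smul_eq_self_iff, Solv.conj_smul_commutator,
          Solv.conj_smul_eq_self_iff.2 (hQC he)]))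
    have hclass : ∀ a ∈ C, ∀ b ∈ C, ∀ c ∈ C, Commute ⁅a, b⁆ c := by
      have h1 : ⁅⁅Q, ⁅C, C⁆⁆, C⁆ = ⊥ := by
        rw [commutator_eq_bot_iff_le_centralizer.2 (le_centralizer_iff.1 hCCQ), commutator_bot_left]
      have h2 : ⁅⁅⁅C, C⁆, C⁆, Q⁆ = ⊥ := commutator_eq_bot_iff_le_centralizer.2
        ((commutator_mono hCCle le_rfl).trans hCCQ)
      have h3 := commutator_commutator_eq_bot_of_rotate h1 h2
      rw [hcomm, commutator_eq_bot_iff_le_centralizer] at h3
      intro a ha b hb c hc
      exact mem_centralizer_iff.1 (h3 hc) _ (commutator_mem_commutator ha hb)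
    refine hexp fun z hz => ?_
    rw [← hΩeq] at hz
    induction hz using closure_induction with
    | mem x hx => exact hx.2
    | one => exact one_pow p
    | inv x _ h => rw [inv_pow, h, inv_one]
    | mul x y hx hy h1 h2 =>
      have hxC := hΩC hx
      have hyC := hΩC hy
      set c' := ⁅x⁻¹, y⁻¹⁆⁻¹ with hc'
      have hyx : y * x = x * y * c' := by
        simp only [hc', commutatorElement_def]; group
      have hcx : Commute c' x := (hclass _ (inv_mem hxC) _ (inv_mem hyC) x hxC).inv_left
      have hcy : Commute c' y := (hclass _ (inv_mem hxC) _ (inv_mem hyC) y hyC).inv_left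
      have hcp : c' ^ p = 1 := by
        have h3 : x⁻¹ * y * x = y * c' := by
          rw [mul_assoc, hyx]; group
        have h4 : (x⁻¹ * y * x⁻¹⁻¹) ^ p = x⁻¹ * y ^ p * x⁻¹⁻¹ := conj_pow
        rw [inv_inv, h3, hcy.symm.mul_pow, h2, one_mul, mul_one, inv_mul_cancel] at h4
        exact h4
      rw [Cfsg.Lib.Transfer.mul_pow_class_two hyx hcx hcy, h1, h2, one_mul, one_mul]
      obtain ⟨k, hk⟩ : p ∣ p.choose 2 :=
        hp.out.dvd_choose_self two_ne_zero (lt_of_le_of_ne hp.out.two_le (Ne.symm hp2))
      rw [hk, pow_mul, hcp, one_pow]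

/-- In a `p`-constrained group, `p` odd, an invariant `p'`-subgroup lies in the `p'`-core when the
`p`-group `A` contains the elements of order `p` of its centralizer. -/
theorem le_pPrimeCore_of_omega (hp2 : p ≠ 2) (hH : IsPConstrained p H) {A Q : Subgroup H}
    (hA : IsPGroup p A) (hΩ : ∀ x ∈ centralizer (A : Set H), x ^ p = 1 → x ∈ A)
    (hQ : (Nat.card Q).Coprime p) (hAQ : A ≤ normalizer (Q : Set H)) : Q ≤ pPrimeCore p H := by
  haveI := Transfer.pPrimeCore_normal (G := H) p
  set q := QuotientGroup.mk' (pPrimeCore p H) with hq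
  haveI := Transfer.pCore_normal (G := H ⧸ pPrimeCore p H) p
  set C := pCore p (H ⧸ pPrimeCore p H) with hC
  have hCp : IsPGroup p C := Transfer.pCore_isPGroup p
  have hQ' : (Nat.card (Q.map q)).Coprime p := hQ.coprime_dvd_left (card_map_dvd Q q)
  have hEQ : A.map q ≤ normalizer ((Q.map q : Subgroup _) : Set (H ⧸ pPrimeCore p H)) :=
    (map_mono hAQ).trans (le_normalizer_map q)
  have hdis : ∀ y ∈ Q.map q, y ∈ C → y = 1 := by
    intro y hy hyC
    obtain ⟨n, hn⟩ := IsPGroup.iff_card.1 hCp
    have := Subgroup.inf_eq_bot_of_coprime (H := Q.map q) (K := C) (by rw [hn]; exact hQ'.pow_right n)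
    have h1 : y ∈ Q.map q ⊓ C := ⟨hy, hyC⟩
    rwa [this, mem_bot] at h1
  have hnC : ∀ X : Subgroup (H ⧸ pPrimeCore p H), X ≤ normalizer (C : Set (H ⧸ pPrimeCore p H)) :=
    fun X => by rw [normalizer_eq_top]; exact le_top
  have hcent : Q.map q ≤ centralizer (C : Set (H ⧸ pPrimeCore p H)) := by
    refine centralizes_of_fixed_omega hp2 C (Q.map q) (A.map q) hCp (hA.map q) hQ' (hnC _) (hnC _)
      hEQ fun u huC huE hup => ?_
    have huA : u ∈ A.map q := by
      rw [← map_centralizer_mk hA] at huE
      obtain ⟨x, hx, rfl⟩ := huE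
      set m := ordCompl[p] (orderOf x) with hm
      have hmp : m.Coprime p := (Nat.coprime_ordCompl hp.out (orderOf_pos x).ne').symm
      have hxm : (x ^ m) ^ p = 1 := by
        have h1 : q ((x ^ m) ^ p) = 1 := by
          rw [map_pow, map_pow, ← pow_mul, mul_comm, pow_mul]
          rw [show (q x) ^ p = 1 from hup, one_pow]
        have h2 : (x ^ m) ^ p ∈ pPrimeCore p H := (QuotientGroup.eq_one_iff _).1 h1
        have h4 : orderOf ((x ^ m) ^ p) ∣ p ^ (orderOf x).factorization p := by
          refine (orderOf_pow_dvd p).trans ?_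
          rw [orderOf_pow_of_dvd (Nat.ordCompl_pos p (orderOf_pos x).ne').ne' (Nat.ordCompl_dvd _ _),
            Nat.div_div_self (Nat.ordProj_dvd _ _) (orderOf_pos x).ne']
        exact orderOf_eq_one_iff.1 (Nat.eq_one_of_dvd_coprimes
          ((Transfer.coprime_card_pPrimeCore p).pow_right _) (orderOf_dvd_natCard _ h2) h4)
      obtain ⟨j, hj⟩ := exists_pow_eq_self_of_coprime (x := q x) (n := m)
        (hmp.coprime_dvd_right (orderOf_dvd_of_pow_eq_one hup))
      rw [← hj, ← map_pow, ← map_pow]
      exact mem_map_of_mem q (pow_mem (hΩ _ (pow_mem hx m) hxm) j)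
    refine mem_centralizer_iff.2 fun x hx => ?_
    have h1 : x * u * x⁻¹ * u⁻¹ = 1 := by
      refine hdis _ ?_ ?_
      · rw [show x * u * x⁻¹ * u⁻¹ = x * (u * x⁻¹ * u⁻¹) by group]
        exact (Q.map q).mul_mem hx
          ((mem_normalizer_iff.1 (hEQ huA) _).1 ((Q.map q).inv_mem hx))
      · exact C.mul_mem ((mem_normalizer_iff.1 (hnC _ hx) _).1 huC) (C.inv_mem huC)
    exact mul_inv_eq_iff_eq_mul.1 (mul_inv_eq_one.1 h1)
  intro x hx
  have h1 : q x ∈ Q.map q := mem_map_of_mem q hx
  have h2 : q x = 1 := hdis _ h1 (isPConstrained_iff_quotient.1 hH (hcent h1))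
  exact (QuotientGroup.eq_one_iff x).1 h2

end Cfsg.Lib.PLocal
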