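import Mathlib
import Cfsg.Prelude.Def_IsolatedElements
import Cfsg.Prelude.Def_CaseTheorems
import Cfsg.Agent.Lib.PLocal.StrongEmbSimple
import Cfsg.Agent.Lib.PLocal.LLemma
import Cfsg.Agent.Lib.Transfer.Critical
import Cfsg.Agent.Lib.Transfer.Frobenius
import Cfsg.Agent.Lib.Transfer.PGroupNormal

/-!
An isolated element of odd prime order in a group of rank two without prime-to-`p` core.
-/

set_option autoImplicit false

namespace Cfsg.Lib.PLocal.IsolatedRankTwo

open Cfsg.Lib.PLocal.LLemma Cfsg.Lib.Comp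

variable {G : Type*} [Group G] [Finite G] {p : ℕ} [hp : Fact p.Prime]

theorem central_of_isolated {U : Subgroup G} (hU : IsPGroup p U) {x : G} (hx : x ∈ U)
    (h : ∀ u ∈ U, Commute x (u * x * u⁻¹) → u * x * u⁻¹ = x) : ∀ u ∈ U, x * u = u * x := by
  by_contra hne
  push Not at hne
  obtain ⟨u0, hu0, hne⟩ := hne
  set C := U ⊓ Subgroup.centralizer ({x} : Set G)
  have hnle : ¬ U ≤ C := fun h' => hne (Subgroup.mem_centralizer_singleton_iff.1 (h' hu0).2).symm
  obtain ⟨u, hu, huC, huN⟩ := exists_normalizing_not_mem hU (inf_le_left : C ≤ U) hnle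
  have hxC : x ∈ C := ⟨hx, Subgroup.mem_centralizer_singleton_iff.2 rfl⟩
  have h1 := ((Subgroup.mem_normalizer_iff.1 huN x).1 hxC).2
  have h2 := h u hu (Subgroup.mem_centralizer_singleton_iff.1 h1).symm
  exact huC ⟨hu, Subgroup.mem_centralizer_singleton_iff.2 (mul_inv_eq_iff_eq_mul.1 h2)⟩

theorem complement_of_isolated (hp2 : p ≠ 2) {H : Type*} [Group H] [Finite H]
    (h : ∀ a : H, orderOf a = p → ∀ g : H, Commute a (g * a * g⁻¹) → g * a * g⁻¹ = a) :
    Cfsg.HasNormalPComplement p H := by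
  obtain ⟨P⟩ : Nonempty (Sylow p H) := inferInstance
  refine (Transfer.frobenius_iff P).2 fun Q hQ g hg hgp => ?_
  let f : ↥Q ≃* ↥Q :=
    { toFun := fun c => ⟨g * c * g⁻¹, (Subgroup.mem_normalizer_iff.1 hg _).1 c.2⟩
      invFun := fun c => ⟨g⁻¹ * c * g, (Subgroup.mem_normalizer_iff''.1 hg _).1 c.2⟩
      left_inv := fun c => Subtype.ext (by simp [mul_assoc])
      right_inv := fun c => Subtype.ext (by simp [mul_assoc])
      map_mul' := fun c d => Subtype.ext (by simp [mul_assoc]) }
  have hiter : ∀ (m : ℕ) (c : ↥Q), (f^[m] c : H) = g ^ m * c * (g ^ m)⁻¹ := by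
    intro m c
    induction m with
    | zero => simp
    | succ m ih =>
      rw [Function.iterate_succ_apply']
      show g * (f^[m] c : H) * g⁻¹ = _
      rw [ih, pow_succ']; group
  refine Subgroup.mem_centralizer_iff.2 fun x hx => ?_
  have h1 := Transfer.fixed_of_fix_omega hp2 _ ↥Q rfl (P.isPGroup'.to_le hQ) f (orderOf g) hgp
    (fun c => Subtype.ext (by rw [hiter, pow_orderOf_eq_one]; simp))
    (fun c hc => Subtype.ext (by
      show g * c * g⁻¹ = c
      rcases eq_or_ne (c : H) 1 with e | e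
      · rw [e, mul_one, mul_inv_cancel]
      · have hc' : (c : H) ^ p = 1 := by simpa using congrArg Subtype.val hc
        have hco := orderOf_eq_prime hc' e
        exact h c hco g (central_of_isolated P.isPGroup' (hQ c.2) (fun u _ => h c hco u) _
          (hQ ((Subgroup.mem_normalizer_iff.1 hg _).1 c.2))))) ⟨x, hx⟩
  exact (mul_inv_eq_iff_eq_mul.1 (congrArg Subtype.val h1)).symm

theorem component_absurd (hp2 : p ≠ 2) (hO : Cfsg.pPrimeCore p G = ⊥) {L : Subgroup G} (hL : Cfsg.IsComponent L)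
    (h : ∀ a ∈ L, orderOf a = p → ∀ l ∈ L, Commute a (l * a * l⁻¹) → l * a * l⁻¹ = a) : False := by
  obtain ⟨P, N, hN, hc⟩ := complement_of_isolated (H := ↥L) hp2 (fun a ha g hg => Subtype.ext
    (h a a.2 (by rwa [Subgroup.orderOf_coe]) g g.2 (congrArg Subtype.val hg.eq)))
  have hperf : commutator ↥L = ⊤ := by
    rw [_root_.commutator_def]
    apply Subgroup.map_injective L.subtype_injective
    rw [Subgroup.map_commutator, ← MonoidHom.range_eq_map, Subgroup.range_subtype]
    exact component_perfect hL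
  haveI := hN
  have hq : IsPGroup p (↥L ⧸ N) := by
    obtain ⟨n, hn⟩ := IsPGroup.iff_card.1 P.isPGroup'
    refine IsPGroup.iff_card.2 ⟨n, ?_⟩
    rw [← Subgroup.index_eq_card, hc.symm.index_eq_card, hn]
  haveI : Group.IsNilpotent (↥L ⧸ N) := hq.isNilpotent
  have htop : N = ⊤ := by
    by_contra hne
    haveI : Nontrivial (↥L ⧸ N) := QuotientGroup.nontrivial_iff.2 hne
    have h1 : commutator (↥L ⧸ N) = ⊤ := by
      rw [_root_.commutator_def, ← Subgroup.map_top_of_surjective (QuotientGroup.mk' N) (QuotientGroup.mk'_surjective N),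
        ← Subgroup.map_commutator, ← _root_.commutator_def, hperf]
    exact (Group.IsSolvable.commutator_lt_top_of_nontrivial (↥L ⧸ N)).ne h1
  apply component_not_le_coprime hO hL
  subst htop
  have h1 : Nat.card (P : Subgroup L) = 1 := by rw [← hc.symm.index_eq_card, Subgroup.index_top]
  rw [Nat.coprime_comm, hp.out.coprime_iff_not_dvd]
  intro hd
  exact (P.ne_bot_of_dvd_card hd) (Subgroup.card_eq_one.1 h1)

theorem gen_pow {a : G} (ha : orderOf a = p) {i : ℤ} (hi : a ^ i ≠ 1) : a ∈ Subgroup.zpowers (a ^ i) := by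
  have h : Subgroup.zpowers (a ^ i) = Subgroup.zpowers a := by
    refine Subgroup.eq_of_le_of_card_ge (Subgroup.zpowers_le.2 (Subgroup.zpow_mem _ (Subgroup.mem_zpowers a) i)) ?_
    rw [Nat.card_zpowers, Nat.card_zpowers, ha]
    rcases (Nat.dvd_prime hp.out).1 (ha ▸ orderOf_dvd_of_mem_zpowers (Subgroup.zpow_mem _ (Subgroup.mem_zpowers a) i)) with e | e
    · exact absurd (orderOf_eq_one_iff.1 e) hi
    · exact e.ge
  rw [h]
  exact Subgroup.mem_zpowers a

theorem commute_of_pow {a b : G} {i : ℤ} (ha : orderOf a = p) (hb : orderOf b = p) (hi : a ^ i ≠ 1) (hi' : b ^ i ≠ 1)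
    (h : Commute (a ^ i) (b ^ i)) : Commute a b := by
  obtain ⟨k, hk⟩ := Subgroup.mem_zpowers_iff.1 (gen_pow ha hi)
  obtain ⟨l, hl⟩ := Subgroup.mem_zpowers_iff.1 (gen_pow hb hi')
  rw [← hk, ← hl]
  exact h.zpow_zpow k l

theorem mem_span (hrank : Cfsg.PRankLE p 2 G) {a b c : G} (ha : orderOf a = p) (hb : orderOf b = p)
    (hab : Commute a b) (hnot : a ∉ Subgroup.zpowers b) (hc : c ^ p = 1) (hca : Commute c a) (hcb : Commute c b) :
    ∃ i j : ℤ, c = a ^ i * b ^ j := by
  set A := Subgroup.closure ({a, b, c} : Set G)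
  have hcomm : IsMulCommutative A := Subgroup.isMulCommutative_closure (by
    rintro u (rfl | rfl | rfl) v (rfl | rfl | rfl)
    all_goals first | rfl | exact hab.eq | exact hab.eq.symm | exact hca.eq | exact hca.eq.symm | exact hcb.eq | exact hcb.eq.symm)
  have hexp : ∀ u ∈ A, u ^ p = 1 := by
    intro u hu
    refine Subgroup.closure_induction (p := fun z _ => z ^ p = 1) ?_ (one_pow p) ?_ ?_ hu
    · rintro z (rfl | rfl | rfl)
      · exact ha ▸ pow_orderOf_eq_one _
      · exact hb ▸ pow_orderOf_eq_one _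
      · exact hc
    · intro u v hu hv e1 e2
      rw [(show Commute u v from congrArg Subtype.val (mul_comm' (⟨u, hu⟩ : A) ⟨v, hv⟩)).mul_pow, e1, e2, one_mul]
    · intro u _ e
      rw [inv_pow, e, inv_one]
  have hcard := hrank A hcomm hexp
  set B := Subgroup.zpowers a ⊔ Subgroup.zpowers b
  have hBA : B ≤ A := sup_le (Subgroup.zpowers_le.2 (Subgroup.subset_closure (by simp)))
    (Subgroup.zpowers_le.2 (Subgroup.subset_closure (by simp)))
  have hBcard : p ^ 2 ≤ Nat.card B := by
    have hinj : Function.Injective fun q : Subgroup.zpowers a × Subgroup.zpowers b =>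
        (⟨(q.1 : G) * q.2, mul_mem (le_sup_left (b := Subgroup.zpowers b) q.1.2) (le_sup_right (a := Subgroup.zpowers a) q.2.2)⟩ : B) := by
      rintro ⟨u, v⟩ ⟨u', v'⟩ e
      have e' : (u : G) * v = u' * v' := congrArg Subtype.val e
      have h1 : (u' : G)⁻¹ * u = v' * (v : G)⁻¹ := by
        calc (u' : G)⁻¹ * u = (u' : G)⁻¹ * ((u : G) * v) * (v : G)⁻¹ := by group
          _ = _ := by rw [e']; group
      have h2 : (u' : G)⁻¹ * u = 1 := by
        by_contra hne
        have hua : (u' : G)⁻¹ * u ∈ Subgroup.zpowers a := mul_mem (inv_mem u'.2) u.2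
        obtain ⟨i, hi⟩ := Subgroup.mem_zpowers_iff.1 hua
        have := gen_pow ha (i := i) (hi ▸ hne)
        rw [hi, h1] at this
        exact hnot ((Subgroup.zpowers_le.2 (mul_mem v'.2 (inv_mem v.2))) this)
      have hu : u' = u := Subtype.ext (inv_mul_eq_one.1 h2)
      subst hu
      exact Prod.ext rfl (Subtype.ext (mul_left_cancel e'))
    have := Nat.card_le_card_of_injective _ hinj
    rwa [Nat.card_prod, Nat.card_zpowers, Nat.card_zpowers, ha, hb, ← pow_two] at this
  have heq : B = A := Subgroup.eq_of_le_of_card_ge hBA (hcard.trans hBcard)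
  have hcB : c ∈ (B : Set G) := heq ▸ Subgroup.subset_closure (by simp)
  have hnorm : Subgroup.zpowers a ≤ Subgroup.normalizer (Subgroup.zpowers b : Set G) := by
    refine le_trans ?_ (Subgroup.centralizer_le_normalizer _)
    rw [Subgroup.zpowers_le, Subgroup.mem_centralizer_iff]
    intro v hv
    obtain ⟨j, rfl⟩ := Subgroup.mem_zpowers_iff.1 hv
    exact (hab.zpow_right j).eq.symm
  rw [Subgroup.coe_mul_of_left_le_normalizer_right _ _ hnorm] at hcB
  obtain ⟨u, hu, v, hv, rfl⟩ := hcB
  obtain ⟨i, rfl⟩ := Subgroup.mem_zpowers_iff.1 hu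
  obtain ⟨j, rfl⟩ := Subgroup.mem_zpowers_iff.1 hv
  exact ⟨i, j, rfl⟩

theorem main (hp2 : p ≠ 2) (hO : Cfsg.pPrimeCore p G = ⊥) (hrank : Cfsg.PRankLE p 2 G) (x : G) (hx : orderOf x = p)
    (hiso : Cfsg.IsIsolated x) (hnc : x ∉ Subgroup.center G) :
    IsSimpleGroup ↥(Cfsg.generalizedFittingSubgroup G) ∧ ¬ IsMulCommutative ↥(Cfsg.generalizedFittingSubgroup G) := by
  haveI : Nontrivial G := ⟨⟨x, 1, fun e => hp.out.ne_one (by rw [← hx, e, orderOf_one])⟩⟩
  obtain ⟨S, hxS'⟩ := (show IsPGroup p (Subgroup.zpowers x) from IsPGroup.of_card (n := 1) (by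
    rw [Nat.card_zpowers, hx, pow_one])).exists_le_sylow
  have hxS : x ∈ (S : Subgroup G) := hxS' (Subgroup.mem_zpowers x)
  have hcen : ∀ u ∈ (S : Subgroup G), x * u = u * x := central_of_isolated S.isPGroup' hxS fun u _ => hiso u
  have hOS : Cfsg.pCore p G ≤ (S : Subgroup G) := Solv.pCore_le_sylow p S
  have hxO : x ∉ Cfsg.pCore p G := by
    intro hxO
    apply hnc
    rw [Subgroup.mem_center_iff]
    intro g
    have h1 : g * x * g⁻¹ ∈ Cfsg.pCore p G := Subgroup.Normal.conj_mem inferInstance x hxO g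
    exact mul_inv_eq_iff_eq_mul.1 (hiso g (hcen _ (hOS h1)))
  by_cases hOp : Cfsg.pCore p G = ⊥
  · have hF := SpeSimple.fitting_eq_bot hO hOp
    have hne : Cfsg.layer G ≠ ⊥ := fun h => fstar_ne_bot (G := G) (by
      rw [Cfsg.generalizedFittingSubgroup, h, hF, bot_sup_eq])
    obtain ⟨L, hL⟩ : ∃ L : Subgroup G, Cfsg.IsComponent L := by
      by_contra h
      push Not at h
      exact hne (le_bot_iff.1 (layer_le_iff.2 fun L hL => absurd hL (h L)))
    have helt : ∀ K : Subgroup G, Cfsg.IsComponent K →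
        ∃ a ∈ (S : Subgroup G) ⊓ K, orderOf a = p ∧ ∀ b ∈ (S : Subgroup G) ⊓ K, a * b = b * a := by
      intro K hK
      obtain ⟨Q, hQ⟩ := Solv.sylow_inf_subnormal hK.1 S
      have hd : p ∣ Nat.card K := by
        by_contra hd
        exact component_not_le_coprime hO hK (hp.out.coprime_iff_not_dvd.2 hd).symm
      haveI : Nontrivial (Q : Subgroup K) := (Subgroup.nontrivial_iff_ne_bot _).2 (Q.ne_bot_of_dvd_card hd)
      haveI := Q.isPGroup'.center_nontrivial
      obtain ⟨n, hn⟩ := IsPGroup.iff_card.1 (Q.isPGroup'.to_subgroup (Subgroup.center (Q : Subgroup K)))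
      have hn0 : n ≠ 0 := by
        rintro rfl
        rw [pow_zero] at hn
        exact (Finite.one_lt_card (α := Subgroup.center (Q : Subgroup K))).ne' hn
      obtain ⟨a, ha⟩ := exists_prime_orderOf_dvd_card' (G := Subgroup.center (Q : Subgroup K)) p
        (hn ▸ dvd_pow_self p hn0)
      have hmem : ∀ c : K, c ∈ (Q : Subgroup K) ↔ (c : G) ∈ (S : Subgroup G) := fun c => by
        rw [hQ]; rfl
      refine ⟨((a : (Q : Subgroup K)) : K), ⟨(hmem _).1 a.1.2, a.1.1.2⟩, ?_, fun b hb => ?_⟩
      · rwa [Subgroup.orderOf_coe, Subgroup.orderOf_coe, Subgroup.orderOf_coe]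
      · exact (congrArg (fun z : (Q : Subgroup K) => ((z : K) : G))
          (Subgroup.mem_center_iff.1 a.2 ⟨⟨b, hb.2⟩, (hmem _).2 hb.1⟩)).symm
    have honly : ∀ K : Subgroup G, Cfsg.IsComponent K → K = L := by
      intro K hK
      by_contra hne
      have key : ∀ L₁ L₂ : Subgroup G, Cfsg.IsComponent L₁ → Cfsg.IsComponent L₂ → L₁ ≠ L₂ →
          ∀ a₁ a₂ : G, a₁ ∈ (S : Subgroup G) ⊓ L₁ → a₂ ∈ (S : Subgroup G) ⊓ L₂ → orderOf a₁ = p → orderOf a₂ = p →
          (∀ b ∈ (S : Subgroup G) ⊓ L₁, a₁ * b = b * a₁) →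
          ∀ i j : ℤ, x = a₁ ^ i * a₂ ^ j → a₁ ^ i ≠ 1 → False := by
        intro L₁ L₂ h₁ h₂ hne a₁ a₂ ha₁ ha₂ ho₁ ho₂ hc₁ i j hx' hi
        have hcomm : ∀ u ∈ L₁, ∀ v ∈ L₂, u * v = v * u := fun u hu v hv =>
          commutatorElement_eq_one_iff_mul_comm.1 (Subgroup.mem_bot.1
            (component_commute h₁ h₂ hne ▸ Subgroup.commutator_mem_commutator hu hv))
        haveI := SpeSimple.component_simple hF h₁
        have htriv : ∀ u ∈ L₁, u ∈ L₂ → u = 1 := by
          intro u hu hu'
          have hz : (⟨u, hu⟩ : L₁) ∈ Subgroup.center L₁ :=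
            Subgroup.mem_center_iff.2 fun g => Subtype.ext (hcomm g g.2 u hu')
          rcases (inferInstance : (Subgroup.center L₁).Normal).eq_bot_or_eq_top with h | h
          · rw [h, Subgroup.mem_bot] at hz
            exact congrArg Subtype.val hz
          · exfalso
            refine component_not_solvable h₁ (Group.isSolvable_of_comm fun u v => ?_)
            exact (Subgroup.mem_center_iff.1 (h ▸ Subgroup.mem_top u : u ∈ Subgroup.center L₁) v).symm
        have hnot : a₁ ∉ Subgroup.zpowers a₂ := fun h => by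
          have := htriv a₁ ha₁.2 (Subgroup.zpowers_le.2 ha₂.2 h)
          rw [this, orderOf_one] at ho₁
          exact hp.out.ne_one ho₁.symm
        have h12 : Commute a₁ a₂ := hcomm a₁ ha₁.2 a₂ ha₂.2
        -- isolation of `a₁`
        have hiso1 : ∀ l ∈ L₁, Commute a₁ (l * a₁ * l⁻¹) → l * a₁ * l⁻¹ = a₁ := by
          intro l hl hcm
          have hl2 : Commute l (a₂ ^ j) := Commute.zpow_right (hcomm l hl a₂ ha₂.2) j
          have e : l * x * l⁻¹ = (l * a₁ * l⁻¹) ^ i * a₂ ^ j := by
            rw [hx', conj_zpow]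
            calc l * (a₁ ^ i * a₂ ^ j) * l⁻¹ = (l * a₁ ^ i * l⁻¹) * (l * a₂ ^ j * l⁻¹) := by group
              _ = l * a₁ ^ i * l⁻¹ * a₂ ^ j := by rw [hl2.eq, mul_inv_cancel_right]
          have hla : l * a₁ * l⁻¹ ∈ L₁ := L₁.mul_mem (L₁.mul_mem hl ha₁.2) (L₁.inv_mem hl)
          have c1 : Commute (l * a₁ * l⁻¹) a₂ := hcomm _ hla a₂ ha₂.2
          have hxe := hiso l (by
            rw [e, hx']
            exact ((hcm.zpow_zpow i i).mul_right (h12.zpow_zpow i j)).mul_left
              (((c1.zpow_zpow i j).symm).mul_right (Commute.refl _)))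
          rw [e, hx'] at hxe
          have he := mul_right_cancel hxe
          have hol : orderOf (l * a₁ * l⁻¹) = p := (MulAut.conj l).orderOf_eq a₁ |>.trans ho₁
          have hsub : (l * a₁ * l⁻¹ * a₁⁻¹) ^ i = 1 := by
            rw [hcm.symm.inv_right.mul_zpow, he, inv_zpow, mul_inv_cancel]
          by_contra hne'
          have hd : orderOf (l * a₁ * l⁻¹ * a₁⁻¹) = p := orderOf_eq_prime (by
            rw [hcm.symm.inv_right.mul_pow, inv_pow]
            conv_lhs => rw [← hol]
            rw [pow_orderOf_eq_one, one_mul, hol, ← ho₁, pow_orderOf_eq_one, inv_one]) (fun h => hne' (mul_inv_eq_one.1 h))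
          exact hi (orderOf_dvd_iff_zpow_eq_one.1 (by rw [ho₁, ← hd]; exact orderOf_dvd_iff_zpow_eq_one.2 hsub))
        refine component_absurd hp2 hO h₁ fun y hy hyo l hl hcm => ?_
        obtain ⟨Q, hQ⟩ := Solv.sylow_inf_subnormal h₁.1 S
        obtain ⟨R, hR⟩ := (show IsPGroup p (Subgroup.zpowers (⟨y, hy⟩ : L₁)) from IsPGroup.of_card (n := 1) (by
          rw [Nat.card_zpowers, pow_one, ← Subgroup.orderOf_coe, hyo])).exists_le_sylow
        obtain ⟨g, rfl⟩ := MulAction.exists_smul_eq L₁ Q R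
        have h3 := hR (Subgroup.mem_zpowers _)
        rw [cj_coe_sylow, mem_cj, hQ] at h3
        set b : G := (g : G)⁻¹ * y * g with hb
        have hbS : b ∈ (S : Subgroup G) := h3
        have hbL : b ∈ L₁ := L₁.mul_mem (L₁.mul_mem (L₁.inv_mem g.2) hy) g.2
        have hbo : orderOf b = p := by
          rw [hb]
          have := (MulAut.conj (g : G)⁻¹).orderOf_eq y
          simp only [MulAut.conj_apply, inv_inv] at this
          rw [this, hyo]
        obtain ⟨m, k, hbe⟩ := mem_span hrank ho₁ ho₂ h12 hnot (hbo ▸ pow_orderOf_eq_one b)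
          (hc₁ b ⟨hbS, hbL⟩).symm (hcomm b hbL a₂ ha₂.2)
        have hk : a₂ ^ k = 1 := htriv _ (by
          have : a₂ ^ k = (a₁ ^ m)⁻¹ * b := by rw [hbe]; group
          rw [this]; exact L₁.mul_mem (L₁.inv_mem (L₁.zpow_mem ha₁.2 m)) hbL) (L₂.zpow_mem ha₂.2 k)
        rw [hk, mul_one] at hbe
        have hm : a₁ ^ m ≠ 1 := fun h => hp.out.ne_one (by rw [← hbo, hbe, h, orderOf_one])
        set l' : G := (g : G)⁻¹ * l * g with hl'
        have hl'L : l' ∈ L₁ := L₁.mul_mem (L₁.mul_mem (L₁.inv_mem g.2) hl) g.2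
        have hcm' : Commute b (l' * b * l'⁻¹) := by
          have e : l' * b * l'⁻¹ = (g : G)⁻¹ * (l * y * l⁻¹) * g := by rw [hb, hl']; group
          rw [e, hb]
          have := hcm.map (MulAut.conj (g : G)⁻¹).toMonoidHom
          simpa using this
        rw [hbe, ← conj_zpow] at hcm'
        have hne2 : (l' * a₁ * l'⁻¹) ^ m ≠ 1 := by
          rw [conj_zpow]
          intro h
          apply hm
          calc a₁ ^ m = l'⁻¹ * (l' * a₁ ^ m * l'⁻¹) * l' := by group
            _ = 1 := by rw [h]; group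
        have h4 := hiso1 l' hl'L (commute_of_pow ho₁ ((MulAut.conj l').orderOf_eq a₁ |>.trans ho₁) hm hne2 hcm')
        have h5 : l' * b * l'⁻¹ = b := by rw [hbe, ← conj_zpow, h4]
        calc l * y * l⁻¹ = (g : G) * (l' * b * l'⁻¹) * (g : G)⁻¹ := by rw [hb, hl']; group
          _ = y := by rw [h5, hb]; group
      obtain ⟨a₁, ha₁, ho₁, hc₁⟩ := helt L hL
      obtain ⟨a₂, ha₂, ho₂, hc₂⟩ := helt K hK
      have hcomm : Commute a₁ a₂ := commutatorElement_eq_one_iff_mul_comm.1 (Subgroup.mem_bot.1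
        (component_commute hL hK (Ne.symm hne) ▸ Subgroup.commutator_mem_commutator ha₁.2 ha₂.2))
      have hnot : a₁ ∉ Subgroup.zpowers a₂ := by
        intro h
        have h1 : a₁ ∈ K := Subgroup.zpowers_le.2 ha₂.2 h
        haveI := SpeSimple.component_simple hF hL
        have hz : (⟨a₁, ha₁.2⟩ : L) ∈ Subgroup.center L := Subgroup.mem_center_iff.2 fun g => Subtype.ext
          (commutatorElement_eq_one_iff_mul_comm.1 (Subgroup.mem_bot.1
            (component_commute hL hK (Ne.symm hne) ▸ Subgroup.commutator_mem_commutator g.2 h1)))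
        rcases (inferInstance : (Subgroup.center L).Normal).eq_bot_or_eq_top with e | e
        · rw [e, Subgroup.mem_bot] at hz
          exact hp.out.ne_one (by rw [← ho₁, show a₁ = 1 from congrArg Subtype.val hz, orderOf_one])
        · exact component_not_solvable hL (Group.isSolvable_of_comm fun u v =>
            (Subgroup.mem_center_iff.1 (e ▸ Subgroup.mem_top u : u ∈ Subgroup.center L) v).symm)
      obtain ⟨i, j, hij⟩ := mem_span hrank ho₁ ho₂ hcomm hnot (hx ▸ pow_orderOf_eq_one x)
        (hcen a₁ ha₁.1) (hcen a₂ ha₂.1)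
      by_cases hi : a₁ ^ i = 1
      · refine key K L hK hL hne a₂ a₁ ha₂ ha₁ ho₂ ho₁ hc₂ j i ?_ ?_
        · rw [hij]; exact (hcomm.zpow_zpow i j).eq
        · intro hj
          exact hp.out.ne_one (by rw [← hx, hij, hi, hj, one_mul, orderOf_one])
      · exact key L K hL hK (Ne.symm hne) a₁ a₂ ha₁ ha₂ ho₁ ho₂ hc₁ i j hij hi
    have heq : Cfsg.generalizedFittingSubgroup G = L := by
      rw [Cfsg.generalizedFittingSubgroup, hF, sup_bot_eq]
      exact le_antisymm (layer_le_iff.2 fun K hK => (honly K hK).le) (component_le_layer hL)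
    rw [heq]
    refine ⟨SpeSimple.component_simple hF hL, fun h => component_not_solvable hL ?_⟩
    exact Group.isSolvable_of_comm fun a b => mul_comm' a b
  · exfalso
    have hp' : IsPGroup p (Cfsg.pCore p G) := Solv.isPGroup_pCore p
    -- a central element of the core
    obtain ⟨z, hzO, hzo, hzS⟩ : ∃ z ∈ Cfsg.pCore p G, orderOf z = p ∧ ∀ u ∈ (S : Subgroup G), z * u = u * z := by
      set O' := (Cfsg.pCore p G).subgroupOf (S : Subgroup G)
      haveI : O'.Normal := Subgroup.Normal.subgroupOf inferInstance _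
      haveI : Nontrivial O' := (Subgroup.nontrivial_iff_ne_bot _).2 fun e => hOp (by
        rw [← Subgroup.map_subgroupOf_eq_of_le hOS]
        show O'.map _ = ⊥
        rw [e, Subgroup.map_bot])
      have hne : O' ⊓ Subgroup.center (S : Subgroup G) ≠ ⊥ := Cfsg.Lib.Transfer.inf_center_ne_bot S.isPGroup' O' ((Subgroup.nontrivial_iff_ne_bot _).1 inferInstance)
      obtain ⟨n, hn⟩ := IsPGroup.iff_card.1 (S.isPGroup'.to_subgroup (O' ⊓ Subgroup.center (S : Subgroup G)))
      have hn0 : n ≠ 0 := by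
        rintro rfl
        rw [pow_zero] at hn
        exact hne (Subgroup.card_eq_one.1 hn)
      obtain ⟨a, ha⟩ := exists_prime_orderOf_dvd_card' (G := ↥(O' ⊓ Subgroup.center (S : Subgroup G))) p
        (hn ▸ dvd_pow_self p hn0)
      refine ⟨((a : (S : Subgroup G)) : G), a.2.1, by rwa [Subgroup.orderOf_coe, Subgroup.orderOf_coe], fun u hu => ?_⟩
      exact (congrArg Subtype.val (Subgroup.mem_center_iff.1 a.2.2 ⟨u, hu⟩)).symm
    have hnot : x ∉ Subgroup.zpowers z := fun h => hxO (Subgroup.zpowers_le.2 hzO h)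
    have hxz : Commute x z := hcen z (hOS hzO)
    have hsol : Group.IsSolvable (Cfsg.pCore p G) := by
      haveI : Group.IsNilpotent (Cfsg.pCore p G) := hp'.isNilpotent
      infer_instance
    have hLz : ∀ L : Subgroup G, Cfsg.IsComponent L → ∀ l ∈ L, ∀ u ∈ Cfsg.pCore p G, l * u = u * l :=
      fun L hL l hl u hu => commutatorElement_eq_one_iff_mul_comm.1 (Subgroup.mem_bot.1
        (component_commute_solvable hL hsol (by rw [Subgroup.normalizer_eq_top]; exact le_top) ▸
          Subgroup.commutator_mem_commutator hl hu))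
    obtain ⟨L, hL⟩ : ∃ L : Subgroup G, Cfsg.IsComponent L := by
      by_contra h
      push Not at h
      have hlay : Cfsg.layer G = ⊥ := le_bot_iff.1 (layer_le_iff.2 fun L hL => absurd hL (h L))
      have hFp : Cfsg.fittingSubgroup G ≤ Cfsg.pCore p G := by
        rw [Solv.fitting_eq_iSup_pCore]
        refine iSup_le fun q => ?_
        rcases eq_or_ne (q : ℕ) p with h | h
        · rw [h]
        · haveI : Fact (q : ℕ).Prime := ⟨q.2⟩
          refine (Solv.le_pPrimeCore inferInstance ?_).trans (hO.le.trans bot_le)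
          obtain ⟨n, hn⟩ := IsPGroup.iff_card.1 (Solv.isPGroup_pCore (G := G) (q : ℕ))
          rw [hn]
          exact Nat.Coprime.pow_left n ((Nat.coprime_primes q.2 hp.out).2 h)
      refine hxO (hFp (centralizer_fitting_le_of_layer_eq_bot hlay ?_))
      rw [Subgroup.mem_centralizer_iff]
      exact fun u hu => (hcen u (hOS (hFp hu))).symm
    refine component_absurd hp2 hO hL fun y hy hyo l hl hcm => ?_
    obtain ⟨R, hR⟩ := (show IsPGroup p (Subgroup.zpowers y) from IsPGroup.of_card (n := 1) (by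
      rw [Nat.card_zpowers, hyo, pow_one])).exists_le_sylow
    obtain ⟨g, rfl⟩ := MulAction.exists_smul_eq G S R
    have h3 := hR (Subgroup.mem_zpowers y)
    rw [cj_coe_sylow, mem_cj] at h3
    set b := g⁻¹ * y * g with hb
    have hbo : orderOf b = p := by
      rw [hb]
      have := (MulAut.conj g⁻¹).orderOf_eq y
      simp only [MulAut.conj_apply, inv_inv] at this
      rw [this, hyo]
    obtain ⟨i, j, hbe⟩ := mem_span hrank hx hzo hxz hnot (hbo ▸ pow_orderOf_eq_one b)
      (show Commute b x from (hcen b h3).symm) (show Commute b z from (hzS b h3).symm)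
    set l' := g⁻¹ * l * g with hl'
    have hzc : Commute l' z := by
      have h1 := hLz L hL l hl (g * z * g⁻¹) (Subgroup.Normal.conj_mem inferInstance z hzO g)
      show l' * z = z * l'
      calc l' * z = g⁻¹ * (l * (g * z * g⁻¹)) * g := by rw [hl']; group
        _ = g⁻¹ * ((g * z * g⁻¹) * l) * g := by rw [h1]
        _ = z * l' := by rw [hl']; group
    have e : l' * b * l'⁻¹ = (l' * x * l'⁻¹) ^ i * z ^ j := by
      rw [hbe, conj_zpow]
      calc l' * (x ^ i * z ^ j) * l'⁻¹ = (l' * x ^ i * l'⁻¹) * (l' * z ^ j * l'⁻¹) := by group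
        _ = l' * x ^ i * l'⁻¹ * z ^ j := by rw [(hzc.zpow_right j).eq, mul_inv_cancel_right]
    have h5 : l' * b * l'⁻¹ = b := by
      by_cases hi : x ^ i = 1
      · rw [e, conj_zpow, hi, mul_one, mul_inv_cancel, hbe, hi]
      · have hcm' : Commute b (l' * b * l'⁻¹) := by
          have e' : l' * b * l'⁻¹ = g⁻¹ * (l * y * l⁻¹) * g := by rw [hb, hl']; group
          rw [e', hb]
          have := hcm.map (MulAut.conj g⁻¹).toMonoidHom
          simpa using this
        have hcz : Commute (l' * x * l'⁻¹) z :=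
          ((hzc.mul_left hxz).mul_left hzc.inv_left)
        have hox : orderOf (l' * x * l'⁻¹) = p := (MulAut.conj l').orderOf_eq x |>.trans hx
        have h6 : Commute (x ^ i) ((l' * x * l'⁻¹) ^ i) := by
          have c1 : Commute b ((l' * x * l'⁻¹) ^ i) := by
            have c2 : Commute b (z ^ j)⁻¹ := by
              rw [hbe]
              exact ((hxz.zpow_zpow i j).mul_left (Commute.refl _)).inv_right
            have := hcm'.mul_right c2
            rwa [e, mul_inv_cancel_right] at this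
          have c3 : Commute (z ^ j)⁻¹ ((l' * x * l'⁻¹) ^ i) := ((hcz.zpow_zpow i j).symm).inv_left
          have := c1.mul_left c3
          rwa [hbe, mul_inv_cancel_right] at this
        have hne2 : (l' * x * l'⁻¹) ^ i ≠ 1 := by
          rw [conj_zpow]
          intro h
          apply hi
          calc x ^ i = l'⁻¹ * (l' * x ^ i * l'⁻¹) * l' := by group
            _ = 1 := by rw [h]; group
        rw [e, hiso l' (commute_of_pow hx hox hi hne2 h6), hbe]
    calc l * y * l⁻¹ = g * (l' * b * l'⁻¹) * g⁻¹ := by rw [hb, hl']; group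
      _ = y := by rw [h5, hb]; group

end Cfsg.Lib.PLocal.IsolatedRankTwo
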