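import Mathlib
import Cfsg.Prelude.Def_DStar
import Cfsg.Prelude.Def_PLocal
import Cfsg.Prelude.Def_LocalEven
import Cfsg.Prelude.Def_TwoFusion
import Cfsg.Agent.Lib.PLocal.Replacement
import Cfsg.Agent.Lib.PLocal.ClosedConjugates
import Cfsg.Agent.Lib.Fusion.GroupSystem
import Cfsg.Agent.Lib.Solv.Subnormal
import Cfsg.Agent.Lib.Transfer.PGroupNormal
import Cfsg.Agent.Lib.Transfer.NormalPComplement

/-!
The subgroup `D*` and abelian strongly closed subgroups.
-/

set_option autoImplicit false
set_option maxHeartbeats 600000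
set_option linter.style.haveILetI false

open scoped Pointwise commutatorElement

namespace Cfsg.Lib.PLocal.LocalMisc5

open Cfsg Subgroup Cfsg.Lib.PLocal.Closed

universe u

variable {S : Type u} [Group S] [Finite S] {p : ℕ} [hp : Fact p.Prime]

/-! ### D* -/

omit [Finite S] in
theorem comm_of_abelian {A : Subgroup S} (hA : IsMulCommutative A) {a b : S} (ha : a ∈ A)
    (hb : b ∈ A) : a * b = b * a := congrArg Subtype.val (hA.is_comm.comm (⟨a, ha⟩ : A) ⟨b, hb⟩)

omit [Finite S] in
/-- Class two from the commutators of the generators. -/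
theorem class_two {A : Subgroup S} (hA : IsMulCommutative A) {x : S} {Z : Subgroup S}
    (hZ : ∀ z ∈ Z, z * x = x * z ∧ ∀ a ∈ A, z * a = a * z) (hax : ∀ a ∈ A, ⁅a, x⁆ ∈ Z) :
    ⁅⁅A ⊔ zpowers x, A ⊔ zpowers x⁆, A ⊔ zpowers x⁆ = ⊥ := by
  set H := A ⊔ zpowers x
  have hZH : Z ≤ centralizer (H : Set S) := by
    intro z hz
    refine le_centralizer_iff.1 (?_ : H ≤ centralizer (zpowers z : Set S)) (mem_zpowers z)
    refine sup_le (fun a ha => ?_) (zpowers_le.2 ?_) <;>
      rw [zpowers_eq_closure, centralizer_closure, mem_centralizer_singleton_iff]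
    · exact ((hZ z hz).2 a ha).symm
    · exact (hZ z hz).1.symm
  rw [commutator_eq_bot_iff_le_centralizer]
  refine le_trans ?_ hZH
  -- commutators with a fixed generator
  have step : ∀ g ∈ (A : Set S) ∪ {x}, ∀ h ∈ H, ⁅g, h⁆ ∈ Z := by
    intro g hg h hh
    rw [show H = closure ((A : Set S) ∪ {x}) by
      rw [Subgroup.closure_union, closure_eq, ← zpowers_eq_closure]] at hh
    induction hh using closure_induction with
    | mem h hh =>
      rcases hg with hg | hg <;> rcases hh with hh | hh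
      · rw [commutatorElement_eq_one_iff_mul_comm.2 (comm_of_abelian hA hg hh)]; exact one_mem _
      · rw [Set.mem_singleton_iff.1 hh]; exact hax g hg
      · rw [Set.mem_singleton_iff.1 hg, ← commutatorElement_inv]; exact inv_mem (hax h hh)
      · rw [Set.mem_singleton_iff.1 hg, Set.mem_singleton_iff.1 hh, commutatorElement_self]
        exact one_mem _
    | one => rw [commutatorElement_one_right]; exact one_mem _
    | mul a b ha _ iha ihb =>
      rw [show ⁅g, a * b⁆ = ⁅g, a⁆ * (a * ⁅g, b⁆ * a⁻¹) by simp only [commutatorElement_def]; group]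
      refine mul_mem iha ?_
      rw [mem_centralizer_iff.1 (hZH ihb) a (by
        rw [show H = closure ((A : Set S) ∪ {x}) by
          rw [Subgroup.closure_union, closure_eq, ← zpowers_eq_closure]]
        exact ha), mul_inv_cancel_right]
      exact ihb
    | inv a ha iha =>
      rw [show ⁅g, a⁻¹⁆ = a⁻¹ * ⁅g, a⁆⁻¹ * a by simp only [commutatorElement_def]; group]
      have haH : a ∈ H := by
        rw [show H = closure ((A : Set S) ∪ {x}) by
          rw [Subgroup.closure_union, closure_eq, ← zpowers_eq_closure]]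
        exact ha
      rw [mem_centralizer_iff.1 (hZH (inv_mem iha)) a⁻¹ (inv_mem haH), inv_mul_cancel_right]
      exact inv_mem iha
  refine commutator_le.2 fun g hg h hh => ?_
  rw [show H = closure ((A : Set S) ∪ {x}) by
    rw [Subgroup.closure_union, closure_eq, ← zpowers_eq_closure]] at hg
  induction hg using closure_induction with
  | mem g hg => exact step g hg h hh
  | one => rw [commutatorElement_one_left]; exact one_mem _
  | mul a b ha _ iha ihb =>
    rw [show ⁅a * b, h⁆ = (a * ⁅b, h⁆ * a⁻¹) * ⁅a, h⁆ by simp only [commutatorElement_def]; group,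
      mem_centralizer_iff.1 (hZH ihb) a (by
        rw [show H = closure ((A : Set S) ∪ {x}) by
          rw [Subgroup.closure_union, closure_eq, ← zpowers_eq_closure]]
        exact ha), mul_inv_cancel_right]
    exact mul_mem ihb iha
  | inv a ha iha =>
    have haH : a ∈ H := by
      rw [show H = closure ((A : Set S) ∪ {x}) by
        rw [Subgroup.closure_union, closure_eq, ← zpowers_eq_closure]]
      exact ha
    rw [show ⁅a⁻¹, h⁆ = a⁻¹ * ⁅a, h⁆⁻¹ * a by simp only [commutatorElement_def]; group,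
      mem_centralizer_iff.1 (hZH (inv_mem iha)) a⁻¹ (inv_mem haH), inv_mul_cancel_right]
    exact inv_mem iha

/-- A member of the family centralizes each normal abelian subgroup. -/
theorem family_centralizes (hS : IsPGroup p S) {A : Subgroup S} (hA : A ∈ dStarFamily S)
    (M : Subgroup S) [hM : M.Normal] (hMc : IsMulCommutative M) : A ≤ centralizer (M : Set S) := by
  by_contra hn
  rw [le_centralizer_iff] at hn
  haveI : Group.IsNilpotent S := hS.isNilpotent
  obtain ⟨n, hnil⟩ := Subgroup.nilpotent_iff_lowerCentralSeries.1 hS.isNilpotent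
  let W : ℕ → Subgroup S := fun k => Nat.rec M (fun _ B => ⁅B, A⁆) k
  have hWle : ∀ k, W k ≤ (⊤ : Subgroup S).lowerCentralSeries k := by
    intro k
    induction k with
    | zero => exact le_top
    | succ k ih => exact commutator_mono ih le_top
  have hWM : ∀ k, W k ≤ M := by
    intro k
    induction k with
    | zero => exact le_rfl
    | succ k ih =>
      exact (commutator_mono ih le_rfl).trans (commutator_le_left M A)
  have hlast : W n ≤ centralizer (A : Set S) := by
    refine ((hWle n).trans ?_).trans bot_le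
    exact hnil.le
  classical
  obtain ⟨k, hk1, hk2⟩ : ∃ k, ¬ W k ≤ centralizer (A : Set S) ∧
      ⁅W k, A⁆ ≤ centralizer (A : Set S) := by
    by_contra hnone
    push Not at hnone
    have hall : ∀ k, ¬ W k ≤ centralizer (A : Set S) := by
      intro k
      induction k with
      | zero => exact hn
      | succ k ih => exact hnone k ih
    exact hall n hlast
  obtain ⟨x, hx, hxA⟩ := SetLike.not_le_iff_exists.1 hk1
  refine hxA (mem_centralizer_iff.2 fun a ha => hA.2 x (class_two hA.1 (Z := ⁅W k, A⁆) ?_ ?_) a ha)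
  · exact fun z hz => ⟨comm_of_abelian hMc
      (((commutator_mono (hWM k) le_rfl).trans (commutator_le_left M A)) hz) (hWM k hx),
      fun b hb => (mem_centralizer_iff.1 (hk2 hz) b hb).symm⟩
  · intro b hb
    rw [← commutatorElement_inv]
    exact inv_mem (commutator_mem_commutator hx hb)

theorem dStar_le_maximal (hS : IsPGroup p S) (A : Subgroup S) [A.Normal] (hA : IsMulCommutative A)
    (hmax : ∀ B : Subgroup S, B.Normal → IsMulCommutative B → A ≤ B → B = A) : dStar S ≤ A :=
  sSup_le fun _ hB => (family_centralizes hS hB A hA).trans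
    (Transfer.centralizer_eq_of_maximal_normal_abelian hS A hA hmax).le

theorem dStar_abelian (hS : IsPGroup p S) : IsMulCommutative (dStar S) := by
  obtain ⟨A, ⟨hAn, hAc⟩, hmax⟩ :=
    (Set.toFinite {A : Subgroup S | A.Normal ∧ IsMulCommutative A}).exists_maximal
      ⟨⊥, inferInstance, ⟨⟨fun a b => Subsingleton.elim _ _⟩⟩⟩
  haveI := hAn
  have hle := dStar_le_maximal hS A hAc fun B h1 h2 h3 => le_antisymm (hmax ⟨h1, h2⟩ h3) h3
  exact ⟨⟨fun a b => Subtype.ext (comm_of_abelian hAc (hle a.2) (hle b.2))⟩⟩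

theorem dStar_mem (hS : IsPGroup p S) : dStar S ∈ dStarFamily S := by
  refine ⟨dStar_abelian hS, fun x hx => ?_⟩
  have hle : dStar S ≤ centralizer (zpowers x : Set S) := sSup_le fun A hA a ha => by
    rw [zpowers_eq_closure, centralizer_closure, mem_centralizer_singleton_iff]
    refine hA.2 x (le_bot_iff.1 (le_trans ?_ hx.le)) a ha
    have hsub : A ⊔ zpowers x ≤ dStar S ⊔ zpowers x := sup_le_sup_right (le_sSup hA) _
    exact commutator_mono (commutator_mono hsub hsub) hsub
  intro a ha
  exact (mem_centralizer_iff.1 (hle ha) x (mem_zpowers x)).symm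

omit [Finite S] in
theorem dStarFamily_map (e : S ≃* S) {A : Subgroup S} (hA : A ∈ dStarFamily S) :
    A.map e.toMonoidHom ∈ dStarFamily S := by
  refine ⟨⟨⟨fun a b => ?_⟩⟩, fun x hx => ?_⟩
  · obtain ⟨a', ha', ea⟩ := a.2
    obtain ⟨b', hb', eb⟩ := b.2
    refine Subtype.ext ?_
    show (a : S) * b = b * a
    rw [← ea, ← eb, ← map_mul, ← map_mul, comm_of_abelian hA.1 ha' hb']
  · rintro _ ⟨a, ha, rfl⟩
    have h : a * e.symm x = e.symm x * a := by
      refine hA.2 _ (map_injective (f := e.toMonoidHom) e.injective ?_) a ha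
      rw [map_commutator, map_commutator, Subgroup.map_sup, MonoidHom.map_zpowers, Subgroup.map_bot]
      rw [show e.toMonoidHom (e.symm x) = x from e.apply_symm_apply x]
      exact hx
    have h2 := congrArg e h
    rw [map_mul, map_mul, e.apply_symm_apply] at h2
    exact h2

omit [Finite S] in
theorem dStar_normal : (dStar S).Normal := by
  refine ⟨fun a ha g => ?_⟩
  have h : (dStar S).map (MulAut.conj g).toMonoidHom ≤ dStar S := by
    rw [dStar, map_le_iff_le_comap]
    refine sSup_le fun A hA => map_le_iff_le_comap.1 (le_sSup (dStarFamily_map _ hA))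
  exact h (mem_map_of_mem _ ha)

theorem dStar_props (hS : IsPGroup p S) :
    center S ≤ dStar S ∧
    dStar S ≤ thompsonSubgroupA S ⊓ centralizer (thompsonSubgroupA S : Set S) ∧
    ∀ A : Subgroup S, A.Normal → IsMulCommutative A →
      (∀ B : Subgroup S, B.Normal → IsMulCommutative B → A ≤ B → B = A) → dStar S ≤ A := by
  haveI hDn : (dStar S).Normal := dStar_normal
  have hDc := dStar_abelian hS
  have hz : center S ∈ dStarFamily S :=
    ⟨⟨⟨fun a b => Subtype.ext (mem_center_iff.1 b.2 a)⟩⟩,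
      fun x _ a ha => (mem_center_iff.1 ha x).symm⟩
  set D := dStar S
  -- the members centralize every abelian subgroup of largest order
  have hnorm : ∀ B : Subgroup S, IsMulCommutative B → D ≤ normalizer (B : Set S) →
      D ≤ centralizer (B : Set S) := by
    intro B hB hDB
    refine le_centralizer_iff.1 fun b hb => mem_centralizer_iff.2 fun d hd => ?_
    refine (dStar_mem hS).2 b (class_two hDc (Z := D ⊓ B) ?_ ?_) d hd
    · exact fun z hz => ⟨comm_of_abelian hB hz.2 hb, fun a ha => comm_of_abelian hDc hz.1 ha⟩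
    · intro a ha
      rw [commutatorElement_def]
      refine ⟨?_, ?_⟩
      · rw [show a * b * a⁻¹ * b⁻¹ = a * (b * a⁻¹ * b⁻¹) by group]
        exact mul_mem ha (hDn.conj_mem _ (inv_mem ha) b)
      · exact B.mul_mem ((mem_normalizer_iff.1 (hDB ha) b).1 hb) (B.inv_mem hb)
  have hmem : ∀ B ∈ maxAbelianSubgroups S, D ≤ centralizer (B : Set S) := by
    intro B₀ hB₀
    by_contra hbad
    obtain ⟨B, ⟨hB, hBD⟩, hmax⟩ := (Set.toFinite {B : Subgroup S | B ∈ maxAbelianSubgroups S ∧
      ¬ D ≤ centralizer (B : Set S)}).exists_maximalFor (fun B => B ⊓ D) _ ⟨B₀, hB₀, hbad⟩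
    have hnB : ¬ D ≤ normalizer (B : Set S) := fun h => hBD (hnorm B hB.1 h)
    obtain ⟨x, hx, hxN, hxU⟩ := exists_normalizing (U := normalizer (B : Set S))
      (P := normalizer (B : Set S) ⊔ D) (hS.to_subgroup _) le_sup_left
      (fun h => hnB (le_sup_right.trans h))
    obtain ⟨n, hn, d, hd, rfl⟩ := mem_sup_of_normal_right.1 hx
    have hdN : d ∈ normalizer ((normalizer (B : Set S) : Subgroup S) : Set S) := by
      have := mul_mem (inv_mem (le_normalizer hn)) hxN
      rwa [inv_mul_cancel_left] at this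
    have hdU : d ∉ normalizer (B : Set S) := fun h => hxU (mul_mem hn h)
    obtain ⟨hcard, hc, -, hlt, -, -, hR, -⟩ := replacement hS D (fun _ => hDc) B hB.1
      (by rw [commutator_eq_bot_iff_le_centralizer.2 (fun a ha => mem_centralizer_iff.2
        fun b hb => comm_of_abelian hDc hb ha)]; exact bot_le) hd hdN hdU
    set B' := replacementA B d
    have hB' : B' ∈ maxAbelianSubgroups S := ⟨hc, fun X hX => hcard ▸ hB.2 X hX⟩
    have hDB' : D ≤ centralizer (B' : Set S) := by
      by_contra hcon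
      exact hlt.2 (hmax ⟨hB', hcon⟩ hlt.1)
    have hDle : D ≤ B' := by
      -- an abelian subgroup of largest order contains what centralizes it
      intro e he
      have hcomm : IsMulCommutative (B' ⊔ zpowers e : Subgroup S) := by
        refine (elem_sup_comm hc ?_)
        exact fun a ha => (mem_centralizer_iff.1 (hDB' he) a ha)
      have hsize := hB'.2 _ hcomm
      have heq := eq_of_le_of_card_ge (le_sup_left : B' ≤ B' ⊔ zpowers e) hsize
      exact heq ▸ mem_sup_right (mem_zpowers e)
    exact hnB (hDle.trans hR)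
  refine ⟨le_sSup hz, le_inf ?_ ?_, fun A h1 h2 h3 => @dStar_le_maximal S _ _ p hp hS A h1 h2 h3⟩
  · obtain ⟨B, hBc, hBmax⟩ := (Set.toFinite {B : Subgroup S | IsMulCommutative B}).exists_maximalFor
      (fun B : Subgroup S => Nat.card B) _ ⟨⊥, ⟨⟨fun a b => Subsingleton.elim _ _⟩⟩⟩
    have hB : B ∈ maxAbelianSubgroups S :=
      ⟨hBc, fun X hX => (le_or_gt (Nat.card X) (Nat.card B)).elim id fun h => hBmax hX h.le⟩
    refine le_trans ?_ (le_sSup hB)
    intro e he
    have hcomm : IsMulCommutative (B ⊔ zpowers e : Subgroup S) :=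
      elem_sup_comm hBc fun a ha => mem_centralizer_iff.1 (hmem B hB he) a ha
    exact (eq_of_le_of_card_ge (le_sup_left : B ≤ B ⊔ zpowers e) (hB.2 _ hcomm)) ▸
      mem_sup_right (mem_zpowers e)
  · rw [le_centralizer_iff]
    exact sSup_le fun B hB => le_centralizer_iff.1 (hmem B hB)
where
  elem_sup_comm {B : Subgroup S} (hB : IsMulCommutative B) {e : S} (he : ∀ a ∈ B, a * e = e * a) :
      IsMulCommutative (B ⊔ zpowers e : Subgroup S) := by
    have hs : B ⊔ zpowers e = closure ((B : Set S) ∪ {e}) := by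
      rw [Subgroup.closure_union, closure_eq, ← zpowers_eq_closure]
    rw [hs]
    refine isMulCommutative_closure fun a ha b hb => ?_
    rcases ha with ha | ha <;> rcases hb with hb | hb
    · exact comm_of_abelian hB ha hb
    · rw [Set.mem_singleton_iff.1 hb]; exact he a ha
    · rw [Set.mem_singleton_iff.1 ha]; exact (he b hb).symm
    · rw [Set.mem_singleton_iff.1 ha, Set.mem_singleton_iff.1 hb]

/-! ### Abelian strongly closed subgroups -/

theorem card_lt_card_of_lt {H : Type u} [Group H] [Finite H] {X Y : Subgroup H} (h : X < Y) :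
    Nat.card X < Nat.card Y :=
  lt_of_le_of_ne (card_le_of_le h.le) fun e => h.ne (eq_of_le_of_card_ge h.le e.ge)

variable {G : Type u} [Group G] [Finite G]

theorem normalizes_of_closed {A T : Subgroup G} (hsc : IsStronglyClosed A T) {g : G}
    {Q : Subgroup G} (hQT : Q ≤ T) (hAQ : A ≤ Q) (hg : g ∈ normalizer (Q : Set G)) :
    g ∈ normalizer (A : Set G) := by
  refine cj_eq_self_iff.1 (eq_of_le_of_card_ge ?_ (card_map_of_injective (MulAut.conj g).injective).ge)
  rintro _ ⟨a, ha, rfl⟩
  exact hsc.2 a ha g (hQT ((mem_normalizer_iff.1 hg a).1 (hAQ ha)))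

theorem abelian_closed_fusion (T : Sylow p G) (A : Subgroup G) (hA : IsMulCommutative A)
    (hsc : IsStronglyClosed A (T : Subgroup G)) :
    ∀ (n : ℕ) (P : Subgroup G) (g : G), Nat.card (T : Subgroup G) - Nat.card P = n →
      P ≤ (T : Subgroup G) → (∀ x ∈ P, g * x * g⁻¹ ∈ (T : Subgroup G)) →
      ∃ m ∈ normalizer (A : Set G), ∀ x ∈ P, g * x * g⁻¹ = m * x * m⁻¹ := by
  intro n
  induction n using Nat.strong_induction_on with
  | _ n ih =>
    intro P g hn hPT hg
    -- a map defined on a larger subgroup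
    have big : ∀ (R : Subgroup G) (h : G), R ≤ (T : Subgroup G) → Nat.card P < Nat.card R →
        (∀ x ∈ R, h * x * h⁻¹ ∈ (T : Subgroup G)) →
        ∃ m ∈ normalizer (A : Set G), ∀ x ∈ R, h * x * h⁻¹ = m * x * m⁻¹ := fun R h hR hlt hh =>
      ih _ (by have := card_le_of_le hR; omega) R h rfl hR hh
    rcases eq_or_lt_of_le hPT with rfl | hPlt
    · refine ⟨g, normalizes_of_closed hsc le_rfl hsc.1 (cj_eq_self_iff.1 (eq_of_le_of_card_ge ?_
        (card_map_of_injective (MulAut.conj g).injective).ge)), fun x _ => rfl⟩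
      rintro _ ⟨x, hx, rfl⟩
      exact hg x hx
    have grow : ∀ R : Subgroup G, R < (T : Subgroup G) →
        Nat.card R < Nat.card ↥((T : Subgroup G) ⊓ normalizer (R : Set G)) := by
      intro R hR
      obtain ⟨x, hx, hxn, hxR⟩ := exists_normalizing T.isPGroup' hR.le hR.not_ge
      exact card_lt_card_of_lt (lt_of_le_of_ne (le_inf hR.le le_normalizer)
        fun e => hxR (e ▸ (⟨hx, hxn⟩ : x ∈ (T : Subgroup G) ⊓ _)))
    -- the well placed conjugate
    obtain ⟨c, hQT, hQc⟩ := Fusion.exists_conj_normalizer_sylow (S := T) hPT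
    set Q := P.map (MulAut.conj c).toMonoidHom with hQdef
    set N := normalizer (Q : Set G)
    set R₀ := (T : Subgroup G) ⊓ N
    obtain ⟨Rs, hRs⟩ := (Fusion.exists_sylow_eq_iff (p := p) (inf_le_right : R₀ ≤ N)).2 hQc
    have hQcard : Nat.card Q = Nat.card P := card_map_of_injective (MulAut.conj c).injective
    have move : ∀ (P' : Subgroup G) (d : G), P' < (T : Subgroup G) → cj d P' = Q →
        Nat.card P' = Nat.card P →
        ∃ h, cj h P' = Q ∧ ∃ m ∈ normalizer (A : Set G), ∀ x ∈ P', h * x * h⁻¹ = m * x * m⁻¹ := by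
      intro P' d hP' hd hc'
      set X := cj d ((T : Subgroup G) ⊓ normalizer (P' : Set G))
      have hXN : X ≤ N := (cj_mono d inf_le_right).trans ((cj_normalizer d P').trans (by rw [hd])).le
      obtain ⟨R', hR'⟩ := (((T.isPGroup'.to_le inf_le_left).map _).comap_subtype (K := N) :
        IsPGroup p (X.subgroupOf N)).exists_le_sylow
      obtain ⟨e, he⟩ := MulAction.exists_smul_eq N R' Rs
      refine ⟨(e : G) * d, by rw [← cj_cj, hd, cj_eq_self_iff.2 e.2], ?_⟩
      obtain ⟨m, hm, hm'⟩ := big ((T : Subgroup G) ⊓ normalizer (P' : Set G)) ((e : G) * d)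
        inf_le_left (hc' ▸ grow P' hP') fun x hx => by
          have hx' : d * x * d⁻¹ ∈ X := mem_map_of_mem _ hx
          have h1 : e * ⟨_, hXN hx'⟩ * e⁻¹ ∈ (Rs : Subgroup N) := by
            rw [← he, Sylow.coe_subgroup_smul]
            exact mem_map_of_mem _ (hR' (mem_subgroupOf.2 hx'))
          rw [hRs, mem_subgroupOf] at h1
          have h2 := h1.1
          show (e : G) * d * x * ((e : G) * d)⁻¹ ∈ ((T : Subgroup G) : Subgroup G)
          rw [show (e : G) * d * x * ((e : G) * d)⁻¹ = (e : G) * (d * x * d⁻¹) * (e : G)⁻¹ by group]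
          exact h2
      exact ⟨m, hm, fun x hx => hm' x ⟨hP'.le hx, le_normalizer hx⟩⟩
    obtain ⟨h₁, hh₁, m₁, hm₁, hm₁'⟩ := move P c hPlt rfl rfl
    set P' := cj g P with hP'def
    have hP'T : P' ≤ (T : Subgroup G) := by
      rintro _ ⟨x, hx, rfl⟩
      exact hg x hx
    have hP'c : Nat.card P' = Nat.card P := card_map_of_injective (MulAut.conj g).injective
    have hP'lt : P' < (T : Subgroup G) := lt_of_le_of_ne hP'T fun e =>
      (card_lt_card_of_lt hPlt).ne (hP'c.symm.trans (by rw [e]))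
    obtain ⟨h₂, hh₂, m₂, hm₂, hm₂'⟩ := move P' (c * g⁻¹) hP'lt
      (by rw [hP'def, cj_cj, inv_mul_cancel_right]) hP'c
    set k := h₂ * g * h₁⁻¹
    have hk : k ∈ N := cj_eq_self_iff.1 (by
      calc cj k Q = cj k (cj h₁ P) := by rw [hh₁]
        _ = cj h₂ (cj g P) := by rw [cj_cj, cj_cj, show k * h₁ = h₂ * g from inv_mul_cancel_right _ _]
        _ = Q := hh₂)
    -- an automorphism of the well placed conjugate
    obtain ⟨m₀, hm₀, hm₀'⟩ : ∃ m ∈ normalizer (A : Set G), ∀ x ∈ Q, k * x * k⁻¹ = m * x * m⁻¹ := by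
      by_cases hAQ : A ≤ Q
      · exact ⟨k, normalizes_of_closed hsc hQT hAQ hk, fun x _ => rfl⟩
      set B := A ⊓ Q
      have hBinv : ∀ n ∈ N, ∀ b ∈ B, n * b * n⁻¹ ∈ B := fun n hn b hb =>
        ⟨hsc.2 b hb.1 n (hQT ((mem_normalizer_iff.1 hn b).1 hb.2)), (mem_normalizer_iff.1 hn b).1 hb.2⟩
      let K : Subgroup N :=
        { carrier := {n | (∀ b ∈ B, (n : G) * b * (n : G)⁻¹ = b) ∧
            ∀ q ∈ Q, (n : G) * q * (n : G)⁻¹ * q⁻¹ ∈ B}
          one_mem' := ⟨fun b _ => by simp, fun q _ => by simp⟩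
          mul_mem' := by
            rintro a b ⟨ha, ha'⟩ ⟨hb, hb'⟩
            refine ⟨fun x hx => ?_, fun q hq => ?_⟩
            · simp only [Subgroup.coe_mul]
              rw [show (a : G) * b * x * ((a : G) * b)⁻¹ = a * ((b : G) * x * (b : G)⁻¹) * (a : G)⁻¹ by group,
                hb x hx, ha x hx]
            · simp only [Subgroup.coe_mul]
              rw [show (a : G) * b * q * ((a : G) * b)⁻¹ * q⁻¹ =
                a * ((b : G) * q * (b : G)⁻¹ * q⁻¹) * (a : G)⁻¹ * (a * q * (a : G)⁻¹ * q⁻¹) by group,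
                ha _ (hb' q hq)]
              exact mul_mem (hb' q hq) (ha' q hq)
          inv_mem' := by
            rintro a ⟨ha, ha'⟩
            refine ⟨fun x hx => ?_, fun q hq => ?_⟩
            · simp only [Subgroup.coe_inv]
              conv_lhs => rw [← ha x hx]
              group
            · simp only [Subgroup.coe_inv]
              have hfix : (a : G)⁻¹ * ((a : G) * q * (a : G)⁻¹ * q⁻¹) * a = (a : G) * q * (a : G)⁻¹ * q⁻¹ := by
                conv_lhs => rw [← ha _ (ha' q hq)]
                group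
              rw [show (a : G)⁻¹ * q * (a : G)⁻¹⁻¹ * q⁻¹ =
                ((a : G)⁻¹ * ((a : G) * q * (a : G)⁻¹ * q⁻¹) * a)⁻¹ by group, hfix]
              exact inv_mem (ha' q hq) }
      haveI hKn : K.Normal := by
        refine ⟨fun a ⟨ha, ha'⟩ g => ⟨fun b hb => ?_, fun q hq => ?_⟩⟩
        · simp only [Subgroup.coe_mul, Subgroup.coe_inv]
          have hb' := hBinv (g : G)⁻¹ (inv_mem g.2) b hb
          rw [inv_inv] at hb'
          calc (g : G) * a * (g : G)⁻¹ * b * ((g : G) * a * (g : G)⁻¹)⁻¹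
              = (g : G) * ((a : G) * ((g : G)⁻¹ * b * g) * (a : G)⁻¹) * (g : G)⁻¹ := by group
            _ = b := by rw [ha _ hb']; group
        · simp only [Subgroup.coe_mul, Subgroup.coe_inv]
          have hq' : (g : G)⁻¹ * q * g ∈ Q := (mem_normalizer_iff''.1 g.2 q).1 hq
          rw [show (g : G) * a * (g : G)⁻¹ * q * ((g : G) * a * (g : G)⁻¹)⁻¹ * q⁻¹ =
            (g : G) * ((a : G) * ((g : G)⁻¹ * q * g) * (a : G)⁻¹ * ((g : G)⁻¹ * q * g)⁻¹) * (g : G)⁻¹ by
              group]
          exact hBinv g g.2 _ (ha' _ hq')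
      set C := (centralizer (Q : Set G)).subgroupOf N
      haveI : C.Normal := normal_subgroupOf_centralizer_normalizer _
      have hres : (pResidual p K).map K.subtype ≤ C := by
        refine map_le_iff_le_comap.2 ((closure_le _).2 fun a ha => ?_)
        obtain ⟨hfix, hcom⟩ := a.2
        refine mem_subgroupOf.2 (mem_centralizer_iff.2 fun q hq => ?_)
        set d := ((a : N) : G) * q * ((a : N) : G)⁻¹ * q⁻¹
        have e : ∀ i : ℕ, ((a : N) : G) ^ i * q * (((a : N) : G) ^ i)⁻¹ = d ^ i * q := by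
          intro i
          induction i with
          | zero => simp
          | succ i ihi =>
            calc ((a : N) : G) ^ (i + 1) * q * (((a : N) : G) ^ (i + 1))⁻¹
                = (a : N) * (((a : N) : G) ^ i * q * (((a : N) : G) ^ i)⁻¹) * ((a : N) : G)⁻¹ := by
                  rw [pow_succ']; group
              _ = (((a : N) : G) * d * ((a : N) : G)⁻¹) ^ i * ((a : N) * q * ((a : N) : G)⁻¹) := by
                  rw [ihi, conj_pow]; group
              _ = d ^ i * (d * q) := by
                  rw [hfix d (hcom q hq)]; simp only [d, inv_mul_cancel_right]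
              _ = d ^ (i + 1) * q := by rw [pow_succ]; exact (mul_assoc _ _ _).symm
        have h := e (orderOf ((a : N) : G))
        rw [pow_orderOf_eq_one] at h
        simp only [one_mul, inv_one, mul_one] at h
        have hd1 := mul_eq_right.1 h.symm
        obtain ⟨j, hj⟩ := IsPGroup.iff_orderOf.1 T.isPGroup' ⟨d, hsc.1 (hcom q hq).1⟩
        rw [Subgroup.orderOf_mk] at hj
        have hd : d = 1 := orderOf_eq_one_iff.1 (Nat.eq_one_of_dvd_coprimes
          ((Nat.Coprime.pow_right j (by rw [Subgroup.orderOf_coe, Subgroup.orderOf_coe]; exact ha)))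
          (orderOf_dvd_of_pow_eq_one hd1) (dvd_of_eq hj))
        exact (mul_inv_eq_iff_eq_mul.1 (mul_inv_eq_one.1 hd)).symm
      obtain ⟨TK, hTK⟩ := Solv.sylow_inf_subnormal hKn.isSubnormal Rs
      set W := (TK : Subgroup K).map K.subtype
      have hWR : W ≤ (Rs : Subgroup N) := by
        intro w hw
        obtain ⟨w', hw', rfl⟩ := hw
        rw [SetLike.mem_coe, hTK] at hw'
        exact hw'
      have hKW : K ≤ C ⊔ W := by
        intro x hx
        have h1 : (⟨x, hx⟩ : K) ∈ pResidual p K ⊔ (TK : Subgroup K) :=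
          (Transfer.pResidual_sup_sylow TK).symm ▸ mem_top _
        have h2 := mem_map_of_mem K.subtype h1
        rw [Subgroup.map_sup] at h2
        exact (sup_le_sup_right hres W) h2
      have htop : C ⊔ normalizer (W : Set N) = ⊤ := by
        refine top_le_iff.1 (TK.normalizer_sup_eq_top ▸ sup_le le_sup_right ?_)
        exact hKW.trans (sup_le_sup_left le_normalizer C)
      have hkm : (⟨k, hk⟩ : N) ∈ C ⊔ normalizer (W : Set N) := htop ▸ mem_top _
      obtain ⟨cc, hcc, nn, hnn, ekn⟩ := mem_sup_of_normal_left.1 hkm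
      set WG := W.map N.subtype
      have hWGT : WG ≤ (T : Subgroup G) := by
        rintro _ ⟨w, hw, rfl⟩
        have := hWR hw
        rw [hRs, mem_subgroupOf] at this
        exact this.1
      have hQA : ∀ q ∈ Q, q ∈ normalizer (A : Set G) := fun q hq =>
        normalizes_of_closed hsc le_rfl hsc.1 (le_normalizer (hQT hq))
      obtain ⟨y, hy, hyn, hyQ⟩ := exists_normalizing (U := Q) (P := Q ⊔ A)
        (T.isPGroup'.to_le (sup_le hQT hsc.1)) le_sup_left (fun h => hAQ (le_sup_right.trans h))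
      have hy' : y ∈ ((Q ⊔ A : Subgroup G) : Set G) := hy
      rw [coe_mul_of_left_le_normalizer_right _ _ hQA] at hy'
      obtain ⟨q, hq, a, ha, rfl⟩ := Set.mem_mul.1 hy'
      have haN : a ∈ N := by
        have := mul_mem (inv_mem (le_normalizer hq)) hyn
        rwa [inv_mul_cancel_left] at this
      have haW : a ∈ WG := by
        have haK : (⟨a, haN⟩ : N) ∈ K := by
          refine ⟨fun b hb => ?_, fun q' hq' => ⟨?_, ?_⟩⟩
          · show a * b * a⁻¹ = b
            rw [comm_of_abelian hA ha hb.1, mul_inv_cancel_right]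
          · show a * q' * a⁻¹ * q'⁻¹ ∈ A
            rw [show a * q' * a⁻¹ * q'⁻¹ = a * (q' * a⁻¹ * q'⁻¹) by group]
            exact mul_mem ha ((mem_normalizer_iff.1 (hQA q' hq') _).1 (inv_mem ha))
          · exact Q.mul_mem ((mem_normalizer_iff.1 haN q').1 hq') (Q.inv_mem hq')
        refine ⟨⟨a, haN⟩, ⟨⟨_, haK⟩, ?_, rfl⟩, rfl⟩
        rw [SetLike.mem_coe, hTK]
        show (⟨a, haN⟩ : N) ∈ (Rs : Subgroup N)
        rw [hRs, mem_subgroupOf]
        exact ⟨hsc.1 ha, haN⟩
      have hbig : Nat.card P < Nat.card ↥(Q ⊔ WG) := by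
        rw [← hQcard]
        refine card_lt_card_of_lt (lt_of_le_of_ne le_sup_left fun e => hyQ (mul_mem hq ?_))
        rw [e]; exact mem_sup_right haW
      obtain ⟨m, hm, hm'⟩ := big (Q ⊔ WG) (nn : G) (sup_le hQT hWGT) hbig fun x hx => by
        have hle : cj (nn : G) (Q ⊔ WG) ≤ (T : Subgroup G) := by
          show (Q ⊔ WG).map _ ≤ _
          rw [Subgroup.map_sup]
          refine sup_le ((cj_eq_self_iff.2 nn.2 : cj (nn : G) Q = Q).le.trans hQT) ?_
          rintro _ ⟨_, ⟨w, hw, rfl⟩, rfl⟩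
          exact hWGT ⟨_, (mem_normalizer_iff.1 hnn w).1 hw, rfl⟩
        exact hle (mem_map_of_mem _ hx)
      refine ⟨m, hm, fun x hx => ?_⟩
      rw [← hm' x (mem_sup_left hx)]
      have hk' : k = (cc : G) * nn := (congrArg Subtype.val ekn).symm
      rw [hk']
      have hc' := mem_centralizer_iff.1 (mem_subgroupOf.1 hcc) _ ((mem_normalizer_iff.1 nn.2 x).1 hx)
      calc (cc : G) * nn * x * ((cc : G) * nn)⁻¹ = (cc : G) * ((nn : G) * x * (nn : G)⁻¹) * (cc : G)⁻¹ := by
            group
        _ = (nn : G) * x * (nn : G)⁻¹ := by rw [← hc', mul_inv_cancel_right]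
    refine ⟨m₂⁻¹ * m₀ * m₁, mul_mem (mul_mem (inv_mem hm₂) hm₀) hm₁, fun x hx => ?_⟩
    have hy : h₁ * x * h₁⁻¹ ∈ Q := hh₁ ▸ mem_map_of_mem _ hx
    have e2 := hm₂' (g * x * g⁻¹) (mem_map_of_mem _ hx)
    have e0 := hm₀' _ hy
    rw [hm₁' x hx] at e0
    rw [show k * (m₁ * x * m₁⁻¹) * k⁻¹ = h₂ * (g * (h₁⁻¹ * (m₁ * x * m₁⁻¹) * h₁) * g⁻¹) * h₂⁻¹ by
      simp only [k]; group, ← hm₁' x hx,
      show h₁⁻¹ * (h₁ * x * h₁⁻¹) * h₁ = x by group, e2] at e0
    calc g * x * g⁻¹ = m₂⁻¹ * (m₂ * (g * x * g⁻¹) * m₂⁻¹) * m₂ := by group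
      _ = m₂⁻¹ * (m₀ * (h₁ * x * h₁⁻¹) * m₀⁻¹) * m₂ := by rw [e0]
      _ = m₂⁻¹ * m₀ * m₁ * x * (m₂⁻¹ * m₀ * m₁)⁻¹ := by rw [hm₁' x hx]; group

theorem abelian_strongly_closed_controls (T : Sylow p G) (A : Subgroup G) (hA : IsMulCommutative A)
    (hsc : IsStronglyClosed A (T : Subgroup G)) : ControlsStrongFusion p A := by
  refine ⟨T, hsc.1, fun X hX => ⟨hX, fun g hg => ?_⟩⟩
  obtain ⟨m, hm, hm'⟩ := abelian_closed_fusion T A hA hsc _ (closure X) g rfl ((closure_le _).2 hX)
    fun x hx => by
      have hle : closure X ≤ ((T : Subgroup G).comap (MulAut.conj g).toMonoidHom) :=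
        (closure_le _).2 fun y hy => hg ⟨y, hy, rfl⟩
      exact hle hx
  exact ⟨m, hm, fun a ha => hm' a (subset_closure ha)⟩

end Cfsg.Lib.PLocal.LocalMisc5
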