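import Mathlib
import Cfsg.Agent.Lib.PLocal.LocalMisc4
import Cfsg.Agent.Lib.PLocal.FStarAction
import Cfsg.Agent.Lib.Solv.SubnormalJoinSylow
import Cfsg.Agent.Lib.Solv.Coprime
import Cfsg.Agent.Lib.Solv.SchurZassenhaus
import Cfsg.Agent.Lib.PLocal.PIrreducible

/-!
Components of a `p`-minimal group with trivial `p`-core.
-/

set_option autoImplicit false
set_option linter.unusedSectionVars false
set_option linter.style.haveILetI false

namespace Cfsg.Lib.PMinComp

open Subgroup Cfsg.Lib.Comp
open Cfsg.Lib.FStarAction (le_normalizer_of_conj mem_centralizer_sup)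
open scoped commutatorElement

universe u

variable {P : Type u} [Group P] [Finite P] {p : ℕ} [hp : Fact p.Prime]

/-- `p`-minimality can be tested at a single Sylow subgroup. -/
theorem isPMinimal_of_one (S₀ : Sylow p P) (hn : ¬ (S₀ : Subgroup P).Normal)
    (hu : ∃! M : Subgroup P, IsCoatom M ∧ (S₀ : Subgroup P) ≤ M) : Cfsg.IsPMinimal p P := by
  intro S
  obtain ⟨g, hg⟩ := MulAction.exists_smul_eq P S S₀
  have e1 : (S : Subgroup P).map (MulAut.conj g).toMonoidHom = (S₀ : Subgroup P) := by
    rw [← hg, Sylow.coe_subgroup_smul]; rfl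
  constructor
  · intro h
    exact hn (e1 ▸ h.map _ (MulAut.conj g).surjective)
  · obtain ⟨M, ⟨hM, hSM⟩, huniq⟩ := hu
    refine ⟨M.map (MulAut.conj g).symm.toMonoidHom, ⟨?_, ?_⟩, fun M' hM' => ?_⟩
    · exact (MulEquiv.mapSubgroup (MulAut.conj g).symm).isCoatom_iff M |>.2 hM
    · intro x hx
      refine ⟨MulAut.conj g x, hSM (e1 ▸ mem_map_of_mem _ hx), ?_⟩
      simp [mul_assoc]
    · have h2 := huniq (M'.map (MulAut.conj g).toMonoidHom)
        ⟨(MulEquiv.mapSubgroup (MulAut.conj g)).isCoatom_iff M' |>.2 hM'.1, e1 ▸ map_mono hM'.2⟩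
      rw [← h2, Subgroup.map_map]
      conv_lhs => rw [← Subgroup.map_id M']
      congr 1
      ext x
      simp [mul_assoc]

theorem sylow_inf_finset_sup (S : Sylow p P) {ι : Type*} (f : ι → Subgroup P) (hf : ∀ i, (f i).IsSubnormal)
    (t : Finset ι) : (t.sup f).IsSubnormal ∧ t.sup f ⊓ (S : Subgroup P) ≤ t.sup fun i => f i ⊓ (S : Subgroup P) := by
  classical
  induction t using Finset.induction_on with
  | empty => simp [IsSubnormal.bot]
  | insert a t _ iht =>
    simp only [Finset.sup_insert]
    refine ⟨Solv.sup_isSubnormal (hf a) iht.1, ?_⟩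
    rw [SubJoin.sylow_inf_sup S _ _ (hf a) iht.1]
    exact sup_le_sup le_rfl iht.2

/-- S2906. -/
theorem pMinimal_components (hP : Cfsg.IsPMinimal p P) (hOp : Cfsg.pCore p P = ⊥) (S : Sylow p P)
    (K : Subgroup P) (hK : Cfsg.IsComponent K) :
    Cfsg.pResidual p P = Cfsg.generalizedFittingSubgroup P ∧
      Cfsg.generalizedFittingSubgroup P = Cfsg.layer P ∧
      Cfsg.layer P = ⨆ s : ↥(S : Subgroup P), K.map (MulAut.conj (s : P)).toMonoidHom ∧
      Cfsg.IsPMinimal p ↥(K ⊔ ((S : Subgroup P) ⊓ normalizer (K : Set P))) := by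
  classical
  obtain ⟨hSnn, M, ⟨hM, hSM⟩, huniq⟩ := hP S
  have key : ∀ L : Subgroup P, L ≠ ⊤ → (S : Subgroup P) ≤ L → L ≤ M := by
    intro L hL hSL
    obtain ⟨M'', hM'', hLM''⟩ := (eq_top_or_exists_le_coatom L).resolve_left hL
    rw [← huniq M'' ⟨hM'', hSL.trans hLM''⟩]
    exact hLM''
  set F := M.normalCore with hFdef
  haveI hFn : F.Normal := normalCore_normal M
  obtain ⟨hsmall, -, hdich, -, -⟩ := PLocal.LocalMisc4.pminimal_props hP S M hM hSM
  have hFS : F ⊓ (S : Subgroup P) = ⊥ :=
    le_bot_iff.1 ((hsmall F hFn.isSubnormal (normalCore_le M)).trans hOp.le)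
  have hFp : (Nat.card F).Coprime p := by
    refine (hp.out.coprime_iff_not_dvd.2 fun h => ?_).symm
    obtain ⟨Q, hQ⟩ := Solv.sylow_inf_subnormal hFn.isSubnormal S
    have h2 := Q.dvd_card_of_dvd_card h
    rw [hQ, ← card_map_of_injective F.subtype_injective, subgroupOf_map_subtype, inf_comm, hFS, card_bot] at h2
    exact hp.out.one_lt.ne' (Nat.dvd_one.1 h2)
  haveI hSsol : Group.IsSolvable ↥(S : Subgroup P) := FStarAction.solvable_of_isPGroup S.isPGroup'
  -- every `p'`-normal subgroup in `M` has normal Sylow subgroups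
  have hnorm : ∀ N : Subgroup P, N.Normal → (Nat.card N).Coprime p →
      ∀ (q : ℕ) [Fact q.Prime], (∀ Q : Sylow q N, ((Q : Subgroup N).map N.subtype).Normal) ∨
        ∃ Q : Sylow q N, (Q : Subgroup N).map N.subtype ≤ M ∧ normalizer (((Q : Subgroup N).map N.subtype : Subgroup P) : Set P) ≤ M := by
    intro N hN hNp q _
    haveI := hN
    obtain ⟨Q, hQ⟩ := Solv.exists_invariant_sylow (S : Subgroup P) N le_normalizer_of_normal
      (FStarAction.coprime_card_of_isPGroup S.isPGroup' hNp) (Or.inl hSsol) q
    by_cases h : normalizer (((Q : Subgroup N).map N.subtype : Subgroup P) : Set P) = ⊤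
    · left
      intro Q'
      have h1 : ((Q : Subgroup N).map N.subtype).Normal := normalizer_eq_top_iff.1 h
      have h2 : (Q : Subgroup N).Normal := by
        have := h1.comap N.subtype
        rwa [comap_map_eq_self_of_injective N.subtype_injective] at this
      haveI := Sylow.unique_of_normal Q h2
      rw [Subsingleton.elim Q' Q]; exact h1
    · right
      exact ⟨Q, le_normalizer.trans (key _ h hQ), key _ h hQ⟩
  -- `F` is nilpotent
  have hFnil : Group.IsNilpotent ↥F := by
    refine ((isNilpotent_of_finite_tfae (G := ↥F)).out 0 3).2 fun q hq Q => ?_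
    haveI := hq
    rcases hnorm F hFn hFp q with h | ⟨Q', -, hQ'⟩
    · have := (h Q).comap F.subtype
      rwa [comap_map_eq_self_of_injective F.subtype_injective] at this
    · exfalso
      exact hM.1 (top_le_iff.1 (Q'.normalizer_sup_eq_top ▸ sup_le hQ' (normalCore_le M)))
  have hKnF : ¬ K ≤ F := fun h => component_not_solvable hK (by
    haveI := hFnil
    exact Group.isSolvable_of_isSolvable_injective (f := inclusion h) (inclusion_injective h))
  set O := Cfsg.pResidual p P with hO
  haveI hOn : O.Normal := Transfer.pResidual_normal p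
  set E := Cfsg.layer P with hE
  have hKE : K ≤ E := component_le_layer hK
  have hEn : E.Normal := inferInstance
  have hOE : O = E := le_antisymm ((hdich E hEn).resolve_right fun h => hKnF (hKE.trans h))
    (layer_le_iff.2 fun L hL => perfect_le_of_coprime_mem (component_perfect hL)
      fun x _ hx => Transfer.coprime_orderOf_mem_pResidual hx)
  have hFit : Cfsg.fittingSubgroup P ≤ O := fun x hx => by
    refine Transfer.coprime_orderOf_mem_pResidual
      (Nat.Coprime.coprime_dvd_left ?_ (FStarAction.coprime_fitting hOp))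
    exact (Subgroup.orderOf_mk x hx) ▸ orderOf_dvd_natCard _
  have hstar : Cfsg.generalizedFittingSubgroup P = E := by
    refine le_antisymm (sup_le le_rfl (hFit.trans hOE.le)) layer_le_fstar
  have hOS : O ⊔ (S : Subgroup P) = ⊤ := Transfer.pResidual_sup_sylow S
  set N := ⨆ s : ↥(S : Subgroup P), K.map (MulAut.conj (s : P)).toMonoidHom with hNdef
  have hKN : K ≤ N := by
    refine le_trans (le_of_eq ?_) (le_iSup _ (1 : ↥(S : Subgroup P)))
    conv_lhs => rw [← Subgroup.map_id K]
    congr 1
    ext x; simp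
  have hNE : N ≤ E := iSup_le fun s => component_le_layer (component_conj _ hK)
  have hNnorm : N.Normal := by
    refine normalizer_eq_top_iff.1 (top_le_iff.1 (hOS ▸ sup_le ?_ ?_))
    · rw [hOE]
      exact (le_iInf fun s : ↥(S : Subgroup P) => layer_le_normalizer (component_conj (s : P) hK)).trans
        (fun x hx => by
          simp only [mem_iInf] at hx
          rw [mem_normalizer_iff]
          intro y
          have key : ∀ z : P, (∀ s : ↥(S : Subgroup P),
              z ∈ normalizer ((K.map (MulAut.conj (s : P)).toMonoidHom : Subgroup P) : Set P)) →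
              ∀ w ∈ N, z * w * z⁻¹ ∈ N := by
            intro z hz w hw
            refine (iSup_le fun s => ?_ : N ≤ N.comap (MulAut.conj z).toMonoidHom) hw
            intro v hv
            exact mem_iSup_of_mem s ((mem_normalizer_iff.1 (hz s) v).1 hv)
          refine ⟨key x hx y, fun hy => ?_⟩
          have := key x⁻¹ (fun s => inv_mem (hx s)) _ hy
          simpa [mul_assoc] using this)
    · refine le_normalizer_of_conj fun t ht w hw => ?_
      refine (iSup_le fun s => ?_ : N ≤ N.comap (MulAut.conj t).toMonoidHom) hw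
      rintro _ ⟨v, hv, rfl⟩
      exact mem_iSup_of_mem (⟨t, ht⟩ * s) ⟨v, hv, by simp [mul_assoc]⟩
  have hEN : E = N := le_antisymm
    (hOE ▸ (hdich N hNnorm).resolve_right fun h => hKnF (hKN.trans h)) hNE
  refine ⟨hOE.trans hstar.symm, hstar, hEN, ?_⟩
  have hKS : ¬ (K ⊓ (S : Subgroup P) = ⊥) := by
    intro h
    have hKp : (Nat.card K).Coprime p := by
      refine (hp.out.coprime_iff_not_dvd.2 fun hd => ?_).symm
      obtain ⟨Q, hQ⟩ := Solv.sylow_inf_subnormal hK.1 S
      have h2 := Q.dvd_card_of_dvd_card hd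
      rw [hQ, ← card_map_of_injective K.subtype_injective, subgroupOf_map_subtype, inf_comm, h, card_bot] at h2
      exact hp.out.one_lt.ne' (Nat.dvd_one.1 h2)
    have hEp : (Nat.card E).Coprime p := by
      have hpi : K ≤ Cfsg.piCore {q | q ≠ p} P := Solv.subnormal_pi_le_piCore hK.1
        (fun q _ hd e => hp.out.coprime_iff_not_dvd.1 hKp.symm (e ▸ hd))
      have hEpi : E ≤ Cfsg.piCore {q | q ≠ p} P := hEN.le.trans (iSup_le fun s => by
        rw [Subgroup.map_le_iff_le_comap]
        exact fun x hx => (inferInstance : (Cfsg.piCore {q | q ≠ p} P).Normal).conj_mem x (hpi hx) _)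
      exact (hp.out.coprime_iff_not_dvd.2 fun hd =>
        Solv.piCore_primes {q | q ≠ p} p hp.out (hd.trans (card_dvd_of_le hEpi)) rfl).symm
    refine hM.1 (top_le_iff.1 (hOS ▸ sup_le ?_ hSM))
    rw [hOE]
    have htop : (M.subgroupOf E) = ⊤ := by
      refine Solv.eq_top_of_forall_sylow_le fun q hq hqd => ?_
      haveI := Fact.mk hq
      rcases hnorm E hEn hEp q with h | ⟨Q, hQ, -⟩
      · exfalso
        obtain ⟨Q⟩ : Nonempty (Sylow q ↥E) := inferInstance
        haveI := h Q
        have h1 : Group.IsSolvable ↥((Q : Subgroup ↥E).map E.subtype) :=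
          FStarAction.solvable_of_isPGroup (Q.isPGroup'.map E.subtype)
        have h2 := commutator_eq_bot_iff_le_centralizer.1
          (layer_commute_solvable (N := (Q : Subgroup ↥E).map E.subtype) h1)
        have hQc : (Q : Subgroup ↥E) ≤ center ↥E := fun x hx => mem_center_iff.2 fun y =>
          Subtype.ext (mem_centralizer_iff.1 (h2 y.2) x ⟨x, hx, rfl⟩).symm
        haveI : Group.IsPerfect ↥E := isPerfect_iff.2 layer_perfect
        have hQb : (Q : Subgroup ↥E) = ⊥ := by
          refine le_bot_iff.1 fun z hz => ?_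
          have h3 : _root_.commutator ↥E ≤ (MonoidHom.transferCenterPow ↥E).ker := by
            rw [_root_.commutator_def, commutator_le]
            intro a _ b _
            rw [MonoidHom.mem_ker, map_commutatorElement, commutatorElement_eq_one_iff_commute]
            exact Subtype.ext (mem_center_iff.1 (MonoidHom.transferCenterPow ↥E a).2 _).symm
          have h4 : MonoidHom.transferCenterPow ↥E z = 1 := h3 (by
            rw [Group.IsPerfect.commutator_eq_top]; exact mem_top z)
          have h5 : z ^ (center ↥E).index = 1 := congrArg Subtype.val h4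
          obtain ⟨k, hk⟩ := Q.isPGroup' ⟨z, hz⟩
          have h6 : z ^ q ^ k = 1 := congrArg Subtype.val hk
          rw [mem_bot, ← pow_one z, ← ((hq.coprime_iff_not_dvd.2 fun hd =>
            Q.not_dvd_index (hd.trans (index_dvd_of_le hQc))).pow_left k).gcd_eq_one]
          exact pow_gcd_eq_one.2 ⟨h6, h5⟩
        have h7 := Q.dvd_card_of_dvd_card hqd
        rw [hQb, card_bot] at h7
        exact hq.one_lt.ne' (Nat.dvd_one.1 h7)
      · exact ⟨Q, fun x hx => hQ ⟨x, hx, rfl⟩⟩
    exact subgroupOf_eq_top.1 htop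
  set S1 := (S : Subgroup P) ⊓ normalizer (K : Set P) with hS1
  set X := K ⊔ S1 with hX
  have hKX : K ≤ X := le_sup_left
  have hSKS1 : K ⊓ (S : Subgroup P) ≤ S1 := le_inf inf_le_right (inf_le_left.trans le_normalizer)
  haveI hKXn : (K.subgroupOf X).Normal :=
    normal_subgroupOf_of_le_normalizer (sup_le le_normalizer inf_le_right)
  obtain ⟨S0, hS0⟩ : ∃ S0 : Sylow p ↥X, (S0 : Subgroup ↥X) = S1.subgroupOf X := by
    refine ⟨((S.isPGroup'.to_inf_left (K := normalizer (K : Set P))).comap_subtype (K := X)).toSylow ?_, rfl⟩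
    intro hd
    obtain ⟨Q, hQ⟩ := Solv.sylow_inf_subnormal hK.1 S
    refine Q.not_dvd_index ?_
    rw [hQ]
    show p ∣ (S : Subgroup P).relIndex K
    have e : S1.relIndex X = S1.relIndex K := by
      have h1 := relIndex_sup_left (K := K.subgroupOf X) (H := S1.subgroupOf X)
      rw [← subgroupOf_sup hKX le_sup_right, subgroupOf_self] at h1
      have h2 := card_mul_index (S1.subgroupOf X)
      have h3 := card_mul_index (K.subgroupOf X)
      rw [relIndex_top_right] at h1
      have h4 := Solv.card_eq_mul_relIndex (inf_le_left : K ⊓ S1 ≤ K)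
      have h5 := Solv.card_eq_mul_relIndex (inf_le_right : K ⊓ S1 ≤ S1)
      rw [inf_relIndex_left] at h4
      rw [inf_relIndex_right] at h5
      have h6 : (K.subgroupOf X).index = K.relIndex S1 := by
        rw [h1]
        exact relIndex_subgroupOf le_sup_right
      rw [Nat.card_congr (subgroupOfEquivOfLe hKX).toEquiv, h6] at h3
      rw [Nat.card_congr (subgroupOfEquivOfLe (le_sup_right : S1 ≤ X)).toEquiv] at h2
      refine Nat.eq_of_mul_eq_mul_left (Nat.card_pos (α := ↥S1)) ?_
      show Nat.card S1 * (S1.subgroupOf X).index = _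
      rw [h2, ← h3, h4, h5]
      ring
    have h7 : p ∣ S1.relIndex K := e ▸ hd
    refine h7.trans (dvd_of_eq ?_)
    rw [← inf_relIndex_left, ← inf_relIndex_left (H := K) (K := (S : Subgroup P))]
    congr 1
    exact le_antisymm (inf_le_inf_left _ inf_le_left) (le_inf inf_le_left hSKS1)
  have hXM : ¬ X ≤ M := by
    intro h
    refine hM.1 (top_le_iff.1 (hOS ▸ sup_le ?_ hSM))
    rw [hOE, hEN]
    refine iSup_le fun s => ?_
    rintro _ ⟨v, hv, rfl⟩
    exact mul_mem (mul_mem (hSM s.2) (h (hKX hv))) (inv_mem (hSM s.2))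
  have hperf : ⁅K, K⁆ = K := component_perfect hK
  -- proper subgroups over `S1` lie in `M`
  have hmax : ∀ Y : Subgroup P, S1 ≤ Y → Y ≤ X → Y ≠ X → Y ≤ M := by
    intro Y hS1Y hYX hYne
    set Y0 := Y ⊓ K with hY0
    have hY0n : ∀ t ∈ S1, t ∈ normalizer (Y0 : Set P) := fun t ht => by
      rw [mem_normalizer_iff]
      intro y
      simp only [hY0, Subgroup.mem_inf]
      rw [mem_normalizer_iff.1 (le_normalizer (hS1Y ht)) y, mem_normalizer_iff.1 ht.2 y]
    have hY0M : Y0 ≤ M := by
      haveI := Fintype.ofFinite ↥(S : Subgroup P)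
      set f : ↥(S : Subgroup P) → Subgroup P := fun s => K.map (MulAut.conj (s : P)).toMonoidHom
      set R := ⨆ s : ↥(S : Subgroup P), Y0.map (MulAut.conj (s : P)).toMonoidHom with hR
      have hY0R : Y0 ≤ R := by
        refine le_trans (le_of_eq ?_) (le_iSup _ (1 : ↥(S : Subgroup P)))
        conv_lhs => rw [← Subgroup.map_id Y0]
        congr 1
        ext x; simp
      have hSR : (S : Subgroup P) ≤ normalizer (R : Set P) := by
        refine le_normalizer_of_conj fun t ht w hw => ?_
        refine (iSup_le fun s => ?_ : R ≤ R.comap (MulAut.conj t).toMonoidHom) hw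
        rintro _ ⟨v, hv, rfl⟩
        exact mem_iSup_of_mem (⟨t, ht⟩ * s) ⟨v, hv, by simp [mul_assoc]⟩
      by_cases hne : R ⊔ (S : Subgroup P) = ⊤
      swap
      · exact hY0R.trans (le_sup_left.trans (key _ hne le_sup_right))
      exfalso
      apply hYne
      refine le_antisymm hYX (sup_le ?_ hS1Y)
      have hES : E ⊓ (S : Subgroup P) ≤ R := by
        have h1 := (sylow_inf_finset_sup S f (fun s => (component_conj _ hK).1) Finset.univ).2
        rw [Finset.sup_univ_eq_iSup] at h1
        rw [hEN]
        refine h1.trans (Finset.sup_le fun s _ => ?_)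
        rintro _ ⟨⟨v, hv, rfl⟩, hvS⟩
        have hs : (s : P) * v * (s : P)⁻¹ ∈ (S : Subgroup P) := hvS
        have hvS' : v ∈ (S : Subgroup P) := by
          have := mul_mem (mul_mem (inv_mem s.2) hs) s.2
          simpa [mul_assoc] using this
        exact mem_iSup_of_mem s ⟨v, Subgroup.mem_inf.2 ⟨hS1Y (hSKS1 ⟨hv, hvS'⟩), hv⟩, rfl⟩
      have hRE : R ≤ E := iSup_le fun s => (map_mono inf_le_right).trans (component_le_layer (component_conj _ hK))
      have hER : E ≤ R := fun x hx => by
        have h1 : x ∈ R ⊔ (S : Subgroup P) := hne ▸ mem_top x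
        rw [← SetLike.mem_coe, coe_mul_of_right_le_normalizer_left _ _ hSR] at h1
        obtain ⟨r, hr, t, ht, rfl⟩ := h1
        exact mul_mem hr (hES ⟨by simpa using mul_mem (inv_mem (hRE hr)) hx, ht⟩)
      set CK := centralizer (K : Set P) with hCK
      have hRle : R ≤ Y0 ⊔ CK := iSup_le fun s => by
        by_cases h : K.map (MulAut.conj (s : P)).toMonoidHom = K
        · have hs : (s : P) ∈ S1 := Subgroup.mem_inf.2 ⟨s.2, Solv.conj_smul_eq_self_iff.1 h⟩
          exact le_sup_of_le_left (map_le_iff_le_comap.2 fun y hy => (mem_normalizer_iff.1 (hY0n _ hs) y).1 hy)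
        · exact le_sup_of_le_right ((map_mono inf_le_right).trans
            (commutator_eq_bot_iff_le_centralizer.1 (component_commute (component_conj _ hK) hK h)))
      have hY0C : Y0 ≤ normalizer (CK : Set P) :=
        (inf_le_right.trans le_normalizer).trans (Solv.normalizer_le_normalizer_centralizer K)
      have hgen : K.subgroupOf K ≤ Y0.subgroupOf K ⊔ center ↥K := fun k _ => by
        have h1 := hRle (hER (hKE k.2))
        rw [← SetLike.mem_coe, coe_mul_of_left_le_normalizer_right _ _ hY0C] at h1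
        obtain ⟨y, hy, c, hc, he⟩ := h1
        have hcK : c ∈ K := by
          have hyK : y ∈ K := hy.2
          have := mul_mem (inv_mem hyK) k.2
          rwa [← he, inv_mul_cancel_left] at this
        rw [show k = ⟨y, hy.2⟩ * ⟨c, hcK⟩ from Subtype.ext he.symm]
        exact mul_mem (mem_sup_left hy) (mem_sup_right (mem_center_iff.2 fun w =>
          Subtype.ext (mem_centralizer_iff.1 hc w w.2)))
      rw [subgroupOf_self, top_le_iff] at hgen
      haveI : Group.IsPerfect ↥K := hK.2.1
      haveI : (Y0.subgroupOf K).Normal := normalizer_eq_top_iff.1 (top_le_iff.1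
        (hgen ▸ sup_le le_normalizer (center_le_normalizer ((Y0.subgroupOf K) : Set ↥K))))
      exact (subgroupOf_eq_top.1 (eq_top_of_sup_center _ hgen)).trans inf_le_left
    intro y hy
    have h1 := hYX hy
    rw [hX, ← SetLike.mem_coe, coe_mul_of_right_le_normalizer_left _ _ inf_le_right] at h1
    obtain ⟨k, hk, t, ht, rfl⟩ := h1
    exact mul_mem (hY0M (Subgroup.mem_inf.2 ⟨by simpa using mul_mem hy (inv_mem (hS1Y ht)), hk⟩)) (hSM ht.1)
  refine isPMinimal_of_one S0 ?_ ⟨M.subgroupOf X, ⟨⟨?_, ?_⟩, ?_⟩, ?_⟩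
  · rw [hS0]
    intro hn
    apply hKS
    have h1 : X ≤ normalizer (S1 : Set P) := (normal_subgroupOf_iff_le_normalizer le_sup_right).1 hn
    have h2 : K ≤ normalizer ((K ⊓ (S : Subgroup P) : Subgroup P) : Set P) := fun k hk => by
      have e : K ⊓ (S : Subgroup P) = K ⊓ S1 :=
        le_antisymm (le_inf inf_le_left hSKS1) (inf_le_inf_left _ inf_le_left)
      rw [e, mem_normalizer_iff]
      intro y
      simp only [Subgroup.mem_inf]
      rw [mem_normalizer_iff.1 (le_normalizer hk) y, mem_normalizer_iff.1 (h1 (hKX hk)) y]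
    have h3 : (K ⊓ (S : Subgroup P)).IsSubnormal :=
      Solv.isSubnormal_of_normal_le inf_le_left hK.1 h2
    exact le_bot_iff.1 ((PLocal.PIrr.subnormal_le_pCore h3 S.isPGroup'.to_inf_right).trans hOp.le)
  · rw [Ne, subgroupOf_eq_top]; exact hXM
  · intro Y hY
    by_contra hne
    have h1 : Y.map X.subtype ≤ M := by
      refine hmax _ ?_ (map_subtype_le _) ?_
      · intro t ht
        exact ⟨⟨t, mem_sup_right ht⟩, hY.le (hSM ht.1), rfl⟩
      · intro e
        exact hne (map_injective X.subtype_injective (e.trans ((range_subtype X).symm.trans (MonoidHom.range_eq_map _))))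
    exact hY.not_ge fun y hy => h1 ⟨y, hy, rfl⟩
  · rw [hS0]
    exact fun x hx => hSM hx.1
  · rintro M' ⟨hM', hSM'⟩
    rw [hS0] at hSM'
    have h1 : M'.map X.subtype ≤ M := by
      refine hmax _ ?_ (map_subtype_le _) ?_
      · intro t ht
        exact ⟨⟨t, mem_sup_right ht⟩, hSM' ht, rfl⟩
      · intro e
        exact hM'.1 (map_injective X.subtype_injective (e.trans ((range_subtype X).symm.trans (MonoidHom.range_eq_map _))))
    rcases eq_or_lt_of_le (show M' ≤ M.subgroupOf X from fun y hy => h1 ⟨y, hy, rfl⟩) with h | h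
    · exact h
    · exact absurd (subgroupOf_eq_top.1 (hM'.2 _ h)) hXM

end Cfsg.Lib.PMinComp
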