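import Mathlib
import Cfsg.Agent.Lib.PLocal.StrongEmbedding
import Cfsg.Agent.Lib.PLocal.FStarAction
import Cfsg.Agent.Lib.Sig.Basic
import Cfsg.Agent.Lib.Solv.PComplement
import Cfsg.Agent.Lib.PLocal.Constraint
import Cfsg.Agent.S0016

/-!
Chain connectivity in `p`-solvable groups.
-/

set_option autoImplicit false
set_option linter.style.haveILetI false

namespace Cfsg.Lib.PSolvChain

open Subgroup Cfsg.Lib.PLocal.StrongEmb Cfsg.Lib.PLocal.Closed
open scoped Pointwise

variable {G : Type*} [Group G] [Finite G] {p : ℕ} [hp : Fact p.Prime]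

theorem eq_bot_of_local {H : Subgroup G} (hH : H ≠ ⊤) (hpH : p ∣ Nat.card H)
    (hloc : ∀ A : Subgroup G, A ≤ H → IsPGroup p ↥A → A ≠ ⊥ → normalizer (A : Set G) ≤ H) :
    Cfsg.pCore p G = ⊥ := by
  obtain ⟨hG, T, hT⟩ := condA_of_local hpH hloc
  by_contra h
  have h1 : Cfsg.pCore p G ≤ (T : Subgroup G) := Solv.pCore_le_sylow p T
  have h2 := hT _ h1 h
  rw [normalizer_eq_top] at h2
  exact hH (top_le_iff.1 h2)

theorem rank_one_of_local (hsol : Cfsg.IsPSolvable p G) {H : Subgroup G} (hH : H ≠ ⊤)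
    (hpH : p ∣ Nat.card H)
    (hloc : ∀ A : Subgroup G, A ≤ H → IsPGroup p ↥A → A ≠ ⊥ → normalizer (A : Set G) ≤ H) :
    ∃ T : Sylow p G, ∀ X Y : Subgroup ↥(T : Subgroup G), Nat.card X = p → Nat.card Y = p → X = Y := by
  obtain ⟨hG, T, hT⟩ := condA_of_local hpH hloc
  refine ⟨T, ?_⟩
  set K := Cfsg.pPrimeCore p G with hK
  have hTH := sylow_le_of_condA hG hT
  by_contra hcon
  push Not at hcon
  obtain ⟨X, Y, hX, hY, hne⟩ := hcon
  -- a noncyclic elementary abelian subgroup of `T`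
  obtain ⟨z, hzc, hzo⟩ : ∃ z ∈ center ↥(T : Subgroup G), orderOf z = p := by
    haveI : Nontrivial ↥(T : Subgroup G) := (T : Subgroup G).nontrivial_iff_ne_bot.2 (T.ne_bot_of_dvd_card hG)
    haveI := T.isPGroup'.center_nontrivial
    exact exists_order_p (dvd_of_ne_bot (T.isPGroup'.to_subgroup _)
      ((center ↥(T : Subgroup G)).nontrivial_iff_ne_bot.1 inferInstance))
  obtain ⟨W, hW, hWz⟩ : ∃ W : Subgroup ↥(T : Subgroup G), Nat.card W = p ∧ W ≠ zpowers z := by
    by_cases h : X = zpowers z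
    · exact ⟨Y, hY, fun e => hne (h.trans e.symm)⟩
    · exact ⟨X, hX, h⟩
  set A := (zpowers z ⊔ W).map (T : Subgroup G).subtype with hA
  have hAT : A ≤ (T : Subgroup G) := map_subtype_le _
  haveI : (zpowers z).Normal := ⟨fun n hn g => by
    have hc : n ∈ center ↥(T : Subgroup G) := (zpowers_le.2 hzc) hn
    rwa [mem_center_iff.1 hc g, mul_inv_cancel_right]⟩
  have hWcomm : IsMulCommutative ↥(zpowers z ⊔ W) := by
    haveI : IsCyclic ↥W := isCyclic_of_prime_card hW
    haveI : IsMulCommutative ↥W := IsCyclic.isMulCommutative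
    refine ⟨⟨fun a b => Subtype.ext ?_⟩⟩
    show (a : ↥(T : Subgroup G)) * b = b * a
    obtain ⟨a₁, ha₁, a₂, ha₂, ea⟩ := mem_sup_of_normal_left.1 a.2
    obtain ⟨b₁, hb₁, b₂, hb₂, eb⟩ := mem_sup_of_normal_left.1 b.2
    have c1 : ∀ u : ↥(T : Subgroup G), a₁ * u = u * a₁ := fun u =>
      (mem_center_iff.1 ((zpowers_le.2 hzc) ha₁) u).symm
    have c2 : ∀ u : ↥(T : Subgroup G), b₁ * u = u * b₁ := fun u =>
      (mem_center_iff.1 ((zpowers_le.2 hzc) hb₁) u).symm
    have c3 : a₂ * b₂ = b₂ * a₂ := congrArg Subtype.val (mul_comm' (⟨a₂, ha₂⟩ : W) ⟨b₂, hb₂⟩)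
    rw [← ea, ← eb]
    calc a₁ * a₂ * (b₁ * b₂) = a₁ * (a₂ * b₁) * b₂ := by group
      _ = a₁ * b₁ * (a₂ * b₂) := by rw [← c2 a₂]; group
      _ = b₁ * a₁ * (b₂ * a₂) := by rw [c1 b₁, c3]
      _ = b₁ * (a₁ * b₂) * a₂ := by group
      _ = b₁ * b₂ * (a₁ * a₂) := by rw [c1 b₂]; group
  have hpow : ∀ a ∈ zpowers z ⊔ W, a ^ p = 1 := by
    intro a ha
    obtain ⟨u, hu, v, hv, rfl⟩ := mem_sup_of_normal_left.1 ha
    have h1 : u ^ p = 1 := by
      have := pow_card_eq_one' (G := ↥(zpowers z)) (x := ⟨u, hu⟩)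
      rw [Nat.card_zpowers, hzo] at this
      exact congrArg Subtype.val this
    have h2 : v ^ p = 1 := by
      have := pow_card_eq_one' (G := ↥W) (x := ⟨v, hv⟩)
      rw [hW] at this
      exact congrArg Subtype.val this
    rw [(show Commute u v from congrArg Subtype.val (hWcomm.is_comm.comm
      (⟨u, mem_sup_left hu⟩ : ↥(zpowers z ⊔ W)) ⟨v, mem_sup_right hv⟩)).mul_pow, h1, h2, one_mul]
  have hcard : p ^ 2 ≤ Nat.card A := by
    rw [hA, card_map_of_injective (subtype_injective _)]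
    have hlt : zpowers z < zpowers z ⊔ W := lt_of_le_of_ne le_sup_left fun e => hWz
      (eq_of_le_of_card_ge (e ▸ le_sup_right) (by rw [Nat.card_zpowers, hzo, hW]))
    obtain ⟨k, hk⟩ := IsPGroup.iff_card.1 (T.isPGroup'.to_subgroup (zpowers z ⊔ W))
    rw [hk]
    refine Nat.pow_le_pow_right hp.out.pos ?_
    by_contra hlt2
    have h3 : p ^ k ≤ p ^ 1 := Nat.pow_le_pow_right hp.out.pos (by omega)
    exact absurd (eq_of_le_of_card_ge hlt.le (by rw [Nat.card_zpowers, hzo, hk, pow_one] at *; exact h3)) hlt.ne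
  have hAe : Cfsg.IsElementaryAbelian p A := by
    refine ⟨⟨⟨fun a b => Subtype.ext ?_⟩⟩, ?_⟩
    · obtain ⟨a', ha', ea⟩ := a.2
      obtain ⟨b', hb', eb⟩ := b.2
      show (a : G) * b = b * a
      rw [← ea, ← eb, ← map_mul, ← map_mul]
      exact congrArg _ (congrArg Subtype.val (hWcomm.is_comm.comm ⟨a', ha'⟩ ⟨b', hb'⟩))
    · rintro _ ⟨a, ha, rfl⟩
      rw [← map_pow, hpow a ha, map_one]
  -- `O_{p'}(G) ≤ H`
  haveI : K.Normal := inferInstanceAs (Cfsg.pPrimeCore p G).Normal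
  have hKH : K ≤ H := by
    have h1 := Sig.le_iSup_centralizer_index A K hAe (Solv.not_dvd_card_pPrimeCore p)
      (normalizer_eq_top K ▸ le_top) ⊥ bot_le
    rw [show centralizer ((⊥ : Subgroup G) : Set G) = ⊤ from eq_top_iff.2 fun x _ =>
      mem_centralizer_iff.2 fun y hy => by rw [mem_bot.1 hy, one_mul, mul_one], inf_top_eq] at h1
    refine h1.trans (iSup_le fun B => inf_le_right.trans ((centralizer_le_normalizer _).trans
      (hT _ (B.2.1.trans hAT) fun e => ?_)))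
    have h2 := B.2.2
    rw [e, relIndex_bot_left] at h2
    have := hp.out.two_le
    nlinarith [hcard]
  -- a normal `p`-subgroup modulo `O_{p'}(G)`
  have hnt : Nat.card (G ⧸ K) ≠ 1 := fun h => hH (top_le_iff.1 (by
    rwa [show K = ⊤ from index_eq_one.1 h] at hKH))
  obtain ⟨N, hNn, hN1, hN⟩ := Solv.exists_normal_p_or_coprime
    (PLocal.IsPSolvable.of_surjective (QuotientGroup.mk' K) (QuotientGroup.mk'_surjective K) hsol) hnt
  rcases hN with hN | hN
  · set M := N.comap (QuotientGroup.mk' K) with hM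
    haveI : M.Normal := hNn.comap _
    have hKM : K ≤ M := fun x hx => by
      show QuotientGroup.mk' K x ∈ N
      rw [show QuotientGroup.mk' K x = 1 from (QuotientGroup.eq_one_iff x).2 hx]
      exact one_mem _
    have hpM : p ∣ Nat.card M := by
      have hmap : M.map (QuotientGroup.mk' K) = N :=
        map_comap_eq_self_of_surjective (QuotientGroup.mk'_surjective K) N
      have h1 := dvd_of_ne_bot hN hN1
      rw [← hmap] at h1
      exact h1.trans (card_map_dvd _ _)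
    obtain ⟨Q, hQ⟩ := Solv.sylow_inf_subnormal (Subgroup.Normal.isSubnormal (H := M) inferInstance) T
    have hQT : (Q : Subgroup M).map M.subtype ≤ (T : Subgroup G) := by
      rw [hQ, subgroupOf_map_subtype]; exact inf_le_left
    have hQ1 : (Q : Subgroup M).map M.subtype ≠ ⊥ := fun e =>
      Q.ne_bot_of_dvd_card hpM ((map_eq_bot_iff_of_injective _ M.subtype_injective).1 e)
    have hMH : M ≤ H := by
      intro m hm
      have hmap : ((Q : Subgroup M).map M.subtype).map (QuotientGroup.mk' K) = N := by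
        set φ := (QuotientGroup.mk' K).subgroupMap M with hφ
        have hidx : ∀ n : G ⧸ K, n ∈ N → ∃ x ∈ M, QuotientGroup.mk' K x = n := fun n hn => by
          obtain ⟨x, rfl⟩ := QuotientGroup.mk'_surjective K n
          exact ⟨x, hn, rfl⟩
        refine le_antisymm (map_le_iff_le_comap.2 (map_subtype_le _)) ?_
        set ψ : ↥M →* ↥N := ((QuotientGroup.mk' K).comp M.subtype).codRestrict N fun x => x.2
        have hψ : Function.Surjective ψ := fun n => by
          obtain ⟨x, hx, e⟩ := hidx n n.2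
          exact ⟨⟨x, hx⟩, Subtype.ext e⟩
        have htop : ((Q.mapSurjective hψ : Sylow p ↥N) : Subgroup ↥N) = ⊤ :=
          ((Q.mapSurjective hψ).is_maximal' (Q := ⊤) (hN.of_equiv topEquiv.symm) le_top).symm
        intro n hn
        have h1 : (⟨n, hn⟩ : ↥N) ∈ ((Q.mapSurjective hψ : Sylow p ↥N) : Subgroup ↥N) := htop ▸ mem_top _
        rw [Sylow.coe_mapSurjective] at h1
        obtain ⟨x, hx, e⟩ := h1
        exact ⟨x, ⟨x, hx, rfl⟩, congrArg Subtype.val e⟩
      have h1 : QuotientGroup.mk' K m ∈ N := hm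
      rw [← hmap] at h1
      obtain ⟨x, hx, e⟩ := h1
      have hk : x⁻¹ * m ∈ K := QuotientGroup.eq.1 e
      simpa using mul_mem (hTH (hQT hx)) (hKH hk)
    refine hH (eq_top_iff.2 ?_)
    rw [← Sylow.normalizer_sup_eq_top Q]
    exact sup_le (hT _ hQT hQ1) hMH
  · refine hN1 (le_bot_iff.1 ?_)
    rw [← Solv.pPrimeCore_quotient_eq_bot (G := G) p]
    exact Solv.le_pPrimeCore hNn hN

/-- S3057. -/
theorem not_connected_iff_rank_one (hdiv : p ∣ Nat.card G) (hsol : Cfsg.IsPSolvable p G) (P : Sylow p G) :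
    ¬ Cfsg.IsSylowChainConnected p G ↔
      Cfsg.pCore p G = ⊥ ∧ (IsCyclic ↥P ∨ (p = 2 ∧ ∃ n : ℕ, Nonempty (↥P ≃* QuaternionGroup (2 ^ n)))) := by
  rw [not_connected_iff]
  constructor
  · rintro ⟨H, hH, hpH, hint⟩
    have hloc : ∀ A : Subgroup G, A ≤ H → IsPGroup p ↥A → A ≠ ⊥ → normalizer (A : Set G) ≤ H :=
      fun A hA hAp hA1 => local_of_inter hint hA hAp hA1
    refine ⟨eq_bot_of_local hH hpH hloc, ?_⟩
    obtain ⟨T, hT⟩ := rank_one_of_local hsol hH hpH hloc
    have e : ↥(T : Subgroup G) ≃* ↥(P : Subgroup G) := T.equiv P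
    rcases Cfsg.Agent.S0016.result p T.isPGroup' hT with h | ⟨h2, n, ⟨f⟩⟩
    · haveI := h
      exact Or.inl (isCyclic_of_surjective e.toMonoidHom e.surjective)
    · exact Or.inr ⟨h2, n, ⟨e.symm.trans f⟩⟩
  · rintro ⟨hO, hP⟩
    have h := spe_rank_one hO P (P.ne_bot_of_dvd_card hdiv)
      (hP.imp id fun h => ⟨2 ^ h.2.choose, h.2.choose_spec⟩)
    obtain ⟨hG, hne, hA⟩ := (spe_iff_condA _).1 h
    exact ⟨_, hne, inter_conj_of_condA hG hA⟩

end Cfsg.Lib.PSolvChain
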