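import Mathlib
import Cfsg.Prelude.Def_OddOrderLocal
import Cfsg.Agent.S1465
import Cfsg.Agent.S1466
import Cfsg.Agent.S1467
import Cfsg.Agent.Lib.Solv.Cores
import Cfsg.Agent.Lib.Solv.Subnormal
import Cfsg.Agent.Lib.Solv.SchurZassenhaus
import Cfsg.Agent.Lib.PLocal.ClosedConjugates

/-!
The Puig subgroup in solvable groups of odd order.
-/

set_option autoImplicit false
set_option maxHeartbeats 800000
set_option linter.style.haveILetI false
set_option linter.unusedSectionVars false

open scoped Pointwise

namespace Cfsg.Lib.PLocal.Puig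

open Cfsg Subgroup Cfsg.Lib.PLocal.Closed

universe u

variable {G : Type u} [Group G]

/-- The Puig step inside a subgroup. -/
def step (X Y : Subgroup G) : Subgroup G :=
  sSup {A : Subgroup G | A ≤ X ∧ IsMulCommutative A ∧ Y ≤ normalizer (A : Set G)}

/-- The Puig series of a subgroup, inside the group. -/
def seq (X : Subgroup G) : ℕ → Subgroup G
  | 0 => ⊥
  | n + 1 => step X (seq X n)

/-- The lower Puig subgroup of a subgroup. -/
def low (X : Subgroup G) : Subgroup G := ⨆ n : ℕ, seq X (2 * n)

/-- The Puig subgroup of a subgroup. -/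
def high (X : Subgroup G) : Subgroup G := ⨅ n : ℕ, seq X (2 * n + 1)

theorem step_le (X Y : Subgroup G) : step X Y ≤ X := sSup_le fun _ h => h.1

theorem step_antitone (X : Subgroup G) {Y Y' : Subgroup G} (h : Y ≤ Y') : step X Y' ≤ step X Y :=
  sSup_le fun _ hA => le_sSup ⟨hA.1, hA.2.1, h.trans hA.2.2⟩

theorem seq_le (X : Subgroup G) : ∀ n, seq X n ≤ X
  | 0 => bot_le
  | _ + 1 => step_le _ _

theorem comm_map {G' : Type*} [Group G'] (f : G →* G') {A : Subgroup G} (hA : IsMulCommutative A) :
    IsMulCommutative (A.map f) := by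
  refine ⟨⟨fun a b => ?_⟩⟩
  obtain ⟨a', ha, ea⟩ := a.2
  obtain ⟨b', hb, eb⟩ := b.2
  refine Subtype.ext ?_
  show (a : G') * b = b * a
  rw [← ea, ← eb, ← map_mul, ← map_mul]
  exact congrArg f (congrArg Subtype.val (hA.is_comm.comm (⟨a', ha⟩ : A) ⟨b', hb⟩))

theorem map_puigSeq {R : Type u} [Group R] (f : R →* G) (hf : Function.Injective f) :
    ∀ n, (puigSeq R n).map f = seq f.range n
  | 0 => Subgroup.map_bot f
  | n + 1 => by
    show Subgroup.map f (puigStep (puigSeq R n)) = step f.range (seq f.range n)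
    rw [puigStep, (Subgroup.gc_map_comap f).l_sSup]
    refine le_antisymm (iSup₂_le fun A hA => le_sSup ⟨map_le_range f A, comm_map f hA.1, ?_⟩)
      (sSup_le fun B hB => ?_)
    · rw [← map_puigSeq f hf n]
      exact (map_mono hA.2).trans (le_normalizer_map f)
    · obtain ⟨hBR, hBc, hBn⟩ := hB
      have h1 : IsMulCommutative (B.comap f) := by
        refine ⟨⟨fun a b => Subtype.ext (hf ?_)⟩⟩
        show f ((a : R) * b) = f ((b : R) * a)
        rw [map_mul, map_mul]
        exact congrArg Subtype.val (hBc.is_comm.comm (⟨f a, a.2⟩ : B) ⟨f b, b.2⟩)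
      have h2 : puigSeq R n ≤ normalizer (B.comap f : Set R) := by
        intro x hx
        have h1 : f x ∈ normalizer (B : Set G) := hBn (by
          rw [← map_puigSeq f hf n]; exact mem_map_of_mem f hx)
        refine mem_normalizer_iff.2 fun y => ?_
        simp only [mem_comap, map_mul, map_inv]
        exact mem_normalizer_iff.1 h1 (f y)
      exact le_iSup₂_of_le (B.comap f) ⟨h1, h2⟩ (map_comap_eq_self hBR).ge

theorem map_puigLower {R : Type u} [Group R] (f : R →* G) (hf : Function.Injective f) :
    (puigLower R).map f = low f.range := by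
  simp only [puigLower, low, Subgroup.map_iSup, map_puigSeq f hf]

theorem map_puigSubgroup {R : Type u} [Group R] (f : R →* G) (hf : Function.Injective f) :
    (puigSubgroup R).map f = high f.range := by
  simp only [puigSubgroup, high, map_iInf f hf, map_puigSeq f hf]

theorem seq_of_subtype (X : Subgroup G) (n : ℕ) : (puigSeq X n).map X.subtype = seq X n := by
  rw [map_puigSeq X.subtype X.subtype_injective n, range_subtype]

theorem low_of_subtype (X : Subgroup G) : (puigLower X).map X.subtype = low X := by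
  rw [map_puigLower X.subtype X.subtype_injective, range_subtype]

theorem high_of_subtype (X : Subgroup G) : (puigSubgroup X).map X.subtype = high X := by
  rw [map_puigSubgroup X.subtype X.subtype_injective, range_subtype]

variable [Finite G]

theorem low_le_high (X : Subgroup G) : low X ≤ high X := by
  rw [← low_of_subtype, ← high_of_subtype]
  exact map_mono (Cfsg.Agent.S1467.result (G := X)).2.2.2.2.1

theorem exists_stable (X : Subgroup G) :
    ∃ k, ∀ n, k ≤ n → seq X (2 * n) = low X ∧ seq X (2 * n + 1) = high X := by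
  obtain ⟨k, hk⟩ := (Cfsg.Agent.S1467.result (G := X)).2.2.2.1
  refine ⟨k, fun n hn => ⟨?_, ?_⟩⟩
  · rw [← seq_of_subtype, (hk n hn).1, low_of_subtype]
  · rw [← seq_of_subtype, (hk n hn).2, high_of_subtype]

theorem step_low (X : Subgroup G) : step X (low X) = high X := by
  obtain ⟨k, hk⟩ := exists_stable X
  rw [← (hk k le_rfl).1, ← (hk k le_rfl).2]
  rfl

theorem step_high (X : Subgroup G) : step X (high X) = low X := by
  obtain ⟨k, hk⟩ := exists_stable X
  rw [← (hk k le_rfl).2, ← (hk (k + 1) k.le_succ).1]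
  rfl

theorem low_le (X : Subgroup G) : low X ≤ X := iSup_le fun _ => seq_le _ _

theorem high_le (X : Subgroup G) : high X ≤ X := (iInf_le _ 0).trans (seq_le _ _)

theorem normalizer_le_seq (X : Subgroup G) (n : ℕ) :
    normalizer (X : Set G) ≤ normalizer ((seq X n : Subgroup G) : Set G) := by
  intro g hg
  refine cj_eq_self_iff.1 ?_
  have hf : Function.Injective ((MulAut.conj g).toMonoidHom.comp X.subtype) :=
    (MulAut.conj g).injective.comp X.subtype_injective
  have h := map_puigSeq _ hf n
  rw [← Subgroup.map_map, seq_of_subtype, MonoidHom.range_comp, range_subtype] at h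
  show Subgroup.map _ _ = _
  rw [h]
  exact congrArg (seq · n) (cj_eq_self_iff.2 hg)

theorem normalizer_le_high (X : Subgroup G) :
    normalizer (X : Set G) ≤ normalizer ((high X : Subgroup G) : Set G) := by
  obtain ⟨k, hk⟩ := exists_stable X
  rw [← (hk k le_rfl).2]
  exact normalizer_le_seq X _

theorem cent_le_aux {p : ℕ} [Fact p.Prime] {X : Subgroup G} (hX : IsPGroup p X) :
    (∀ i, 0 < i → X ⊓ centralizer ((seq X i : Subgroup G) : Set G) ≤ seq X i) ∧
      X ⊓ centralizer ((low X : Subgroup G) : Set G) ≤ low X ∧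
      X ⊓ centralizer ((high X : Subgroup G) : Set G) ≤ high X := by
  by_cases hX1 : X = ⊥
  · subst hX1
    exact ⟨fun _ _ => inf_le_left.trans bot_le, inf_le_left.trans bot_le, inf_le_left.trans bot_le⟩
  haveI : Nontrivial X := (nontrivial_iff_ne_bot X).2 hX1
  obtain ⟨h1, h2, h3, -, -⟩ := Cfsg.Agent.S1466.result p hX
  have key : ∀ L : Subgroup X, centralizer (L : Set X) ≤ L →
      X ⊓ centralizer ((L.map X.subtype : Subgroup G) : Set G) ≤ L.map X.subtype := by
    intro L hL x hx
    refine ⟨⟨x, hx.1⟩, hL (mem_centralizer_iff.2 fun y hy => Subtype.ext ?_), rfl⟩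
    exact mem_centralizer_iff.1 hx.2 y (mem_map_of_mem _ hy)
  refine ⟨fun i hi => ?_, ?_, ?_⟩
  · rw [← seq_of_subtype]; exact key _ (h1 i hi).2
  · rw [← low_of_subtype]; exact key _ h2.2
  · rw [← high_of_subtype]; exact key _ h3.2

theorem abelian_le_low {X A : Subgroup G} (hA : IsMulCommutative A) (hAX : A ≤ X)
    (hn : X ≤ normalizer (A : Set G)) : A ≤ low X :=
  le_trans (le_sSup ⟨hAX, hA, (seq_le X 1).trans hn⟩ : A ≤ seq X 2) (le_iSup (fun n => seq X (2 * n)) 1)

/-- A pair exchanged by the step inside a subgroup is the Puig pair of that subgroup. -/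
theorem pair_of_fixed {R a b : Subgroup G} (hab : step R a = b) (hba : step R b = a) :
    low R ≤ a ∧ b ≤ high R := by
  have h : ∀ n, seq R (2 * n) ≤ a ∧ b ≤ seq R (2 * n + 1) := by
    intro n
    induction n with
    | zero => exact ⟨bot_le, hab ▸ step_antitone R bot_le⟩
    | succ n ih =>
      have h1 : seq R (2 * (n + 1)) ≤ a := hba ▸ step_antitone R ih.2
      exact ⟨h1, hab ▸ step_antitone R h1⟩
  exact ⟨iSup_le fun n => (h n).1, le_iInf fun n => (h n).2⟩

/-- If the steps of the big subgroup fall into the small one the Puig pairs are nested. -/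
theorem nested {S T : Subgroup G} (hTS : T ≤ S)
    (h : ∀ n, step S (seq T (2 * n + 1)) ≤ T) : low S ≤ low T ∧ high T ≤ high S := by
  have h' : ∀ n, seq S (2 * n) ≤ seq T (2 * n) ∧ seq T (2 * n + 1) ≤ seq S (2 * n + 1) := by
    intro n
    induction n with
    | zero => exact ⟨le_rfl, sSup_le fun A hA => le_sSup ⟨hA.1.trans hTS, hA.2.1, bot_le⟩⟩
    | succ n ih =>
      have h1 : seq S (2 * (n + 1)) ≤ seq T (2 * (n + 1)) :=
        sSup_le fun A hA => le_sSup
          ⟨(le_sSup ⟨hA.1, hA.2.1, ih.2.trans hA.2.2⟩ : A ≤ step S _).trans (h n), hA.2.1,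
            ih.2.trans hA.2.2⟩
      refine ⟨h1, sSup_le fun A hA => le_sSup ⟨hA.1.trans hTS, hA.2.1, h1.trans hA.2.2⟩⟩
  exact ⟨iSup_mono fun n => (h' n).1, iInf_mono fun n => (h' n).2⟩

variable [Group.IsSolvable G] {p : ℕ} [Fact p.Prime]

theorem core_nested (hodd : Odd (Nat.card G)) (hp : p ≠ 2) (hO : pPrimeCore p G = ⊥)
    (S : Sylow p G) :
    pCore p G ≤ (S : Subgroup G) ∧ low (S : Subgroup G) ≤ low (pCore p G) ∧
      high (pCore p G) ≤ high (S : Subgroup G) := by
  set T := pCore p G
  have hT : IsPGroup p T := Solv.isPGroup_pCore p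
  have hTS : T ≤ (S : Subgroup G) := hT.le_sylow_of_normal S
  refine ⟨hTS, nested hTS fun n => ?_⟩
  haveI : (seq T (2 * n + 1)).Normal := normalizer_eq_top_iff.1 (top_le_iff.1
    ((normalizer_eq_top_iff.2 (inferInstance : T.Normal)).ge.trans (normalizer_le_seq T _)))
  exact (Cfsg.Agent.S1465.result hodd p hp (seq T (2 * n + 1)) (hT.to_le (seq_le _ _))
    {A : Subgroup G | A ≤ (S : Subgroup G) ∧ IsMulCommutative A ∧
      seq T (2 * n + 1) ≤ normalizer (A : Set G)}
    (fun A hA => ⟨hA.2.1, S.2.to_le hA.1, hA.2.2⟩)).2 hO ((cent_le_aux hT).1 _ (Nat.succ_pos _))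

/-- The centre of the Puig subgroup. -/
def zHigh (S : Subgroup G) : Subgroup G := high S ⊓ centralizer ((high S : Subgroup G) : Set G)

theorem zHigh_normal (hodd : Odd (Nat.card G)) (hp : p ≠ 2) (hO : pPrimeCore p G = ⊥)
    (S : Sylow p G) : (zHigh (S : Subgroup G)).Normal := by
  obtain ⟨hTS, hlow, hhigh⟩ := core_nested hodd hp hO S
  set T := pCore p G
  set X := (S : Subgroup G)
  have hT : IsPGroup p T := Solv.isPGroup_pCore p
  haveI hTn : T.Normal := inferInstance
  haveI : (high T).Normal := normalizer_eq_top_iff.1 (top_le_iff.1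
    ((normalizer_eq_top_iff.2 hTn).ge.trans (normalizer_le_high T)))
  set Y := high T ⊓ centralizer ((high T : Subgroup G) : Set G)
  haveI hYn : Y.Normal := inferInstance
  have hYc : IsMulCommutative Y := ⟨⟨fun a b => Subtype.ext (mem_centralizer_iff.1 b.2.2 a a.2.1)⟩⟩
  have hYX : Y ≤ X := inf_le_left.trans ((high_le T).trans hTS)
  have hYlow : Y ≤ low X := abelian_le_low hYc hYX (by
    rw [normalizer_eq_top_iff.2 hYn]; exact le_top)
  have hZY : zHigh X ≤ Y := by
    have h1 : zHigh X ≤ low X := (le_inf (inf_le_left.trans (high_le X))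
      (inf_le_right.trans (centralizer_le (low_le_high X)))).trans (cent_le_aux S.2).2.1
    have h2 : zHigh X ≤ centralizer ((high T : Subgroup G) : Set G) :=
      inf_le_right.trans (centralizer_le hhigh)
    exact le_inf ((le_inf (h1.trans (hlow.trans (low_le T))) h2).trans (cent_le_aux hT).2.2) h2
  set C := centralizer (Y : Set G)
  set π := QuotientGroup.mk' C
  set K := (pCore p (G ⧸ C)).comap π
  have hbK : high X ≤ K := by
    rw [← map_le_iff_le_comap, ← step_low X]
    exact (Cfsg.Agent.S1465.result hodd p hp Y (hT.to_le (inf_le_left.trans (high_le T)))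
      {A : Subgroup G | A ≤ X ∧ IsMulCommutative A ∧ low X ≤ normalizer (A : Set G)}
      (fun A hA => ⟨hA.2.1, S.2.to_le hA.1, hYlow.trans hA.2.2⟩)).1
  set R := X ⊓ K
  have hbR : high X ≤ R := le_inf (high_le X) hbK
  have haR : low X ≤ R := (low_le_high X).trans hbR
  have heq : high R = high X := by
    have hab : step R (low X) = high X := by
      refine le_antisymm ((sSup_le fun A hA => le_sSup ⟨hA.1.trans inf_le_left, hA.2.1, hA.2.2⟩ :
        step R (low X) ≤ step X (low X)).trans (step_low X).le) ?_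
      conv_lhs => rw [← step_low X]
      exact sSup_le fun A hA => le_sSup
        ⟨((le_sSup hA : A ≤ step X (low X)).trans (step_low X).le).trans hbR, hA.2.1, hA.2.2⟩
    have hba : step R (high X) = low X := by
      refine le_antisymm ((sSup_le fun A hA => le_sSup ⟨hA.1.trans inf_le_left, hA.2.1, hA.2.2⟩ :
        step R (high X) ≤ step X (high X)).trans (step_high X).le) ?_
      conv_lhs => rw [← step_high X]
      exact sSup_le fun A hA => le_sSup
        ⟨((le_sSup hA : A ≤ step X (high X)).trans (step_high X).le).trans haR, hA.2.1, hA.2.2⟩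
    obtain ⟨hlR, hhR⟩ := pair_of_fixed hab hba
    refine le_antisymm ?_ hhR
    conv_lhs => rw [← step_low R]
    refine le_trans ?_ hab.le
    refine step_antitone R ?_
    exact (nested (S := X) (T := R) inf_le_left fun n => (step_antitone X
      (hhR.trans (iInf_le _ n))).trans ((step_high X).le.trans haR)).1
  -- the Frattini argument
  haveI : K.Normal := Subgroup.Normal.comap inferInstance _
  obtain ⟨Q, hQ⟩ := Solv.sylow_inf_subnormal (inferInstance : K.Normal).isSubnormal S
  have hQR : (Q : Subgroup K).map K.subtype = R := by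
    rw [hQ, subgroupOf_map_subtype]
  have hCK : C ≤ K := fun c hc => by
    show π c ∈ pCore p (G ⧸ C)
    rw [show π c = 1 from (QuotientGroup.eq_one_iff c).2 hc]
    exact one_mem _
  have hKCR : K ≤ C ⊔ R := by
    rw [← relIndex_eq_one]
    obtain ⟨n, hn⟩ := IsPGroup.iff_card.1 (Solv.isPGroup_pCore (G := G ⧸ C) p)
    have h1 : (C ⊔ R).relIndex K ∣ p ^ n := by
      refine (relIndex_dvd_of_le_left K le_sup_left).trans ?_
      rw [← hn, ← map_comap_eq_self_of_surjective (QuotientGroup.mk'_surjective C) (pCore p (G ⧸ C)),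
        Solv.card_map_eq_relIndex, QuotientGroup.ker_mk']
    have h2 : (C ⊔ R).relIndex K ∣ R.relIndex K := relIndex_dvd_of_le_left K le_sup_right
    have h3 : ¬ p ∣ R.relIndex K := by
      rw [← hQR]
      show ¬ p ∣ ((Q : Subgroup K).map K.subtype).relIndex K
      rw [show ((Q : Subgroup K).map K.subtype).relIndex K = (Q : Subgroup K).index by
        rw [relIndex, subgroupOf_map_subtype_self]]
      exact Q.not_dvd_index
    obtain ⟨m, -, hm⟩ := (Nat.dvd_prime_pow Fact.out).1 h1
    rcases Nat.eq_zero_or_pos m with h0 | h0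
    · rw [hm, h0, pow_zero]
    · exact absurd ((dvd_pow_self p h0.ne').trans (hm.symm.dvd.trans h2)) h3
  have htop : normalizer (R : Set G) ⊔ C = ⊤ := by
    refine top_le_iff.1 ?_
    rw [← Sylow.normalizer_sup_eq_top Q, hQR]
    exact sup_le le_sup_left (hKCR.trans (sup_le le_sup_right (le_normalizer.trans le_sup_left)))
  refine normalizer_eq_top_iff.1 (top_le_iff.1 (htop.ge.trans (sup_le ?_ ?_)))
  · show normalizer (R : Set G) ≤ normalizer ((high X ⊓ centralizer (high X : Set G) : Subgroup G) : Set G)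
    rw [← heq]
    exact (le_inf (normalizer_le_high R)
      ((normalizer_le_high R).trans (Solv.normalizer_le_normalizer_centralizer _))).trans
      inf_normalizer_le_normalizer_inf
  · exact (centralizer_le hZY).trans (centralizer_le_normalizer _)
where
  subgroupOf_map_subtype_self {G : Type u} [Group G] {K : Subgroup G} {Q : Subgroup K} :
      (Q.map K.subtype).subgroupOf K = Q := comap_map_eq_self_of_injective K.subtype_injective Q

theorem map_center {R : Type u} [Group R] (f : R →* G) (hf : Function.Injective f) (L : Subgroup R) :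
    ((center L).map L.subtype).map f = L.map f ⊓ centralizer ((L.map f : Subgroup G) : Set G) := by
  ext x
  constructor
  · rintro ⟨_, ⟨⟨l, hl⟩, hc, rfl⟩, rfl⟩
    refine ⟨mem_map_of_mem f hl, mem_centralizer_iff.2 ?_⟩
    rintro _ ⟨m, hm, rfl⟩
    show f m * f l = f l * f m
    rw [← map_mul, ← map_mul]
    exact congrArg f (congrArg Subtype.val (mem_center_iff.1 hc ⟨m, hm⟩))
  · rintro ⟨⟨l, hl, rfl⟩, hc⟩
    refine ⟨l, ⟨⟨l, hl⟩, mem_center_iff.2 fun m => Subtype.ext (hf ?_), rfl⟩, rfl⟩
    show f ((m : R) * l) = f (l * m)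
    rw [map_mul, map_mul]
    exact mem_centralizer_iff.1 hc _ (mem_map_of_mem f m.2)

theorem center_puig (S : Subgroup G) :
    ((center ↥(puigSubgroup S)).map (puigSubgroup S).subtype).map S.subtype = zHigh S := by
  rw [map_center S.subtype S.subtype_injective, high_of_subtype]; rfl

theorem puig_center_main (hodd : Odd (Nat.card G)) (hp : p ≠ 2) (S : Sylow p G) :
    pPrimeCore p G ⊔ normalizer ((zHigh (S : Subgroup G) : Subgroup G) : Set G) = ⊤ ∧
      (pPrimeCore p G = ⊥ → (zHigh (S : Subgroup G)).Normal) := by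
  refine ⟨?_, fun hO => zHigh_normal hodd hp hO S⟩
  set X := (S : Subgroup G)
  set O := pPrimeCore p G
  set π := QuotientGroup.mk' O
  have hsurj : Function.Surjective π := QuotientGroup.mk'_surjective O
  set S' : Sylow p (G ⧸ O) := S.mapSurjective hsurj
  have hcop : (Nat.card X).Coprime (Nat.card O) := by
    obtain ⟨n, hn⟩ := IsPGroup.iff_card.1 S.2
    rw [hn]
    exact ((Solv.coprime_pPrimeCore (G := G) p).pow_right n).symm
  have hf : Function.Injective (π.comp X.subtype) := by
    rw [← MonoidHom.ker_eq_bot_iff, Subgroup.eq_bot_iff_forall]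
    intro x hx
    have h2 : (x : G) ∈ X ⊓ O := ⟨x.2, (QuotientGroup.eq_one_iff (x : G)).1 hx⟩
    rw [Subgroup.inf_eq_bot_of_coprime hcop, mem_bot] at h2
    exact Subtype.ext h2
  have hrange : (π.comp X.subtype).range = (S' : Subgroup (G ⧸ O)) := by
    rw [MonoidHom.range_comp, range_subtype]; rfl
  have hmap : (zHigh X).map π = zHigh (S' : Subgroup (G ⧸ O)) := by
    rw [← center_puig, Subgroup.map_map, map_center _ hf, map_puigSubgroup _ hf, hrange]
    rfl
  haveI := zHigh_normal (G := G ⧸ O) (hodd.of_dvd_nat O.card_quotient_dvd_card) hp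
    (Solv.pPrimeCore_quotient_eq_bot p) S'
  set M := (zHigh (S' : Subgroup (G ⧸ O))).comap π
  haveI : M.Normal := Subgroup.Normal.comap inferInstance _
  set Z := zHigh X
  have hM : M = Z ⊔ O := by
    rw [show M = ((Z.map π).comap π) by rw [hmap], comap_map_eq, QuotientGroup.ker_mk']
  have hZM : Z ≤ M := hM ▸ le_sup_left
  have hZp : IsPGroup p (Z.subgroupOf M) :=
    (S.2.to_le (inf_le_left.trans (high_le X))).comap_subtype
  have hidx : ¬ p ∣ (Z.subgroupOf M).index := by
    intro hd
    have h1 : Z.relIndex M ∣ Nat.card O := by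
      rw [hM, sup_comm]
      have : Z.relIndex (O ⊔ Z) ∣ Nat.card O := by
        have hmul := Solv.card_sup_dvd_mul Z O
        rw [sup_comm] at hmul
        have he : Nat.card Z * Z.relIndex (O ⊔ Z) = Nat.card ↥(O ⊔ Z) := by
          rw [← Nat.card_congr (subgroupOfEquivOfLe (le_sup_right : Z ≤ O ⊔ Z)).toEquiv]
          exact Subgroup.card_mul_index _
        rw [← he] at hmul
        exact Nat.dvd_of_mul_dvd_mul_left Nat.card_pos hmul
      exact this
    exact Solv.not_dvd_card_pPrimeCore (G := G) p (hd.trans h1)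
  have hfr := Sylow.normalizer_sup_eq_top (hZp.toSylow hidx)
  rw [show ((hZp.toSylow hidx : Sylow p M) : Subgroup M) = Z.subgroupOf M from rfl,
    map_subgroupOf_eq_of_le hZM] at hfr
  refine top_le_iff.1 (hfr.ge.trans (sup_le le_sup_right ?_))
  rw [hM]
  exact sup_le (le_normalizer.trans le_sup_right) le_sup_left

end Cfsg.Lib.PLocal.Puig
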