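import Mathlib
import Cfsg.Prelude.Def_SubgroupEmbedding
import Cfsg.Prelude.Def_Transfer
import Cfsg.Agent.Lib.Invol.OrderFormula

/-!
Sidki pairs with at most four elements.
-/

set_option autoImplicit false

namespace Cfsg.Lib.PLocal.SidkiFour

variable {G : Type*} [Group G] [Finite G]

theorem commute_of_sq {k h : G} (hk : Odd (orderOf k)) (hc : k ^ 2 * h = h * k ^ 2) : k * h = h * k := by
  obtain ⟨m, hm⟩ := hk
  have h1 : k = (k ^ 2) ^ (m + 1) := by
    rw [← pow_mul, show 2 * (m + 1) = orderOf k + 1 by omega, pow_succ, pow_orderOf_eq_one, one_mul]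
  rw [h1]
  exact ((show Commute (k ^ 2) h from hc).pow_left _).eq

theorem eq_one_of_eq_inv {h : G} (hh : Odd (orderOf h)) (e : h = h⁻¹) : h = 1 := by
  obtain ⟨m, hm⟩ := hh
  have h2 : h ^ 2 = 1 := by
    rw [pow_two]; nth_rewrite 2 [e]; exact mul_inv_cancel h
  have := pow_orderOf_eq_one h
  rw [hm, pow_succ, pow_mul, h2, one_pow, one_mul] at this
  exact this

theorem odd_orderOf_conj {h : G} (hh : Odd (orderOf h)) (g : G) : Odd (orderOf (g * h * g⁻¹)) := by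
  rwa [show g * h * g⁻¹ = (MulAut.conj g) h from rfl, MulEquiv.orderOf_eq]

/-- The central contradiction. -/
theorem key {a b h k : G} (hca : a⁻¹ = a) (hcb : b⁻¹ = b) (hab : a * b = b * a)
    (hS : ∀ z : G, Odd (orderOf z) → (a * z * a⁻¹ = z⁻¹ ∨ a * b * z * (a * b)⁻¹ = z⁻¹) →
      a * z = z * a ∨ b * z = z * b ∨ a * b * z = z * (a * b))
    (hho : Odd (orderOf h)) (hh : h ≠ 1) (hbh : b * h = h * b) (hah : a * h * a⁻¹ = h⁻¹)
    (hko : Odd (orderOf k)) (hk : k ≠ 1) (hak : a * k = k * a) (hbk : b * k * b⁻¹ = k⁻¹) : False := by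
  have eak : a * k * a⁻¹ = k := by rw [hak, mul_inv_cancel_right]
  have ebh : b * h * b⁻¹ = h := by rw [hbh, mul_inv_cancel_right]
  set z := k * h * k⁻¹ with hz
  have haz : a * z * a⁻¹ = z⁻¹ := by
    calc a * z * a⁻¹ = (a * k * a⁻¹) * (a * h * a⁻¹) * (a * k * a⁻¹)⁻¹ := by rw [hz]; group
      _ = z⁻¹ := by rw [eak, hah, hz]; group
  have hbz : b * z * b⁻¹ = k⁻¹ * h * k := by
    calc b * z * b⁻¹ = (b * k * b⁻¹) * (b * h * b⁻¹) * (b * k * b⁻¹)⁻¹ := by rw [hz]; group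
      _ = k⁻¹ * h * k := by rw [ebh, hbk, inv_inv]
  have hcz : a * b * z * (a * b)⁻¹ = k⁻¹ * h⁻¹ * k := by
    calc a * b * z * (a * b)⁻¹ = a * (b * z * b⁻¹) * a⁻¹ := by group
      _ = (a * k * a⁻¹)⁻¹ * (a * h * a⁻¹) * (a * k * a⁻¹) := by rw [hbz]; group
      _ = k⁻¹ * h⁻¹ * k := by rw [eak, hah]
  have hzne : z ≠ 1 := by
    intro e
    apply hh
    calc h = k⁻¹ * z * k := by rw [hz]; group
      _ = 1 := by rw [e]; group
  rcases hS z (odd_orderOf_conj hho k) (Or.inl haz) with e | e | e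
  · apply hzne
    refine eq_one_of_eq_inv (odd_orderOf_conj hho k) ?_
    rw [← haz, e, mul_inv_cancel_right]
  · -- `k` commutes with `h`
    have e1 : k * h * k⁻¹ = k⁻¹ * h * k := by rw [← hz, ← hbz, e, mul_inv_cancel_right]
    have hkh := commute_of_sq hko (h := h) (by
      calc k ^ 2 * h = k * (k * h * k⁻¹) * k := by rw [pow_two]; group
        _ = k * (k⁻¹ * h * k) * k := by rw [e1]
        _ = h * k ^ 2 := by rw [pow_two]; group)
    have hmo : Odd (orderOf (h * k)) :=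
      (hho.mul hko).of_dvd_nat (Commute.orderOf_mul_dvd_mul_orderOf hkh.symm)
    have hcm : a * b * (h * k) * (a * b)⁻¹ = (h * k)⁻¹ := by
      calc a * b * (h * k) * (a * b)⁻¹ = a * ((b * h * b⁻¹) * (b * k * b⁻¹)) * a⁻¹ := by group
        _ = (a * h * a⁻¹) * (a * k * a⁻¹)⁻¹ := by rw [ebh, hbk]; group
        _ = (h * k)⁻¹ := by rw [hah, eak, ← mul_inv_rev, hkh]
    rcases hS _ hmo (Or.inr hcm) with e2 | e2 | e2
    · apply hh
      refine eq_one_of_eq_inv hho (mul_right_cancel (b := k) ?_)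
      calc h * k = a * (h * k) * a⁻¹ := by rw [e2, mul_inv_cancel_right]
        _ = (a * h * a⁻¹) * (a * k * a⁻¹) := by group
        _ = h⁻¹ * k := by rw [hah, eak]
    · apply hk
      refine eq_one_of_eq_inv hko (mul_left_cancel (a := h) ?_)
      calc h * k = b * (h * k) * b⁻¹ := by rw [e2, mul_inv_cancel_right]
        _ = (b * h * b⁻¹) * (b * k * b⁻¹) := by group
        _ = h * k⁻¹ := by rw [ebh, hbk]
    · apply hh
      have h7 : h * k = 1 := eq_one_of_eq_inv hmo (by rw [← hcm, e2, mul_inv_cancel_right])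
      refine eq_one_of_eq_inv hho ?_
      rw [← hah, eq_inv_of_mul_eq_one_left h7, ← conj_inv, eak]
  · -- `k ^ 2` inverts `h`
    have e1 : k * h * k⁻¹ = k⁻¹ * h⁻¹ * k := by rw [← hz, ← hcz, e, mul_inv_cancel_right]
    have e2 : k ^ 2 * h * (k ^ 2)⁻¹ = h⁻¹ := by
      calc k ^ 2 * h * (k ^ 2)⁻¹ = k * (k * h * k⁻¹) * k⁻¹ := by rw [pow_two]; group
        _ = k * (k⁻¹ * h⁻¹ * k) * k⁻¹ := by rw [e1]
        _ = h⁻¹ := by group
    have e3 : (k ^ 2) ^ 2 * h = h * (k ^ 2) ^ 2 := by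
      calc (k ^ 2) ^ 2 * h = k ^ 2 * (k ^ 2 * h * (k ^ 2)⁻¹) * (k ^ 2)⁻¹ * (k ^ 2) ^ 2 := by group
        _ = (k ^ 2 * h * (k ^ 2)⁻¹)⁻¹ * (k ^ 2) ^ 2 := by nth_rewrite 1 [e2]; group
        _ = h * (k ^ 2) ^ 2 := by rw [e2, inv_inv]
    have hk2 : Odd (orderOf (k ^ 2)) := hko.of_dvd_nat (orderOf_pow_dvd 2)
    have e4 := commute_of_sq hk2 e3
    apply hh
    refine eq_one_of_eq_inv hho ?_
    rw [← e2, e4, mul_inv_cancel_right]

/-- S3011. -/
theorem inf_pCore_ne_bot (V : Subgroup G) (hV : Cfsg.IsElementaryAbelian 2 V) (hV1 : V ≠ ⊥)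
    (hS : Cfsg.IsSidkiPair V) (h4 : Nat.card V ≤ 4) : V ⊓ Cfsg.pCore 2 G ≠ ⊥ := by
  classical
  intro hbot
  have hinv : ∀ v ∈ V, v⁻¹ = v := fun v hv => inv_eq_of_mul_eq_one_right (by rw [← sq]; exact hV.2 v hv)
  have hcomm : ∀ v ∈ V, ∀ w ∈ V, v * w = w * v := fun v hv w hw => by
    have := hV.1
    exact congrArg Subtype.val (mul_comm' (⟨v, hv⟩ : V) ⟨w, hw⟩)
  have hex : ∀ v ∈ V, v ≠ 1 → ∃ h : G, h ≠ 1 ∧ Odd (orderOf h) ∧ v * h * v⁻¹ = h⁻¹ ∧
      ∃ w ∈ V, w ≠ 1 ∧ w ≠ v ∧ w * h = h * w := by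
    intro v hv hv1
    obtain ⟨h, hh, hho, hvh⟩ := Cfsg.Lib.Invol.exists_inverted_odd (t := v)
      (orderOf_eq_prime (hV.2 v hv) hv1) (fun N hN hNp hvN => hv1 (by
        have : v ∈ V ⊓ Cfsg.pCore 2 G :=
          ⟨hv, Cfsg.Lib.Solv.le_pCore (N := N) hN hNp hvN⟩
        rwa [hbot, Subgroup.mem_bot] at this))
    obtain ⟨w, hw, hw1, hwh⟩ := hS h v hv hho hvh
    refine ⟨h, hh, hho, hvh, w, hw, hw1, fun e => hh (eq_one_of_eq_inv hho ?_), hwh⟩
    rw [← hvh, ← e, hwh, mul_inv_cancel_right]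
  obtain ⟨⟨v, hv⟩, hv'⟩ := Subgroup.ne_bot_iff_exists_ne_one.1 hV1
  have hv1 : v ≠ 1 := fun e => hv' (Subtype.ext e)
  obtain ⟨h, hh, hho, hvh, b, hb, hb1, hbv, hbh⟩ := hex v hv hv1
  obtain ⟨k, hk, hko, hbk, a, ha, ha1, hab, hak⟩ := hex b hb hb1
  -- the elements of `V`
  have hprod : ∀ x ∈ V, ∀ y ∈ V, x ≠ 1 → y ≠ 1 → x ≠ y → ∀ z ∈ V, z = 1 ∨ z = x ∨ z = y ∨ z = x * y := by
    intro x hx y hy hx1 hy1 hxy z hz
    by_contra hne
    push Not at hne
    have hcard : ({1, x, y, x * y, z} : Finset G).card = 5 := by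
      have h1 : (1 : G) ∉ ({x, y, x * y, z} : Finset G) := by
        simp only [Finset.mem_insert, Finset.mem_singleton, not_or]
        exact ⟨Ne.symm hx1, Ne.symm hy1, fun e => hxy ((inv_eq_of_mul_eq_one_right e.symm).symm.trans (hinv x hx) |>.symm), Ne.symm hne.1⟩
      have h2 : x ∉ ({y, x * y, z} : Finset G) := by
        simp only [Finset.mem_insert, Finset.mem_singleton, not_or]
        exact ⟨hxy, fun e => hy1 (left_eq_mul.1 e), Ne.symm hne.2.1⟩
      have h3 : y ∉ ({x * y, z} : Finset G) := by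
        simp only [Finset.mem_insert, Finset.mem_singleton, not_or]
        exact ⟨fun e => hx1 (right_eq_mul.1 e), Ne.symm hne.2.2.1⟩
      have h4 : x * y ∉ ({z} : Finset G) := fun e => hne.2.2.2 (Finset.mem_singleton.1 e).symm
      rw [Finset.card_insert_of_notMem h1, Finset.card_insert_of_notMem h2, Finset.card_insert_of_notMem h3,
        Finset.card_insert_of_notMem h4, Finset.card_singleton]
    have hle : ({1, x, y, x * y, z} : Finset G).card ≤ Nat.card V := by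
      rw [← Nat.card_eq_finsetCard]
      refine Nat.card_le_card_of_injective (fun u => (⟨u.1, ?_⟩ : V)) (fun u w e => Subtype.ext (congrArg (fun t : V => (t : G)) e))
      have := u.2
      simp only [Finset.mem_insert, Finset.mem_singleton] at this
      rcases this with e | e | e | e | e <;> rw [e]
      exacts [one_mem _, hx, hy, mul_mem hx hy, hz]
    omega
  have hah : a * h * a⁻¹ = h⁻¹ := by
    rcases hprod v hv b hb hv1 hb1 (Ne.symm hbv) a ha with e | e | e | e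
    · exact absurd e ha1
    · rw [e, hvh]
    · exact absurd e hab
    · rw [e, show v * b * h * (v * b)⁻¹ = v * (b * h * b⁻¹) * v⁻¹ by group, hbh, mul_inv_cancel_right, hvh]
  have hS' : ∀ z : G, Odd (orderOf z) → (a * z * a⁻¹ = z⁻¹ ∨ a * b * z * (a * b)⁻¹ = z⁻¹) →
      a * z = z * a ∨ b * z = z * b ∨ a * b * z = z * (a * b) := by
    intro z hzo hz
    obtain ⟨w, hw, hw1, hwz⟩ : ∃ w ∈ V, w ≠ 1 ∧ w * z = z * w := by
      rcases hz with hz | hz
      · exact hS z a ha hzo hz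
      · exact hS z (a * b) (mul_mem ha hb) hzo hz
    rcases hprod a ha b hb ha1 hb1 hab w hw with rfl | rfl | rfl | rfl
    · exact absurd rfl hw1
    · exact Or.inl hwz
    · exact Or.inr (Or.inl hwz)
    · exact Or.inr (Or.inr hwz)
  exact key (hinv a ha) (hinv b hb) (hcomm a ha b hb) hS' hho hh hbh hah hko hk hak hbk

end Cfsg.Lib.PLocal.SidkiFour
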