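import Mathlib

/-!
An extension of an elementary abelian group of order `p²` by `SL(2,p)` acting faithfully splits.
-/

set_option autoImplicit false
set_option linter.style.haveILetI false

namespace Cfsg.Lib.SplitSLTwo

open Subgroup

variable {N : Type*} [Group N] [Finite N] {p : ℕ} [hp : Fact p.Prime]

theorem aut_trivial_of_card {B : Subgroup N} [B.Normal] (hB : Nat.card B = p) {u : N} {k : ℕ}
    (hu : orderOf u = p ^ k) {b : N} (hb : b ∈ B) : u * b * u⁻¹ = b := by
  haveI : IsCyclic B := isCyclic_of_prime_card hB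
  haveI : Finite (MulAut B) := Finite.of_injective (fun f => ⇑f) DFunLike.coe_injective
  have hA : Nat.card (MulAut B) = p - 1 := by
    rw [IsCyclic.card_mulAut, hB, Nat.totient_prime hp.out]
  have h1 : orderOf (MulAut.conjNormal (H := B) u) ∣ p ^ k := hu ▸ orderOf_map_dvd _ u
  have h2 : orderOf (MulAut.conjNormal (H := B) u) ∣ p - 1 := hA ▸ _root_.orderOf_dvd_natCard _
  have hco : (p ^ k).Coprime (p - 1) := by
    refine Nat.Coprime.pow_left k ?_
    rw [Nat.Prime.coprime_iff_not_dvd hp.out]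
    intro h
    have h1' : p ≤ p - 1 := Nat.le_of_dvd (Nat.sub_pos_of_lt hp.out.one_lt) h
    have h2' := hp.out.pos
    omega
  have h3 : MulAut.conjNormal (H := B) u = 1 :=
    orderOf_eq_one_iff.1 (Nat.eq_one_of_dvd_coprimes hco h1 h2)
  have h4 := congrArg (fun f : MulAut B => ((f ⟨b, hb⟩ : B) : N)) h3
  simpa [MulAut.conjNormal_apply] using h4

theorem exists_complement (hp2 : p ≠ 2) (A : Subgroup N) [A.Normal] (hAcomm : IsMulCommutative A)
    (hAcard : Nat.card A = p ^ 2) (hAexp : Monoid.exponent ↥A = p)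
    (hAself : Subgroup.centralizer (A : Set N) = A)
    {F : Type*} [Field F] [Fintype F] (hF : Fintype.card F = p) (e : N ⧸ A ≃* Matrix.SpecialLinearGroup (Fin 2) F) :
    ∃ U : Subgroup N, A ⊓ U = ⊥ ∧ A ⊔ U = ⊤ := by
  haveI := hAcomm
  have hcomm : ∀ a ∈ A, ∀ b ∈ A, a * b = b * a := fun a ha b hb =>
    congrArg Subtype.val (mul_comm' (⟨a, ha⟩ : A) ⟨b, hb⟩)
  have hpow : ∀ a ∈ A, a ^ p = 1 := fun a ha => by
    have := Monoid.pow_exponent_eq_one (⟨a, ha⟩ : A)
    rw [hAexp] at this
    exact congrArg Subtype.val this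
  obtain ⟨m, hm⟩ := hp.out.odd_of_ne_two hp2
  have hhalf : ∀ a ∈ A, (a ^ (m + 1)) * a ^ (m + 1) = a := fun a ha => by
    rw [← pow_add, show m + 1 + (m + 1) = p + 1 by omega, pow_succ, hpow a ha, one_mul]
  have hsq : ∀ a ∈ A, a * a = 1 → a = 1 := fun a ha h => by
    have := hhalf a ha
    rw [← pow_add, ← two_mul, pow_mul, pow_two, h, one_pow] at this
    exact this.symm
  have h2F : (2 : F) ≠ 0 := by
    intro h
    have h1 : addOrderOf (1 : F) ∣ 2 :=
      addOrderOf_dvd_of_nsmul_eq_zero (by rw [two_nsmul, one_add_one_eq_two, h])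
    have h2 : addOrderOf (1 : F) ∣ p := hF ▸ addOrderOf_dvd_card
    have h3 : addOrderOf (1 : F) = 1 := Nat.eq_one_of_dvd_coprimes
      ((Nat.coprime_primes Nat.prime_two hp.out).2 (Ne.symm hp2)) h1 h2
    exact one_ne_zero (AddMonoid.addOrderOf_eq_one_iff.1 h3)
  set q : N →* N ⧸ A := QuotientGroup.mk' A with hq
  set z : N ⧸ A := e.symm (-1) with hz
  have hzc : ∀ x, z * x = x * z := fun x => e.injective (by
    rw [map_mul, map_mul, hz, MulEquiv.apply_symm_apply]
    ext i j
    simp)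
  have hz2 : z * z = 1 := e.injective (by
    rw [map_mul, map_one, hz, MulEquiv.apply_symm_apply]
    ext i j
    simp)
  have hz1 : z ≠ 1 := fun h => by
    have h' := congrArg e h
    rw [map_one, hz, MulEquiv.apply_symm_apply] at h'
    have h00 := congrArg (fun M : Matrix.SpecialLinearGroup (Fin 2) F => (M : Matrix (Fin 2) (Fin 2) F) 0 0) h'
    simp at h00
    exact h2F (by linear_combination -h00)
  obtain ⟨n, hn⟩ := QuotientGroup.mk'_surjective A z
  have hn2 : n * n ∈ A := (QuotientGroup.eq_one_iff _).1 (by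
    show q (n * n) = 1
    rw [map_mul, hn, hz2])
  set t := n ^ p with ht
  have ht2 : t * t = 1 := by
    rw [ht, ← pow_add, ← two_mul, pow_mul, pow_two]
    exact hpow _ hn2
  have hti : t⁻¹ = t := inv_eq_of_mul_eq_one_right ht2
  have htz : q t = z := by
    rw [ht, map_pow, hn, hm, pow_succ, pow_mul, pow_two, hz2, one_pow, one_mul]
  have htA : t ∉ A := fun h => hz1 (htz ▸ (QuotientGroup.eq_one_iff t).2 h)
  have hgt : ∀ g : N, t⁻¹ * (g * t * g⁻¹) ∈ A := fun g => (QuotientGroup.eq_one_iff _).1 (by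
    show q (t⁻¹ * (g * t * g⁻¹)) = 1
    rw [map_mul, map_mul, map_mul, map_inv, map_inv, htz, ← hzc, mul_inv_cancel_right, inv_mul_cancel])
  have hact : ∀ g : N, ∀ a ∈ A, g * t * g⁻¹ * a * (g * t * g⁻¹)⁻¹ = t * a * t⁻¹ := fun g a ha => by
    obtain ⟨x, hx, e'⟩ : ∃ x ∈ A, g * t * g⁻¹ = t * x := ⟨_, hgt g, by group⟩
    rw [e', mul_inv_rev, mul_assoc t x a, hcomm x hx a ha]
    group
  set B := A ⊓ centralizer ({t} : Set N) with hB
  have hBm : ∀ a, a ∈ B ↔ a ∈ A ∧ t * a * t⁻¹ = a := fun a => by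
    rw [hB, mem_inf, mem_centralizer_singleton_iff, mul_inv_eq_iff_eq_mul]
    exact and_congr_right fun _ => eq_comm
  have hBbot : B = ⊥ := by
    by_contra hne
    let C : Subgroup N :=
      { carrier := {a | a ∈ A ∧ t * a * t⁻¹ = a⁻¹}
        one_mem' := ⟨A.one_mem, by simp⟩
        mul_mem' := fun {a b} ha hb => ⟨A.mul_mem ha.1 hb.1, by
          rw [mul_inv_rev, ← hcomm _ (A.inv_mem ha.1) _ (A.inv_mem hb.1), ← ha.2, ← hb.2]
          group⟩
        inv_mem' := fun {a} ha => ⟨A.inv_mem ha.1, by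
          rw [inv_inv, show t * a⁻¹ * t⁻¹ = (t * a * t⁻¹)⁻¹ by group, ha.2, inv_inv]⟩ }
    have hCm : ∀ a, a ∈ C ↔ a ∈ A ∧ t * a * t⁻¹ = a⁻¹ := fun _ => Iff.rfl
    have hBn : B.Normal := ⟨fun a ha g => by
      rw [hBm] at ha ⊢
      refine ⟨(inferInstance : A.Normal).conj_mem a ha.1 g, ?_⟩
      rw [← hact g _ ((inferInstance : A.Normal).conj_mem a ha.1 g)]
      conv_rhs => rw [← ha.2]
      group⟩
    have hCn : C.Normal := ⟨fun a ha g => by
      rw [hCm] at ha ⊢
      refine ⟨(inferInstance : A.Normal).conj_mem a ha.1 g, ?_⟩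
      rw [← hact g _ ((inferInstance : A.Normal).conj_mem a ha.1 g),
        show (g * a * g⁻¹)⁻¹ = g * a⁻¹ * g⁻¹ by group, ← ha.2]
      group⟩
    have hBA : B ≤ A := inf_le_left
    have hCA : C ≤ A := fun a ha => ha.1
    have hBC : ∀ a, a ∈ B → a ∈ C → a = 1 := fun a hb hc => by
      have h1 := ((hBm a).1 hb).2
      rw [hc.2] at h1
      exact hsq a hc.1 (by rw [← inv_eq_iff_mul_eq_one.1 h1])
    obtain ⟨a₀, ha₀, hna₀⟩ : ∃ a ∈ A, t * a * t⁻¹ ≠ a := by
      by_contra hall
      push Not at hall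
      refine htA (hAself.le ?_)
      rw [mem_centralizer_iff]
      intro a ha
      exact (mul_inv_eq_iff_eq_mul.1 (hall a ha)).symm
    have hC1 : C ≠ ⊥ := fun h => by
      have hc : t * a₀ * t⁻¹ * a₀⁻¹ ∈ C := by
        refine ⟨A.mul_mem ((inferInstance : A.Normal).conj_mem a₀ ha₀ t) (A.inv_mem ha₀), ?_⟩
        rw [hti]
        calc t * (t * a₀ * t * a₀⁻¹) * t = (t * t) * a₀ * (t * a₀⁻¹ * t) := by group
          _ = (t * a₀ * t * a₀⁻¹)⁻¹ := by rw [ht2]; group; rw [show t ^ (-1 : ℤ) = t by rw [zpow_neg_one, hti]]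
      rw [h, mem_bot] at hc
      exact hna₀ (mul_inv_eq_one.1 hc)
    have hcardp : ∀ X : Subgroup N, X ≤ A → X ≠ ⊥ → X ≠ A → Nat.card X = p := by
      intro X hXA hX1 hXne
      obtain ⟨k, hk, e'⟩ := (Nat.dvd_prime_pow hp.out).1 (hAcard ▸ card_dvd_of_le hXA)
      interval_cases k
      · exact absurd (eq_bot_of_card_eq X (by rw [e', pow_zero])) hX1
      · rw [e', pow_one]
      · exact absurd (eq_of_le_of_card_ge hXA (by rw [e', hAcard])) hXne
    have hBne : B ≠ A := fun h => hna₀ ((hBm a₀).1 (h ▸ ha₀)).2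
    have hCne : C ≠ A := fun h => by
      obtain ⟨b, hb, hb1⟩ : ∃ b ∈ B, b ≠ 1 := by
        by_contra hall; push Not at hall; exact hne ((Subgroup.eq_bot_iff_forall _).2 hall)
      exact hb1 (hBC b hb (h ▸ hBA hb))
    obtain ⟨u, hu, hu1⟩ : ∃ u : N, (∃ k, orderOf u = p ^ k) ∧ u ∉ A := by
      let T : Matrix.SpecialLinearGroup (Fin 2) F := ⟨!![1, 1; 0, 1], by simp [Matrix.det_fin_two_of]⟩
      have hTpow : ∀ k : ℕ, ((T ^ k : Matrix.SpecialLinearGroup (Fin 2) F) : Matrix (Fin 2) (Fin 2) F) =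
          !![1, (k : F); 0, 1] := by
        intro k
        induction k with
        | zero => ext i j; fin_cases i <;> fin_cases j <;> simp
        | succ k ih =>
          rw [pow_succ, Matrix.SpecialLinearGroup.coe_mul, ih]
          ext i j
          fin_cases i <;> fin_cases j <;> simp [T, Matrix.mul_apply, Fin.sum_univ_two]
          ring
      have hTp : T ^ p = 1 := by
        have hp0 : ((p : ℕ) : F) = 0 := by rw [← hF]; exact FiniteField.cast_card_eq_zero F
        ext i j
        rw [hTpow, hp0]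
        fin_cases i <;> fin_cases j <;> simp
      obtain ⟨u, hu⟩ := QuotientGroup.mk'_surjective A (e.symm T)
      have hup : u ^ p ∈ A := (QuotientGroup.eq_one_iff _).1 (by
        show q (u ^ p) = 1
        rw [map_pow, hu, ← map_pow, hTp, map_one])
      refine ⟨u, ?_, fun h => ?_⟩
      · have : orderOf u ∣ p ^ 2 := orderOf_dvd_of_pow_eq_one (by rw [pow_two, pow_mul]; exact hpow _ hup)
        obtain ⟨k, -, e'⟩ := (Nat.dvd_prime_pow hp.out).1 this
        exact ⟨k, e'⟩
      · have h' : q u = 1 := (QuotientGroup.eq_one_iff u).2 h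
        rw [hu] at h'
        have h3 : T = 1 := by
          have := congrArg e h'
          rwa [MulEquiv.apply_symm_apply, map_one] at this
        have h'' := congrArg (fun x : Matrix.SpecialLinearGroup (Fin 2) F => (x : Matrix (Fin 2) (Fin 2) F) 0 1) h3
        simp [T] at h''
    obtain ⟨k, hk⟩ := hu
    refine hu1 (hAself.le ?_)
    have hle : A ≤ centralizer ({u} : Set N) := by
      have hsup : B ⊔ C = A := by
        refine eq_of_le_of_card_ge (sup_le hBA hCA) ?_
        have hBp := hcardp B hBA hne hBne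
        obtain ⟨j, hj, e'⟩ := (Nat.dvd_prime_pow hp.out).1 (hAcard ▸ card_dvd_of_le (sup_le hBA hCA))
        rw [e', hAcard]
        refine Nat.pow_le_pow_right hp.out.pos ?_
        by_contra hlt
        have h1 : Nat.card ↥(B ⊔ C) ≤ Nat.card B := by
          rw [e', hBp]
          calc p ^ j ≤ p ^ 1 := Nat.pow_le_pow_right hp.out.pos (by omega)
            _ = p := pow_one p
        have hBe : B = B ⊔ C := eq_of_le_of_card_ge le_sup_left h1
        refine hC1 ((Subgroup.eq_bot_iff_forall _).2 fun c hc => hBC c ?_ hc)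
        rw [hBe]; exact mem_sup_right hc
      rw [← hsup, sup_le_iff]
      refine ⟨fun b hb => ?_, fun c hc => ?_⟩ <;> rw [mem_centralizer_singleton_iff]
      · haveI := hBn
        exact (mul_inv_eq_iff_eq_mul.1 (aut_trivial_of_card (hcardp B hBA hne hBne) hk hb)).symm
      · haveI := hCn
        exact (mul_inv_eq_iff_eq_mul.1 (aut_trivial_of_card (hcardp C hCA hC1 hCne) hk hc)).symm
    rw [mem_centralizer_iff]
    intro a ha
    exact mem_centralizer_singleton_iff.1 (hle ha)
  have hinv : ∀ a ∈ A, t * a * t⁻¹ = a⁻¹ := fun a ha => by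
    have hca : t * a * t⁻¹ ∈ A := (inferInstance : A.Normal).conj_mem a ha t
    have hmem : a * (t * a * t⁻¹) ∈ B := by
      rw [hBm]
      refine ⟨A.mul_mem ha hca, ?_⟩
      conv_rhs => rw [hcomm a ha _ hca]
      rw [hti]
      calc t * (a * (t * a * t)) * t = t * a * t * (a * (t * t)) := by group
        _ = t * a * t * a := by rw [ht2, mul_one]
    rw [hBbot, mem_bot] at hmem
    exact eq_inv_of_mul_eq_one_right hmem
  refine ⟨centralizer ({t} : Set N), hBbot, ?_⟩
  rw [eq_top_iff]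
  intro g _
  set a := t⁻¹ * (g * t * g⁻¹) with hadef
  have ha : a ∈ A := hgt g
  set b := a ^ (m + 1) with hbdef
  have hb : b ∈ A := A.pow_mem ha _
  have hbg : b * g ∈ centralizer ({t} : Set N) := by
    rw [mem_centralizer_singleton_iff]
    have h1 : b * (g * t * g⁻¹) * b⁻¹ = t := by
      have e1 : g * t * g⁻¹ = t * a := by rw [hadef]; group
      rw [e1]
      have e2 : b * t = t * b⁻¹ := by
        have := hinv b hb
        rw [hti] at this
        calc b * t = t * (t * b * t) := by rw [← mul_assoc, ← mul_assoc, ht2, one_mul]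
          _ = t * b⁻¹ := by rw [this]
      calc b * (t * a) * b⁻¹ = (b * t) * a * b⁻¹ := by group
        _ = t * (b⁻¹ * a * b⁻¹) := by rw [e2]; group
        _ = t * (b⁻¹ * (b * b) * b⁻¹) := by rw [show b * b = a from hhalf a ha]
        _ = t := by group
    calc b * g * t = b * (g * t * g⁻¹) * b⁻¹ * (b * g) := by group
      _ = t * (b * g) := by rw [h1]
  have : g = b⁻¹ * (b * g) := by group
  rw [this]
  exact mul_mem (mem_sup_left (A.inv_mem hb)) (mem_sup_right hbg)

end Cfsg.Lib.SplitSLTwo
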