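import Cfsg.Agent.Lib.Transfer.Goldschmidt
import Cfsg.Agent.Lib.PLocal.StrongEmbeddingCore

/-!
# The strong form of the Alperin–Goldschmidt fusion theorem
-/

set_option autoImplicit false
open Cfsg Subgroup
open scoped Pointwise
open Cfsg.Lib.Transfer (conjR conjR_one conjR_mul conjR_mono mem_conjR FusionChain alperin)

namespace Cfsg.Lib.StrongAlperin

section
variable {G : Type*} [Group G] [Finite G] {p : ℕ} [hp : Fact p.Prime]

/-- The steps admitted by the strong fusion theorem. -/
def Strong (P : Sylow p G) (H : Subgroup G) (x : G) : Prop :=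
  H ≤ (P : Subgroup G) ∧
  ¬ p ∣ ((P : Subgroup G) ⊓ normalizer (H : Set G)).relIndex (normalizer (H : Set G)) ∧
  (P : Subgroup G) ⊓ centralizer (H : Set G) ≤ H ∧
  (Cfsg.pPrimePCore p ↥(normalizer (H : Set G))).map (normalizer (H : Set G)).subtype =
    H ⊔ centralizer (H : Set G) ∧
  ¬ Cfsg.IsSylowChainConnected p
      (↥(normalizer (H : Set G)) ⧸ H.subgroupOf (normalizer (H : Set G))) ∧
  ∃ X : Subgroup G, (H ≤ X ∧ X ≤ normalizer (H : Set G) ∧
    (X.subgroupOf (normalizer (H : Set G))).Normal ∧ p ∣ H.relIndex X ∧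
    ∀ Y : Subgroup G, H ≤ Y → Y ≤ normalizer (H : Set G) →
      (Y.subgroupOf (normalizer (H : Set G))).Normal → p ∣ H.relIndex Y → X ≤ Y) ∧
    x ∈ (Cfsg.pResidual p ↥X).map X.subtype

/-- `g = c x₁ ⋯ xₙ y`. -/
inductive SChain (P : Sylow p G) : Set G → G → Prop
  | nil {A : Set G} {c y : G} (hc : c ∈ centralizer A) (hy : y ∈ normalizer ((P : Subgroup G) : Set G)) :
      SChain P A (c * y)
  | cons {A : Set G} {g : G} (D : Subgroup G) (x : G) (hD : Strong P D x) (hA : A ⊆ (D : Set G))
      (h : SChain P (conjR x A) g) : SChain P A (x * g)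

/-- A decomposition exists for all conjugates by `N(P)`. -/
def Dec (P : Sylow p G) (A : Set G) (g : G) : Prop :=
  ∀ y ∈ normalizer ((P : Subgroup G) : Set G), SChain P (conjR y⁻¹ A) (y * g * y⁻¹)

variable {P : Sylow p G}

omit [Finite G] hp in
theorem conjR_centralizer {A : Set G} {c : G} (hc : c ∈ centralizer A) : conjR c A = A :=
  Cfsg.Lib.Transfer.AG.GChain.conjR_of_centralizer hc

omit [Finite G] hp in
theorem conj_centralizer {A : Set G} {x c : G} (hc : c ∈ centralizer A) :
    x⁻¹ * c * x ∈ centralizer (conjR x A) := by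
  rw [mem_centralizer_iff]
  rintro _ ⟨a, ha, rfl⟩
  have h1 := mem_centralizer_iff.1 hc a ha
  calc x⁻¹ * a * x * (x⁻¹ * c * x) = x⁻¹ * (a * c) * x := by group
    _ = x⁻¹ * (c * a) * x := by rw [h1]
    _ = x⁻¹ * c * x * (x⁻¹ * a * x) := by group

namespace SChain

theorem mono {A B : Set G} {g : G} (h : SChain P B g) (hAB : A ⊆ B) : SChain P A g := by
  induction h generalizing A with
  | nil hc hy => exact .nil (centralizer_le hAB hc) hy
  | cons D x hD hA _ ih => exact .cons D x hD (hAB.trans hA) (ih (conjR_mono x hAB))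

theorem centr_left {A : Set G} {c g : G} (h : SChain P A g) (hc : c ∈ centralizer A) :
    SChain P A (c * g) := by
  induction h generalizing c with
  | @nil A d y hd hy =>
    rw [← mul_assoc]
    exact .nil (mul_mem hc hd) hy
  | @cons A g D x hD hA _ ih =>
    rw [show c * (x * g) = x * (x⁻¹ * c * x * g) by group]
    exact .cons D x hD hA (ih (conj_centralizer hc))

theorem mul_normalizer {A : Set G} {g y : G} (h : SChain P A g)
    (hy : y ∈ normalizer ((P : Subgroup G) : Set G)) : SChain P A (g * y) := by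
  induction h with
  | nil hc hy' =>
    rw [mul_assoc]
    exact .nil hc (mul_mem hy' hy)
  | cons D x hD hA _ ih =>
    rw [mul_assoc]
    exact .cons D x hD hA ih

theorem trans {A : Set G} {g h : G} (h₁ : SChain P A g) (h₂ : Dec P (conjR g A) h) :
    SChain P A (g * h) := by
  induction h₁ generalizing h with
  | @nil A c y hc hy =>
    have h3 := h₂ y hy
    rw [← conjR_mul, mul_inv_cancel_right, conjR_centralizer hc] at h3
    rw [show c * y * h = c * (y * h * y⁻¹ * y) by group]
    exact (h3.mul_normalizer hy).centr_left hc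
  | cons D x hD hA _ ih =>
    rw [mul_assoc]
    exact .cons D x hD hA (ih (by rwa [← conjR_mul]))

end SChain

namespace Dec

theorem chain {A : Set G} {g : G} (h : Dec P A g) : SChain P A g := by
  have := h 1 (one_mem _)
  simpa [conjR_one] using this

theorem mono {A B : Set G} {g : G} (h : Dec P B g) (hAB : A ⊆ B) : Dec P A g := fun y hy =>
  (h y hy).mono (conjR_mono _ hAB)

theorem one (A : Set G) : Dec P A 1 := fun y _ => by
  have := SChain.nil (P := P) (one_mem (centralizer (conjR y⁻¹ A))) (one_mem _)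
  simpa using this

theorem shift {A : Set G} {g y : G} (h : Dec P A g) (hy : y ∈ normalizer ((P : Subgroup G) : Set G)) :
    Dec P (conjR y⁻¹ A) (y * g * y⁻¹) := fun z hz => by
  have := h (z * y) (mul_mem hz hy)
  rw [← conjR_mul, ← mul_inv_rev]
  rwa [show z * (y * g * y⁻¹) * z⁻¹ = z * y * g * (z * y)⁻¹ by group]

theorem trans {A : Set G} {g h : G} (h₁ : Dec P A g) (h₂ : Dec P (conjR g A) h) :
    Dec P A (g * h) := fun y hy => by
  rw [show y * (g * h) * y⁻¹ = (y * g * y⁻¹) * (y * h * y⁻¹) by group]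
  refine (h₁ y hy).trans ?_
  have e : conjR (y * g * y⁻¹) (conjR y⁻¹ A) = conjR y⁻¹ (conjR g A) := by
    rw [← conjR_mul, ← conjR_mul]
    congr 1
    group
  rw [e]
  exact h₂.shift hy

end Dec

/-- Tame subgroups. -/
def TameSub (P : Sylow p G) (D : Subgroup G) : Prop :=
  D ≤ (P : Subgroup G) ∧
  ¬ p ∣ ((P : Subgroup G) ⊓ normalizer (D : Set G)).relIndex (normalizer (D : Set G))

omit [Finite G] hp in
theorem conjR_coe (D : Subgroup G) (y : G) :
    conjR y⁻¹ (D : Set G) = (D.map (MulAut.conj y).toMonoidHom : Set G) := by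
  ext x
  rw [mem_conjR, coe_map]
  constructor
  · intro h
    exact ⟨_, h, by simp [mul_assoc]⟩
  · rintro ⟨d, hd, rfl⟩
    simpa [mul_assoc] using hd

omit [Finite G] hp in
theorem mem_normalizer_of_conjR {g : G} {H : Subgroup G} (hg : g ∈ normalizer (H : Set G)) :
    conjR g (H : Set G) = H := Cfsg.Lib.Transfer.conjR_subgroup_of_mem_normalizer hg

theorem residual_map {H : Type*} [Group H] (p : ℕ) (X : Subgroup H) :
    (Cfsg.pResidual p ↥X).map X.subtype = closure {g : H | g ∈ X ∧ (orderOf g).Coprime p} := by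
  rw [Cfsg.pResidual, MonoidHom.map_closure]
  congr 1
  ext g
  constructor
  · rintro ⟨x, hx, rfl⟩
    exact ⟨x.2, (Subgroup.orderOf_coe x).symm ▸ hx⟩
  · rintro ⟨hg, ho⟩
    refine ⟨⟨g, hg⟩, ?_, rfl⟩
    show (orderOf (⟨g, hg⟩ : X)).Coprime p
    rwa [← Subgroup.orderOf_coe]

set_option maxHeartbeats 800000 in
/-- Tame subgroups of the normalizer: strong step or bigger. -/
theorem tame_dec (P : Sylow p G) : ∀ D : Subgroup G, TameSub P D →
    ∀ x ∈ normalizer (D : Set G), SChain P (D : Set G) x := by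
  intro D
  induction hn : Nat.card G - Nat.card D using Nat.strong_induction_on generalizing D with
  | _ n ih =>
  subst hn
  intro hD x hx
  classical
  -- all bigger fusion is decomposed
  have hbig : ∀ R : Subgroup G, Nat.card D < Nat.card R → TameSub P R →
      ∀ z ∈ normalizer (R : Set G), Dec P (R : Set G) z := by
    intro R hR hRt z hz y hy
    rw [conjR_coe]
    have hc : Nat.card ↥(R.map (MulAut.conj y).toMonoidHom) = Nat.card R :=
      card_map_of_injective (MulAut.conj y).injective
    have hN : normalizer ((R.map (MulAut.conj y).toMonoidHom : Subgroup G) : Set G) =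
        (normalizer (R : Set G)).map (MulAut.conj y).toMonoidHom :=
      (map_equiv_normalizer_eq R (MulAut.conj y)).symm
    have hPy : (P : Subgroup G).map (MulAut.conj y).toMonoidHom = P := by
      apply SetLike.coe_injective
      rw [← conjR_coe]
      exact mem_normalizer_of_conjR (inv_mem hy)
    refine ih _ ?_ _ rfl ⟨(map_mono hRt.1).trans hPy.le, ?_⟩ _ ?_
    · have := card_le_card_group (R.map (MulAut.conj y).toMonoidHom)
      rw [hc] at this ⊢
      omega
    · rw [hN]
      conv => arg 1; arg 2; arg 1; arg 1; rw [← hPy]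
      rw [← map_inf _ _ _ (MulAut.conj y).injective,
        relIndex_map_map_of_injective _ _ (MulAut.conj y).injective]
      exact hRt.2
    · rw [hN]
      exact ⟨z, hz, rfl⟩
  have key : ∀ (A : Set G) (g : G), FusionChain P A g → Nat.card D < Nat.card A → Dec P A g := by
    intro A g h
    induction h with
    | nil A => exact fun _ => Dec.one A
    | @cons A g Q z htame hz _ hA _ ih2 =>
      intro hcard
      refine Dec.trans ((hbig _ ?_ ⟨inf_le_left, htame.1⟩ z hz).mono hA) (ih2 ?_)
      · exact lt_of_lt_of_le hcard (Nat.card_mono (Set.toFinite _) hA)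
      · unfold Cfsg.Lib.Transfer.conjR
        rwa [Nat.card_image_of_injective fun a b hab => by simpa using hab]
  have gen : ∀ R : Subgroup G, R ≤ (P : Subgroup G) → D < R → ∀ y : G,
      conjR y (R : Set G) ⊆ (P : Set G) → Dec P (D : Set G) y := fun R hRP hlt y hy =>
    (key _ _ (alperin P hRP hy) (Set.Finite.card_lt_card (Set.toFinite _) hlt)).mono hlt.le
  rcases Cfsg.Lib.Transfer.AG.good_or_bigger P hD.1 hD.2 with hgood | hbigger
  swap
  · obtain ⟨c, hc, D', hD'P, hlt, y, hy, rfl⟩ := hbigger x hx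
    exact (gen D' hD'P hlt y (by rw [mem_normalizer_of_conjR hy]; exact hD'P)).chain.centr_left hc
  obtain ⟨-, hCK, hdp, -⟩ := hgood
  -- `D = P`
  rcases hD.1.eq_or_lt with hDP | hDP
  · have := SChain.nil (P := P) (one_mem (centralizer (D : Set G))) (hDP ▸ hx)
    rwa [one_mul] at this
  set N := normalizer (D : Set G) with hNdef
  have hDN : D ≤ N := le_normalizer
  set Dn := D.subgroupOf N with hDn
  haveI hDnn : Dn.Normal := normal_in_normalizer
  have hidx : ¬ p ∣ ((P : Subgroup G).subgroupOf N).index := by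
    have h := hD.2
    rwa [inf_relIndex_right] at h
  let S : Sylow p ↥N :=
    (P.isPGroup'.comap_of_injective N.subtype Subtype.val_injective).toSylow hidx
  have hS : (S : Subgroup ↥N) = (P : Subgroup G).subgroupOf N := rfl
  have hDnS : Dn ≤ (S : Subgroup ↥N) := fun a ha => hD.1 ha
  -- `D < P ∩ N(D)`
  have hgrow : D < (P : Subgroup G) ⊓ N := by
    refine lt_of_le_of_ne (le_inf hD.1 hDN) fun e => hDP.ne ?_
    haveI := P.isPGroup'.isNilpotent
    have hnc := (normalizerCondition_iff_only_full_group_self_normalizing).1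
      (normalizerCondition_of_isNilpotent (G := ↥(P : Subgroup G))) (D.subgroupOf P) ?_
    · exact le_antisymm hD.1 (subgroupOf_eq_top.1 hnc)
    · refine le_antisymm (fun a ha => ?_) le_normalizer
      show (a : G) ∈ D
      rw [e]
      refine ⟨a.2, mem_normalizer_iff.2 fun d => ⟨fun hd => ?_, fun hd => ?_⟩⟩
      · exact (mem_normalizer_iff.1 ha ⟨d, hD.1 hd⟩).1 hd
      · have hd' : d ∈ (P : Subgroup G) := by
          have := (P : Subgroup G).mul_mem ((P : Subgroup G).mul_mem
            ((P : Subgroup G).inv_mem a.2) (hD.1 hd)) a.2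
          simpa [mul_assoc] using this
        exact (mem_normalizer_iff.1 ha ⟨d, hd'⟩).2 hd
  let f := QuotientGroup.mk' Dn
  have hf : Function.Surjective f := QuotientGroup.mk'_surjective Dn
  have hker : f.ker = Dn := QuotientGroup.ker_mk' Dn
  let S' : Sylow p (↥N ⧸ Dn) := S.mapSurjective hf
  have hS' : (S' : Subgroup (↥N ⧸ Dn)) = (S : Subgroup ↥N).map f := Sylow.coe_mapSurjective hf S
  have hrel : ∀ Y : Subgroup ↥N, Nat.card ↥(Y.map f) = Dn.relIndex Y := fun Y =>
    (relIndex_ker Y f).symm.trans (congrArg (fun K : Subgroup ↥N => K.relIndex Y) hker)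
  by_cases hconn : Cfsg.IsSylowChainConnected p (↥N ⧸ Dn)
  · -- connected: bigger subgroups generate
    let W : Submonoid ↥N :=
      { carrier := {z | Dec P (D : Set G) (z : G)}
        one_mem' := Dec.one _
        mul_mem' := fun {a b} ha hb => by
          show Dec P (D : Set G) ((a : G) * b)
          exact Dec.trans ha (by rw [mem_normalizer_of_conjR a.2]; exact hb) }
    have hWinv : ∀ a ∈ W, a⁻¹ ∈ W := fun a ha => by
      have h1 : a⁻¹ = a ^ (orderOf a - 1) := by
        refine inv_eq_of_mul_eq_one_right ?_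
        rw [← pow_succ', Nat.sub_add_cancel (orderOf_pos a), pow_orderOf_eq_one]
      rw [h1]
      exact W.pow_mem ha _
    have hgenW : ∀ z : ↥N, (∃ R : Subgroup ↥N, Dn < R ∧ R ≤ (S : Subgroup ↥N) ∧
        ∀ r ∈ R, z⁻¹ * r * z ∈ (S : Subgroup ↥N)) → z ∈ W := by
      rintro z ⟨R, hlt, hRS, hzR⟩
      refine gen (R.map N.subtype) ?_ ?_ z ?_
      · rintro _ ⟨r, hr, rfl⟩; exact hRS hr
      · have h := (map_lt_map_iff_of_injective N.subtype_injective).2 hlt
        rwa [map_subgroupOf_eq_of_le hDN] at h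
      · rintro _ ⟨_, ⟨r, hr, rfl⟩, rfl⟩
        exact hzR r hr
    have hnorm : ∀ z : ↥N, f z • S' = S' → z ∈ W := by
      intro z hz
      have hz' : f z ∈ normalizer ((S' : Subgroup (↥N ⧸ Dn)) : Set _) :=
        Sylow.smul_eq_iff_mem_normalizer.1 hz
      refine hgenW z ⟨S, ?_, le_rfl, fun r hr => ?_⟩
      · refine lt_of_le_of_ne hDnS fun e => hgrow.ne ?_
        have := congrArg (Subgroup.map N.subtype) e
        rwa [map_subgroupOf_eq_of_le hDN, hS, subgroupOf_map_subtype] at this
      · have h1 : f (z⁻¹ * r * z) ∈ (S : Subgroup ↥N).map f := by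
          rw [← hS', map_mul, map_mul, map_inv]
          refine (mem_normalizer_iff''.1 hz' _).1 ?_
          rw [hS']; exact mem_map_of_mem f hr
        obtain ⟨s, hs, hse⟩ := h1
        have : s⁻¹ * (z⁻¹ * r * z) ∈ Dn := QuotientGroup.eq.1 hse
        simpa using (S : Subgroup ↥N).mul_mem hs (hDnS this)
    have hreach : ∀ U, Relation.ReflTransGen Cfsg.Lib.PLocal.StrongEmb.Meets S' U →
        ∃ w ∈ W, U = f w • S' := by
      intro U hU
      induction hU with
      | refl => exact ⟨1, one_mem _, by rw [map_one, one_smul]⟩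
      | @tail U V _ hUV ih2 =>
        obtain ⟨w, hw, rfl⟩ := ih2
        obtain ⟨q, rfl⟩ := MulAction.exists_smul_eq (↥N ⧸ Dn) S' V
        obtain ⟨v, rfl⟩ := hf q
        refine ⟨v, ?_, rfl⟩
        have h := Cfsg.Lib.PLocal.StrongEmb.meets_smul (f w)⁻¹ hUV
        rw [inv_smul_smul, ← mul_smul, ← map_inv, ← map_mul] at h
        suffices hn : w⁻¹ * v ∈ W by simpa using W.mul_mem hw hn
        set n := w⁻¹ * v
        refine hgenW n ⟨((S' : Subgroup (↥N ⧸ Dn)) ⊓ ((f n • S' : Sylow p (↥N ⧸ Dn)) :
          Subgroup (↥N ⧸ Dn))).comap f, ?_, ?_, fun r hr => ?_⟩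
        · refine lt_of_le_of_ne (hker.ge.trans (f.ker_le_comap _)) fun e => h.2 ?_
          have h2 := congrArg (Subgroup.map f) e
          rw [map_comap_eq_self_of_surjective hf] at h2
          rw [← h2]
          exact (Subgroup.map_eq_bot_iff _).2 hker.ge
        · intro r hr
          obtain ⟨s, hs, hse⟩ := hS'.le (mem_comap.1 hr).1
          have : s⁻¹ * r ∈ Dn := QuotientGroup.eq.1 hse
          simpa using (S : Subgroup ↥N).mul_mem hs (hDnS this)
        · obtain ⟨u, hu, hue⟩ := (mem_comap.1 hr).2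
          change f n * u * (f n)⁻¹ = f r at hue
          have h1 : f (n⁻¹ * r * n) ∈ (S : Subgroup ↥N).map f := by
            rw [← hS', map_mul, map_mul, map_inv, ← hue]
            rw [show (f n)⁻¹ * (f n * u * (f n)⁻¹) * f n = u by group]
            exact hu
          obtain ⟨s, hs, hse⟩ := h1
          have : s⁻¹ * (n⁻¹ * r * n) ∈ Dn := QuotientGroup.eq.1 hse
          simpa using (S : Subgroup ↥N).mul_mem hs (hDnS this)
    obtain ⟨w, hw, hwe⟩ := hreach _ (Cfsg.Lib.PLocal.StrongEmb.connected_iff.1 hconn S' (f ⟨x, hx⟩ • S'))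
    have hm : w⁻¹ * ⟨x, hx⟩ ∈ W := hnorm _ (by
      rw [map_mul, map_inv, mul_smul, hwe, inv_smul_smul])
    have hxW : (⟨x, hx⟩ : ↥N) ∈ W := by simpa using W.mul_mem hw hm
    exact Dec.chain (A := (D : Set G)) (g := x) hxW
  · -- disconnected: a strong step
    have hdvd : ∀ Y : Subgroup (↥N ⧸ Dn), Y.Normal → (Y = ⊤) → p ∣ Nat.card Y := by
      rintro Y - rfl
      rw [card_top]
      refine (Cfsg.Lib.PLocal.StrongEmb.dvd_of_ne_bot S'.isPGroup' fun e => hgrow.ne ?_).trans
        (card_subgroup_dvd_card _)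
      rw [hS', Subgroup.map_eq_bot_iff, hker] at e
      have := congrArg (Subgroup.map N.subtype) (le_antisymm hDnS e)
      rwa [map_subgroupOf_eq_of_le hDN, hS, subgroupOf_map_subtype] at this
    obtain ⟨Xb, ⟨hXn, hXp⟩, hXmin⟩ := (Set.toFinite {Y : Subgroup (↥N ⧸ Dn) | Y.Normal ∧ p ∣ Nat.card Y}
      ).exists_minimal ⟨⊤, inferInstance, hdvd ⊤ inferInstance rfl⟩
    set Xn := Xb.comap f with hXn'
    haveI : Xn.Normal := hXn.comap f
    set X := Xn.map N.subtype with hXdef
    have hDnX : Dn ≤ Xn := hker ▸ f.ker_le_comap _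
    have hXsub : X.subgroupOf N = Xn := comap_map_eq_self_of_injective N.subtype_injective Xn
    have hDX : D ≤ X := (map_subgroupOf_eq_of_le hDN).ge.trans (map_mono hDnX)
    have hstrong : ∀ z ∈ (Cfsg.pResidual p ↥X).map X.subtype, Strong P D z := by
      intro z hz
      refine ⟨hD.1, hD.2, ?_, ?_, hconn, X, ⟨hDX, map_subtype_le _, hXsub ▸ inferInstance, ?_, ?_⟩, hz⟩
      · -- `C_P(D) ≤ D`
        intro c hc
        obtain ⟨k, hk, hkc⟩ := hCK hc.2
        subst hkc
        obtain ⟨O, hO, d, hd, hke⟩ := (show k ∈ ((Cfsg.pPrimeCore p ↥N : Subgroup ↥N) : Set ↥N) * (Dn : Set ↥N) from by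
          rw [← Subgroup.mul_normal]
          have hle : Cfsg.pPrimePCore p ↥N ≤ Cfsg.pPrimeCore p ↥N ⊔ Dn := by
            refine (map_le_map_iff_of_injective N.subtype_injective).1 ?_
            rw [Subgroup.map_sup, map_subgroupOf_eq_of_le hDN]
            exact hdp.2.2.2.2.ge
          exact hle hk)
        have hOP : (O : G) ∈ (P : Subgroup G) := by
          have hc1 : (k : G) ∈ (P : Subgroup G) := hc.1
          rw [← hke] at hc1
          simpa using (P : Subgroup G).mul_mem hc1 ((P : Subgroup G).inv_mem (hD.1 hd))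
        have hO1 : O = 1 := by
          obtain ⟨m, hm⟩ := IsPGroup.iff_card.1 P.isPGroup'
          refine orderOf_eq_one_iff.1 (Nat.eq_one_of_dvd_coprimes
            ((Cfsg.Lib.Transfer.coprime_card_pPrimeCore (G := ↥N) p).pow_right m)
            (orderOf_dvd_natCard _ hO) ?_)
          rw [← Subgroup.orderOf_coe, ← hm]
          exact orderOf_dvd_natCard _ hOP
        show (k : G) ∈ D
        rw [← hke, hO1]
        show ((1 * d : ↥N) : G) ∈ D
        rw [one_mul]
        exact hd
      · refine le_antisymm ?_ (sup_le ?_ hCK)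
        · rw [← hdp.2.2.2.2]
          exact sup_le (fun c hc => mem_sup_right (mem_centralizer_iff.2 fun d hd => (hdp.2.2.1 c hc d hd).symm))
            le_sup_left
        · exact hdp.2.1
      · rw [← map_subgroupOf_eq_of_le hDN, hXdef, relIndex_map_map_of_injective _ _ N.subtype_injective,
          ← hrel, map_comap_eq_self_of_surjective hf]
        exact hXp
      · intro Y hDY hYN hYn hpY
        have hYp : p ∣ Nat.card ↥((Y.subgroupOf N).map f) := by
          rw [hrel, hDn, relIndex_subgroupOf hYN]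
          exact hpY
        haveI := hYn.map f hf
        haveI := hXn
        have hle : Xb ≤ (Y.subgroupOf N).map f :=
          (hXmin ⟨normal_inf_normal _ _, Cfsg.Lib.PLocal.StrongEmb.dvd_inter_of_not_connected hconn _ _ hXp hYp⟩
            inf_le_left).trans inf_le_right
        rintro _ ⟨a, ha, rfl⟩
        obtain ⟨b, hb, hbe⟩ := hle ha
        have : b⁻¹ * a ∈ Dn := QuotientGroup.eq.1 hbe
        simpa using Y.mul_mem hb (hDY this)
    -- Frattini argument
    have hidx' : ¬ p ∣ ((S : Subgroup ↥N).subgroupOf Xn).index := fun h =>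
      S.not_dvd_index (dvd_trans h (Cfsg.Lib.Transfer.relIndex_dvd_index_of_normal_right _ Xn))
    let T : Sylow p ↥Xn :=
      (S.isPGroup'.comap_of_injective Xn.subtype Subtype.val_injective).toSylow hidx'
    have hT : (T : Subgroup ↥Xn).map Xn.subtype = (S : Subgroup ↥N) ⊓ Xn := subgroupOf_map_subtype _ _
    set Rn := (S : Subgroup ↥N) ⊓ Xn with hRn
    have hDR : Dn < Rn := by
      refine lt_of_le_of_ne (le_inf hDnS hDnX) fun e => hidx' ?_
      show p ∣ (S : Subgroup ↥N).relIndex Xn
      rw [← inf_relIndex_right, ← hRn, ← e, ← hrel, map_comap_eq_self_of_surjective hf]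
      exact hXp
    have htop := Sylow.normalizer_sup_eq_top T
    rw [hT, sup_comm] at htop
    obtain ⟨r, hr, y, hy, hxy⟩ := mem_sup_of_normal_left.1
      (htop.symm ▸ mem_top (⟨x, hx⟩ : ↥N))
    haveI := Cfsg.Lib.Transfer.pResidual_normal (G := ↥Xn) p
    obtain ⟨z, hz, s, hs, hzs⟩ := mem_sup_of_normal_left.1
      ((Cfsg.Lib.Transfer.pResidual_sup_sylow T).symm ▸ mem_top (⟨r, hr⟩ : ↥Xn))
    have hzX : ((z : ↥N) : G) ∈ (Cfsg.pResidual p ↥X).map X.subtype := by
      rw [residual_map]
      have h := mem_map_of_mem (N.subtype.comp Xn.subtype) hz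
      rw [Cfsg.pResidual, MonoidHom.map_closure] at h
      refine closure_mono ?_ h
      rintro _ ⟨a, ha, rfl⟩
      refine ⟨⟨(a : ↥N), a.2, rfl⟩, ?_⟩
      show (orderOf ((a : ↥N) : G)).Coprime p
      rwa [Subgroup.orderOf_coe, Subgroup.orderOf_coe]
    have hsR : (s : ↥N) ∈ Rn := hT ▸ mem_map_of_mem Xn.subtype hs
    have hdec : Dec P (D : Set G) ((((s : ↥N) * y : ↥N)) : G) := by
      refine gen (Rn.map N.subtype) ?_ ?_ _ ?_
      · rintro _ ⟨a, ha, rfl⟩; exact ha.1
      · have h := (map_lt_map_iff_of_injective N.subtype_injective).2 hDR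
        rwa [map_subgroupOf_eq_of_le hDN] at h
      · rintro _ ⟨_, ⟨a, ha, rfl⟩, rfl⟩
        have hmem : (s : ↥N) * y ∈ normalizer (Rn : Set ↥N) := mul_mem (le_normalizer hsR) hy
        exact ((mem_normalizer_iff''.1 hmem a).1 ha).1
    have e : x = ((z : ↥N) : G) * (((s : ↥N) * y : ↥N) : G) := by
      have h1 := congrArg (fun a : ↥N => (a : G)) hxy
      have h2 := congrArg (fun a : ↥Xn => ((a : ↥N) : G)) hzs
      simp only [Subgroup.coe_mul] at h1 h2 ⊢
      rw [← mul_assoc, h2, h1]
    rw [e]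
    refine .cons D _ (hstrong _ hzX) subset_rfl ?_
    rw [mem_normalizer_of_conjR (z : ↥N).2]
    exact hdec.chain

/-- The strong Alperin–Goldschmidt theorem. -/
theorem decompose (P : Sylow p G) {A : Set G} {g : G} (hA : A ⊆ (P : Set G))
    (hg : conjR g A ⊆ (P : Set G)) : SChain P A g := by
  refine Dec.chain ?_
  have h := alperin P hA hg
  clear hA hg
  induction h with
  | nil A => exact Dec.one A
  | @cons A g Q z htame hz _ hA _ ih =>
    refine Dec.trans (fun y hy => ?_) ih
    have hPy : conjR y⁻¹ ((P : Subgroup G) : Set G) = (P : Subgroup G) :=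
      mem_normalizer_of_conjR (inv_mem hy)
    set D := (P : Subgroup G) ⊓ (Q : Subgroup G)
    refine SChain.mono ?_ (conjR_mono _ hA)
    rw [conjR_coe]
    have hN : normalizer ((D.map (MulAut.conj y).toMonoidHom : Subgroup G) : Set G) =
        (normalizer (D : Set G)).map (MulAut.conj y).toMonoidHom :=
      (map_equiv_normalizer_eq D (MulAut.conj y)).symm
    have hPy' : (P : Subgroup G).map (MulAut.conj y).toMonoidHom = P :=
      SetLike.coe_injective ((conjR_coe _ y).symm.trans hPy)
    refine tame_dec P _ ⟨(map_mono inf_le_left).trans hPy'.le, ?_⟩ _ (hN ▸ ⟨z, hz, rfl⟩)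
    rw [hN]
    conv => arg 1; arg 2; arg 1; arg 1; rw [← hPy']
    rw [← map_inf _ _ _ (MulAut.conj y).injective,
      relIndex_map_map_of_injective _ _ (MulAut.conj y).injective]
    exact htame.1

omit [Finite G] in
theorem SChain.exists_list {A : Set G} {g : G} (h : SChain P A g) :
    ∃ (n : ℕ) (H : Fin n → Subgroup G) (x : Fin n → G) (c y : G),
      c ∈ centralizer A ∧ y ∈ normalizer ((P : Subgroup G) : Set G) ∧
      g = c * (List.ofFn x).prod * y ∧
      ∀ i : Fin n, Strong P (H i) (x i) ∧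
        conjR (((List.ofFn x).take i.val).prod) A ⊆ (H i : Set G) := by
  induction h with
  | @nil A c y hc hy =>
    exact ⟨0, Fin.elim0, Fin.elim0, c, y, hc, hy, by simp, fun i => i.elim0⟩
  | @cons A g D x hD hA _ ih =>
    obtain ⟨n, E, u, c, y, hc, hy, he, hall⟩ := ih
    refine ⟨n + 1, Fin.cons D E, Fin.cons x u, x * c * x⁻¹, y, ?_, hy, ?_, fun i => ?_⟩
    · rw [mem_centralizer_iff]
      intro a ha
      have h := mem_centralizer_iff.1 hc _ ⟨a, ha, rfl⟩
      calc a * (x * c * x⁻¹) = x * (x⁻¹ * a * x * c) * x⁻¹ := by group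
        _ = x * (c * (x⁻¹ * a * x)) * x⁻¹ := by rw [h]
        _ = x * c * x⁻¹ * a := by group
    · rw [List.ofFn_cons, List.prod_cons, he]
      group
    · induction i using Fin.cases with
      | zero => simpa [conjR_one] using And.intro hD hA
      | succ j =>
        refine ⟨by simpa using (hall j).1, ?_⟩
        rw [Fin.val_succ, List.ofFn_cons, List.take_succ_cons, List.prod_cons, conjR_mul, Fin.cons_succ]
        exact (hall j).2

/-- S3072. -/
theorem strong_alperin (P : Sylow p G) (A : Set G) (hA : A ⊆ (P : Set G)) (g : G)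
    (hAg : (fun a => g⁻¹ * a * g) '' A ⊆ (P : Set G)) :
    ∃ (n : ℕ) (H X : Fin n → Subgroup G) (x : Fin n → G) (c y : G),
      c ∈ centralizer A ∧ y ∈ normalizer ((P : Subgroup G) : Set G) ∧
      g = c * (List.ofFn x).prod * y ∧
      ∀ i : Fin n,
        H i ≤ (P : Subgroup G) ∧
        ¬ p ∣ ((P : Subgroup G) ⊓ normalizer (H i : Set G)).relIndex (normalizer (H i : Set G)) ∧
        (P : Subgroup G) ⊓ centralizer (H i : Set G) ≤ H i ∧
        (Cfsg.pPrimePCore p ↥(normalizer (H i : Set G))).map (normalizer (H i : Set G)).subtype =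
          H i ⊔ centralizer (H i : Set G) ∧
        ¬ Cfsg.IsSylowChainConnected p
            (↥(normalizer (H i : Set G)) ⧸ (H i).subgroupOf (normalizer (H i : Set G))) ∧
        (H i ≤ X i ∧ X i ≤ normalizer (H i : Set G) ∧
          ((X i).subgroupOf (normalizer (H i : Set G))).Normal ∧ p ∣ (H i).relIndex (X i) ∧
          ∀ Y : Subgroup G, H i ≤ Y → Y ≤ normalizer (H i : Set G) →
            (Y.subgroupOf (normalizer (H i : Set G))).Normal → p ∣ (H i).relIndex Y → X i ≤ Y) ∧
        x i ∈ (Cfsg.pResidual p ↥(X i)).map (X i).subtype ∧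
        (fun a => (((List.ofFn x).take i.val).prod)⁻¹ * a * ((List.ofFn x).take i.val).prod) '' A ⊆
          (H i : Set G) := by
  obtain ⟨n, H, x, c, y, hc, hy, he, hall⟩ := (decompose P hA hAg).exists_list
  choose hS hsub using hall
  choose X hX hx using fun i => (hS i).2.2.2.2.2
  exact ⟨n, H, X, x, c, y, hc, hy, he, fun i => ⟨(hS i).1, (hS i).2.1, (hS i).2.2.1, (hS i).2.2.2.1,
    (hS i).2.2.2.2.1, hX i, hx i, hsub i⟩⟩

end

end Cfsg.Lib.StrongAlperin
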