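import Mathlib
import Cfsg.Agent.Lib.PLocal.PIrreducible

/-!
# Casolo's formula for the subnormalizer of a `p`-subgroup
-/

set_option autoImplicit false
set_option linter.style.haveILetI false

namespace Cfsg.Lib.Subnormalizer

open Subgroup
open scoped Pointwise

variable {G : Type*} [Group G] [Finite G] (p : ℕ)

open Classical in
/-- the `g`-invariant `p`-subgroups of `L` satisfying `Q` -/
noncomputable def inv' (L : Subgroup G) (g : G) (Q : Subgroup G → Prop) : Finset (Subgroup G) :=
  (Set.toFinite {C : Subgroup G | IsPGroup p C ∧ C ≤ L ∧ g ∈ normalizer (C : Set G) ∧ Q C}).toFinset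

theorem mem_inv' {L : Subgroup G} {g : G} {Q : Subgroup G → Prop} {C : Subgroup G} :
    C ∈ inv' p L g Q ↔ IsPGroup p C ∧ C ≤ L ∧ g ∈ normalizer (C : Set G) ∧ Q C := by
  simp [inv']

theorem card_lt_of_lt {A B : Subgroup G} (h : A < B) : Nat.card A < Nat.card B :=
  lt_of_not_ge fun hle => h.ne (eq_of_le_of_card_ge h.le hle)

/-- Möbius function of the poset of `g`-invariant `p`-subgroups, to the top -/
noncomputable def mu (L : Subgroup G) (g : G) (B : Subgroup G) : ℤ :=
  1 - ∑ C ∈ (inv' p L g (fun C => B < C)).attach, mu L g C.1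
termination_by Nat.card G - Nat.card B
decreasing_by
  have h := ((mem_inv' p).mp C.2).2.2.2
  have h1 := card_lt_of_lt h
  have h2 := Subgroup.card_le_card_group C.1
  omega

theorem mu_eq (L : Subgroup G) (g : G) (B : Subgroup G) :
    mu p L g B = 1 - ∑ C ∈ inv' p L g (fun C => B < C), mu p L g C := by
  rw [mu, Finset.sum_attach (inv' p L g (fun C => B < C)) (fun C => mu p L g C)]

theorem sum_above {L : Subgroup G} {g : G} {A : Subgroup G} (hA : IsPGroup p A) (hAL : A ≤ L)
    (hg : g ∈ normalizer (A : Set G)) : ∑ C ∈ inv' p L g (fun C => A ≤ C), mu p L g C = 1 := by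
  classical
  have h : inv' p L g (fun C => A ≤ C) = insert A (inv' p L g (fun C => A < C)) := by
    ext C
    simp only [Finset.mem_insert, mem_inv']
    constructor
    · rintro ⟨h1, h2, h3, h4⟩
      rcases h4.eq_or_lt with h5 | h5
      · exact Or.inl h5.symm
      · exact Or.inr ⟨h1, h2, h3, h5⟩
    · rintro (rfl | ⟨h1, h2, h3, h4⟩)
      · exact ⟨hA, hAL, hg, le_rfl⟩
      · exact ⟨h1, h2, h3, h4.le⟩
  rw [h, Finset.sum_insert (fun hm => lt_irrefl A ((mem_inv' p).mp hm).2.2.2), mu_eq p L g A]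
  ring

open Classical in
theorem sum_indicator (L H : Subgroup G) (g : G) :
    ∑ C ∈ inv' p L g (fun C => H ≤ C), mu p L g C
      = if ∃ C : Subgroup G, IsPGroup p C ∧ C ≤ L ∧ g ∈ normalizer (C : Set G) ∧ H ≤ C then 1 else 0 := by
  by_cases hex : ∃ C : Subgroup G, IsPGroup p C ∧ C ≤ L ∧ g ∈ normalizer (C : Set G) ∧ H ≤ C
  · rw [if_pos hex]
    obtain ⟨C₀, hC₀⟩ := hex
    set R : Subgroup G := sInf {C : Subgroup G | g ∈ normalizer (C : Set G) ∧ H ≤ C} with hR
    have hRle : R ≤ C₀ := sInf_le ⟨hC₀.2.2.1, hC₀.2.2.2⟩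
    have hHR : H ≤ R := le_sInf fun C hC => hC.2
    have hgR : g ∈ normalizer (R : Set G) := by
      rw [mem_normalizer_iff]
      intro x
      simp only [hR, Subgroup.mem_sInf, Set.mem_setOf_eq]
      exact ⟨fun h C hC => (mem_normalizer_iff.mp hC.1 x).mp (h C hC),
        fun h C hC => (mem_normalizer_iff.mp hC.1 x).mpr (h C hC)⟩
    rw [show inv' p L g (fun C => H ≤ C) = inv' p L g (fun C => R ≤ C) from ?_]
    · exact sum_above p (hC₀.1.to_le hRle) (hRle.trans hC₀.2.1) hgR
    · ext C
      simp only [mem_inv']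
      exact ⟨fun ⟨h1, h2, h3, h4⟩ => ⟨h1, h2, h3, sInf_le ⟨h3, h4⟩⟩,
        fun ⟨h1, h2, h3, h4⟩ => ⟨h1, h2, h3, hHR.trans h4⟩⟩
  · rw [if_neg hex]
    refine Finset.sum_eq_zero fun C hC => absurd ⟨C, (mem_inv' p).mp hC⟩ hex

variable [hp : Fact p.Prime]

theorem grow {B C : Subgroup G} (hC : IsPGroup p C) (hlt : B < C) : B < C ⊓ normalizer (B : Set G) := by
  haveI := hC.isNilpotent
  have h1 : B.subgroupOf C < ⊤ := lt_top_iff_ne_top.mpr fun h => hlt.not_ge (subgroupOf_eq_top.mp h)
  have h2 := Group.normalizerCondition_of_isNilpotent (B.subgroupOf C) h1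
  obtain ⟨x, hx, hxB⟩ := SetLike.exists_of_lt h2
  refine lt_of_le_of_ne (le_inf hlt.le le_normalizer) fun h => hxB ?_
  rw [mem_subgroupOf, h]
  refine ⟨x.2, ?_⟩
  show (x : G) ∈ normalizer (B : Set G)
  rw [mem_normalizer_iff] at hx ⊢
  intro y
  constructor
  · intro hy
    exact mem_subgroupOf.mp ((hx ⟨y, hlt.le hy⟩).mp hy)
  · intro hy
    have hyC : y ∈ C := by
      have := C.mul_mem (C.mul_mem (C.inv_mem x.2) (hlt.le hy)) x.2
      simpa [mul_assoc] using this
    exact mem_subgroupOf.mp ((hx ⟨y, hyC⟩).mpr hy)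

/-- `mu` is computed in the normalizer -/
theorem mu_local {L B : Subgroup G} {g : G} (hB : IsPGroup p B) (hBL : B ≤ L)
    (hgB : g ∈ normalizer (B : Set G)) :
    mu p (L ⊓ normalizer (B : Set G)) g B = mu p L g B := by
  classical
  set N := L ⊓ normalizer (B : Set G) with hN
  let f : Subgroup G → ℤ := fun A =>
    ∑ C ∈ (inv' p L g (fun C => B ≤ C)).filter (fun C => C ⊓ normalizer (B : Set G) = A), mu p L g C
  have key : ∀ d : ℕ, ∀ A : Subgroup G, IsPGroup p A → B ≤ A → A ≤ N → g ∈ normalizer (A : Set G) →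
      Nat.card G - Nat.card A ≤ d → f A = mu p N g A := by
    intro d
    induction d using Nat.strong_induction_on with
    | _ d ih =>
      intro A hA hBA hAN hgA hd
      have hset : inv' p L g (fun C => A ≤ C)
          = (inv' p L g (fun C => B ≤ C)).filter (fun C => A ≤ C ⊓ normalizer (B : Set G)) := by
        ext C
        simp only [Finset.mem_filter, mem_inv', le_inf_iff]
        exact ⟨fun ⟨h1, h2, h3, h4⟩ => ⟨⟨h1, h2, h3, hBA.trans h4⟩, h4, hAN.trans inf_le_right⟩,
          fun ⟨⟨h1, h2, h3, _⟩, h4, _⟩ => ⟨h1, h2, h3, h4⟩⟩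
      have h1 := sum_above p hA (hAN.trans inf_le_left) hgA
      rw [hset, ← Finset.sum_fiberwise_of_maps_to
        (g := fun C => C ⊓ normalizer (B : Set G)) (t := inv' p N g (fun C => A ≤ C)) ?_] at h1
      · have h2 : ∀ A' ∈ inv' p N g (fun C => A ≤ C),
            (∑ C ∈ ((inv' p L g (fun C => B ≤ C)).filter (fun C => A ≤ C ⊓ normalizer (B : Set G))).filter
              (fun C => C ⊓ normalizer (B : Set G) = A'), mu p L g C) = f A' := by
          intro A' hA'
          refine Finset.sum_congr ?_ fun _ _ => rfl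
          ext C
          simp only [Finset.mem_filter]
          exact ⟨fun h => ⟨h.1.1, h.2⟩, fun h => ⟨⟨h.1, h.2 ▸ ((mem_inv' p).mp hA').2.2.2⟩, h.2⟩⟩
        rw [Finset.sum_congr rfl h2] at h1
        have h3 : inv' p N g (fun C => A ≤ C) = insert A (inv' p N g (fun C => A < C)) := by
          ext C
          simp only [Finset.mem_insert, mem_inv']
          constructor
          · rintro ⟨h1, h2, h3, h4⟩
            rcases h4.eq_or_lt with h5 | h5
            · exact Or.inl h5.symm
            · exact Or.inr ⟨h1, h2, h3, h5⟩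
          · rintro (rfl | ⟨h1, h2, h3, h4⟩)
            · exact ⟨hA, hAN, hgA, le_rfl⟩
            · exact ⟨h1, h2, h3, h4.le⟩
        rw [h3, Finset.sum_insert (fun hm => lt_irrefl A ((mem_inv' p).mp hm).2.2.2)] at h1
        rw [mu_eq p N g A, Finset.sum_congr rfl fun A' hA' => (?_ : mu p N g A' = f A')]
        · linarith
        · obtain ⟨a1, a2, a3, a4⟩ := (mem_inv' p).mp hA'
          have hc := card_lt_of_lt a4
          have hG := Subgroup.card_le_card_group A'
          exact (ih (Nat.card G - Nat.card A') (by omega) A' a1 (hBA.trans a4.le) a2 a3 le_rfl).symm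
      · intro C hC
        obtain ⟨hC1, hC2⟩ := Finset.mem_filter.mp hC
        obtain ⟨a1, a2, a3, -⟩ := (mem_inv' p).mp hC1
        refine (mem_inv' p).mpr ⟨a1.to_le inf_le_left, inf_le_inf_right _ a2, ?_, hC2⟩
        rw [mem_normalizer_iff]
        intro x
        exact and_congr (mem_normalizer_iff.mp a3 x)
          ((normalizer (B : Set G)).mul_mem_cancel_right ((normalizer (B : Set G)).inv_mem hgB) |>.trans
            ((normalizer (B : Set G)).mul_mem_cancel_left hgB)).symm
  rw [← key _ B hB le_rfl (le_inf hBL le_normalizer) hgB le_rfl]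
  show f B = _
  have : (inv' p L g (fun C => B ≤ C)).filter (fun C => C ⊓ normalizer (B : Set G) = B) = {B} := by
    ext C
    simp only [Finset.mem_filter, mem_inv', Finset.mem_singleton]
    constructor
    · rintro ⟨⟨h1, -, -, h4⟩, h5⟩
      by_contra hne
      exact (grow p h1 (lt_of_le_of_ne h4 (Ne.symm hne))).ne h5.symm
    · rintro rfl
      exact ⟨⟨hB, hBL, hgB, le_rfl⟩, inf_eq_left.mpr le_normalizer⟩
  simp only [f, this, Finset.sum_singleton]

open Classical in
/-- the total weight of `B` in `L` -/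
noncomputable def weight (L B : Subgroup G) : ℤ :=
  ∑ g ∈ (Set.toFinite {g : G | g ∈ L ⊓ normalizer (B : Set G)}).toFinset, mu p L g B

open Classical in
/-- `p`-subgroups of `L` over `H` -/
noncomputable def over' (L H : Subgroup G) : Finset (Subgroup G) :=
  (Set.toFinite {C : Subgroup G | IsPGroup p C ∧ C ≤ L ∧ H ≤ C}).toFinset

theorem mem_over' {L H C : Subgroup G} : C ∈ over' p L H ↔ IsPGroup p C ∧ C ≤ L ∧ H ≤ C := by
  simp [over']

theorem count (L H : Subgroup G) :
    (Nat.card {g : G // g ∈ L ∧ ∃ C : Subgroup G, IsPGroup p C ∧ C ≤ L ∧ g ∈ normalizer (C : Set G) ∧ H ≤ C} : ℤ)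
      = ∑ C ∈ over' p L H, weight p L C := by
  classical
  haveI := Fintype.ofFinite G
  have h1 : ∑ g ∈ Finset.univ.filter (fun g : G => g ∈ L), ∑ C ∈ inv' p L g (fun C => H ≤ C), mu p L g C
      = ∑ C ∈ over' p L H, weight p L C := by
    refine Finset.sum_comm' fun g C => ?_
    simp only [Finset.mem_filter, Finset.mem_univ, true_and, mem_inv', mem_over', Set.Finite.mem_toFinset,
      Set.mem_setOf_eq, Subgroup.mem_inf]
    tauto
  rw [← h1, Finset.sum_congr rfl fun g _ => sum_indicator p L H g, Nat.card_eq_fintype_card, Fintype.card_subtype,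
    ← Finset.filter_filter, Finset.natCast_card_filter]
  exact Finset.sum_congr (by ext; simp) fun _ _ => by congr

/-- maximal `p`-subgroup of `L` -/
def IsMax (L C : Subgroup G) : Prop :=
  ∀ D : Subgroup G, IsPGroup p D → C ≤ D → D ≤ L → D = C

theorem sylow_isMax {L : Subgroup G} (Q : Sylow p L) : IsMax p L ((Q : Subgroup L).map L.subtype) := by
  intro D hD hle hDL
  have h1 : (Q : Subgroup L) ≤ D.subgroupOf L := fun x hx => hle (mem_map_of_mem _ hx)
  rw [← Q.is_maximal' hD.comap_subtype h1, Subgroup.map_comap_eq, range_subtype, inf_eq_right.mpr hDL]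

theorem isMax_sylow {L C : Subgroup G} (hC : IsPGroup p C) (hCL : C ≤ L) (hm : IsMax p L C) :
    ∃ Q : Sylow p L, (Q : Subgroup L).map L.subtype = C := by
  obtain ⟨Q, hQ⟩ := (hC.comap_subtype (K := L)).exists_le_sylow
  refine ⟨Q, hm _ (Q.isPGroup'.map _) (fun x hx => ⟨⟨x, hCL hx⟩, hQ hx, rfl⟩) ?_⟩
  rintro _ ⟨x, -, rfl⟩
  exact x.2

/-- the `L`-normalizer of a Sylow subgroup -/
theorem card_sylow_normalizer {L : Subgroup G} (Q : Sylow p L) :
    Nat.card (Sylow p L) * Nat.card ↥(L ⊓ normalizer (((Q : Subgroup L).map L.subtype : Subgroup G) : Set G))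
      = Nat.card L := by
  have h : (normalizer ((Q : Subgroup L) : Set L)).map L.subtype
      = L ⊓ normalizer (((Q : Subgroup L).map L.subtype : Subgroup G) : Set G) := by
    ext x
    constructor
    · rintro ⟨y, hy, rfl⟩
      refine ⟨y.2, ?_⟩
      show (y : G) ∈ normalizer (((Q : Subgroup L).map L.subtype : Subgroup G) : Set G)
      rw [mem_normalizer_iff]
      intro z
      constructor
      · rintro ⟨w, hw, rfl⟩
        exact ⟨y * w * y⁻¹, (mem_normalizer_iff.mp hy w).mp hw, rfl⟩
      · rintro ⟨w, hw, hwz⟩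
        refine ⟨y⁻¹ * w * y, (mem_normalizer_iff.mp hy _).mpr ?_, ?_⟩
        · have : y * (y⁻¹ * w * y) * y⁻¹ = w := by group
          rw [this]; exact hw
        · simp only [coe_subtype, Subgroup.coe_mul, Subgroup.coe_inv] at hwz ⊢
          rw [hwz]; group
    · rintro ⟨hxL, hx⟩
      refine ⟨⟨x, hxL⟩, mem_normalizer_iff.mpr fun w => ?_, rfl⟩
      have h1 := mem_normalizer_iff.mp hx (L.subtype w)
      have h2 : x * L.subtype w * x⁻¹ = L.subtype (⟨x, hxL⟩ * w * ⟨x, hxL⟩⁻¹) := rfl
      rw [h2, mem_map_iff_mem L.subtype_injective, mem_map_iff_mem L.subtype_injective] at h1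
      exact h1
  rw [← h, Nat.card_congr ((normalizer ((Q : Subgroup L) : Set L)).equivMapOfInjective _ L.subtype_injective).symm.toEquiv,
    Q.card_eq_index_normalizer, mul_comm]
  exact card_mul_index _

open Classical in
theorem weight_local {L B : Subgroup G} (hB : IsPGroup p B) (hBL : B ≤ L) :
    weight p (L ⊓ normalizer (B : Set G)) B = weight p L B := by
  unfold weight
  refine Finset.sum_congr ?_ fun g hg => ?_
  · ext g; simp
  · simp only [Set.Finite.mem_toFinset, Set.mem_setOf_eq, Subgroup.mem_inf] at hg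
    exact mu_local p hB hBL hg.2

open Classical in
theorem weight_eq : ∀ (d : ℕ) (L B : Subgroup G), IsPGroup p B → B ≤ L →
    L ≤ normalizer (B : Set G) → Nat.card L - Nat.card B ≤ d →
    weight p L B = if IsMax p L B then (Nat.card L : ℤ) else 0 := by
  intro d
  induction d using Nat.strong_induction_on with
  | _ d ih =>
    intro L B hB hBL hLN hd
    haveI := Fintype.ofFinite G
    have hall : Nat.card {g : G // g ∈ L ∧ ∃ C : Subgroup G, IsPGroup p C ∧ C ≤ L ∧ g ∈ normalizer (C : Set G) ∧ B ≤ C}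
        = Nat.card L :=
      Nat.card_congr ⟨fun g => ⟨g.1, g.2.1⟩, fun g => ⟨g.1, g.2, B, hB, hBL, hLN g.2, le_rfl⟩,
        fun g => rfl, fun g => rfl⟩
    have hc := count p L B
    rw [hall, ← Finset.add_sum_erase _ _ ((mem_over' p).mpr ⟨hB, hBL, le_rfl⟩)] at hc
    have hrest : ∀ C ∈ (over' p L B).erase B,
        weight p L C = if IsMax p L C then (Nat.card ↥(L ⊓ normalizer (C : Set G)) : ℤ) else 0 := by
      intro C hC
      obtain ⟨hne, hC'⟩ := Finset.mem_erase.mp hC
      obtain ⟨hCp, hCL, hBC⟩ := (mem_over' p).mp hC'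
      rw [← weight_local p hCp hCL]
      have hlt := card_lt_of_lt (lt_of_le_of_ne hBC (Ne.symm hne))
      have hle1 : Nat.card ↥(L ⊓ normalizer (C : Set G)) ≤ Nat.card L := Subgroup.card_le_of_le inf_le_left
      have hle2 : Nat.card C ≤ Nat.card L := Subgroup.card_le_of_le hCL
      rw [ih (Nat.card ↥(L ⊓ normalizer (C : Set G)) - Nat.card C) (by omega) _ C hCp
        (le_inf hCL le_normalizer) inf_le_right le_rfl]
      have hiff : IsMax p (L ⊓ normalizer (C : Set G)) C ↔ IsMax p L C := by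
        constructor
        · intro h D hD hCD hDL
          by_contra hne'
          exact (grow p hD (lt_of_le_of_ne hCD (Ne.symm hne'))).ne
            (h _ (hD.to_le inf_le_left) (le_inf hCD le_normalizer) (inf_le_inf_right _ hDL)).symm
        · intro h D hD hCD hDN
          exact h D hD hCD (hDN.trans inf_le_left)
      simp only [hiff]
    rw [Finset.sum_congr rfl hrest, ← Finset.sum_filter] at hc
    by_cases hmax : IsMax p L B
    · rw [if_pos hmax]
      have hempty : ((over' p L B).erase B).filter (fun C => IsMax p L C) = ∅ := by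
        refine Finset.filter_eq_empty_iff.mpr fun C hC _ => ?_
        obtain ⟨hne, hC'⟩ := Finset.mem_erase.mp hC
        obtain ⟨hCp, hCL, hBC⟩ := (mem_over' p).mp hC'
        exact hne (hmax C hCp hBC hCL)
      rw [hempty, Finset.sum_empty, add_zero] at hc
      exact hc.symm
    · rw [if_neg hmax]
      haveI := Fintype.ofFinite (Sylow p L)
      have hmem : ∀ Q : Sylow p L,
          (Q : Subgroup L).map L.subtype ∈ ((over' p L B).erase B).filter (fun C => IsMax p L C) := by
        intro Q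
        have hQp : IsPGroup p ((Q : Subgroup L).map L.subtype) := Q.isPGroup'.map _
        have hQL : (Q : Subgroup L).map L.subtype ≤ L := by
          rintro _ ⟨x, -, rfl⟩; exact x.2
        have hsup : IsPGroup p ↥((Q : Subgroup L).map L.subtype ⊔ B) :=
          IsPGroup.to_sup_of_normal_right' hQp hB (hQL.trans hLN)
        have hBQ : B ≤ (Q : Subgroup L).map L.subtype :=
          (sylow_isMax p Q _ hsup le_sup_left (sup_le hQL hBL)) ▸ le_sup_right
        refine Finset.mem_filter.mpr ⟨Finset.mem_erase.mpr ⟨fun h => hmax (h ▸ sylow_isMax p Q), ?_⟩,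
          sylow_isMax p Q⟩
        exact (mem_over' p).mpr ⟨hQp, hQL, hBQ⟩
      have hsum : ∑ C ∈ ((over' p L B).erase B).filter (fun C => IsMax p L C),
          (Nat.card ↥(L ⊓ normalizer (C : Set G)) : ℤ)
          = ∑ Q : Sylow p L, (Nat.card ↥(L ⊓ normalizer (((Q : Subgroup L).map L.subtype : Subgroup G) : Set G)) : ℤ) := by
        symm
        refine Finset.sum_bij (fun Q _ => (Q : Subgroup L).map L.subtype) (fun Q _ => hmem Q)
          (fun Q _ Q' _ h => Sylow.ext (map_injective L.subtype_injective h)) (fun C hC => ?_)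
          (fun Q _ => rfl)
        obtain ⟨hC1, hC2⟩ := Finset.mem_filter.mp hC
        obtain ⟨hCp, hCL, -⟩ := (mem_over' p).mp (Finset.mem_erase.mp hC1).2
        obtain ⟨Q, hQ⟩ := isMax_sylow p hCp hCL hC2
        exact ⟨Q, Finset.mem_univ _, hQ⟩
      obtain ⟨Q₀⟩ := (inferInstance : Nonempty (Sylow p L))
      have hconst : ∀ Q : Sylow p L,
          Nat.card ↥(L ⊓ normalizer (((Q : Subgroup L).map L.subtype : Subgroup G) : Set G))
            = Nat.card ↥(L ⊓ normalizer (((Q₀ : Subgroup L).map L.subtype : Subgroup G) : Set G)) := fun Q =>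
        Nat.eq_of_mul_eq_mul_left Nat.card_pos
          ((card_sylow_normalizer p Q).trans (card_sylow_normalizer p Q₀).symm)
      rw [hsum, Finset.sum_congr rfl fun Q _ => by rw [hconst Q], Finset.sum_const, Finset.card_univ,
        ← Nat.card_eq_fintype_card, nsmul_eq_mul, ← Nat.cast_mul, card_sylow_normalizer p Q₀] at hc
      linarith

/-- `H` is subnormal in `⟨H, g⟩` iff `g` normalizes a `p`-subgroup over `H` -/
theorem mem_iff {H : Subgroup G} (hH : IsPGroup p H) (g : G) :
    (H.subgroupOf (H ⊔ zpowers g)).IsSubnormal ↔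
      ∃ C : Subgroup G, IsPGroup p C ∧ g ∈ normalizer (C : Set G) ∧ H ≤ C := by
  constructor
  · intro hs
    set K := H ⊔ zpowers g with hK
    have h1 : H.subgroupOf K ≤ Cfsg.pCore p K := PLocal.PIrr.subnormal_le_pCore hs hH.comap_subtype
    haveI := Transfer.pCore_normal (G := K) p
    refine ⟨(Cfsg.pCore p K).map K.subtype, (Solv.isPGroup_pCore p).map _, ?_,
      fun x hx => ⟨⟨x, mem_sup_left hx⟩, h1 hx, rfl⟩⟩
    have hgK : g ∈ K := mem_sup_right (mem_zpowers g)
    rw [mem_normalizer_iff]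
    intro z
    constructor
    · rintro ⟨w, hw, rfl⟩
      exact ⟨⟨g, hgK⟩ * w * ⟨g, hgK⟩⁻¹, (inferInstance : (Cfsg.pCore p K).Normal).conj_mem w hw _, rfl⟩
    · rintro ⟨w, hw, hwz⟩
      refine ⟨⟨g, hgK⟩⁻¹ * w * ⟨g, hgK⟩, (inferInstance : (Cfsg.pCore p K).Normal).conj_mem' w hw _, ?_⟩
      simp only [coe_subtype, Subgroup.coe_mul, Subgroup.coe_inv] at hwz ⊢
      rw [hwz]; group
  · rintro ⟨C, hC, hg, hHC⟩
    set K := H ⊔ zpowers g with hK
    have hKN : K ≤ normalizer (C : Set G) := sup_le (hHC.trans le_normalizer) (zpowers_le.mpr hg)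
    haveI : (C.subgroupOf K).Normal := normal_subgroupOf_of_le_normalizer hKN
    haveI : Group.IsNilpotent (C.subgroupOf K) := (hC.comap_subtype (K := K)).isNilpotent
    exact Subgroup.IsSubnormal.trans (show H.subgroupOf K ≤ C.subgroupOf K from comap_mono hHC)
      (Solv.isSubnormal_of_nilpotent _) (Normal.isSubnormal inferInstance)

/-- Casolo's formula. -/
theorem formula {H : Subgroup G} (hH : IsPGroup p H) (P : Sylow p G) :
    Nat.card {g : G // (H.subgroupOf (H ⊔ zpowers g)).IsSubnormal}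
      = Nat.card {Q : Sylow p G // H ≤ (Q : Subgroup G)}
          * Nat.card (normalizer ((P : Subgroup G) : Set G)) := by
  classical
  haveI := Fintype.ofFinite G
  have hset : Nat.card {g : G // (H.subgroupOf (H ⊔ zpowers g)).IsSubnormal}
      = Nat.card {g : G // g ∈ (⊤ : Subgroup G) ∧ ∃ C : Subgroup G, IsPGroup p C ∧ C ≤ ⊤ ∧ g ∈ normalizer (C : Set G) ∧ H ≤ C} :=
    Nat.card_congr (Equiv.subtypeEquivRight fun g => by simp [mem_iff p hH g])
  have hw : ∀ C ∈ over' p ⊤ H, weight p ⊤ C = if IsMax p ⊤ C then (Nat.card (normalizer (C : Set G)) : ℤ) else 0 := by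
    intro C hC
    obtain ⟨hCp, hCL, -⟩ := (mem_over' p).mp hC
    rw [← weight_local p hCp hCL, weight_eq p _ _ C hCp (le_inf hCL le_normalizer) inf_le_right le_rfl, top_inf_eq]
    have hiff : IsMax p (normalizer (C : Set G)) C ↔ IsMax p ⊤ C := by
      constructor
      · intro h D hD hCD _
        by_contra hne'
        exact (grow p hD (lt_of_le_of_ne hCD (Ne.symm hne'))).ne
          (h _ (hD.to_le inf_le_left) (le_inf hCD le_normalizer) inf_le_right).symm
      · intro h D hD hCD _
        exact h D hD hCD le_top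
    simp only [hiff]
  have hc := count p (⊤ : Subgroup G) H
  rw [← hset, Finset.sum_congr rfl hw, ← Finset.sum_filter] at hc
  haveI := Fintype.ofFinite (Sylow p G)
  have hsum : ∑ C ∈ (over' p ⊤ H).filter (fun C => IsMax p ⊤ C), (Nat.card (normalizer (C : Set G)) : ℤ)
      = ∑ Q ∈ Finset.univ.filter (fun Q : Sylow p G => H ≤ (Q : Subgroup G)),
          (Nat.card (normalizer ((Q : Subgroup G) : Set G)) : ℤ) := by
    symm
    refine Finset.sum_bij (fun Q _ => (Q : Subgroup G)) (fun Q hQ => ?_)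
      (fun Q _ Q' _ h => Sylow.ext h) (fun C hC => ?_) (fun Q _ => rfl)
    · exact Finset.mem_filter.mpr ⟨(mem_over' p).mpr ⟨Q.isPGroup', le_top, (Finset.mem_filter.mp hQ).2⟩,
        fun D hD hle _ => Q.is_maximal' hD hle⟩
    · obtain ⟨hC1, hC2⟩ := Finset.mem_filter.mp hC
      obtain ⟨hCp, -, hHC⟩ := (mem_over' p).mp hC1
      obtain ⟨Q, hQ⟩ := hCp.exists_le_sylow
      exact ⟨Q, Finset.mem_filter.mpr ⟨Finset.mem_univ _, hHC.trans hQ⟩, hC2 Q Q.isPGroup' hQ le_top⟩
  have hconst : ∀ Q : Sylow p G, Nat.card (normalizer ((Q : Subgroup G) : Set G))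
      = Nat.card (normalizer ((P : Subgroup G) : Set G)) := by
    intro Q
    have h1 := card_mul_index (normalizer ((Q : Subgroup G) : Set G))
    have h2 := card_mul_index (normalizer ((P : Subgroup G) : Set G))
    rw [show (normalizer ((Q : Subgroup G) : Set G)).index = Nat.card (Sylow p G) from Q.card_eq_index_normalizer.symm] at h1
    rw [show (normalizer ((P : Subgroup G) : Set G)).index = Nat.card (Sylow p G) from P.card_eq_index_normalizer.symm] at h2
    exact Nat.eq_of_mul_eq_mul_right Nat.card_pos (h1.trans h2.symm)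
  rw [hsum, Finset.sum_congr rfl fun Q _ => by rw [hconst Q], Finset.sum_const, nsmul_eq_mul,
    ← Fintype.card_subtype, ← Nat.card_eq_fintype_card, ← Nat.cast_mul] at hc
  exact_mod_cast hc

theorem map_conj_eq_iff (H : Subgroup G) (a b : G) :
    H.map (MulAut.conj a).toMonoidHom = H.map (MulAut.conj b).toMonoidHom ↔
      a⁻¹ * b ∈ normalizer (H : Set G) := by
  rw [mem_normalizer_iff, SetLike.ext_iff]
  constructor
  · intro h y
    have h1 := h (b * y * b⁻¹)
    simp only [mem_map_equiv, MulAut.conj_symm_apply] at h1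
    have e1 : a⁻¹ * (b * y * b⁻¹) * a = a⁻¹ * b * y * (a⁻¹ * b)⁻¹ := by group
    have e2 : b⁻¹ * (b * y * b⁻¹) * b = y := by group
    rw [e1, e2] at h1
    exact h1.symm
  · intro h x
    simp only [mem_map_equiv, MulAut.conj_symm_apply]
    have h1 := h (b⁻¹ * x * b)
    have e1 : a⁻¹ * b * (b⁻¹ * x * b) * (a⁻¹ * b)⁻¹ = a⁻¹ * x * a := by group
    rw [e1] at h1
    exact h1.symm

/-- the number of conjugates times the order of the normalizer -/
theorem conj_count (H : Subgroup G) :
    Nat.card {K : Subgroup G // ∃ g : G, K = H.map (MulAut.conj g).toMonoidHom}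
      * Nat.card (normalizer (H : Set G)) = Nat.card G := by
  have h : Nat.card (G ⧸ normalizer (H : Set G))
      = Nat.card {K : Subgroup G // ∃ g : G, K = H.map (MulAut.conj g).toMonoidHom} := by
    refine Nat.card_congr (Equiv.ofBijective (fun c => Quotient.liftOn' c
      (fun g => (⟨H.map (MulAut.conj g).toMonoidHom, g, rfl⟩ : {K : Subgroup G // ∃ g : G, K = H.map (MulAut.conj g).toMonoidHom}))
      (fun a b hab => Subtype.ext ((map_conj_eq_iff H a b).mpr (QuotientGroup.leftRel_apply.mp hab)))) ⟨?_, ?_⟩)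
    · intro c d hcd
      induction c using Quotient.inductionOn' with
      | _ a =>
        induction d using Quotient.inductionOn' with
        | _ b => exact Quotient.sound' (QuotientGroup.leftRel_apply.mpr ((map_conj_eq_iff H a b).mp (congrArg Subtype.val hcd)))
    · rintro ⟨K, g, rfl⟩
      exact ⟨Quotient.mk'' g, rfl⟩
  rw [← h, ← Subgroup.index, mul_comm, card_mul_index]

/-- Double counting of the pairs (conjugate of `H`, Sylow subgroup). -/
theorem pairs {H : Subgroup G} (P : Sylow p G) :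
    Nat.card {Q : Sylow p G // H ≤ (Q : Subgroup G)} * Nat.card (normalizer ((P : Subgroup G) : Set G))
      = Nat.card {K : Subgroup G // K ≤ (P : Subgroup G) ∧ ∃ g : G, K = H.map (MulAut.conj g).toMonoidHom}
          * Nat.card (normalizer (H : Set G)) := by
  classical
  haveI := Fintype.ofFinite G
  set Cj := {K : Subgroup G // ∃ g : G, K = H.map (MulAut.conj g).toMonoidHom}
  haveI : Fintype Cj := Fintype.ofFinite Cj
  haveI := Fintype.ofFinite (Sylow p G)
  have hmap : ∀ (g : G) (A B : Subgroup G), A.map (MulAut.conj g).toMonoidHom ≤ B.map (MulAut.conj g).toMonoidHom ↔ A ≤ B :=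
    fun g A B => map_le_map_iff_of_injective (MulAut.conj g).injective
  have hK : ∀ K : Cj, Nat.card {Q : Sylow p G // K.1 ≤ (Q : Subgroup G)}
      = Nat.card {Q : Sylow p G // H ≤ (Q : Subgroup G)} := by
    rintro ⟨_, g, rfl⟩
    refine Nat.card_congr ((MulAction.toPerm g).subtypeEquiv fun Q => ?_).symm
    exact (hmap g H Q).symm
  have hQ : ∀ Q : Sylow p G, Nat.card {K : Cj // K.1 ≤ (Q : Subgroup G)}
      = Nat.card {K : Subgroup G // K ≤ (P : Subgroup G) ∧ ∃ g : G, K = H.map (MulAut.conj g).toMonoidHom} := by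
    intro Q
    obtain ⟨g, rfl⟩ := MulAction.exists_smul_eq G P Q
    have hcomp : ∀ (a b : G) (A : Subgroup G), (A.map (MulAut.conj a).toMonoidHom).map (MulAut.conj b).toMonoidHom
        = A.map (MulAut.conj (b * a)).toMonoidHom := fun a b A => by
      rw [map_map]; congr 1; ext x; simp [mul_assoc]
    refine Nat.card_congr ⟨fun K => ⟨K.1.1.map (MulAut.conj g⁻¹).toMonoidHom, ?_, ?_⟩,
      fun K => ⟨⟨K.1.map (MulAut.conj g).toMonoidHom, ?_⟩, (hmap g _ _).mpr K.2.1⟩, ?_, ?_⟩
    · refine (hmap g _ _).mp ?_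
      rw [hcomp, mul_inv_cancel, show (MulAut.conj (1 : G)).toMonoidHom = MonoidHom.id G by ext x; simp, map_id]
      exact K.2
    · obtain ⟨a, ha⟩ := K.1.2
      exact ⟨g⁻¹ * a, by rw [ha, hcomp]⟩
    · obtain ⟨a, ha⟩ := K.2.2
      exact ⟨g * a, by rw [ha, hcomp]⟩
    · intro K
      apply Subtype.ext; apply Subtype.ext
      show (K.1.1.map _).map _ = K.1.1
      rw [hcomp, mul_inv_cancel, show (MulAut.conj (1 : G)).toMonoidHom = MonoidHom.id G by ext x; simp, map_id]
    · intro K
      apply Subtype.ext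
      show (K.1.map _).map _ = K.1
      rw [hcomp, inv_mul_cancel, show (MulAut.conj (1 : G)).toMonoidHom = MonoidHom.id G by ext x; simp, map_id]
  have h1 : Nat.card Cj * Nat.card {Q : Sylow p G // H ≤ (Q : Subgroup G)}
      = Nat.card (Sylow p G) * Nat.card {K : Subgroup G // K ≤ (P : Subgroup G) ∧ ∃ g : G, K = H.map (MulAut.conj g).toMonoidHom} := by
    calc Nat.card Cj * Nat.card {Q : Sylow p G // H ≤ (Q : Subgroup G)}
        = Nat.card (Σ K : Cj, {Q : Sylow p G // K.1 ≤ (Q : Subgroup G)}) := by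
          rw [Nat.card_sigma, Finset.sum_congr rfl fun K _ => hK K, Finset.sum_const, Finset.card_univ,
            Nat.card_eq_fintype_card (α := Cj), smul_eq_mul]
      _ = Nat.card (Σ Q : Sylow p G, {K : Cj // K.1 ≤ (Q : Subgroup G)}) :=
          Nat.card_congr ⟨fun x => ⟨x.2.1, x.1, x.2.2⟩, fun x => ⟨x.2.1, x.1, x.2.2⟩, fun x => rfl, fun x => rfl⟩
      _ = _ := by
          rw [Nat.card_sigma, Finset.sum_congr rfl fun Q _ => hQ Q, Finset.sum_const, Finset.card_univ,
            Nat.card_eq_fintype_card (α := Sylow p G), smul_eq_mul]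
  have h2 := conj_count H
  have h3 : Nat.card (Sylow p G) * Nat.card (normalizer ((P : Subgroup G) : Set G)) = Nat.card G := by
    rw [P.card_eq_index_normalizer, mul_comm]
    exact card_mul_index _
  refine Nat.eq_of_mul_eq_mul_left (Nat.card_pos (α := G)) ?_
  calc Nat.card G * (Nat.card {Q : Sylow p G // H ≤ (Q : Subgroup G)} * Nat.card (normalizer ((P : Subgroup G) : Set G)))
      = (Nat.card Cj * Nat.card {Q : Sylow p G // H ≤ (Q : Subgroup G)})
          * (Nat.card (normalizer ((P : Subgroup G) : Set G)) * Nat.card (normalizer (H : Set G))) := by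
        rw [← h2]; ring
    _ = _ := by rw [h1, ← h3]; ring

end Cfsg.Lib.Subnormalizer
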