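import Mathlib
import Cfsg.Prelude.Def_Local
import Cfsg.Agent.Lib.Solv.Cores
import Cfsg.Agent.Lib.Solv.Subnormal
import Cfsg.Agent.Lib.Transfer.NormalPComplement

/-!
When is a normal `p`-subgroup `H` a Sylow subgroup of the preimage of `O_p(M/C_M(H))`?
-/

set_option autoImplicit false
set_option linter.unusedSectionVars false
set_option linter.style.haveILetI false

namespace Cfsg.Lib.SylowPreimage

open Subgroup
open scoped commutatorElement

variable {M : Type*} [Group M] [Finite M] {p : ℕ} [hp : Fact p.Prime]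

theorem le_of_normal_sylow {H N Q : Subgroup M} (hN : N ≤ normalizer (H : Set M)) (hHN : H ≤ N)
    (hH : IsPGroup p H) (hidx : ¬ p ∣ H.relIndex N) (hQ : IsPGroup p Q) (hQN : Q ≤ N) : Q ≤ H := by
  haveI : (H.subgroupOf N).Normal := normal_subgroupOf_of_le_normalizer hN
  set S := (hH.comap_subtype (K := N)).toSylow (show ¬ p ∣ (H.subgroupOf N).index from hidx) with hS
  haveI : (S : Subgroup ↥N).Normal := ‹(H.subgroupOf N).Normal›
  obtain ⟨T, hT⟩ := (hQ.comap_subtype (K := N)).exists_le_sylow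
  haveI := Sylow.unique_of_normal S inferInstance
  have hTS : T = S := Subsingleton.elim T S
  intro x hx
  have h1 : (⟨x, hQN hx⟩ : N) ∈ (S : Subgroup ↥N) :=
    hTS ▸ hT (show (⟨x, hQN hx⟩ : N) ∈ Q.subgroupOf N from hx)
  exact h1

/-- If the Sylow subgroup of `C = C_M(H)` lies in `H`, then `C ≤ H O_{p'}(M)`. -/
theorem centralizer_le_sup (H : Subgroup M) [hHn : H.Normal] (R : Sylow p M)
    (hHR : H ≤ (R : Subgroup M)) (hRC : (R : Subgroup M) ⊓ centralizer (H : Set M) ≤ H) :
    centralizer (H : Set M) ≤ H ⊔ Cfsg.pPrimeCore p M := by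
  set C := centralizer (H : Set M) with hCdef
  haveI : C.Normal := inferInstance
  set Z := H.subgroupOf C with hZdef
  have hZc : ∀ z ∈ Z, ∀ c : C, (c : C) * z = z * c := fun z hz c => Subtype.ext
    ((mem_centralizer_iff.1 c.2 z hz).symm)
  haveI hZn : Z.Normal := inferInstance
  have hZp : IsPGroup p Z := (R.isPGroup'.to_le hHR).comap_subtype
  have hZidx : ¬ p ∣ Z.index := by
    intro h
    obtain ⟨Q, hQ⟩ := Cfsg.Lib.Solv.sylow_inf_subnormal (Normal.isSubnormal (inferInstance : C.Normal)) R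
    refine Q.not_dvd_index ?_
    rw [hQ]
    refine h.trans (dvd_of_eq ?_)
    congr 1
    ext c
    exact ⟨fun hc => hHR hc, fun hc => hRC ⟨hc, c.2⟩⟩
  obtain ⟨n, hn⟩ := IsPGroup.iff_card.1 hZp
  obtain ⟨K, hK⟩ := exists_left_complement'_of_coprime (N := Z)
    (by rw [hn]; exact (hp.out.coprime_iff_not_dvd.2 hZidx).pow_left n)
  have htop : ∀ c : C, ∃ k ∈ K, ∃ z ∈ Z, c = k * z := fun c => by
    obtain ⟨⟨⟨k, hk⟩, ⟨z, hz⟩⟩, he⟩ := hK.2 c
    exact ⟨k, hk, z, hz, he.symm⟩
  have hKn : K.Normal := ⟨fun x hx c => by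
    obtain ⟨k, hk, z, hz, rfl⟩ := htop c
    have h1 : z * x * z⁻¹ = x := by rw [← hZc z hz x, mul_inv_cancel_right]
    rw [show k * z * x * (k * z)⁻¹ = k * (z * x * z⁻¹) * k⁻¹ by group, h1]
    exact mul_mem (mul_mem hk hx) (inv_mem hk)⟩
  have hKc : (Nat.card K).Coprime p := by
    refine (hp.out.coprime_iff_not_dvd.2 fun h => hZidx (h.trans ?_)).symm
    exact (hK.index_eq_card).symm.dvd
  have hle : K.map C.subtype ≤ Cfsg.pPrimeCore p M :=
    (map_mono (Cfsg.Lib.Solv.le_pPrimeCore hKn hKc)).trans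
      ((Cfsg.Lib.Solv.map_pPrimeCore_subgroup p C).le.trans inf_le_left)
  intro c hc
  obtain ⟨k, hk, z, hz, he⟩ := htop ⟨c, hc⟩
  have : c = k * z := congrArg Subtype.val he
  rw [this]
  exact mul_mem (mem_sup_right (hle ⟨k, hk, rfl⟩)) (mem_sup_left hz)

theorem main (H : Subgroup M) [hHn : H.Normal] [hC : (centralizer (H : Set M)).Normal] (R : Sylow p M)
    (hHR : H ≤ (R : Subgroup M)) :
    (H ≤ (Cfsg.pCore p (M ⧸ centralizer (H : Set M))).comap (QuotientGroup.mk' _) ∧
      ¬ p ∣ H.relIndex ((Cfsg.pCore p (M ⧸ centralizer (H : Set M))).comap (QuotientGroup.mk' _))) ↔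
    ((R : Subgroup M) ⊓ centralizer (H : Set M) ≤ H ∧
      Cfsg.pPrimePCore p M = H ⊔ centralizer (H : Set M)) := by
  set C := centralizer (H : Set M) with hCdef
  set q := QuotientGroup.mk' C
  have hqs : Function.Surjective q := QuotientGroup.mk'_surjective C
  set N := (Cfsg.pCore p (M ⧸ C)).comap q with hN
  set K := Cfsg.pPrimeCore p M with hKdef
  set PP := Cfsg.pPrimePCore p M with hPP
  set r := QuotientGroup.mk' K
  have hrs : Function.Surjective r := QuotientGroup.mk'_surjective K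
  have hHp : IsPGroup p H := R.isPGroup'.to_le hHR
  have hCN : C ≤ N := fun c hc => by
    rw [hN, mem_comap, show q c = 1 from (QuotientGroup.eq_one_iff c).2 hc]; exact one_mem _
  have hHN : H ≤ N := by
    rw [hN, ← map_le_iff_le_comap]
    exact Cfsg.Lib.Solv.le_pCore (hHn.map q hqs) (hHp.map q)
  have hKC : K ≤ C := by
    rw [hCdef, ← commutator_eq_bot_iff_le_centralizer, ← le_bot_iff]
    refine (le_inf (commutator_le_left K H) (commutator_le_right K H)).trans (le_of_eq ?_)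
    refine inf_eq_bot_of_coprime ?_
    obtain ⟨n, hn⟩ := IsPGroup.iff_card.1 hHp
    rw [hn]
    exact (Cfsg.Lib.Solv.coprime_pPrimeCore p).pow_right n
  have hKPP : K ≤ PP := fun k hk => by
    rw [hPP, Cfsg.pPrimePCore, mem_comap, show QuotientGroup.mk' (Cfsg.pPrimeCore p M) k = 1 from
      (QuotientGroup.eq_one_iff k).2 hk]
    exact one_mem _
  have hHPP : H ≤ PP := by
    rw [hPP, Cfsg.pPrimePCore, ← map_le_iff_le_comap]
    exact Cfsg.Lib.Solv.le_pCore (hHn.map _ hrs) (hHp.map _)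
  have hCidx : ∃ k, C.relIndex N = p ^ k := by
    obtain ⟨k, hk⟩ := IsPGroup.iff_card.1 (Cfsg.Lib.Solv.isPGroup_pCore (G := M ⧸ C) p)
    refine ⟨k, ?_⟩
    have h1 := relIndex_comap (⊥ : Subgroup (M ⧸ C)) q N
    rw [MonoidHom.comap_bot, QuotientGroup.ker_mk', hN, map_comap_eq_self_of_surjective hqs,
      relIndex_bot_left, hk] at h1
    exact h1
  obtain ⟨k, hk⟩ := hCidx
  haveI hNn : N.Normal := by
    haveI : (Cfsg.pCore p (M ⧸ C)).Normal := inferInstance
    exact this.comap q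
  constructor
  · rintro ⟨-, hidx⟩
    have hRC : (R : Subgroup M) ⊓ C ≤ H :=
      le_of_normal_sylow (le_normalizer_of_normal) hHN hHp hidx R.isPGroup'.to_inf_left
        (inf_le_right.trans hCN)
    refine ⟨hRC, le_antisymm ?_ (sup_le hHPP ((centralizer_le_sup H R hHR hRC).trans (sup_le hHPP hKPP)))⟩
    have h1 : (H ⊔ C).relIndex N = 1 := Nat.eq_one_of_dvd_coprimes
      ((hp.out.coprime_iff_not_dvd.2 hidx).pow_left k)
      (hk ▸ relIndex_dvd_of_le_left N le_sup_right) (relIndex_dvd_of_le_left N le_sup_left)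
    refine le_trans ?_ (relIndex_eq_one.1 h1)
    rw [hN, ← map_le_iff_le_comap]
    refine Cfsg.Lib.Solv.le_pCore (Normal.map ?_ q hqs) ?_
    · rw [hPP, Cfsg.pPrimePCore]
      exact (inferInstance : (Cfsg.pCore p (M ⧸ Cfsg.pPrimeCore p M)).Normal).comap _
    · rintro ⟨_, x, hx, rfl⟩
      obtain ⟨j, hj⟩ := Cfsg.Lib.Solv.isPGroup_pCore (G := M ⧸ K) p ⟨r x, hx⟩
      have hj' : r (x ^ p ^ j) = 1 := by rw [map_pow]; exact congrArg Subtype.val hj
      refine ⟨j, Subtype.ext ?_⟩
      show q x ^ p ^ j = 1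
      rw [← map_pow]
      exact (QuotientGroup.eq_one_iff _).2 (hKC ((QuotientGroup.eq_one_iff _).1 hj'))
  · rintro ⟨hRC, hPPeq⟩
    refine ⟨hHN, ?_⟩
    have hCK := centralizer_le_sup H R hHR hRC
    set RN := (R : Subgroup M) ⊓ N
    have hRidx : ¬ p ∣ (R : Subgroup M).relIndex N := fun h => by
      obtain ⟨Q, hQ⟩ := Cfsg.Lib.Solv.sylow_inf_subnormal (Normal.isSubnormal hNn) R
      exact Q.not_dvd_index (by rw [hQ]; exact h)
    have hN1 : N ≤ C ⊔ RN := by
      refine relIndex_eq_one.1 (Nat.eq_one_of_dvd_coprimes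
        ((hp.out.coprime_iff_not_dvd.2 hRidx).pow_left k)
        (hk ▸ relIndex_dvd_of_le_left N le_sup_left) ?_)
      rw [← inf_relIndex_right (R : Subgroup M) N]
      exact relIndex_dvd_of_le_left N le_sup_right
    have hNK : N ≤ K ⊔ RN := hN1.trans (sup_le (hCK.trans (sup_le
      (le_sup_of_le_right (le_inf hHR hHN)) le_sup_left)) le_sup_right)
    have hNPP : N ≤ PP := by
      rw [hPP, Cfsg.pPrimePCore, ← map_le_iff_le_comap]
      refine Cfsg.Lib.Solv.le_pCore (hNn.map _ hrs) ?_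
      refine IsPGroup.to_le ((R.isPGroup'.to_inf_left (K := N)).map r) ?_
      rw [map_le_iff_le_comap]
      refine hNK.trans (sup_le (fun x hx => ?_) ?_)
      · rw [mem_comap, show r x = 1 from (QuotientGroup.eq_one_iff x).2 hx]; exact one_mem _
      · rw [← map_le_iff_le_comap]
    have hNeq : N = C ⊔ H := le_antisymm (hNPP.trans (hPPeq.trans (sup_comm _ _)).le) (sup_le hCN hHN)
    rw [hNeq, relIndex_sup_right]
    intro h
    obtain ⟨Q, hQ⟩ := Cfsg.Lib.Solv.sylow_inf_subnormal (Normal.isSubnormal hC) R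
    refine Q.not_dvd_index ?_
    rw [hQ]
    refine h.trans (dvd_of_eq ?_)
    show (H.subgroupOf C).index = _
    congr 1
    ext c
    exact ⟨fun hc => hHR hc, fun hc => hRC ⟨hc, c.2⟩⟩

/-- S3076. -/
theorem sylow_preimage {G : Type*} [Group G] [Finite G] (P : Sylow p G) (H : Subgroup G) (hHP : H ≤ (P : Subgroup G))
    (hSyl : ¬ p ∣ ((P : Subgroup G) ⊓ normalizer (H : Set G)).relIndex (normalizer (H : Set G)))
    [hC : ((centralizer (H : Set G)).subgroupOf (normalizer (H : Set G))).Normal] :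
    (H ≤ ((Cfsg.pCore p (↥(normalizer (H : Set G)) ⧸
              (centralizer (H : Set G)).subgroupOf (normalizer (H : Set G)))).comap
            (QuotientGroup.mk' _)).map (normalizer (H : Set G)).subtype ∧
      ¬ p ∣ H.relIndex (((Cfsg.pCore p (↥(normalizer (H : Set G)) ⧸
              (centralizer (H : Set G)).subgroupOf (normalizer (H : Set G)))).comap
            (QuotientGroup.mk' _)).map (normalizer (H : Set G)).subtype)) ↔
    ((P : Subgroup G) ⊓ centralizer (H : Set G) ≤ H ∧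
      (Cfsg.pPrimePCore p ↥(normalizer (H : Set G))).map (normalizer (H : Set G)).subtype =
        H ⊔ centralizer (H : Set G)) := by
  set X := normalizer (H : Set G) with hX
  have hHX : H ≤ X := le_normalizer
  have hCX : centralizer (H : Set G) ≤ X := centralizer_le_normalizer _
  set H' := H.subgroupOf X with hH'
  haveI : H'.Normal := normal_subgroupOf_of_le_normalizer le_rfl
  have hc : centralizer (H' : Set ↥X) = (centralizer (H : Set G)).subgroupOf X := by
    ext x
    rw [mem_subgroupOf, mem_centralizer_iff, mem_centralizer_iff]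
    exact ⟨fun h y hy => congrArg Subtype.val (h ⟨y, hHX hy⟩ hy), fun h y hy => Subtype.ext (h y hy)⟩
  obtain ⟨R, hR⟩ : ∃ R : Sylow p ↥X, (R : Subgroup ↥X) = (P : Subgroup G).subgroupOf X :=
    ⟨(P.isPGroup'.comap_subtype (K := X)).toSylow (fun h => hSyl (by rw [inf_relIndex_right]; exact h)), rfl⟩
  have hHR : H' ≤ (R : Subgroup ↥X) := hR ▸ fun x hx => hHP hx
  have key := main (p := p) H' R hHR
  have hinj := X.subtype_injective
  have hH'map : H'.map X.subtype = H := by rw [hH', map_subgroupOf_eq_of_le hHX]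
  have hrel : ∀ N : Subgroup ↥X, H.relIndex (N.map X.subtype) = H'.relIndex N := fun N =>
    (relIndex_comap H X.subtype N).symm
  have e2 : ∀ D : Subgroup ↥X, D = centralizer (H' : Set ↥X) →
      ((P : Subgroup G) ⊓ centralizer (H : Set G) ≤ H ↔ (R : Subgroup ↥X) ⊓ D ≤ H') := by
    rintro D rfl
    rw [hR, hc, hH']
    refine ⟨fun h x hx => h ⟨hx.1, hx.2⟩, fun h x hx => ?_⟩
    exact h (show (⟨x, hCX hx.2⟩ : ↥X) ∈ (P : Subgroup G).subgroupOf X ⊓ (centralizer (H : Set G)).subgroupOf X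
      from ⟨hx.1, hx.2⟩)
  have e3 : H ⊔ centralizer (H : Set G) = (H' ⊔ centralizer (H' : Set ↥X)).map X.subtype := by
    rw [Subgroup.map_sup, hH'map, hc, map_subgroupOf_eq_of_le hCX]
  rw [e2 _ rfl, e3, (map_injective hinj).eq_iff, hrel, ← key]
  have : ∀ (D : Subgroup ↥X) [D.Normal] (_ : D = centralizer (H' : Set ↥X)),
      (H ≤ ((Cfsg.pCore p (↥X ⧸ D)).comap (QuotientGroup.mk' D)).map X.subtype ∧
        ¬ p ∣ H'.relIndex ((Cfsg.pCore p (↥X ⧸ D)).comap (QuotientGroup.mk' D))) ↔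
      (H' ≤ (Cfsg.pCore p (↥X ⧸ centralizer (H' : Set ↥X))).comap (QuotientGroup.mk' _) ∧
        ¬ p ∣ H'.relIndex ((Cfsg.pCore p (↥X ⧸ centralizer (H' : Set ↥X))).comap (QuotientGroup.mk' _))) := by
    intro D _ hD
    subst hD
    refine and_congr_left fun _ => ?_
    rw [← hH'map, map_le_map_iff_of_injective hinj]
  exact this _ hc.symm

end Cfsg.Lib.SylowPreimage
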