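import Mathlib
import Cfsg.Agent.S0016

/-!
Groups with a subgroup contained in every nontrivial subgroup it normalizes.
-/

set_option autoImplicit false
set_option linter.style.haveILetI false

namespace Cfsg.Lib.UniqueMin

open Subgroup
open scoped Pointwise

variable {F : Type*} [Group F] [Finite F]

theorem cyclic_quaternion_one : IsCyclic (QuaternionGroup (2 ^ 0)) := by
  refine isCyclic_of_orderOf_eq_card (QuaternionGroup.xa 0) ?_
  rw [QuaternionGroup.orderOf_xa, Nat.card_eq_fintype_card, QuaternionGroup.card, pow_zero, mul_one]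

theorem unique_minimal (H : Subgroup F) (hH : H ≠ ⊥)
    (hmin : ∀ R : Subgroup F, R ≠ ⊥ → H ≤ normalizer (R : Set F) → H ≤ R) :
    ∃ N : Subgroup F, N.Normal ∧ N ≠ ⊥ ∧ (∀ M : Subgroup F, M.Normal → M ≠ ⊥ → N ≤ M) ∧ IsSimpleGroup ↥N ∧
      (centralizer (N : Set F) = ⊥ ∨
       (H = N ∧ (Nat.card N).Prime ∧ IsCyclic ↥(centralizer (N : Set F)) ∧
          (∃ k : ℕ, 1 ≤ k ∧ Nat.card ↥(centralizer (N : Set F)) = Nat.card N ^ k) ∧
          (∃ g : F, centralizer (N : Set F) ⊔ zpowers g = ⊤) ∧
          (centralizer (N : Set F)).index ∣ Nat.card N - 1) ∨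
       (H = N ∧ Nat.card N = 2 ∧ centralizer (N : Set F) = ⊤ ∧
          ∃ k : ℕ, 1 ≤ k ∧ Nonempty (F ≃* QuaternionGroup (2 ^ k)))) := by
  classical
  set N := normalClosure (H : Set F) with hN
  have hHN : H ≤ N := le_normalClosure
  haveI : N.Normal := normalClosure_normal
  have hN1 : N ≠ ⊥ := fun h => hH (le_bot_iff.1 (h ▸ hHN))
  have huniq : ∀ M : Subgroup F, M.Normal → M ≠ ⊥ → N ≤ M := fun M hM hM1 => by
    haveI := hM
    exact normalClosure_le_normal (hmin M hM1 (by rw [normalizer_eq_top]; exact le_top))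
  -- `N` is simple
  have hmem : ∀ L : Subgroup F, L ≤ N → L ≠ ⊥ → N ≤ normalizer (L : Set F) → H ≤ L :=
    fun L _ hL1 hn => hmin L hL1 (hHN.trans hn)
  haveI : Nontrivial ↥N := N.nontrivial_iff_ne_bot.2 hN1
  have hsimple : IsSimpleGroup ↥N := by
    refine ⟨fun L hL => ?_⟩
    by_contra hcon
    push Not at hcon
    obtain ⟨hL1, hLt⟩ := hcon
    -- a minimal normal subgroup of `N`
    obtain ⟨L₀, hle, hL₀⟩ := Finite.exists_le_minimal (p := fun K : Subgroup ↥N => K.Normal ∧ K ≠ ⊥) ⟨hL, hL1⟩
    obtain ⟨⟨hL₀n, hL₀1⟩, hmin₀⟩ := hL₀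
    set A := L₀.map N.subtype with hA
    have hA1 : A ≠ ⊥ := fun h => hL₀1 ((map_eq_bot_iff_of_injective _ N.subtype_injective).1 h)
    have hAN : N ≤ normalizer (A : Set F) := by
      have h := le_normalizer_map (H := L₀) N.subtype
      rw [normalizer_eq_top, ← MonoidHom.range_eq_map, range_subtype] at h
      exact h
    have hAn : A.Normal := by
      refine ⟨fun a ha f => ?_⟩
      set B := A.map (MulAut.conj f).toMonoidHom with hB
      have hBN : B ≤ N := by
        rintro _ ⟨b, hb, rfl⟩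
        exact Subgroup.Normal.conj_mem inferInstance b (map_subtype_le _ hb) f
      have hB1 : B ≠ ⊥ := fun h => hA1 ((map_eq_bot_iff_of_injective _ (MulAut.conj f).injective).1 h)
      have hBn : N ≤ normalizer (B : Set F) := by
        have h := (map_mono (f := (MulAut.conj f).toMonoidHom) hAN).trans (le_normalizer_map _)
        refine le_trans (fun n hn => ?_) h
        refine ⟨f⁻¹ * n * f, ?_, by simp [mul_assoc]⟩
        simpa using (Subgroup.Normal.conj_mem (inferInstance : N.Normal) n hn f⁻¹)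
      set I := (A ⊓ B).subgroupOf N with hI
      have hIn : I.Normal := normal_subgroupOf_of_le_normalizer ((le_inf hAN hBn).trans inf_normalizer_le_normalizer_inf)
      have hI1 : I ≠ ⊥ := fun h => hH (le_bot_iff.1 (by
        have h2 : H ≤ A ⊓ B := le_inf (hmem A (map_subtype_le _) hA1 hAN) (hmem B hBN hB1 hBn)
        intro x hx
        have h3 : (⟨x, hHN hx⟩ : ↥N) ∈ I := h2 hx
        rw [h, mem_bot] at h3
        exact mem_bot.2 (congrArg Subtype.val h3)))
      have hIle : I ≤ L₀ := by
        intro y hy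
        obtain ⟨z, hz, e⟩ := hy.1
        rw [← Subtype.ext e]; exact hz
      have h4 := hmin₀ ⟨hIn, hI1⟩ hIle
      have hAB : A ≤ B := fun x hx => by
        obtain ⟨z, hz, rfl⟩ := hx
        exact (h4 hz).2
      have heq : A = B := eq_of_le_of_card_ge hAB (by rw [hB, card_map_of_injective (MulAut.conj f).injective])
      rw [heq]
      exact ⟨a, ha, rfl⟩
    have h5 : N ≤ A := huniq A hAn hA1
    refine hLt (top_le_iff.1 fun y _ => hle ?_)
    obtain ⟨z, hz, e⟩ := h5 y.2
    rw [← Subtype.ext e]; exact hz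
  refine ⟨N, inferInstance, hN1, huniq, hsimple, ?_⟩
  by_cases hC : centralizer (N : Set F) = ⊥
  · exact Or.inl hC
  right
  -- `N` is abelian, hence of prime order and equal to `H`
  have hNC : N ≤ centralizer (N : Set F) := huniq _ inferInstance hC
  have hcomm : ∀ a b : ↥N, a * b = b * a := fun a b =>
    Subtype.ext ((mem_centralizer_iff.1 (hNC b.2)) a a.2)
  letI : CommGroup ↥N := { (inferInstance : Group ↥N) with mul_comm := hcomm }
  haveI := hsimple
  have hprime : (Nat.card N).Prime := IsSimpleGroup.prime_card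
  have hHeq : H = N := eq_of_le_of_card_ge hHN (by
    rcases hprime.eq_one_or_self_of_dvd _ (card_dvd_of_le hHN) with h | h
    · exact absurd (Subgroup.card_eq_one.1 h) hH
    · rw [h])
  set p := Nat.card N with hp
  haveI : Fact p.Prime := ⟨hprime⟩
  set C := centralizer (N : Set F) with hCdef
  haveI hCn : C.Normal := inferInstance
  -- every nontrivial subgroup of `C` contains `N`
  have hall : ∀ R : Subgroup ↥C, R ≠ ⊥ → N ≤ R.map C.subtype := by
    intro R hR
    rw [← hHeq]
    refine hmin _ (fun h => hR ((map_eq_bot_iff_of_injective _ C.subtype_injective).1 h)) ?_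
    rw [hHeq]
    refine le_trans (le_centralizer_iff.1 ?_) (centralizer_le_normalizer _)
    exact map_subtype_le R
  have hpG : IsPGroup p ↥C := by
    refine IsPGroup.of_card (n := (Nat.card ↥C).primeFactorsList.length)
      (Nat.eq_prime_pow_of_unique_prime_dvd Nat.card_pos.ne' fun {q} hq hd => ?_)
    haveI : Fact q.Prime := ⟨hq⟩
    obtain ⟨g, hg⟩ := exists_prime_orderOf_dvd_card' (G := ↥C) q hd
    have h1 := card_dvd_of_le (hall (zpowers g) (zpowers_ne_bot.2 fun e => hq.one_lt.ne (by rw [← hg, e, orderOf_one])))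
    rw [card_map_of_injective C.subtype_injective, Nat.card_zpowers, hg] at h1
    exact ((Nat.prime_dvd_prime_iff_eq hprime hq).1 h1).symm
  have huq : ∀ A B : Subgroup ↥C, Nat.card A = p → Nat.card B = p → A = B := by
    intro A B hA hB
    have hh : ∀ A : Subgroup ↥C, Nat.card A = p → A.map C.subtype = N := fun A hA =>
      (eq_of_le_of_card_ge (hall A fun e => by rw [e, card_bot] at hA; exact hprime.one_lt.ne hA)
        (by rw [card_map_of_injective C.subtype_injective, hA])).symm
    exact map_injective C.subtype_injective ((hh A hA).trans (hh B hB).symm)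
  -- the action on `N`
  haveI : IsCyclic ↥N := isCyclic_of_prime_card rfl
  let φ : F →* MulAut ↥N := MulAut.conjNormal
  have hker : φ.ker = C := by
    ext f
    rw [MonoidHom.mem_ker, hCdef, mem_centralizer_iff]
    constructor
    · intro h n hn
      have h1 : f * n * f⁻¹ = n := by
        simpa [φ] using congrArg Subtype.val (DFunLike.congr_fun h ⟨n, hn⟩)
      calc n * f = f * n * f⁻¹ * f := by rw [h1]
        _ = f * n := by group
    · intro h
      ext n
      simp only [φ, MulAut.conjNormal_apply, MulAut.one_apply]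
      rw [← h n n.2, mul_inv_cancel_right]
  have hAut : Nat.card (MulAut ↥N) = p - 1 := by
    rw [IsCyclic.card_mulAut, Nat.totient_prime hprime]
  haveI : IsCyclic (MulAut ↥N) := by
    haveI : IsCyclic (ZMod p)ˣ := inferInstance
    exact isCyclic_of_surjective (IsCyclic.mulAutMulEquiv ↥N).symm.toMonoidHom
      (IsCyclic.mulAutMulEquiv ↥N).symm.surjective
  have hidx : C.index ∣ p - 1 := by
    rw [← hker, index_ker, ← hAut]
    exact card_subgroup_dvd_card _
  obtain ⟨k, hk⟩ := IsPGroup.iff_card.1 hpG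
  have hk1 : 1 ≤ k := by
    rcases Nat.eq_zero_or_pos k with h | h
    · rw [h, pow_zero] at hk
      exact absurd (Subgroup.card_eq_one.1 hk) hC
    · exact h
  have hgen : ∃ g : F, C ⊔ zpowers g = ⊤ := by
    haveI : IsCyclic ↥φ.range := inferInstance
    obtain ⟨⟨_, g, rfl⟩, hg⟩ := IsCyclic.exists_generator (α := ↥φ.range)
    refine ⟨g, eq_top_iff.2 fun f _ => ?_⟩
    obtain ⟨i, hi⟩ := mem_zpowers_iff.1 (hg ⟨φ f, f, rfl⟩)
    have h1 : φ g ^ i = φ f := congrArg Subtype.val hi
    have h2 : f * (g ^ i)⁻¹ ∈ C := by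
      rw [← hker, MonoidHom.mem_ker, map_mul, map_inv, map_zpow, h1, mul_inv_cancel]
    simpa using mul_mem (mem_sup_left (T := zpowers g) h2) (mem_sup_right (zpow_mem (mem_zpowers g) i))
  rcases Cfsg.Agent.S0016.result p hpG huq with hc | ⟨hp2, j, ⟨e⟩⟩
  · exact Or.inl ⟨hHeq, hprime, hc, ⟨k, hk1, hk⟩, hgen, hidx⟩
  · by_cases hj : j = 0
    · subst hj
      haveI := cyclic_quaternion_one
      exact Or.inl ⟨hHeq, hprime, isCyclic_of_surjective e.symm.toMonoidHom e.symm.surjective,
        ⟨k, hk1, hk⟩, hgen, hidx⟩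
    · have htop : C = ⊤ := index_eq_one.1 (Nat.dvd_one.1 (hidx.trans (by rw [hp2])))
      exact Or.inr ⟨hHeq, hp2, htop, j, Nat.pos_of_ne_zero hj,
        ⟨(topEquiv.symm.trans (MulEquiv.subgroupCongr htop.symm)).trans e⟩⟩

end Cfsg.Lib.UniqueMin
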