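import Cfsg.Agent.Lib.PLocal.ZJElementary
import Cfsg.Agent.Lib.PLocal.StrongControlInd

/-!
Normality of the centre of the elementary Thompson subgroup of a strongly closed subgroup.
-/

set_option autoImplicit false

open scoped commutatorElement

namespace Cfsg.Lib.PLocal

open Cfsg

variable {G : Type*} [Group G] [Finite G] {p : ℕ} [hp : Fact p.Prime]

set_option maxHeartbeats 800000 in
/-- `B ⊓ Z(J(S))` is normal, for the elementary Thompson subgroup. -/
theorem inf_jZ_normal_closed (hp2 : p ≠ 2) (S : Sylow p G) (D : Subgroup G)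
    (hD : Cfsg.IsStronglyClosed D (S : Subgroup G)) (hst : StableFor p (S : Subgroup G)) :
    ∀ (B : Subgroup G), B.Normal → IsPGroup p B → B ≤ D → (B ⊓ jZ p D).Normal := by
  intro B
  induction hn : Nat.card B using Nat.strong_induction_on generalizing B with
  | _ n ih =>
  intro hBn hBp hBD
  have hDp : IsPGroup p D := S.isPGroup'.to_le hD.1
  subst hn
  set Z := jZ p D
  set Z' := B ⊓ Z with hZ'
  have hBS : B ≤ S := (Transfer.le_pCore hBn hBp).trans (Transfer.pCore_le_sylow S)
  have hSZ : (S : Subgroup G) ≤ Subgroup.normalizer (Z : Set G) :=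
    (stronglyClosed_le_normalizer hD).trans (normalizer_le_jZ _)
  set B1 := Subgroup.normalClosure (Z' : Set G) with hB1
  have hB1B : B1 ≤ B := Subgroup.normalClosure_le_normal (fun x hx => hx.1)
  rcases eq_or_lt_of_le hB1B with hB1e | hlt
  swap
  · have e : B1 ⊓ Z = Z' := le_antisymm (inf_le_inf_right Z hB1B)
      (le_inf Subgroup.le_normalClosure inf_le_right)
    rw [← e]
    refine ih _ ?_ B1 rfl Subgroup.normalClosure_normal (hBp.to_le hB1B) (hB1B.trans hBD)
    exact lt_of_le_of_ne (Subgroup.card_le_of_le hB1B) fun e => hlt.ne (Subgroup.eq_of_le_of_card_ge hB1B e.ge)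
  by_cases hne : B = ⊥
  · rw [show Z' = ⊥ by rw [hZ', hne, bot_inf_eq]]; infer_instance
  have hlt' := commutator_lt_self hBp hne
  have hW : (⁅B, B⁆ ⊓ Z).Normal := by
    refine ih _ ?_ _ rfl (Subgroup.commutator_normal B B) (hBp.to_le hlt'.le) (hlt'.le.trans hBD)
    exact lt_of_le_of_ne (Subgroup.card_le_of_le hlt'.le) fun e => hlt'.ne (Subgroup.eq_of_le_of_card_ge hlt'.le e.ge)
  have hBB : ⁅B, B⁆ ≤ Z := by
    have := commutator_le_of_normalClosure (X := Z') (B := B) (W := ⁅B, B⁆ ⊓ Z)
      (le_inf (Subgroup.commutator_mono inf_le_left le_rfl) ((Subgroup.commutator_mono inf_le_right le_rfl).trans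
        (commutator_le_of_le_normalizer (hBS.trans hSZ) le_rfl)))
    rw [← hB1, hB1e] at this
    exact this.trans inf_le_right
  have hclass : B ≤ Subgroup.centralizer ((⁅B, B⁆ : Subgroup G) : Set G) := by
    have h : Subgroup.normalClosure (Z' : Set G) ≤ Subgroup.centralizer ((⁅B, B⁆ : Subgroup G) : Set G) :=
      Subgroup.normalClosure_le_normal fun x hx => Subgroup.mem_centralizer_iff.2 fun y hy =>
        jZ_ab _ y (hBB hy) x hx.2
    rwa [← hB1, hB1e] at h
  -- the elements of order dividing `p`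
  set s : Set G := {x | x ∈ B ∧ x ^ p = 1}
  set B2 := Subgroup.closure s with hB2
  have hB2B : B2 ≤ B := (Subgroup.closure_le _).2 fun x hx => hx.1
  haveI hB2n : B2.Normal := by
    refine ⟨fun x hx g => ?_⟩
    induction hx using Subgroup.closure_induction with
    | mem y hy => exact Subgroup.subset_closure ⟨hBn.conj_mem y hy.1 g, by rw [conj_pow, hy.2, mul_one, mul_inv_cancel]⟩
    | one => rw [mul_one, mul_inv_cancel]; exact one_mem _
    | mul y z _ _ h1 h2 => rw [← conj_mul]; exact mul_mem h1 h2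
    | inv y _ h1 => rw [← conj_inv]; exact inv_mem h1
  have hodd : p ∣ p.choose 2 := hp.out.dvd_choose_self two_ne_zero
    (lt_of_le_of_ne hp.out.two_le (Ne.symm hp2))
  have hexp : ∀ x ∈ B2, x ^ p = 1 := by
    intro x hx
    induction hx using Subgroup.closure_induction with
    | mem y hy => exact hy.2
    | one => exact one_pow p
    | mul y z hy hz h1 h2 =>
      have hyB := hB2B hy
      have hzB := hB2B hz
      set c := ⁅z⁻¹, y⁻¹⁆
      have hcB : c ∈ ⁅B, B⁆ := Subgroup.commutator_mem_commutator (inv_mem hzB) (inv_mem hyB)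
      have hcc : ∀ w ∈ B, Commute c w := fun w hw => Subgroup.mem_centralizer_iff.1 (hclass hw) c hcB
      have hcp : c ^ p = 1 := by
        have hz' : Commute z (y⁻¹ * z⁻¹ * y * z) := by
          have : y⁻¹ * z⁻¹ * y * z = ⁅y⁻¹, z⁻¹⁆ := by simp only [commutatorElement_def]; group
          rw [this]
          exact (Subgroup.mem_centralizer_iff.1 (hclass hzB) _
            (Subgroup.commutator_mem_commutator (inv_mem hyB) (inv_mem hzB))).symm
        set d := y⁻¹ * z⁻¹ * y * z with hd
        have hzd : Commute z⁻¹ d := hz'.inv_left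
        have h3 : (y⁻¹ * z * y) ^ p = 1 := by
          have := conj_pow (a := y⁻¹) (b := z) (i := p)
          rw [inv_inv] at this
          rw [this, h2, mul_one, inv_mul_cancel]
        have h4 : y⁻¹ * z * y = z * d⁻¹ := by rw [hd]; group
        rw [h4, hz'.inv_right.mul_pow, h2, one_mul, inv_pow, inv_eq_one] at h3
        have hcd : c = d⁻¹ := by
          rw [hd]
          have e1 := hz'.eq
          have e2 : c = ⁅z⁻¹, y⁻¹⁆ := rfl
          rw [e2, commutatorElement_def]; group
        rw [hcd, inv_pow, h3, inv_one]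
      rw [Transfer.mul_pow_class_two (c := c) (by simp only [c, commutatorElement_def]; group) (hcc y hyB) (hcc z hzB),
        h1, h2, one_mul, one_mul]
      obtain ⟨k, hk⟩ := hodd
      rw [hk, pow_mul, hcp, one_pow]
    | inv y _ h1 => rw [inv_pow, h1, inv_one]
  set C := Subgroup.centralizer (B : Set G) with hCdef
  haveI : C.Normal := inferInstance
  haveI := Transfer.pCore_normal (G := G ⧸ C) p
  set L := (pCore p (G ⧸ C)).comap (QuotientGroup.mk' C) with hL
  haveI : L.Normal := Subgroup.Normal.comap inferInstance _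
  set C2 := Subgroup.centralizer (B2 : Set G) with hC2
  haveI : C2.Normal := inferInstance
  set q := QuotientGroup.mk' C
  have hC2L : C2 ≤ L := by
    rw [hL, ← Subgroup.map_le_iff_le_comap]
    refine Transfer.le_pCore (Subgroup.Normal.map inferInstance _ (QuotientGroup.mk'_surjective C)) ?_
    rintro ⟨_, g, hg, rfl⟩
    refine ⟨(orderOf g).factorization p, Subtype.ext ?_⟩
    show q g ^ p ^ (orderOf g).factorization p = 1
    rw [← map_pow]
    refine (QuotientGroup.eq_one_iff _).2 ?_
    set w := g ^ p ^ (orderOf g).factorization p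
    have hwc : (orderOf w).Coprime p := by
      rw [orderOf_pow_of_dvd (pow_ne_zero _ hp.out.ne_zero) (Nat.ordProj_dvd _ p)]
      exact (Nat.coprime_ordCompl hp.out (orderOf_pos g).ne').symm
    let f : B ≃* B := MulAut.conjNormal w
    have hit : ∀ (k : ℕ) (x : B), ((f^[k] x : B) : G) = w ^ k * x * (w ^ k)⁻¹ := by
      intro k
      induction k with
      | zero => intro x; simp
      | succ k ihk =>
        intro x
        rw [Function.iterate_succ_apply', show ((f (f^[k] x) : B) : G) = w * (f^[k] x : B) * w⁻¹ from rfl, ihk, pow_succ']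
        group
    refine Subgroup.mem_centralizer_iff.2 fun x hx => ?_
    have := Transfer.fixed_of_fix_omega hp2 _ B rfl hBp f (orderOf w) hwc
      (fun y => Subtype.ext (by rw [hit, pow_orderOf_eq_one, one_mul, inv_one, mul_one]))
      (fun y hy => Subtype.ext (by
        show w * (y : G) * w⁻¹ = y
        rw [← Subgroup.mem_centralizer_iff.1 (pow_mem hg _) (y : G)
          (Subgroup.subset_closure ⟨y.2, by rw [← SubgroupClass.coe_pow, hy, OneMemClass.coe_one]⟩),
          mul_inv_cancel_right])) ⟨x, hx⟩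
    have h5 : w * x * w⁻¹ = x := congrArg Subtype.val this
    calc x * w = w * x * w⁻¹ * w := by rw [h5]
      _ = w * x := by group
  have hquadL : ∀ A ∈ maxF (El p) D, B2 ≤ Subgroup.normalizer (A : Set G) → A ≤ L := by
    intro A hA hn a ha
    have h1 : Subgroup.zpowers a ≤ A := Subgroup.zpowers_le.2 ha
    have hq : ⁅⁅B2, Subgroup.zpowers a⁆, Subgroup.zpowers a⁆ = ⊥ := by
      refine le_bot_iff.1 ((Subgroup.commutator_mono (Subgroup.commutator_mono le_rfl h1) h1).trans ?_)
      rw [le_bot_iff, Subgroup.commutator_eq_bot_iff_le_centralizer]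
      refine le_trans ?_ (fun x hx => Subgroup.mem_centralizer_iff.2 fun y hy => hA.2.1.1 y hy x hx)
      rw [Subgroup.commutator_comm]
      exact commutator_le_of_le_normalizer hn le_rfl
    have hmem := hst B2 (hBp.to_le hB2B) a (hD.1 (hA.1 ha)) hq
    set L2 := (pCore p (G ⧸ C2)).comap (QuotientGroup.mk' C2)
    haveI := Transfer.pCore_normal (G := G ⧸ C2) p
    haveI : L2.Normal := Subgroup.Normal.comap inferInstance _
    suffices h : L2 ≤ L from h hmem
    rw [hL, ← Subgroup.map_le_iff_le_comap]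
    refine Transfer.le_pCore (Subgroup.Normal.map inferInstance _ (QuotientGroup.mk'_surjective C)) ?_
    rintro ⟨_, g, hg, rfl⟩
    obtain ⟨i, hi⟩ := Transfer.pCore_isPGroup (G := G ⧸ C2) p ⟨QuotientGroup.mk' C2 g, hg⟩
    have hgC : g ^ p ^ i ∈ C2 := by
      rw [← QuotientGroup.eq_one_iff]
      show QuotientGroup.mk' C2 (g ^ p ^ i) = 1
      rw [map_pow]; exact congrArg Subtype.val hi
    obtain ⟨j, hj⟩ := Transfer.pCore_isPGroup (G := G ⧸ C) p ⟨q (g ^ p ^ i), hC2L hgC⟩
    refine ⟨i + j, Subtype.ext ?_⟩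
    show q g ^ p ^ (i + j) = 1
    rw [pow_add, pow_mul, ← map_pow q g]
    exact congrArg Subtype.val hj
  obtain ⟨A, hA, hAL, hgood⟩ : ∃ A ∈ maxF (El p) D, A ≤ L ∧
      (¬ B2 ≤ A ∨ ∀ A' ∈ maxF (El p) D, A' ≤ L) := by
    by_cases hall : ∀ U ∈ maxF (El p) D, B2 ≤ U
    · obtain ⟨A, hA⟩ := maxF_nonempty (el_bot p) D
      have key : ∀ A' ∈ maxF (El p) D, A' ≤ L := fun A' hA' =>
        hquadL A' hA' ((hall A' hA').trans Subgroup.le_normalizer)
      exact ⟨A, hA, key A hA, Or.inr key⟩
    · push Not at hall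
      obtain ⟨U, hU, hUB⟩ := hall
      have hBBU : ⁅B2, B2⁆ ≤ U := by
        intro x hx
        have hxB : x ∈ ⁅B, B⁆ := Subgroup.commutator_mono hB2B hB2B hx
        have hxB2 : x ∈ B2 := Subgroup.commutator_le_left B2 B2 hx
        exact mem_of_centralizes hU (jZ_le _ (hBB hxB)) (hexp x hxB2) fun a ha =>
          Subgroup.mem_centralizer_iff.1 (hBB hxB).2 a (le_sSup hU ha)
      obtain ⟨A, hA, hnA, hBA⟩ := exists_normalized hp2 (fun A h => h.1)
        (fun A A' hA h _ he => el_of_exponent hA h he) hDp (hB2B.trans hBD) ⟨U, hU, hBBU, hUB⟩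
      exact ⟨A, hA, hquadL A hA hBA, Or.inl hnA⟩
  obtain ⟨Q, hQ⟩ := Solv.sylow_inf_subnormal (H := L) (Subgroup.Normal.isSubnormal inferInstance) S
  set T := (S : Subgroup G) ⊓ L with hT
  have hQT : (Q : Subgroup L).map L.subtype = T := by
    rw [hQ, Subgroup.subgroupOf_map_subtype]
  have hfr : Subgroup.normalizer (T : Set G) ⊔ L = ⊤ := by
    rw [← hQT]; exact Q.normalizer_sup_eq_top
  have hLCT : L ≤ C ⊔ T := by
    intro x hx
    have hC : C ≤ L := fun c hc => by
      show q c ∈ pCore p (G ⧸ C)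
      rw [show q c = 1 from (QuotientGroup.eq_one_iff c).2 hc]
      exact one_mem _
    obtain ⟨n, hn⟩ := IsPGroup.iff_card.1 (Transfer.pCore_isPGroup (G := G ⧸ C) p)
    have h1 : C.relIndex L = p ^ n := by
      have hk := Subgroup.relIndex_ker (QuotientGroup.mk' C) (K := L)
      rw [QuotientGroup.ker_mk'] at hk
      rw [hk, hL, Subgroup.map_comap_eq_self_of_surjective (QuotientGroup.mk'_surjective C), hn]
    have h2 : (C ⊔ T).relIndex L ∣ p ^ n := h1 ▸ Subgroup.relIndex_dvd_of_le_left L le_sup_left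
    have h3 : (C ⊔ T).relIndex L ∣ T.relIndex L := Subgroup.relIndex_dvd_of_le_left L le_sup_right
    have h4 : ¬ p ∣ T.relIndex L := by
      have := Q.not_dvd_index
      rwa [hQ, ← Subgroup.relIndex, ← Subgroup.inf_relIndex_right] at this
    obtain ⟨k, -, hk⟩ := (Nat.dvd_prime_pow (Fact.out (p := p.Prime))).1 h2
    rcases Nat.eq_zero_or_pos k with rfl | hk0
    · exact Subgroup.relIndex_eq_one.1 (by rw [hk, pow_zero]) hx
    · exact absurd ((dvd_pow_self p hk0.ne').trans (hk ▸ h3)) h4
  have hgen : (Subgroup.normalizer (T : Set G)) ⊔ C = ⊤ := by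
    rw [eq_top_iff, ← hfr]
    refine sup_le le_sup_left (hLCT.trans (sup_le le_sup_right ?_))
    exact Subgroup.le_normalizer.trans le_sup_left
  set T' := D ⊓ L with hT'
  have hNT : Subgroup.normalizer (T : Set G) ≤ Subgroup.normalizer (T' : Set G) := by
    intro n hn
    refine mem_normalizer_of_conj_le fun d hd => ?_
    have h1 : n * d * n⁻¹ ∈ T := (Subgroup.mem_normalizer_iff.1 hn d).1 ⟨hD.1 hd.1, hd.2⟩
    exact ⟨hD.2 d hd.1 n h1.1, h1.2⟩
  have hAT : A ≤ T' := le_inf hA.1 hAL
  have hJT : jF p T' ≤ jF p D := sSup_le fun X hX =>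
    le_sSup ⟨hX.1.trans inf_le_left, hX.2.1, fun Y hY hPY => (hA.2.2 Y hY hPY).trans (hX.2.2 A hAT hA.2.1)⟩
  have hconj : ∀ g : G, ∃ u ∈ Subgroup.normalizer (T' : Set G), ∀ x ∈ Z', g * x * g⁻¹ = u * x * u⁻¹ := by
    intro g
    obtain ⟨u, hu, c, hc, rfl⟩ := Subgroup.mem_sup_of_normal_right.1 (hgen ▸ Subgroup.mem_top g)
    refine ⟨u, hNT hu, fun x hx => ?_⟩
    have e : c * x * c⁻¹ = x := by
      rw [← Subgroup.mem_centralizer_iff.1 hc x hx.1, mul_inv_cancel_right]
    rw [show u * c * x * (u * c)⁻¹ = u * (c * x * c⁻¹) * u⁻¹ by group, e]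
  rcases hgood with hnA | hall
  · exfalso
    refine hnA fun y hy => ?_
    refine mem_of_centralizes hA (hBD (hB2B hy)) (hexp y hy) fun a ha => ?_
    have hle : B1 ≤ Subgroup.centralizer (jF p T' : Set G) := by
      show Subgroup.closure _ ≤ _
      rw [Subgroup.closure_le]
      intro z hz
      obtain ⟨x, hx, hxy⟩ := Group.mem_conjugatesOfSet_iff.1 hz
      obtain ⟨g, rfl⟩ := isConj_iff.1 hxy
      obtain ⟨u, hu, hux⟩ := hconj g
      rw [SetLike.mem_coe, hux x hx, Subgroup.mem_centralizer_iff]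
      intro t ht
      have ht' : u⁻¹ * t * u⁻¹⁻¹ ∈ jF p T' :=
        (Subgroup.mem_normalizer_iff.1 (inv_mem (normalizer_le_jF T' hu)) t).1 ht
      rw [inv_inv] at ht'
      have h6 := Subgroup.mem_centralizer_iff.1 hx.2.2 _ (hJT ht')
      calc t * (u * x * u⁻¹) = u * (u⁻¹ * t * u * x) * u⁻¹ := by group
        _ = u * (x * (u⁻¹ * t * u)) * u⁻¹ := by rw [h6]
        _ = u * x * u⁻¹ * t := by group
    exact Subgroup.mem_centralizer_iff.1 (hle (hB1e.ge (hB2B hy))) a
      (le_sSup (s := maxF (El p) T') ⟨hAT, hA.2.1, fun X hX hPX => hA.2.2 X (hX.trans inf_le_left) hPX⟩ ha)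
  · have hJ : jF p T' = jF p D := le_antisymm hJT (sSup_le fun X hX =>
      le_sSup ⟨le_inf hX.1 (hall X hX), hX.2.1, fun Y hY hPY => hX.2.2 Y (hY.trans inf_le_left) hPY⟩)
    refine ⟨fun x hx g => ?_⟩
    obtain ⟨u, hu, hux⟩ := hconj g
    rw [hux x hx]
    refine ⟨hBn.conj_mem x hx.1 u, ?_⟩
    have h7 := normalizer_le_jZ (p := p) T' hu
    rw [jZ, hJ] at h7
    exact (Subgroup.mem_normalizer_iff.1 h7 x).1 hx.2

/-- The centre of the elementary Thompson subgroup is normal. -/
theorem jZ_normal_closed (hp2 : p ≠ 2) (hc : Subgroup.centralizer (pCore p G : Set G) ≤ pCore p G)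
    (S : Sylow p G) (D : Subgroup G) (hD : Cfsg.IsStronglyClosed D (S : Subgroup G))
    (hst : StableFor p (S : Subgroup G)) : (jZ p D).Normal := by
  set Z := jZ p D
  haveI := Transfer.pCore_normal (G := G) p
  set O := pCore p G
  have hOp : IsPGroup p O := Transfer.pCore_isPGroup p
  suffices hZO : Z ≤ O by
    have hB := inf_normal_of_stronglyClosed hD O (Transfer.pCore_le_sylow S)
    have := inf_jZ_normal_closed hp2 S D hD hst (O ⊓ D) hB (hOp.to_le inf_le_left) inf_le_right
    rwa [inf_eq_right.2 (le_inf hZO (jZ_le _))] at this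
  intro a ha
  have hOS : O ≤ S := Transfer.pCore_le_sylow S
  have hSZ : (S : Subgroup G) ≤ Subgroup.normalizer (Z : Set G) :=
    (stronglyClosed_le_normalizer hD).trans (normalizer_le_jZ _)
  have h1 : Subgroup.zpowers a ≤ Z := Subgroup.zpowers_le.2 ha
  have hq : ⁅⁅O, Subgroup.zpowers a⁆, Subgroup.zpowers a⁆ = ⊥ := by
    refine le_bot_iff.1 ((Subgroup.commutator_mono (Subgroup.commutator_mono le_rfl h1) h1).trans ?_)
    rw [le_bot_iff, Subgroup.commutator_eq_bot_iff_le_centralizer]
    refine le_trans ?_ (fun x hx => Subgroup.mem_centralizer_iff.2 fun y hy => jZ_ab _ y hy x hx)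
    rw [Subgroup.commutator_comm]
    exact commutator_le_of_le_normalizer (hOS.trans hSZ) le_rfl
  have hmem := hst O hOp a (hD.1 (jZ_le _ ha)) hq
  set C := Subgroup.centralizer (O : Set G)
  haveI := Transfer.pCore_normal (G := G ⧸ C) p
  set L := (pCore p (G ⧸ C)).comap (QuotientGroup.mk' C)
  have hLp : IsPGroup p L := by
    refine (Transfer.pCore_isPGroup (G := G ⧸ C) p).comap_of_ker_isPGroup _ ?_
    rw [QuotientGroup.ker_mk']; exact hOp.to_le hc
  exact Transfer.le_pCore (Subgroup.Normal.comap inferInstance _) hLp hmem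

end Cfsg.Lib.PLocal
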