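import Mathlib
import Cfsg.Agent.Lib.Transfer.IndexTwo

/-!
Groups with Sylow `2`-subgroups of shape `Z₂ × D₈` have a subgroup of index two.
-/

set_option autoImplicit false
set_option linter.style.haveILetI false
set_option maxRecDepth 4000

namespace Cfsg.Lib.ZTwoDEight

open Subgroup

/-- The model `Z₂ × D₈`. -/
abbrev D : Type := Multiplicative (ZMod 2) × DihedralGroup 4

/-- The central involution outside the derived group. -/
def z : D := (Multiplicative.ofAdd 1, 1)
/-- The commutator involution. -/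
def c : D := (1, DihedralGroup.r 2)
/-- A reflection. -/
def s : D := (1, DihedralGroup.sr 0)
/-- Another reflection. -/
def t : D := (1, DihedralGroup.sr 1)

/-- The reflection indicator. -/
def refl : D → ZMod 2
  | (_, DihedralGroup.r _) => 0
  | (_, DihedralGroup.sr _) => 1

/-- The rotation parity. -/
def par : D → ZMod 2
  | (_, DihedralGroup.r i) => (i.val : ZMod 2)
  | (_, DihedralGroup.sr i) => (i.val : ZMod 2)

theorem refl_mul : ∀ x y : D, refl (x * y) = refl x + refl y := by decide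
theorem par_mul : ∀ x y : D, par (x * y) = par x + par y := by decide

/-- A character nontrivial on `z`. -/
def chi (a b : ZMod 2) : D →* Multiplicative (ZMod 2) :=
  MonoidHom.mk' (fun d => Multiplicative.ofAdd (Multiplicative.toAdd d.1 + a * refl d + b * par d))
    fun x y => by
      rw [← ofAdd_add, refl_mul, par_mul, Prod.fst_mul, toAdd_mul]
      congr 1
      ring

/-- The character with abelian kernel. -/
def chi0 : D →* Multiplicative (ZMod 2) :=
  MonoidHom.mk' (fun d => Multiplicative.ofAdd (refl d)) fun x y => by rw [← ofAdd_add, refl_mul]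

/-- The automorphism exchanging the two classes of reflections. -/
def swap : D ≃* D where
  toFun d := (d.1, match d.2 with
    | DihedralGroup.r i => DihedralGroup.r i
    | DihedralGroup.sr i => DihedralGroup.sr (i + 1))
  invFun d := (d.1, match d.2 with
    | DihedralGroup.r i => DihedralGroup.r i
    | DihedralGroup.sr i => DihedralGroup.sr (i - 1))
  left_inv := by decide
  right_inv := by decide
  map_mul' := by decide

theorem center_cases : ∀ x : D, x * x = 1 → x ≠ 1 →
    x * s = s * x ∧ x * t = t * x → x = z ∨ x = c ∨ x = z * c := by decide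

theorem center_mem : (∀ y, z * y = y * z) ∧ (∀ y, c * y = y * c) ∧ (∀ y, z * c * y = y * (z * c)) := by decide

theorem ker_chi0 : ∀ x : D, chi0 x = 1 → x * x = 1 → x ≠ 1 → x = z ∨ x = c ∨ x = z * c := by decide

theorem ker_chi : ∀ a b : ZMod 2, ∀ x : D, chi a b x = 1 → x * x = 1 → x ≠ 1 →
    x = c ∨ (∃ w : D, w ∈ [s, t, z * s, z * t] ∧ chi a b w = 1 ∧ (x = w ∨ x = w * c)) := by decide

theorem chi_z : ∀ a b : ZMod 2, chi a b z ≠ 1 ∧ chi a b (z * c) ≠ 1 := by decide

theorem class_eq : ∀ w : D, w ∈ [s, t, z * s, z * t] →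
    ∃ g : D, g * w * g⁻¹ = w * c := by decide

theorem chi_table : chi 0 0 s = 1 ∧ chi 0 0 t = 1 ∧ chi 0 0 (z * s) ≠ 1 ∧ chi 0 0 (z * t) ≠ 1 ∧
    chi 0 1 s = 1 ∧ chi 0 1 t ≠ 1 ∧ chi 0 1 (z * s) ≠ 1 ∧ chi 0 1 (z * t) = 1 ∧
    chi 1 1 s ≠ 1 ∧ chi 1 1 t = 1 ∧ chi 1 1 (z * s) = 1 ∧ chi 1 1 (z * t) ≠ 1 ∧
    chi 1 0 s ≠ 1 ∧ chi 1 0 t ≠ 1 ∧ chi 1 0 (z * s) = 1 ∧ chi 1 0 (z * t) = 1 := by decide

theorem involution_cases : ∀ x : D, x * x = 1 → x = 1 ∨ x = z ∨ x = c ∨ x = z * c ∨
    (x = s ∨ x = s * c ∨ x = z * s ∨ x = z * s * c) ∨ (x = t ∨ x = t * c ∨ x = z * t ∨ x = z * t * c) := by decide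

/-- The elementary abelian subgroup `⟨z, c, s⟩`. -/
def V : Subgroup D where
  carrier := {x | x * x = 1 ∧ x * s = s * x}
  one_mem' := by decide
  mul_mem' := by
    have : ∀ a b : D, (a * a = 1 ∧ a * s = s * a) → (b * b = 1 ∧ b * s = s * b) →
        (a * b * (a * b) = 1 ∧ a * b * s = s * (a * b)) := by decide
    exact fun {a b} ha hb => this _ _ ha hb
  inv_mem' := by
    have : ∀ a : D, (a * a = 1 ∧ a * s = s * a) → (a⁻¹ * a⁻¹ = 1 ∧ a⁻¹ * s = s * a⁻¹) := by decide
    exact fun {a} ha => this _ ha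

theorem mem_V {x : D} : x ∈ V ↔ x * x = 1 ∧ x * s = s * x := Iff.rfl

/-- The five elements of `V` which will be conjugate. -/
def five : Finset D := {z, s, s * c, z * s, z * s * c}

theorem five_card : five.card = 5 := by decide
theorem five_mem : ∀ x ∈ five, x * x = 1 ∧ x * s = s * x := by decide
theorem five_gen : s ∈ five ∧ s * c ∈ five ∧ z ∈ five := by decide
theorem V_gen : ∀ x : D, (x * x = 1 ∧ x * s = s * x) → ∃ i j k : Fin 2,
    x = s ^ (i : ℕ) * (s * c) ^ (j : ℕ) * z ^ (k : ℕ) := by decide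
theorem squares : ∀ x : D, x * x = 1 ∨ x * x = c := by decide
theorem sq_one : z * z = 1 ∧ c * c = 1 ∧ z * c * (z * c) = 1 := by decide
theorem c_square : ∃ x : D, x * x = c := by decide
theorem c_ne : c ≠ 1 ∧ z ≠ 1 ∧ z ≠ c ∧ z * c ≠ z ∧ z * c ≠ c ∧ z * c ≠ 1 := by decide

theorem no_order_five {X : Type*} [Group X] [Finite X] (hX : Nat.card X = 8) (φ : MulAut X) :
    orderOf φ ≠ 5 := by
  intro h
  haveI : Fact (Nat.Prime 5) := ⟨by norm_num⟩
  have hP : IsPGroup 5 ↥(zpowers φ) := IsPGroup.of_card (n := 1) (by rw [Nat.card_zpowers, h, pow_one])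
  let fixd : Subgroup X :=
    { carrier := {x | φ x = x}
      one_mem' := map_one φ
      mul_mem' := fun {a b} ha hb => by show φ (a * b) = a * b; rw [map_mul, ha, hb]
      inv_mem' := fun {a} ha => by show φ a⁻¹ = a⁻¹; rw [map_inv, ha] }
  have hfp : MulAction.fixedPoints ↥(zpowers φ) X = (fixd : Set X) := by
    ext x
    refine ⟨fun h => h ⟨φ, mem_zpowers φ⟩, fun hx => ?_⟩
    rintro ⟨g, i, rfl⟩
    show (φ ^ i) x = x
    have hφ : φ ∈ MulAction.stabilizer (MulAut X) x := hx
    exact (zpow_mem hφ i : φ ^ i ∈ MulAction.stabilizer (MulAut X) x)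
  have hmod := hP.card_modEq_card_fixedPoints X
  rw [hfp, hX, show Nat.card ↥(fixd : Set X) = Nat.card fixd from rfl] at hmod
  have hd : Nat.card fixd ∣ 8 := hX ▸ fixd.card_subgroup_dvd_card
  have h8 : Nat.card fixd = 8 := by
    have hle := Nat.le_of_dvd (by norm_num) hd
    rw [Nat.ModEq] at hmod
    interval_cases hk : Nat.card fixd <;> omega
  have htop : fixd = ⊤ := Subgroup.eq_top_of_card_eq _ (by rw [h8, hX])
  have h1 : φ = 1 := MulEquiv.ext fun x => (htop.ge (mem_top x) : x ∈ fixd)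
  rw [h1, orderOf_one] at h
  norm_num at h

variable {G : Type*} [Group G] [Finite G]

/-- Fusion of two elements of the model inside `G`. -/
def Fus (ι : D →* G) (a b : D) : Prop := ∃ g : G, g * ι a * g⁻¹ = ι b

theorem Fus.symm {ι : D →* G} {a b : D} (h : Fus ι a b) : Fus ι b a := by
  obtain ⟨g, hg⟩ := h
  exact ⟨g⁻¹, by rw [← hg]; group⟩

theorem Fus.trans {ι : D →* G} {a b d : D} (h : Fus ι a b) (h' : Fus ι b d) : Fus ι a d := by
  obtain ⟨g, hg⟩ := h
  obtain ⟨k, hk⟩ := h'
  exact ⟨k * g, by rw [← hk, ← hg]; group⟩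

theorem fus_class {ι : D →* G} {w : D} (hw : w ∈ [s, t, z * s, z * t]) : Fus ι w (w * c) := by
  obtain ⟨g, hg⟩ := class_eq w hw
  exact ⟨ι g, by rw [← hg, map_mul, map_mul, map_inv]⟩

theorem exists_conj_le (S : Sylow 2 G) {ι : D →* G} (hι : ι.range = (S : Subgroup G))
    {w : D} (hw : ∀ y, w * y = y * w) (W : Subgroup G) (hW : IsPGroup 2 W) (g : G)
    (hg : ∀ x ∈ W, Commute (g * x * g⁻¹) (ι w)) :
    ∃ k ∈ centralizer ({ι w} : Set G), ∀ x ∈ W, k * g * x * (k * g)⁻¹ ∈ (S : Subgroup G) := by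
  haveI : Fact (Nat.Prime 2) := ⟨Nat.prime_two⟩
  set C := centralizer ({ι w} : Set G)
  have hSC : (S : Subgroup G) ≤ C := by
    intro x hx
    rw [← hι] at hx
    obtain ⟨d, rfl⟩ := hx
    rw [mem_centralizer_singleton_iff, ← map_mul, ← map_mul, hw]
  have hWC : W.map (MulAut.conj g).toMonoidHom ≤ C := by
    rintro _ ⟨x, hx, rfl⟩
    exact mem_centralizer_singleton_iff.2 (hg x hx)
  obtain ⟨Q, hQ⟩ := ((hW.map (MulAut.conj g).toMonoidHom).comap_of_injective C.subtype
    C.subtype_injective).exists_le_sylow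
  obtain ⟨k, hk⟩ := MulAction.exists_smul_eq ↥C Q (S.subtype hSC)
  refine ⟨k, k.2, fun x hx => ?_⟩
  have h1 : (⟨g * x * g⁻¹, hWC ⟨x, hx, rfl⟩⟩ : C) ∈ (Q : Subgroup C) := hQ ⟨x, hx, rfl⟩
  have h2 : k * ⟨g * x * g⁻¹, hWC ⟨x, hx, rfl⟩⟩ * k⁻¹ ∈ ((S.subtype hSC : Sylow 2 C) : Subgroup C) := by
    rw [← hk, Sylow.coe_subgroup_smul]
    exact ⟨_, h1, rfl⟩
  rw [Sylow.coe_subtype, mem_subgroupOf] at h2
  have e : (k : G) * g * x * ((k : G) * g)⁻¹ = (k : G) * (g * x * g⁻¹) * (k : G)⁻¹ := by group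
  rw [e]
  exact h2

theorem central_fus (S : Sylow 2 G) {ι : D →* G} (hinj : Function.Injective ι)
    (hι : ι.range = (S : Subgroup G)) {a b : D} (ha : ∀ y, a * y = y * a) (hb : ∀ y, b * y = y * b)
    (ha2 : a * a = 1) (ha1 : a ≠ 1) (h : Fus ι a b) : a = b := by
  haveI : Fact (Nat.Prime 2) := ⟨Nat.prime_two⟩
  obtain ⟨g, hg⟩ := h
  obtain ⟨k, hk, hkS⟩ := exists_conj_le S hι hb (S : Subgroup G) S.2 g (fun x hx => by
    rw [← hι] at hx
    obtain ⟨d, rfl⟩ := hx
    rw [← hg]
    exact (Commute.map ((ha d).symm : Commute d a) ι).map (MulAut.conj g).toMonoidHom)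
  set n := k * g with hn
  have hnN : n ∈ normalizer ((S : Subgroup G) : Set G) := by
    rw [mem_normalizer_iff_map_conj_eq]
    refine eq_of_le_of_card_ge ?_ (card_map_of_injective (MulAut.conj n).injective).ge
    rintro _ ⟨x, hx, rfl⟩
    exact hkS x hx
  have hna : n * ι a * n⁻¹ = ι b := by
    rw [hn, show k * g * ι a * (k * g)⁻¹ = k * (g * ι a * g⁻¹) * k⁻¹ by group, hg,
      mem_centralizer_singleton_iff.1 hk]
    group
  have hex : ∀ d : D, ∃ d' : D, ι d' = n * ι d * n⁻¹ := fun d => by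
    have := (mem_normalizer_iff.1 hnN (ι d)).1 (hι ▸ ⟨d, rfl⟩)
    rw [← hι] at this
    exact this
  choose φ hφ using hex
  have hφm : ∀ x y, φ (x * y) = φ x * φ y := fun x y => hinj (by
    rw [hφ, map_mul, map_mul, hφ, hφ]; group)
  have hφinj : Function.Injective φ := fun x y h => hinj (by
    have := congrArg ι h
    rw [hφ, hφ] at this
    simpa using this)
  have hφc : φ c = c := by
    obtain ⟨x, hx⟩ := c_square
    rcases squares (φ x) with h | h
    · exfalso
      rw [← hφm, hx] at h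
      have h' : φ c = φ 1 := by rw [h]; exact (hinj (by rw [hφ, map_one, mul_one, mul_inv_cancel])).symm
      exact c_ne.1 (hφinj h')
    · rwa [← hφm, hx] at h
  have hφ1 : φ 1 = 1 := hinj (by rw [hφ, map_one, mul_one, mul_inv_cancel])
  have hsurj : Function.Surjective φ := Finite.surjective_of_injective hφinj
  have hzz : φ (φ z) = z := by
    have hcen : ∀ y, φ z * y = y * φ z := fun y => by
      obtain ⟨y', rfl⟩ := hsurj y
      rw [← hφm, ← hφm, center_mem.1]
    have h2 : φ z * φ z = 1 := by rw [← hφm, sq_one.1, hφ1]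
    rcases center_cases _ h2 (fun h => c_ne.2.1 (hφinj (h.trans hφ1.symm))) ⟨hcen s, hcen t⟩ with h | h | h
    · rw [h, h]
    · exact absurd (hφinj (h.trans hφc.symm)) c_ne.2.2.1
    · rw [h, hφm, hφc, h, mul_assoc, sq_one.2.1, mul_one]
  set N := normalizer ((S : Subgroup G) : Set G)
  obtain ⟨j, hj⟩ : ∃ j, Odd j ∧ n ^ j ∈ (S : Subgroup G) := by
    haveI : ((S : Subgroup G).subgroupOf N).Normal := normal_in_normalizer
    refine ⟨((S : Subgroup G).subgroupOf N).index, ?_, ?_⟩
    · rw [← Nat.not_even_iff_odd, even_iff_two_dvd]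
      exact fun h => S.not_dvd_index (h.trans (relIndex_dvd_index_of_le le_normalizer))
    · have := pow_index_mem ((S : Subgroup G).subgroupOf N) (⟨n, hnN⟩ : N)
      rwa [mem_subgroupOf] at this
  have hit : ∀ (i : ℕ) (d : D), ι (φ^[i] d) = n ^ i * ι d * (n ^ i)⁻¹ := by
    intro i
    induction i with
    | zero => intro d; simp
    | succ i ih =>
      intro d
      rw [Function.iterate_succ_apply', hφ, ih, pow_succ']
      group
  have hφz : φ z = z := by
    obtain ⟨l, hl⟩ := hj.1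
    obtain ⟨d, hd⟩ : ∃ d, ι d = n ^ j := by
      have := hj.2; rw [← hι] at this; exact this
    have h1 : φ^[j] z = z := hinj (by
      rw [hit, ← hd, ← map_mul, ← map_inv, ← map_mul, ← center_mem.1, mul_inv_cancel_right])
    have h2 : ∀ m : ℕ, φ^[2 * m] z = z := by
      intro m
      induction m with
      | zero => rfl
      | succ m ih =>
        rw [show 2 * (m + 1) = 2 + 2 * m by ring, Function.iterate_add_apply, ih]
        exact hzz
    rw [hl, show 2 * l + 1 = 1 + 2 * l by ring, Function.iterate_add_apply, h2] at h1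
    exact h1
  have hφa : φ a = a := by
    rcases center_cases a ha2 ha1 ⟨ha s, ha t⟩ with rfl | rfl | rfl
    · exact hφz
    · exact hφc
    · rw [hφm, hφz, hφc]
  have := hφ a
  rw [hφa, hna] at this
  exact hinj this

theorem transfer_fus (S : Sylow 2 G) {ι : D →* G} (hinj : Function.Injective ι)
    (hι : ι.range = (S : Subgroup G)) (hno : ¬ ∃ H : Subgroup G, H.index = 2)
    (χ : D →* Multiplicative (ZMod 2)) {x : D} (hx : x * x = 1) (hχ : χ x ≠ 1) :
    ∃ y : D, χ y = 1 ∧ y * y = 1 ∧ y ≠ 1 ∧ Fus ι x y := by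
  by_contra hcon
  push Not at hcon
  have hιS : ∀ d, ι d ∈ (S : Subgroup G) := fun d => hι ▸ ⟨d, rfl⟩
  let j : D ≃* ↥(S : Subgroup G) := (MonoidHom.ofInjective hinj).trans (MulEquiv.subgroupCongr hι)
  have hj : ∀ d, ((j d : ↥(S : Subgroup G)) : G) = ι d := fun d => rfl
  let ψ : ↥(S : Subgroup G) →* Multiplicative (ZMod 2) := χ.comp j.symm.toMonoidHom
  have hM : ψ.ker.index = 2 := by
    rw [index_ker]
    have hr : ψ.range = ⊤ := by
      refine eq_top_iff.2 fun u _ => ?_
      by_cases hu : u = 1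
      · exact ⟨1, by rw [map_one, hu]⟩
      · refine ⟨j x, ?_⟩
        show χ (j.symm (j x)) = u
        rw [MulEquiv.symm_apply_apply]
        have : ∀ u v : Multiplicative (ZMod 2), u ≠ 1 → v ≠ 1 → v = u := by decide
        exact this u _ hu hχ
    rw [hr, card_top, Nat.card_eq_fintype_card]
    rfl
  obtain ⟨K, -, hK, -⟩ := Cfsg.Lib.Transfer.exists_index_two S ψ.ker hM (j x) (fun a hm hmem => by
      obtain ⟨y, hy⟩ : ∃ y, j y = ⟨_, hm⟩ := j.surjective _
      have hye : ι y = a⁻¹ * ι x * a := by rw [← hj, hy]; rfl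
      refine hcon y ?_ ?_ ?_ ⟨a⁻¹, by rw [inv_inv, hye]⟩
      · have h : χ (j.symm ⟨_, hm⟩) = 1 := hmem
        rwa [← hy, MulEquiv.symm_apply_apply] at h
      · refine hinj ?_
        rw [map_mul, hye, map_one, show a⁻¹ * ι x * a * (a⁻¹ * ι x * a) = a⁻¹ * (ι x * ι x) * a by group,
          ← map_mul, hx, map_one, mul_one, inv_mul_cancel]
      · intro hy1
        have h1 : ι x = 1 := by
          rw [hy1, map_one] at hye
          calc ι x = a * (a⁻¹ * ι x * a) * a⁻¹ := by group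
            _ = 1 := by rw [← hye, mul_one, mul_inv_cancel]
        rw [hinj (h1.trans (map_one ι).symm), map_one] at hχ
        exact hχ rfl)
    (fun m a hm => by
      have e : ((j x : ↥(S : Subgroup G)) : G) ^ (2 * m) = 1 := by
        rw [hj, pow_mul, pow_two, ← map_mul, hx, map_one, one_pow]
      rw [MonoidHom.mem_ker]
      rw [show (⟨a⁻¹ * ((j x : ↥(S : Subgroup G)) : G) ^ (2 * m) * a, hm⟩ : ↥(S : Subgroup G)) = 1 from
        Subtype.ext (by show a⁻¹ * _ * a = (1 : G); rw [e]; group), map_one])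
  exact hno ⟨K, hK⟩

theorem no_five (S : Sylow 2 G) {ι : D →* G} (hinj : Function.Injective ι)
    (hι : ι.range = (S : Subgroup G)) (h5 : ∀ x : D, x * x = 1 → (Fus ι x z ↔ x ∈ five)) : False := by
  classical
  haveI : Fact (Nat.Prime 5) := ⟨by norm_num⟩
  set W := V.map ι with hW
  have hWp : IsPGroup 2 W := S.2.to_le (by rw [← hι]; rintro _ ⟨x, -, rfl⟩; exact ⟨x, rfl⟩)
  have hN : ∀ x ∈ five, ∃ g ∈ normalizer (W : Set G), g * ι x * g⁻¹ = ι z := by
    intro x hx
    obtain ⟨g, hg⟩ := (h5 x (five_mem x hx).1).2 hx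
    have hcomm : ∀ u v : D, (u * u = 1 ∧ u * s = s * u) → (v * v = 1 ∧ v * s = s * v) → u * v = v * u := by decide
    obtain ⟨k, hk, hkS⟩ := exists_conj_le S hι center_mem.1 W hWp g (fun w hw => by
      obtain ⟨v, hv, rfl⟩ := hw
      rw [← hg]
      exact (Commute.map (hcomm v x hv (five_mem x hx) : Commute v x) ι).map (MulAut.conj g).toMonoidHom)
    set n := k * g with hn
    have hex : ∀ v ∈ V, ∃ v', ι v' = n * ι v * n⁻¹ := fun v hv => by
      have := hkS (ι v) ⟨v, hv, rfl⟩
      rw [← hι] at this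
      exact this
    choose ψ hψ using hex
    have h5map : ∀ v (hv : v ∈ five), ψ v (mem_V.2 (five_mem v hv)) ∈ five := by
      intro v hv
      have hsq : ψ v (mem_V.2 (five_mem v hv)) * ψ v (mem_V.2 (five_mem v hv)) = 1 := hinj (by
        rw [map_mul, hψ, map_one, show n * ι v * n⁻¹ * (n * ι v * n⁻¹) = n * (ι v * ι v) * n⁻¹ by group,
          ← map_mul, (five_mem v hv).1, map_one, mul_one, mul_inv_cancel])
      refine (h5 _ hsq).1 (Fus.trans ⟨n⁻¹, ?_⟩ ((h5 v (five_mem v hv).1).2 hv))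
      rw [hψ]; group
    let f : ↥five → ↥five := fun v => ⟨ψ v.1 (mem_V.2 (five_mem v.1 v.2)), h5map v.1 v.2⟩
    have hfs : Function.Surjective f := Finite.surjective_of_injective fun u v h => by
      have h1 := congrArg (fun w : ↥five => ι w.1) h
      simp only [f, hψ] at h1
      exact Subtype.ext (hinj (by simpa using h1))
    have hfive : ∀ v ∈ five, ι v ∈ W.map (MulAut.conj n).toMonoidHom := fun v hv => by
      obtain ⟨u, hu⟩ := hfs ⟨v, hv⟩
      exact ⟨ι u.1, ⟨u.1, five_mem u.1 u.2, rfl⟩,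
        (hψ u.1 _).symm.trans (congrArg ι (congrArg Subtype.val hu))⟩
    refine ⟨n, ?_, ?_⟩
    · rw [mem_normalizer_iff_map_conj_eq]
      refine (eq_of_le_of_card_ge ?_ (card_map_of_injective (MulAut.conj n).injective).le).symm
      rintro _ ⟨v, hv, rfl⟩
      obtain ⟨i, j, l, rfl⟩ := V_gen v hv
      rw [map_mul ι (s ^ (i : ℕ) * (s * c) ^ (j : ℕ)), map_mul ι (s ^ (i : ℕ)), map_pow, map_pow, map_pow]
      exact mul_mem (mul_mem (pow_mem (hfive _ five_gen.1) _) (pow_mem (hfive _ five_gen.2.1) _))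
        (pow_mem (hfive _ five_gen.2.2) _)
    · rw [hn, show k * g * ι x * (k * g)⁻¹ = k * (g * ι x * g⁻¹) * k⁻¹ by group, hg,
        mem_centralizer_singleton_iff.1 hk]
      group
  haveI : Finite (MulAut W) := Finite.of_injective (fun f => ⇑f) DFunLike.coe_injective
  let R := (W.normalizerMonoidHom).range
  have hzW : ι z ∈ W := ⟨z, five_mem z five_gen.2.2, rfl⟩
  set O := MulAction.orbit R (⟨ι z, hzW⟩ : W)
  have hO : Nat.card O = 5 := by
    rw [← five_card, ← Fintype.card_coe, ← Nat.card_eq_fintype_card]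
    refine (Nat.card_eq_of_bijective (fun x : ↥five => (⟨⟨ι x.1, ⟨x.1, five_mem x.1 x.2, rfl⟩⟩, ?_⟩ : O)) ⟨?_, ?_⟩).symm
    · obtain ⟨g, hg, hgx⟩ := hN x.1 x.2
      refine ⟨⟨W.normalizerMonoidHom ⟨g⁻¹, inv_mem hg⟩, _, rfl⟩, Subtype.ext ?_⟩
      show g⁻¹ * ι z * g⁻¹⁻¹ = ι x.1
      rw [← hgx]; group
    · intro x y h
      exact Subtype.ext (hinj (congrArg (fun w : O => ((w.1 : W) : G)) h))
    · rintro ⟨⟨_, v, hv, rfl⟩, ⟨⟨_, g, rfl⟩, hg⟩⟩
      have hgv : (g : G) * ι z * (g : G)⁻¹ = ι v := congrArg Subtype.val hg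
      exact ⟨⟨v, (h5 v hv.1).1 (Fus.symm ⟨g, hgv⟩)⟩, rfl⟩
  have h5R : 5 ∣ Nat.card R := by
    rw [← hO, Nat.card_congr (MulAction.orbitEquivQuotientStabilizer R (⟨ι z, hzW⟩ : W))]
    exact card_quotient_dvd_card _
  obtain ⟨φ, hφ⟩ := exists_prime_orderOf_dvd_card' 5 h5R
  refine no_order_five ?_ (φ : MulAut W) (by rw [orderOf_coe, hφ])
  rw [hW, card_map_of_injective hinj, Nat.card_eq_fintype_card]
  have : (Finset.univ.filter fun x : D => x * x = 1 ∧ x * s = s * x).card = 8 := by decide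
  rw [← this, ← Fintype.card_subtype]
  exact Fintype.card_congr (Equiv.subtypeEquivRight fun x => mem_V)

theorem case_impossible (S : Sylow 2 G) {ι : D →* G} (hinj : Function.Injective ι)
    (hι : ι.range = (S : Subgroup G)) (hs : Fus ι s z) (hzs : Fus ι (z * s) z)
    (ht : Fus ι t (z * c)) (hzt : Fus ι (z * t) (z * c)) : False := by
  refine no_five S hinj hι fun x hx => ?_
  have hno : ¬ Fus ι z (z * c) := fun h =>
    c_ne.2.2.2.1 (central_fus S hinj hι center_mem.1 center_mem.2.2 sq_one.1 c_ne.2.1 h).symm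
  have hnc : ¬ Fus ι c z := fun h =>
    c_ne.2.2.1 (central_fus S hinj hι center_mem.2.1 center_mem.1 sq_one.2.1 c_ne.1 h).symm
  constructor
  · intro h
    rcases involution_cases x hx with rfl | rfl | rfl | rfl | hx' | hx'
    · obtain ⟨g, hg⟩ := h
      rw [map_one, mul_one, mul_inv_cancel] at hg
      exact absurd (hinj (hg.symm.trans (map_one ι).symm)) c_ne.2.1
    · decide
    · exact absurd h hnc
    · exact absurd h.symm hno
    · rcases hx' with rfl | rfl | rfl | rfl <;> decide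
    · exfalso
      refine hno ?_
      rcases hx' with rfl | rfl | rfl | rfl
      · exact h.symm.trans ht
      · exact h.symm.trans ((fus_class (by decide)).symm.trans ht)
      · exact h.symm.trans hzt
      · exact h.symm.trans ((fus_class (by decide)).symm.trans hzt)
  · intro h
    simp only [five, Finset.mem_insert, Finset.mem_singleton] at h
    rcases h with rfl | rfl | rfl | rfl | rfl
    · exact ⟨1, by simp⟩
    · exact hs
    · exact (fus_class (by decide)).symm.trans hs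
    · exact hzs
    · exact (fus_class (by decide)).symm.trans hzs

theorem exists_index_two (S : Sylow 2 G) (e : ↥(S : Subgroup G) ≃* D) : ∃ H : Subgroup G, H.index = 2 := by
  by_contra hno
  let ι : D →* G := (S : Subgroup G).subtype.comp e.symm.toMonoidHom
  have hinj : Function.Injective ι := Subtype.val_injective.comp e.symm.injective
  have hι : ι.range = (S : Subgroup G) := by
    refine le_antisymm ?_ fun x hx => ⟨e ⟨x, hx⟩, by simp [ι]⟩
    rintro _ ⟨d, rfl⟩
    exact (e.symm d).2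
  have hcov : ∀ u, u = z ∨ u = z * c → ∀ a b : ZMod 2,
      ∃ w ∈ [s, t, z * s, z * t], chi a b w = 1 ∧ Fus ι w u := by
    intro u hu a b
    have hu2 : u * u = 1 := by rcases hu with rfl | rfl <;> decide
    have hucen : ∀ y, u * y = y * u := by rcases hu with rfl | rfl <;> [exact center_mem.1; exact center_mem.2.2]
    have hu1 : u ≠ 1 := by rcases hu with rfl | rfl <;> [exact c_ne.2.1; exact c_ne.2.2.2.2.2]
    have huc : u ≠ c := by rcases hu with rfl | rfl <;> [exact c_ne.2.2.1; exact c_ne.2.2.2.2.1]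
    obtain ⟨y, hy1, hy2, hy3, hy⟩ := transfer_fus S hinj hι hno (chi a b) hu2
      (by rcases hu with rfl | rfl <;> [exact (chi_z a b).1; exact (chi_z a b).2])
    rcases ker_chi a b y hy1 hy2 hy3 with rfl | ⟨w, hw, hwc, rfl | rfl⟩
    · exact absurd (central_fus S hinj hι hucen center_mem.2.1 hu2 hu1 hy) huc
    · exact ⟨y, hw, hwc, hy.symm⟩
    · exact ⟨w, hw, hwc, (fus_class hw).trans hy.symm⟩
  have hexcl : ∀ w, Fus ι w z → ¬ Fus ι w (z * c) := fun w h h' =>
    c_ne.2.2.2.1 (central_fus S hinj hι center_mem.1 center_mem.2.2 sq_one.1 c_ne.2.1 (h.symm.trans h')).symm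
  obtain ⟨t1, t2, t3, t4, t5, t6, t7, t8, t9, t10, t11, t12, t13, t14, t15, t16⟩ := chi_table
  have key : ∀ u, u = z ∨ u = z * c →
      (Fus ι s u ∨ Fus ι t u) ∧ (Fus ι s u ∨ Fus ι (z * t) u) ∧
      (Fus ι (z * s) u ∨ Fus ι t u) ∧ (Fus ι (z * s) u ∨ Fus ι (z * t) u) := by
    intro u hu
    refine ⟨?_, ?_, ?_, ?_⟩
    · obtain ⟨w, hw, hc, h⟩ := hcov u hu 0 0
      simp only [List.mem_cons, List.not_mem_nil, or_false] at hw
      rcases hw with rfl | rfl | rfl | rfl <;> first | exact Or.inl h | exact Or.inr h | exact absurd hc (by assumption)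
    · obtain ⟨w, hw, hc, h⟩ := hcov u hu 0 1
      simp only [List.mem_cons, List.not_mem_nil, or_false] at hw
      rcases hw with rfl | rfl | rfl | rfl <;> first | exact Or.inl h | exact Or.inr h | exact absurd hc (by assumption)
    · obtain ⟨w, hw, hc, h⟩ := hcov u hu 1 1
      simp only [List.mem_cons, List.not_mem_nil, or_false] at hw
      rcases hw with rfl | rfl | rfl | rfl <;> first | exact Or.inl h | exact Or.inr h | exact absurd hc (by assumption)
    · obtain ⟨w, hw, hc, h⟩ := hcov u hu 1 0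
      simp only [List.mem_cons, List.not_mem_nil, or_false] at hw
      rcases hw with rfl | rfl | rfl | rfl <;> first | exact Or.inl h | exact Or.inr h | exact absurd hc (by assumption)
  obtain ⟨a1, a2, a3, a4⟩ := key z (Or.inl rfl)
  obtain ⟨b1, b2, b3, b4⟩ := key (z * c) (Or.inr rfl)
  have e1 := hexcl s
  have e2 := hexcl t
  have e3 := hexcl (z * s)
  have e4 := hexcl (z * t)
  have hcases : (Fus ι s z ∧ Fus ι (z * s) z ∧ Fus ι t (z * c) ∧ Fus ι (z * t) (z * c)) ∨
      (Fus ι t z ∧ Fus ι (z * t) z ∧ Fus ι s (z * c) ∧ Fus ι (z * s) (z * c)) := by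
    by_cases hs : Fus ι s z <;> by_cases hz : Fus ι (z * s) z
    · exact Or.inl ⟨hs, hz, b1.resolve_left (e1 hs), b2.resolve_left (e1 hs)⟩
    · exact absurd (b1.resolve_left (e1 hs)) (e2 (a3.resolve_left hz))
    · exact absurd (b3.resolve_left (e3 hz)) (e2 (a1.resolve_left hs))
    · exact Or.inr ⟨a1.resolve_left hs, a2.resolve_left hs,
        b1.resolve_right (e2 (a1.resolve_left hs)), b3.resolve_right (e2 (a1.resolve_left hs))⟩
  rcases hcases with ⟨h1, h2, h3, h4⟩ | ⟨h1, h2, h3, h4⟩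
  · exact case_impossible S hinj hι h1 h2 h3 h4
  · let κ : D →* G := ι.comp swap.toMonoidHom
    have hκ : κ.range = (S : Subgroup G) := by
      rw [← hι]
      refine le_antisymm ?_ ?_ <;> rintro _ ⟨d, rfl⟩
      · exact ⟨swap d, rfl⟩
      · exact ⟨swap.symm d, by simp [κ]⟩
    have hf : ∀ a b a' b', swap a = a' → swap b = b' → Fus ι a' b' → Fus κ a b := by
      rintro a b _ _ rfl rfl h; exact h
    exact case_impossible S (ι := κ) (fun a b h => swap.injective (hinj h)) hκ
      (hf s z t z (by decide) (by decide) h1) (hf (z * s) z (z * t) z (by decide) (by decide) h2)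
      (hf t (z * c) (s * c) (z * c) (by decide) (by decide) ((fus_class (by decide)).symm.trans h3))
      (hf (z * t) (z * c) (z * s * c) (z * c) (by decide) (by decide) ((fus_class (by decide)).symm.trans h4))

end Cfsg.Lib.ZTwoDEight
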